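/-
Package B of the McLaughlin characterisation: the (3,3,3) lemma and norm three characters.
-/
import Cfsg.Agent.Blk.BS1
import Cfsg.Agent.FG.Defs

set_option autoImplicit false
set_option linter.unusedSectionVars false

namespace CA.McL

open Cfsg CA.Chr CA.FG Equiv Subgroup Finset
open scoped ComplexConjugate Classical

/-- a monomial map of `F₃³` -/
def mon (σ : Perm (Fin 3)) (s x : Fin 3 → ZMod 3) : Fin 3 → ZMod 3 := fun i => s i * x (σ i)

section tri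

variable {H : Type*} [Group H]

/-- the translation lattice of a (3,3,3) triangle group -/
structure Lat (a u v : H) : Prop where
  c : Commute u v
  h1 : a⁻¹ * u * a = v
  h2 : a⁻¹ * v * a = v⁻¹ * u⁻¹

namespace Lat

variable {a u v : H} (h : Lat a u v)
include h

theorem add (i j k l : ℤ) : u ^ i * v ^ j * (u ^ k * v ^ l) = u ^ (i + k) * v ^ (j + l) := by
  rw [zpow_add, zpow_add, mul_assoc, mul_assoc, ← mul_assoc (v ^ j), ← (h.c.zpow_zpow k j).eq]
  group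

theorem inv (i j : ℤ) : (u ^ i * v ^ j)⁻¹ = u ^ (-i) * v ^ (-j) := by
  rw [inv_eq_iff_mul_eq_one, h.add]; simp

theorem act (i j : ℤ) : a⁻¹ * (u ^ i * v ^ j) * a = u ^ (-j) * v ^ (i - j) := by
  have e : ∀ (x : H) (n : ℤ), a⁻¹ * x ^ n * a = (a⁻¹ * x * a) ^ n := fun x n => by
    simpa using (conj_zpow (a := a⁻¹) (b := x) (i := n)).symm
  rw [show a⁻¹ * (u ^ i * v ^ j) * a = (a⁻¹ * u ^ i * a) * (a⁻¹ * v ^ j * a) by group, e, e, h.h1, h.h2,
    ← mul_inv_rev, inv_zpow', h.c.mul_zpow]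
  have := h.add 0 i (-j) (-j)
  simpa [sub_eq_add_neg] using this

theorem mem {N : Subgroup H} (ha : a ∈ N) (hT : ∀ g, g * a * g⁻¹ ∈ N → g ∈ N) (i j : ℤ)
    (k : u ^ (3 * i) * v ^ (3 * j) ∈ N) : u ^ i * v ^ j ∈ N := by
  have st : ∀ i j : ℤ, u ^ (-i - j) * v ^ (i - 2 * j) ∈ N → u ^ i * v ^ j ∈ N := fun i j k => by
    refine (inv_mem_iff (x := u ^ i * v ^ j)).1 (hT _ ((inv_mem_iff).1 ?_))
    have : ((u ^ i * v ^ j)⁻¹ * a * (u ^ i * v ^ j)⁻¹⁻¹)⁻¹ = (u ^ i * v ^ j)⁻¹ * (a⁻¹ * (u ^ i * v ^ j) * a) * a⁻¹ := by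
      group
    rw [this, h.act, h.inv, h.add]
    refine mul_mem ?_ (inv_mem ha)
    convert k using 3 <;> ring
  refine st _ _ (st _ _ ?_)
  have := inv_mem (mul_mem (mul_mem (inv_mem ha) k) ha)
  rw [h.act, h.inv] at this
  convert this using 3 <;> ring

theorem cnj {m t : ℤ} (k : u ^ (3 * t * m) = u ^ m) (c : H) (cu : Commute c u) (cv : Commute c v) :
    IsConj (c * a) ((u ^ m)⁻¹ * (c * a)) := by
  have e : a⁻¹ * (u ^ (-(t * m)) * v ^ (-(2 * t * m))) * a = u ^ (2 * t * m) * v ^ (t * m) := by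
    rw [h.act]; congr 2 <;> ring
  have k' : v ^ (3 * t * m) = v ^ m := by
    have := congrArg (fun x => a⁻¹ * x * a) k
    have e1 := h.act (3 * t * m) 0
    have e2 := h.act m 0
    simp only [zpow_zero, mul_one, neg_zero, one_mul, sub_zero] at e1 e2
    simpa only [e1, e2] using this
  set w := u ^ (t * m) * v ^ (-(t * m)) with hw
  have e3 : a * w * a⁻¹ = u ^ (-(2 * t * m)) * v ^ (-(t * m)) := by
    have := h.act (-(2 * t * m)) (-(t * m))
    rw [show a * w * a⁻¹ = a * (a⁻¹ * (u ^ (-(2 * t * m)) * v ^ (-(t * m))) * a) * a⁻¹ by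
      rw [this, hw]; congr 4 <;> ring]
    group
  have cw : Commute c w := (cu.zpow_right _).mul_right (cv.zpow_right _)
  refine isConj_iff.2 ⟨w⁻¹, ?_⟩
  rw [inv_inv, show w⁻¹ * (c * a) * w = (w⁻¹ * c) * (a * w * a⁻¹) * a by group, ← cw.inv_right.eq, e3, hw, h.inv,
    mul_assoc c, h.add, ← mul_assoc (u ^ m)⁻¹, ← (cu.zpow_right m).inv_right.eq, ← k]
  congr 2
  rw [← zpow_neg]
  simp only [neg_neg, add_neg_cancel, zpow_zero, mul_one]
  congr 1; ring

end Lat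

theorem tiJ [Finite H] {J : Subgroup H} (hx : ∀ x ∈ J, x ≠ 1 → 𝒞[x] ≤ 𝒩(J))
    (sc : ∀ x ∈ J, ∀ y ∈ 𝒩(J), IsConj x y → y ∈ J) (cJ : ∀ x ∈ J, ∀ y ∈ J, x * y = y * x)
    {a : H} (ha : a ∈ J) (a1 : a ≠ 1) (g : H) (hg : g * a * g⁻¹ ∈ 𝒩(J)) : g ∈ 𝒩(J) := by
  have m := sc a ha _ hg (isConj_iff.2 ⟨g, rfl⟩)
  have k : ∀ y ∈ J, g⁻¹ * y * g ∈ J := fun y hy => sc y hy _ (hx a ha a1 (mem_centralizer_singleton_iff.2 (by
    have := cJ _ m y hy
    calc _ = g⁻¹ * (y * (g * a * g⁻¹)) * g := by group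
      _ = _ := by rw [← this]; group))) (isConj_iff.2 ⟨g⁻¹, by simp⟩)
  refine (inv_mem_iff).1 (Subgroup.mem_normalizer_fintype (S := (J : Set H)) fun y hy => ?_)
  simpa using k y hy

/-- The (3,3,3) lemma. -/
theorem tri [Finite H] {J : Subgroup H} (hx : ∀ x ∈ J, x ≠ 1 → 𝒞[x] ≤ 𝒩(J))
    (sc : ∀ x ∈ J, ∀ y ∈ 𝒩(J), IsConj x y → y ∈ J) (cJ : ∀ x ∈ J, ∀ y ∈ J, x * y = y * x)
    {a b b' : H} (ha : a ∈ J) (a1 : a ≠ 1) (a3 : a ^ 3 = 1) (b3 : b ^ 3 = 1) (c3 : (a * b) ^ 3 = 1)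
    (hb : b' ∈ J) (hb' : IsConj b' b) : b ∈ J ∨ (IsConj a b ∧ IsConj a⁻¹ (a * b)) := by
  have hT := tiJ hx sc cJ ha a1
  have ia : a⁻¹ = a * a := by rw [inv_eq_iff_mul_eq_one, ← a3, pow_three', mul_assoc]
  have ib : b⁻¹ = b * b := by rw [inv_eq_iff_mul_eq_one, ← b3, pow_three', mul_assoc]
  have L : Lat a (a * b⁻¹) (b⁻¹ * a) := by
    have h2 : a⁻¹ * (b⁻¹ * a) * a = (b⁻¹ * a)⁻¹ * (a * b⁻¹)⁻¹ := by
      rw [show (b⁻¹ * a)⁻¹ * (a * b⁻¹)⁻¹ = a⁻¹ * (b * b) * a⁻¹ by group, ← ib, mul_assoc _ _ a, mul_assoc _ a a, ← ia]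
      group
    refine ⟨?_, by group, h2⟩
    have e : a * b * a = b⁻¹ * a⁻¹ * b⁻¹ := by
      calc _ = b⁻¹ * a⁻¹ * (a * b) ^ 3 * b⁻¹ := by simp only [pow_succ]; group
        _ = _ := by rw [c3]; group
    change a * b⁻¹ * (b⁻¹ * a) = b⁻¹ * a * (a * b⁻¹)
    calc _ = a * (b⁻¹ * b⁻¹) * a := by group
      _ = a * b * a := by rw [← mul_inv_rev, ← ib, inv_inv]
      _ = b⁻¹ * (a * a) * b⁻¹ := by rw [e, ia]
      _ = _ := by group
  set u := a * b⁻¹ with hu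
  set v := b⁻¹ * a with hv
  obtain ⟨k, m, hm, e⟩ := Nat.exists_eq_pow_mul_and_not_dvd (orderOf_pos u).ne' 3 (by norm_num)
  have co : IsCoprime ((m : ℤ)) ((3 : ℤ) ^ (k + 1)) := by
    have : Nat.Coprime m (3 ^ (k + 1)) := ((Nat.prime_three.coprime_iff_not_dvd.2 hm).symm).pow_right _
    simpa using Nat.isCoprime_iff_coprime.2 this
  obtain ⟨s, t, st⟩ := co
  have o : u ^ ((3 : ℤ) ^ k * m) = 1 := by
    have := pow_orderOf_eq_one u
    rw [e, ← zpow_natCast] at this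
    simpa using this
  have aN := le_normalizer ha
  have key : ∀ n : ℕ, ∀ i : ℤ, u ^ ((3 : ℤ) ^ n * i) ∈ 𝒩(J) → u ^ i ∈ 𝒩(J) := fun n => by
    induction n with
    | zero => simp
    | succ n ih => exact fun i hi => ih i (by
        have := L.mem aN hT (3 ^ n * i) 0 (by simpa [pow_succ', mul_assoc] using hi)
        simpa using this)
  have cN : u ^ (s * m) ∈ 𝒩(J) := key k _ (by
    rw [mul_left_comm, mul_comm s, zpow_mul, o, one_zpow]; exact one_mem _)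
  have k3 : u ^ (3 * (t * 3 ^ k) * (t * 3 ^ (k + 1))) = u ^ (t * 3 ^ (k + 1)) := by
    rw [show 3 * (t * 3 ^ k) * (t * 3 ^ (k + 1)) = t * 3 ^ (k + 1) + (3 : ℤ) ^ k * m * (-(3 * s * t)) by
      linear_combination (t * 3 ^ (k + 1)) * st, zpow_add, zpow_mul _ (_ * _), o, one_zpow, mul_one]
  have cu : Commute (u ^ (s * m))⁻¹ u := ((Commute.refl u).zpow_left _).inv_left
  have cv : Commute (u ^ (s * m))⁻¹ v := (L.c.zpow_left _).inv_left
  have eb : (u ^ (t * 3 ^ (k + 1)))⁻¹ * ((u ^ (s * m))⁻¹ * a) = b := by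
    rw [← mul_assoc, ← mul_inv_rev, ← zpow_add, st, zpow_one, hu]; group
  have j1 := L.cnj k3 _ cu cv
  rw [eb] at j1
  have m1 : (u ^ (s * m))⁻¹ * a ∈ J := sc b' hb _ (mul_mem (inv_mem cN) aN) (hb'.trans j1.symm)
  have m2 : (u ^ (s * m))⁻¹ ∈ J := (mul_mem_cancel_right ha).1 m1
  by_cases c1 : (u ^ (s * m))⁻¹ = 1
  · rw [c1, one_mul] at j1
    refine Or.inr ⟨j1, ?_⟩
    have us : u ^ (t * 3 ^ (k + 1)) = u := by
      have := eb; rw [c1, one_mul, inv_mul_eq_iff_eq_mul] at this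
      rw [← mul_inv_eq_iff_eq_mul] at this; exact this.symm
    have k4 : u ^ (3 * (t * 3 ^ k) * (-1)) = u ^ (-1 : ℤ) := by
      rw [zpow_mul, show 3 * (t * 3 ^ k) = t * (3 : ℤ) ^ (k + 1) by ring, us]
    have j2 := L.cnj k4 1 (Commute.one_left _) (Commute.one_left _)
    simp only [one_mul, zpow_neg, zpow_one, inv_inv] at j2
    refine (isConj_iff.1 j2).elim fun g hg => isConj_iff.2 ⟨a⁻¹ * g, ?_⟩
    have : g * a⁻¹ * g⁻¹ = (u * a)⁻¹ := by rw [← hg]; group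
    calc _ = a⁻¹ * (g * a⁻¹ * g⁻¹) * a := by group
      _ = (a * a)⁻¹ * b := by rw [this, hu, mul_inv_rev a a]; group
      _ = _ := by rw [← ia, inv_inv]
  · refine Or.inl (sc b' hb _ ?_ hb')
    have := hx _ m2 c1 (mem_centralizer_singleton_iff.2 cu.symm.eq)
    simpa [hu] using mul_mem (inv_mem this) aN

end tri

variable {H : Type*} [Group H] [Finite H]

theorem three_end {α γ : H → ℂ} (hα : Dirr α) (hγ : Dirr γ) {y : H} (h1 : 1 + α 1 + γ 1 = 0)
    (hy : 1 + α y + γ y = 0) (h : ∀ x, 1 + α (y * (x * y * x⁻¹)) + γ (y * (x * y * x⁻¹)) = 0) :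
    y ∈ cfker α ∧ y ∈ cfker γ := by
  cases nonempty_fintype H
  have e1 := Blk.dirr_sum_conj hα y y
  have e2 := Blk.dirr_sum_conj hγ y y
  have e3 : (Nat.card H : ℂ) + ∑ x, α (y * (x * y * x⁻¹)) + ∑ x, γ (y * (x * y * x⁻¹)) = 0 := by
    have := Finset.sum_eq_zero (s := Finset.univ) fun x _ => h x
    simpa [Finset.sum_add_distrib] using this
  have : (Nat.card H : ℂ) * (α 1 - α y) ^ 2 = 0 := by
    have hb : γ 1 = -1 - α 1 := by linear_combination h1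
    have hb' : γ y = -1 - α y := by linear_combination hy
    rw [hb, hb'] at e2
    linear_combination (-(α 1) * (-1 - α 1)) * e3 + (-1 - α 1) * e1 + α 1 * e2
  have e : α y = α 1 := by
    rw [mul_eq_zero, pow_eq_zero_iff two_ne_zero, sub_eq_zero] at this
    exact (this.resolve_left card_ne_zero).symm
  have k : ∀ {β : H → ℂ}, Dirr β → β y = β 1 → y ∈ cfker β := fun {β} hβ e => by
    rcases hβ with hβ | hβ
    · exact (IsIrr.mem_cfker hβ).2 e
    · rw [← cfker_neg]; exact (IsIrr.mem_cfker hβ).2 (by simp [e])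
  exact ⟨k hα e, k hγ (by linear_combination hy - h1 - e)⟩

theorem kern3 {A : Type*} [Group A] [Finite A] (cA : ∀ a b : A, a * b = b * a) {e : A →* H} (he : Function.Injective e) {l : A →* ℂˣ}
    (l1 : l ≠ 1) (l2 : l⁻¹ ≠ l) {w : H} (wA : w ∉ e.range) (hw : ∀ a, w⁻¹ * e a * w = (e a)⁻¹)
    (ti : ∀ a, a ≠ 1 → ∀ x, x⁻¹ * e a * x ∈ e.range → x ∈ e.range ∨ w⁻¹ * x ∈ e.range) :
    ∃ α γ, Dirr α ∧ Dirr γ ∧ (∀ g, (∀ a, IsConj (e a) g → l a = 1) → 1 + α g + γ g = 0) ∧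
      ∀ a, 1 + α (e a) + γ (e a) = 2 - (l a : ℂ) - (l a : ℂ)⁻¹ := by
  cases nonempty_fintype H
  cases nonempty_fintype A
  have zα : (1 - lin l : A → ℂ) ∈ ZIrr A := sub_mem (one_mem _) (lin_mem_ZIrr l)
  set θ := ind e (1 - lin l) with hθ
  have zθ : θ ∈ ZIrr H := ZIrr.ind zα _
  have res : θ ∘ e = 1 + 1 - lin l - lin l⁻¹ := funext fun a => by
    by_cases a1 : a = 1
    · simp [a1, hθ, ind_one he, lin_apply]
    have cm : ∀ b c : A, (e b)⁻¹ * e c * e b = e c := fun b c => by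
      rw [← map_inv, ← map_mul, ← map_mul, cA _ c]; simp
    have : ∀ g : H, Function.extend e (1 - lin l) (0 : H → ℂ) (g⁻¹ * e a * g) =
        (if g ∈ e.range then (1 - lin l) a else 0) + if w⁻¹ * g ∈ e.range then (1 - lin l) a⁻¹ else 0 := fun g => by
      by_cases hg : g ∈ e.range
      · rw [if_pos hg, if_neg fun k => wA (by simpa using (mul_mem_cancel_right hg).1 k), add_zero]
        obtain ⟨b, rfl⟩ := hg
        rw [cm, he.extend_apply]
      by_cases hg' : w⁻¹ * g ∈ e.range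
      · rw [if_neg hg, if_pos hg', zero_add]
        obtain ⟨b, hb⟩ := hg'
        rw [show g⁻¹ * e a * g = (w⁻¹ * g)⁻¹ * (w⁻¹ * e a * w) * (w⁻¹ * g) by group, hw, ← hb, ← map_inv e a, cm,
          he.extend_apply]
      · rw [if_neg hg, if_neg hg', add_zero, Function.extend_apply' _ _ _ fun k => (ti a a1 g k).elim hg hg']
        rfl
    rw [Function.comp_apply, hθ, ind_apply_inj he, sum_congr rfl fun g _ => this g, sum_add_distrib,
      ← Equiv.sum_comp (Equiv.mulLeft w) fun g => if w⁻¹ * g ∈ e.range then (1 - lin l) a⁻¹ else 0]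
    have cd : (univ.filter (· ∈ e.range)).card = Nat.card A := by
      rw [Nat.card_congr (MonoidHom.ofInjective he).toEquiv, Nat.card_eq_fintype_card, Fintype.card_subtype]
    simp only [Equiv.coe_mulLeft, inv_mul_cancel_left]
    rw [← sum_filter, ← sum_filter, sum_const, sum_const, cd, nsmul_eq_mul, nsmul_eq_mul, ← mul_add,
      inv_mul_cancel_left₀ card_ne_zero]
    simp only [Pi.sub_apply, Pi.add_apply, Pi.one_apply, lin_apply, map_inv, MonoidHom.inv_apply]; ring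
  have t1 : ⟪θ, 1⟫ = 1 := by
    rw [hθ, dot_ind_one, dot_sub_left, ← lin_one, dot_lin, dot_lin]; simp [l1]
  have t3 : ⟪θ, θ⟫ = 3 := by
    nth_rw 2 [hθ]
    rw [frob_rec' _ _ (ZIrr.mem_CF zθ), res, ← lin_one]
    simp only [dot_sub_left, dot_sub_right, dot_add_left, dot_lin]
    simp [l1, l1.symm, l2]; norm_num
  obtain ⟨α, γ, hα, hγ, -, -, -, k⟩ := Blk.decomp_three zθ t3 t1
  refine ⟨α, γ, hα, hγ, fun g hg => ?_, fun a => ?_⟩
  · have : θ g = 0 := ind_eq_zero fun a ha => by simp [lin_apply, hg a ha]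
    rwa [k] at this
  · have := congrFun res a
    rw [k] at this
    simp only [Function.comp_apply, Pi.sub_apply, Pi.add_apply, Pi.one_apply, lin_apply, MonoidHom.inv_apply,
      Units.val_inv_eq_inv_val] at this
    linear_combination this

theorem kern4 {A : Type*} [Group A] [Finite A] (cA : ∀ a b : A, a * b = b * a) {e : A →* H}
    (he : Function.Injective e) {l : A →* ℂˣ}
    (l1 : l ≠ 1) (l2 : l⁻¹ ≠ l) {w : H} (wA : w ∉ e.range) (hw : ∀ a, w⁻¹ * e a * w = (e a)⁻¹)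
    (ti : ∀ a, a ≠ 1 → ∀ x, x⁻¹ * e a * x ∈ e.range → x ∈ e.range ∨ w⁻¹ * x ∈ e.range) :
    ∃ K : Subgroup H, K.Normal ∧ (∀ a, e a ∈ K → l a = 1) ∧ ∀ y, (∀ a, IsConj (e a) y → l a = 1) →
      (∀ x a, IsConj (e a) (y * (x * y * x⁻¹)) → l a = 1) → y ∈ K := by
  obtain ⟨α, γ, hα, hγ, h0, hv⟩ := kern3 cA he l1 l2 wA hw ti
  have h1 := h0 1 fun a ha => by rw [he ((isConj_one_left.1 ha).trans (map_one e).symm), map_one]
  have := cfker_normal (ZIrr.mem_CF hα.mem_ZIrr)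
  have := cfker_normal (ZIrr.mem_CF hγ.mem_ZIrr)
  refine ⟨cfker α ⊓ cfker γ, inferInstance, fun a ha => Units.ext ?_, fun y hy h =>
    three_end hα hγ h1 (h0 y hy) fun x => h0 _ (h x)⟩
  have k := hv a
  rw [cfker_apply ha.1, cfker_apply ha.2, h1] at k
  have k2 : ((l a : ℂ) - 1) ^ 2 = 0 := by
    have := mul_inv_cancel₀ (l a).ne_zero
    linear_combination (l a : ℂ) * k - this
  simpa [sub_eq_zero] using k2

theorem kern2 {A : Type*} [Group A] [Finite A] {e : A →* H} (he : Function.Injective e) {l : A →* ℂˣ} (l1 : l ≠ 1)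
    (ti : ∀ a, a ≠ 1 → ∀ x, x⁻¹ * e a * x ∈ e.range → x ∈ e.range) :
    ∃ K : Subgroup H, K.Normal ∧ (∀ a, e a ∈ K → l a = 1) ∧ ∀ y, (∀ a, IsConj (e a) y → l a = 1) → y ∈ K := by
  have zα : (1 - lin l : A → ℂ) ∈ ZIrr A := sub_mem (one_mem _) (lin_mem_ZIrr l)
  set θ := ind e (1 - lin l) with hθ
  have zθ : θ ∈ ZIrr H := ZIrr.ind zα _
  have res : θ ∘ e = 1 - lin l := funext fun a => by
    by_cases a1 : a = 1
    · simp [a1, hθ, ind_one he, lin_apply]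
    exact ind_apply_TI he (ZIrr.mem_CF zα) a fun x b _ k => ti a a1 x ⟨b, k⟩
  have t1 : ⟪θ, 1⟫ = 1 := by
    rw [hθ, dot_ind_one, dot_sub_left, ← lin_one, dot_lin, dot_lin]; simp [l1]
  have t2 : ⟪θ, θ⟫ = 2 := by
    nth_rw 2 [hθ]
    rw [frob_rec' _ _ (ZIrr.mem_CF zθ), res, ← lin_one]
    simp only [dot_sub_left, dot_sub_right, dot_lin]
    simp [l1, l1.symm]; norm_num
  have d : Dirr (θ - 1) := ZIrr.dirr_of_nrm_one (sub_mem zθ (one_mem _)) (by
    rw [nrm_sub_of_dot_one dot_one_one t1, nrm_eq_of_dot (r := 2) (by simpa using t2)]; norm_num)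
  have h1 : θ 1 = 0 := by simpa [lin_apply] using congrFun res 1
  refine ⟨cfker (θ - 1), cfker_normal (ZIrr.mem_CF d.mem_ZIrr), fun a ha => Units.ext ?_, fun y hy => ?_⟩
  · have k := cfker_apply ha
    have := congrFun res a
    simp only [Function.comp_apply, Pi.sub_apply, Pi.one_apply, lin_apply, h1, Units.val_one] at k this ⊢
    linear_combination this - k
  · have : θ y = 0 := ind_eq_zero fun a ha => by simp [lin_apply, hy a ha]
    rcases d with d | d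
    · exact (IsIrr.mem_cfker d).2 (by simp [this, h1])
    · rw [← cfker_neg]; exact (IsIrr.mem_cfker d).2 (by simp [this, h1])

end CA.McL

theorem CA.realizeEqns_McL_B0 : True := by
  have := @CA.McL.mon.eq_1
  have := @CA.McL.mon.eq_def
  have := @CA.McL.mon.congr_simp
  trivial
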