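/-
Finite computations in the four-dimensional orthogonal space of minus type over `𝔽₃`.
-/
import Cfsg.Agent.McL.B0

set_option autoImplicit false
set_option maxRecDepth 100000
set_option synthInstance.maxSize 100000
set_option synthInstance.maxHeartbeats 200000

namespace CA.McL.A

open Equiv

abbrev F3 := ZMod 3
abbrev V4 := F3 × F3 × F3 × F3

theorem all3 {p : F3 → Prop} : (∀ x, p x) ↔ p 0 ∧ p 1 ∧ p 2 :=
  ⟨fun h => ⟨h _, h _, h _⟩, fun h x => by fin_cases x; exacts [h.1, h.2.1, h.2.2]⟩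
theorem ex3 {p : F3 → Prop} : (∃ x, p x) ↔ p 0 ∨ p 1 ∨ p 2 :=
  ⟨fun ⟨x, h⟩ => by fin_cases x; exacts [.inl h, .inr (.inl h), .inr (.inr h)],
    fun h => h.elim (fun h => ⟨_, h⟩) fun h => h.elim (fun h => ⟨_, h⟩) fun h => ⟨_, h⟩⟩
instance (priority := high) decAll3 (p : F3 → Prop) [DecidablePred p] : Decidable (∀ x, p x) := decidable_of_iff' _ all3
instance (priority := high) decEx3 (p : F3 → Prop) [DecidablePred p] : Decidable (∃ x, p x) := decidable_of_iff' _ ex3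
instance (priority := high) decAllV (p : V4 → Prop) [DecidablePred p] : Decidable (∀ x, p x) :=
  decidable_of_iff (∀ a b c d : F3, p (a, b, c, d)) ⟨fun h x => h x.1 x.2.1 x.2.2.1 x.2.2.2, fun h _ _ _ _ => h _⟩
instance (priority := high) decExV (p : V4 → Prop) [DecidablePred p] : Decidable (∃ x, p x) :=
  decidable_of_iff (∃ a b c d : F3, p (a, b, c, d)) ⟨fun ⟨_, _, _, _, h⟩ => ⟨_, h⟩, fun ⟨x, h⟩ => ⟨x.1, x.2.1, x.2.2.1, x.2.2.2, h⟩⟩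

/-- the linear map with the given columns -/
def lin (c0 c1 c2 c3 x : V4) : V4 :=
  (x.1 * c0.1 + x.2.1 * c1.1 + x.2.2.1 * c2.1 + x.2.2.2 * c3.1,
   x.1 * c0.2.1 + x.2.1 * c1.2.1 + x.2.2.1 * c2.2.1 + x.2.2.2 * c3.2.1,
   x.1 * c0.2.2.1 + x.2.1 * c1.2.2.1 + x.2.2.1 * c2.2.2.1 + x.2.2.2 * c3.2.2.1,
   x.1 * c0.2.2.2 + x.2.1 * c1.2.2.2 + x.2.2.1 * c2.2.2.2 + x.2.2.2 * c3.2.2.2)

/-- general shape of the action of an element of `Q` -/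
def uu (a b α β c : F3) (x : V4) : V4 :=
  (x.1, x.2.1 + a * x.1, x.2.2.1 + b * x.1, x.2.2.2 + α * x.2.1 + β * x.2.2.1 + c * x.1)

def ud (δ a b : F3) : V4 → V4 := uu a b (2 * a) (2 * (δ * b)) (a * a + δ * (b * b))

def qf (δ : F3) (x : V4) : F3 := x.1 * x.2.2.2 - x.2.1 * x.2.1 - δ * (x.2.2.1 * x.2.2.1)

/-- the points of the orbit of `Z` -/
def Sgd (δ : F3) (x : V4) : Prop := qf δ x = 0 ∧ x ≠ 0 ∧ (x.1 = 0 → x.2.1 = 0 ∧ x.2.2.1 = 0)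

instance (δ : F3) (x : V4) : Decidable (Sgd δ x) := inferInstanceAs (Decidable (_ ∧ _))

abbrev ux (a b : F3) : V4 → V4 := ud 1 a b
abbrev Sg (x : V4) : Prop := Sgd 1 x

def nn (x : V4) : V4 := (x.2.2.2, x.2.1, -x.2.2.1, x.1)
def hm (e p q r s f : F3) (x : V4) : V4 := (e * x.1, p * x.2.1 + q * x.2.2.1, r * x.2.1 + s * x.2.2.1, f * x.2.2.2)
def ap : V4 → V4 := hm 2 0 2 1 0 2
def aa : V4 → V4 := hm 2 1 1 1 2 1
def tt : V4 → V4 := hm 1 2 0 0 2 1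
def rr : V4 → V4 := hm 1 1 0 0 2 1
def sc (s : F3) (x : V4) : V4 := (s * x.1, s * x.2.1, s * x.2.2.1, s * x.2.2.2)
def hq (k : Fin 8) : V4 → V4 :=
  match k with
  | 0 => hm 1 1 0 0 1 1 | 1 => ap | 2 => tt | 3 => hm 2 0 1 2 0 2
  | 4 => aa | 5 => hm 1 1 2 2 2 2 | 6 => hm 2 2 2 2 1 1 | 7 => hm 1 2 1 1 1 2
/-- the elements of `M₁₀` -/
def el (w : Bool) (a b c d : F3) (k : Fin 8) (x : V4) : V4 :=
  cond w (ux a b (nn (ux c d (hq k x)))) (ux c d (hq k x))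
/-- the elements of `M₁₀ × 2` -/
def gm (s : F3) (w : Bool) (a b c d : F3) (k : Fin 8) (x : V4) : V4 := sc s (el w a b c d k x)
/-- similitude conditions -/
def Sim (e p q r s f : F3) : Prop := e ≠ 0 ∧ f ≠ 0 ∧ p * p + r * r = e * f ∧ q * q + s * s = e * f ∧ p * q + r * s = 0

instance (e p q r s f : F3) : Decidable (Sim e p q r s f) := inferInstanceAs (Decidable (_ ∧ _))

/-- additive maps -/
def Ad (A : V4 → V4) : Prop := ∀ x y, A (x + y) = A x + A y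
/-- equality on the basis -/
def E4 (A B : V4 → V4) : Prop := A (1, 0, 0, 0) = B (1, 0, 0, 0) ∧ A (0, 1, 0, 0) = B (0, 1, 0, 0) ∧
  A (0, 0, 1, 0) = B (0, 0, 1, 0) ∧ A (0, 0, 0, 1) = B (0, 0, 0, 1)

instance (A B : V4 → V4) : Decidable (E4 A B) := inferInstanceAs (Decidable (_ ∧ _))

theorem lin_smul (c0 c1 c2 c3 x : V4) : lin c0 c1 c2 c3 x = x.1 • c0 + x.2.1 • c1 + x.2.2.1 • c2 + x.2.2.2 • c3 := rfl

theorem Ad.smul {A : V4 → V4} (h : Ad A) (k : F3) (x : V4) : A (k • x) = k • A x :=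
  ZMod.map_smul (AddMonoidHom.mk' A h) k x

theorem Ad.lin_eq {A : V4 → V4} (h : Ad A) (x : V4) :
    A x = lin (A (1, 0, 0, 0)) (A (0, 1, 0, 0)) (A (0, 0, 1, 0)) (A (0, 0, 0, 1)) x := by
  rw [lin_smul, ← h.smul, ← h.smul, ← h.smul, ← h.smul, ← h, ← h, ← h]
  simp

theorem E4.ext {A B : V4 → V4} (e : E4 A B) (a : Ad A) (b : Ad B) (x : V4) : A x = B x := by
  rw [a.lin_eq, b.lin_eq, e.1, e.2.1, e.2.2.1, e.2.2.2]

theorem ad_lin (c0 c1 c2 c3 : V4) : Ad (lin c0 c1 c2 c3) := fun x y => by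
  simp only [lin, Prod.fst_add, Prod.snd_add, Prod.mk_add_mk, Prod.mk.injEq]
  refine ⟨?_, ?_, ?_, ?_⟩ <;> ring
theorem ad_uu (a b α β c : F3) : Ad (uu a b α β c) := fun x y => by
  simp only [uu, Prod.fst_add, Prod.snd_add, Prod.mk_add_mk, Prod.mk.injEq]
  refine ⟨trivial, ?_, ?_, ?_⟩ <;> ring
theorem ad_ud (δ a b : F3) : Ad (ud δ a b) := ad_uu _ _ _ _ _
theorem ad_nn : Ad nn := fun x y => by
  simp only [nn, Prod.fst_add, Prod.snd_add, Prod.mk_add_mk, Prod.mk.injEq]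
  refine ⟨trivial, trivial, ?_, trivial⟩; ring
theorem ad_hm (e p q r s f : F3) : Ad (hm e p q r s f) := fun x y => by
  simp only [hm, Prod.fst_add, Prod.snd_add, Prod.mk_add_mk, Prod.mk.injEq]
  refine ⟨?_, ?_, ?_, ?_⟩ <;> ring
theorem ad_sc (s : F3) : Ad (sc s) := fun x y => by
  simp only [sc, Prod.fst_add, Prod.snd_add, Prod.mk_add_mk, Prod.mk.injEq]
  refine ⟨?_, ?_, ?_, ?_⟩ <;> ring
theorem Ad.comp {A B : V4 → V4} (a : Ad A) (b : Ad B) : Ad (A ∘ B) := fun x y => by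
  simp only [Function.comp, b x y, a _ _]
theorem ad_id : Ad id := fun _ _ => rfl
theorem Ad.iter {A : V4 → V4} (a : Ad A) (n : ℕ) : Ad A^[n] := by
  induction n with
  | zero => exact ad_id
  | succ n ih => exact ih.comp a
theorem ad_ap : Ad ap := ad_hm _ _ _ _ _ _
theorem ad_aa : Ad aa := ad_hm _ _ _ _ _ _
theorem ad_tt : Ad tt := ad_hm _ _ _ _ _ _
theorem ad_rr : Ad rr := ad_hm _ _ _ _ _ _
theorem ad_hq (k : Fin 8) : Ad (hq k) := by fin_cases k <;> exact ad_hm _ _ _ _ _ _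
theorem ad_el (w : Bool) (a b c d : F3) (k : Fin 8) : Ad (el w a b c d k) := by
  cases w
  exacts [(ad_ud _ _ _).comp (ad_hq k), (ad_ud _ _ _).comp (ad_nn.comp ((ad_ud _ _ _).comp (ad_hq k)))]
theorem ad_gm (s : F3) (w : Bool) (a b c d : F3) (k : Fin 8) : Ad (gm s w a b c d k) := (ad_sc s).comp (ad_el w a b c d k)

theorem uu_uu (a b α β c a' b' α' β' c' : F3) (x : V4) :
    uu a b α β c (uu a' b' α' β' c' x) = uu (a + a') (b + b') (α + α') (β + β') (c + c' + α * a' + β * b') x := by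
  simp only [uu, Prod.mk.injEq]
  refine ⟨trivial, ?_, ?_, ?_⟩ <;> ring
theorem ud_ud (δ a b a' b' : F3) (x : V4) : ud δ a b (ud δ a' b' x) = ud δ (a + a') (b + b') x := by
  simp only [ud, uu, Prod.mk.injEq]
  refine ⟨trivial, ?_, ?_, ?_⟩ <;> ring
theorem ud_zero (δ : F3) (x : V4) : ud δ 0 0 x = x := by simp [ud, uu]

theorem nrm : ∀ α β γ : F3, α * γ - β * β ≠ 0 → ∃ δ i1 j1 i2 j2 : F3, (δ = 1 ∨ δ = 2) ∧ i1 * j2 - i2 * j1 ≠ 0 ∧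
    (i1 * α + j1 * β) * i1 + (i1 * β + j1 * γ) * j1 = 2 ∧ (i2 * α + j2 * β) * i2 + (i2 * β + j2 * γ) * j2 = 2 * δ ∧
    (i1 * α + j1 * β) * i2 + (i1 * β + j1 * γ) * j2 = 0 := by decide +kernel

theorem nondeg : ∀ α β γ : F3, α * γ - β * β = 0 → ∃ i j : F3, (i ≠ 0 ∨ j ≠ 0) ∧ i * α + j * β = 0 ∧ i * β + j * γ = 0 := by
  decide +kernel

theorem det_inj : ∀ i1 j1 i2 j2 : F3, i1 * j2 - i2 * j1 ≠ 0 → (∀ x y : F3, x * i1 + y * i2 = 0 → x * j1 + y * j2 = 0 →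
    x = 0 ∧ y = 0) ∧ ∀ a b : F3, ∃ x y : F3, a = x * i1 + y * i2 ∧ b = x * j1 + y * j2 := by decide +kernel

/-- membership in the orbit, in terms of types -/
def Orb (δ : F3) (b c1 c2 c3 c4 c5 : Bool) (x : V4) : Bool :=
  if x.1 = 0 then x = (0, 0, 0, 1) || (x = (0, 0, 0, 2) && b) else
  if x.1 = 1 then (if qf δ x = 0 then true else if qf δ x = 1 then c1 else c2)
  else (if qf δ x = 0 then c3 else if qf δ x = 2 then c4 else c5)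

theorem orb_cnt : ∀ δ : F3, (δ = 1 ∨ δ = 2) → ∀ b c1 c2 c3 c4 c5 : Bool, (b → c3) →
    (Finset.univ.filter fun x => Orb δ b c1 c2 c3 c4 c5 x).card ∣ 40 → ∀ x, Orb δ b c1 c2 c3 c4 c5 x → Sgd δ x := by
  decide +kernel

theorem ud_type : ∀ δ : F3, ∀ x : V4, x.1 ≠ 0 → ∃ a b, ud δ a b (x.1, 0, 0, x.1 * qf δ x) = x := by decide +kernel

theorem sgd_neg : ∀ δ : F3, ∀ x : V4, Sgd δ x → Sgd δ (-x) := by decide +kernel

theorem hyp_ex : ∀ y : V4, Sgd 2 ((0, 0, 0, 1) + y) → Sgd 2 ((0, 0, 0, 1) + y + y) → y = y.2.2.2 • (0, 0, 0, 1) := by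
  decide +kernel

theorem h32' : ∀ e f : F3, e ≠ 0 → f ≠ 0 → ∀ c1 : V4, (∀ a : F3, Sg (lin (e, 0, 0, 0) c1 0 (0, 0, 0, f) (1, a, 0, a * a))) →
    ∀ c2 : V4, (∀ b a : F3, Sg (lin (e, 0, 0, 0) c1 c2 (0, 0, 0, f) (1, a, -b, a * a + b * b))) →
    c1.1 = 0 ∧ c2.1 = 0 ∧ c1.2.2.2 = 0 ∧ c2.2.2.2 = 0 ∧ Sim e c1.2.1 c2.2.1 c1.2.2.1 c2.2.2.1 f := by
  decide +kernel

theorem sg_pt : ∀ a b : F3, Sg (1, a, -b, a * a + b * b) ∧ Sg (1, a, 0, a * a) := by decide +kernel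

theorem h32 {A : V4 → V4} (a : Ad A) (s : ∀ x, Sg x → Sg (A x)) {e f : F3} (he : e ≠ 0) (hf : f ≠ 0)
    (h0 : A (1, 0, 0, 0) = (e, 0, 0, 0)) (h3 : A (0, 0, 0, 1) = (0, 0, 0, f)) :
    ∃ p q r s, Sim e p q r s f ∧ ∀ x, A x = hm e p q r s f x := by
  have l := a.lin_eq
  rw [h0, h3] at l
  obtain ⟨k1, k2, k3, k4, k5⟩ := h32' e f he hf (A (0, 1, 0, 0)) (fun i => by
    have := s _ (sg_pt i 0).2
    rw [l] at this
    simpa [lin] using this) (A (0, 0, 1, 0)) fun j i => l _ ▸ s _ (sg_pt i j).1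
  exact ⟨_, _, _, _, k5, fun x => by rw [l]; simp [lin, hm, k1, k2, k3, k4, mul_comm]⟩

theorem sg_cases : ∀ x, Sg x → (∃ f : F3, f ≠ 0 ∧ x = (0, 0, 0, f)) ∨ ∃ e a b : F3, e ≠ 0 ∧ x = ux a b (e, 0, 0, 0) := by
  decide +kernel

theorem sg_ux : ∀ a b : F3, ∀ x, Sg x → Sg (ux a b x) := by decide +kernel
theorem sg_nn : ∀ x, Sg x → Sg (nn x) := by decide +kernel
theorem rr_ux : ∀ a b : F3, E4 (ux a (-b) ∘ rr) (rr ∘ ux a b) := by decide +kernel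
theorem rr_rr : ∀ x, rr (rr x) = x := by decide +kernel
theorem nn_nn : ∀ x, nn (nn x) = x := by decide +kernel

theorem hm_ux : ∀ e p q r s f : F3, Sim e p q r s f → ∀ a b : F3, ∃ c d : F3,
    E4 (ux a b ∘ hm e p q r s f) (hm e p q r s f ∘ ux c d) := by decide +kernel

theorem w_nn : E4 (ux 0 1 ∘ (nn ∘ ux 0 1 ∘ nn) ∘ ux 0 1) nn := by decide +kernel
theorem w_ap : E4 (nn ∘ ux 1 1 ∘ (nn ∘ ux 1 2 ∘ nn) ∘ ux 1 1) ap := by decide +kernel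

theorem a_cases : ∀ p q r s : F3, Sim 2 p q r s 1 → (∃ a b : F3, E4 (hm 2 p q r s 1)^[4] (ux a b)) →
    ∃ i : Fin 4, E4 (hm 2 p q r s 1)^[i.val] aa ∨ E4 ((hm 2 p q r s 1)^[i.val] ∘ rr) (rr ∘ aa) := by
  decide +kernel

theorem h16 : ∀ e p q r s f : F3, Sim e p q r s f → (∃ (g : F3) (k : Fin 8), g ≠ 0 ∧ E4 (hm e p q r s f) (gm g false 0 0 0 0 k)) ∨
    ∃ g : F3, E4 (hm 2 g (-g) (-g) (-g) 1 ∘ hm e p q r s f) (hm e p q r s f ∘ aa) ∧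
      aa (hm 2 g (-g) (-g) (-g) 1 (1, 0, 0, 0)) = (1, 0, 0, 0) ∧
      ∀ a b, (aa ∘ hm 2 g (-g) (-g) (-g) 1)^[6] (0, 1, 0, 0) ≠ ux a b (0, 1, 0, 0) := by
  decide +kernel

theorem hq_w : ∀ k : Fin 8, ∃ i : Fin 2, ∃ j : Fin 4, E4 (hq k) (aa^[i.val] ∘ ap^[j.val]) := by decide +kernel

theorem ux_gm (s a b c d : F3) (k : Fin 8) (x : V4) :
    ux a b (nn (gm s false 0 0 c d k x)) = gm s true a b c d k x ∧ ux c d (gm s false 0 0 0 0 k x) = gm s false 0 0 c d k x := by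
  have e : ∀ y, sc s y = s • y := fun y => rfl
  simp only [gm, el, cond, e, (ad_ud _ _ _).smul, ad_nn.smul, ud_zero, and_self]

theorem gG1 : ∀ s : F3, s ≠ 0 → ∀ (w : Bool) (a b c d : F3) (k : Fin 8), gm s w a b c d k (0, 1, 0, 0) = (0, 1, 0, 0) →
    gm s w a b c d k (0, 0, 1, 0) = (0, 0, 1, 0) → E4 (gm s w a b c d k) id ∨ E4 (gm s w a b c d k) (hm 2 1 0 0 1 2) := by
  decide +kernel

/-- coordinates on the orthogonal complement of `(1, 0, 0, 1)` -/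
def io (y : Fin 3 → F3) : V4 := (y 0, y 1, y 2, -y 0)

/-- the action on the orthogonal complement is monomial -/
def MonE (A : V4 → V4) (σ : Perm (Fin 3)) (s : Fin 3 → F3) : Prop :=
  A (io ![1, 0, 0]) = io (mon σ s ![1, 0, 0]) ∧ A (io ![0, 1, 0]) = io (mon σ s ![0, 1, 0]) ∧
    A (io ![0, 0, 1]) = io (mon σ s ![0, 0, 1])

instance (A : V4 → V4) (σ : Perm (Fin 3)) (s : Fin 3 → F3) : Decidable (MonE A σ s) := inferInstanceAs (Decidable (_ ∧ _))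

theorem MonE.ext {A : V4 → V4} {σ : Perm (Fin 3)} {s : Fin 3 → F3} (h : MonE A σ s) (a : Ad A) (y : Fin 3 → F3) :
    A (io y) = io (mon σ s y) := by
  have e : ∀ y : Fin 3 → F3, y = y 0 • ![1, 0, 0] + y 1 • ![0, 1, 0] + y 2 • ![0, 0, 1] := fun y => by
    ext i; fin_cases i <;> simp
  have i1 : ∀ x y : Fin 3 → F3, io (x + y) = io x + io y := fun x y => by simp [io, add_comm]
  have i2 : ∀ (k : F3) (y : Fin 3 → F3), io (k • y) = k • io y := fun x y => by simp [io]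
  have m1 : ∀ x y : Fin 3 → F3, mon σ s (x + y) = mon σ s x + mon σ s y := fun x y => by ext i; simp [mon, mul_add]
  have m2 : ∀ (k : F3) (y : Fin 3 → F3), mon σ s (k • y) = k • mon σ s y := fun x y => by ext i; simp [mon, mul_left_comm]
  rw [e y]
  simp only [i1, i2, m1, m2, a _ _, a.smul, h.1, h.2.1, h.2.2]

theorem gG2 : ∀ s : F3, s ≠ 0 → ∀ (w : Bool) (a b c d : F3) (k : Fin 8), gm s w a b c d k (1, 0, 0, 1) = (1, 0, 0, 1) →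
    E4 (gm s w a b c d k)^[12] id ∧ ∃ σ : Perm (Fin 3), (s = 1 → Perm.sign σ = 1) ∧ ∃ s0 s1 s2 : F3,
      s0 * s1 * s2 = ((Perm.sign σ : ℤ) : F3) ∧ MonE (gm s w a b c d k) σ ![s0, s1, s2] := by
  decide +kernel

/-- the stabiliser of `(1, 0, 0, 1)` -/
def stb : List (F3 × Bool × F3 × F3 × F3 × F3 × Fin 8) := [(1, false, 0, 0, 0, 0, 0), (1, false, 0, 0, 0, 0, 2),
  (1, true, 0, 0, 0, 0, 0), (1, true, 0, 0, 0, 0, 2), (1, true, 0, 1, 0, 2, 1), (1, true, 0, 1, 0, 2, 3), (1, true, 0, 2, 0, 1, 1),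
  (1, true, 0, 2, 0, 1, 3), (1, true, 1, 0, 1, 0, 1), (1, true, 1, 0, 1, 0, 3), (1, true, 2, 0, 2, 0, 1), (1, true, 2, 0, 2, 0, 3),
  (2, false, 0, 0, 0, 0, 1), (2, false, 0, 0, 0, 0, 3), (2, true, 0, 0, 0, 0, 1), (2, true, 0, 0, 0, 0, 3), (2, true, 0, 1, 0, 2, 0),
  (2, true, 0, 1, 0, 2, 2), (2, true, 0, 2, 0, 1, 0), (2, true, 0, 2, 0, 1, 2), (2, true, 1, 0, 1, 0, 0), (2, true, 1, 0, 1, 0, 2),
  (2, true, 2, 0, 2, 0, 0), (2, true, 2, 0, 2, 0, 2)]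

theorem gG3 : ∀ (σ : Perm (Fin 3)) (s0 s1 s2 : F3), s0 * s1 * s2 = ((Perm.sign σ : ℤ) : F3) → ∃ p ∈ stb,
    (p.1 = 1 ∨ p.1 = 2 ∧ Perm.sign σ ≠ 1) ∧
    MonE (gm p.1 p.2.1 p.2.2.1 p.2.2.2.1 p.2.2.2.2.1 p.2.2.2.2.2.1 p.2.2.2.2.2.2) σ ![s0, s1, s2] ∧
    gm p.1 p.2.1 p.2.2.1 p.2.2.2.1 p.2.2.2.2.1 p.2.2.2.2.2.1 p.2.2.2.2.2.2 (1, 0, 0, 1) = (1, 0, 0, 1) := by
  decide +kernel

theorem gG4a : ∀ x, Sg x → ∃ (w : Bool) (k : Fin 8) (a b : F3), el w a b 0 0 k (0, 0, 0, 1) = x := by decide +kernel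

theorem gG4b : ∀ x, x ≠ 0 → ¬ Sg x → ∃ (w : Bool) (k : Fin 8) (c d a b : F3), el w a b c d k (1, 0, 0, 1) = x := by
  decide +kernel

theorem gG4c : ∀ y0 y1 y2 : F3, qf 1 (io ![y0, y1, y2]) = 1 → ∃ p ∈ [((2 : F3), (1 : F3), (0 : F3), (2 : F3)), (1, 2, 1, 0),
    (1, 2, 2, 2), (1, 1, 2, 1), (1, 1, 1, 0), (1, 1, 0, 2)], ∃ c d, el true p.1 p.2.1 p.2.2.1 p.2.2.2 0 (0, c, d, 0) = (1, 0, 0, 1) ∧
    ∃ c' d', c * d' - c' * d ≠ 0 ∧ el true p.1 p.2.1 p.2.2.1 p.2.2.2 0 (0, c', d', 0) = io ![y0, y1, y2] := by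
  decide +kernel

theorem gG5 : ∀ a b : F3, ∀ x : V4, x + ux a b x + ux a b (ux a b x) = 0 → x.1 = 0 ∨ a = 0 ∧ b = 0 := by decide +kernel

theorem ap_sur : ∀ x : V4, (∃ y, y + x = ap y) ∧ (∃ y, y + x = ap (tt y)) ∧ (ap x = x → x = 0) ∧
    (tt x = x → x.2.1 = 0 ∧ x.2.2.1 = 0) := by decide +kernel

end CA.McL.A

theorem CA.realizeEqns_McL_A0 : True := by
  have := @CA.McL.A.io.eq_1
  have := @CA.McL.A.io.eq_def
  have := @CA.McL.A.io.congr_simp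
  have := @CA.McL.A.hq.eq_1
  have := @CA.McL.A.hq.eq_2
  have := @CA.McL.A.hq.eq_3
  have := @CA.McL.A.hq.eq_4
  have := @CA.McL.A.hq.eq_5
  have := @CA.McL.A.hq.eq_6
  have := @CA.McL.A.hq.eq_7
  have := @CA.McL.A.hq.eq_8
  have := @CA.McL.A.hq.eq_def
  have := @CA.McL.A.hq.congr_simp
  have := @CA.McL.A.F3.eq_1
  have := @CA.McL.A.F3.eq_def
  have := @CA.McL.A.F3.congr_simp
  have := @CA.McL.A.ud.eq_1
  have := @CA.McL.A.ud.eq_def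
  have := @CA.McL.A.ud.congr_simp
  have := @CA.McL.A.Sg.eq_1
  have := @CA.McL.A.Sg.eq_def
  have := @CA.McL.A.Sg.congr_simp
  have := @CA.McL.A.lin.eq_1
  have := @CA.McL.A.lin.eq_def
  have := @CA.McL.A.lin.congr_simp
  have := @CA.McL.A.Orb.eq_1
  have := @CA.McL.A.Orb.eq_def
  have := @CA.McL.A.Orb.congr_simp
  have := @CA.McL.A.gm.eq_1
  have := @CA.McL.A.gm.eq_def
  have := @CA.McL.A.gm.congr_simp
  have := @CA.McL.A.tt.eq_1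
  have := @CA.McL.A.tt.eq_def
  have := @CA.McL.A.tt.congr_simp
  have := @CA.McL.A.E4.eq_1
  have := @CA.McL.A.E4.eq_def
  have := @CA.McL.A.E4.congr_simp
  have := @CA.McL.A.nn.eq_1
  have := @CA.McL.A.nn.eq_def
  have := @CA.McL.A.nn.congr_simp
  have := @CA.McL.A.aa.eq_1
  have := @CA.McL.A.aa.eq_def
  have := @CA.McL.A.aa.congr_simp
  have := @CA.McL.A.uu.eq_1
  have := @CA.McL.A.uu.eq_def
  have := @CA.McL.A.uu.congr_simp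
  have := @CA.McL.A.hm.eq_1
  have := @CA.McL.A.hm.eq_def
  have := @CA.McL.A.hm.congr_simp
  have := @CA.McL.A.V4.eq_1
  have := @CA.McL.A.V4.eq_def
  have := @CA.McL.A.V4.congr_simp
  have := @CA.McL.A.MonE.eq_1
  have := @CA.McL.A.MonE.eq_def
  have := @CA.McL.A.MonE.congr_simp
  have := @CA.McL.A.rr.eq_1
  have := @CA.McL.A.rr.eq_def
  have := @CA.McL.A.rr.congr_simp
  have := @CA.McL.A.ap.eq_1
  have := @CA.McL.A.ap.eq_def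
  have := @CA.McL.A.ap.congr_simp
  have := @CA.McL.A.Sim.eq_1
  have := @CA.McL.A.Sim.eq_def
  have := @CA.McL.A.Sim.congr_simp
  have := @CA.McL.A.qf.eq_1
  have := @CA.McL.A.qf.eq_def
  have := @CA.McL.A.qf.congr_simp
  have := @CA.McL.A.Sgd.eq_1
  have := @CA.McL.A.Sgd.eq_def
  have := @CA.McL.A.Sgd.congr_simp
  have := @CA.McL.A.sc.eq_1
  have := @CA.McL.A.sc.eq_def
  have := @CA.McL.A.sc.congr_simp
  have := @CA.McL.A.el.eq_1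
  have := @CA.McL.A.el.eq_def
  have := @CA.McL.A.el.congr_simp
  have := @CA.McL.A.stb.eq_1
  have := @CA.McL.A.stb.eq_def
  have := @CA.McL.A.stb.congr_simp
  have := @CA.McL.A.Ad.eq_1
  have := @CA.McL.A.Ad.eq_def
  have := @CA.McL.A.Ad.congr_simp
  have := @CA.McL.A.ux.eq_1
  have := @CA.McL.A.ux.eq_def
  have := @CA.McL.A.ux.congr_simp
  trivial
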