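/-
Interfaces for the 3-local characterisation of the McLaughlin group (plan: tools/mcl/plan.md).
-/
import Cfsg.Agent.FG.Defs

set_option autoImplicit false

namespace CA.McL

open CA.FG Equiv

/-- `S₃ × S₅` inside `S₈` -/
def N2 : Subgroup (Perm (Fin 8)) where
  carrier := {g | ∀ i : Fin 8, i.val < 3 ↔ (g i).val < 3}
  one_mem' := fun _ => Iff.rfl
  mul_mem' := fun {_ h} hg hh i => (hh i).trans (hg (h i))
  inv_mem' := fun {g} hg i => by
    have := hg (g⁻¹ i)
    rw [show g (g⁻¹ i) = i from g.apply_symm_apply i] at this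
    exact this.symm

instance (g : Perm (Fin 8)) : Decidable (g ∈ N2) :=
  inferInstanceAs (Decidable (∀ i : Fin 8, i.val < 3 ↔ (g i).val < 3))

/-- `(1 2 3)` -/
def a1 : N2 := ⟨swap 0 1 * swap 1 2, by decide⟩
/-- `(4 5 6)` -/
def a2 : N2 := ⟨swap 3 4 * swap 4 5, by decide⟩
/-- `(4 5)(7 8)` -/
def w1 : N2 := ⟨swap 3 4 * swap 6 7, by decide⟩
/-- `(1 2)(7 8)` -/
def w2 : N2 := ⟨swap 0 1 * swap 6 7, by decide⟩
/-- `(7 8)` -/
def ta : N2 := ⟨swap 6 7, by decide⟩

/-- the even part `(S₃ × S₅) ∩ A₈` -/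
def N1 : Subgroup N2 := (alternatingGroup (Fin 8)).subgroupOf N2

variable {C X : Type*} [Group C] [Group X]

/-- `y` lifts to elements of order at most two -/
def Lf (π : C →* X) (y : X) : Prop := ∀ c, π c = y → c * c = 1

/-- The data in the centralizer `C` of the involution `t`, `X = C / ⟨t⟩`.  `N` is `N1` (McL) or `⊤` (McL:2); the map
`f` is only used on `N`. -/
structure XH (π : C →* X) (t : C) (N : Subgroup N2) (f : N →* X) (v : X) : Prop where
  sur : Function.Surjective π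
  ker : π.ker = Subgroup.zpowers t
  ot : orderOf t = 2
  le : N1 ≤ N
  inj : Function.Injective f
  rng : ∀ x : N, x.1 = a1 → f.range = 𝒩(Subgroup.zpowers (f x))
  vv : v * v = 1
  va : ∀ x y : N, x.1 = a1 → y.1 = a2 → v * f x * v⁻¹ = f y
  vw : ∀ x y : N, x.1 = w1 → y.1 = w2 → v * f x * v⁻¹ = f y
  nD : ∀ x y : N, x.1 = a1 → y.1 = a2 → ∀ g ∈ 𝒩(Subgroup.closure {f x, f y}), g ∈ f.range ∨ g * v ∈ f.range
  cb : ∀ x y : N, x.1 = a1 → y.1 = a2 → ∀ g, Commute g (f x * f y) → g ∈ 𝒩(Subgroup.closure {f x, f y})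
  nw : ∀ x : N, x.1 = w1 → ¬ Lf π (f x)
  ni : ∀ x : N, x.1 = w1 * w2 → ¬ Lf π (f x)
  pv : Lf π v

/-- additional data in the case McL:2 -/
structure XH2 (π : C →* X) (t : C) (f : (⊤ : Subgroup N2) →* X) (v : X) : Prop extends XH π t ⊤ f v where
  vt : Commute v (f ⟨ta, trivial⟩)
  nt : ¬ Lf π (f ⟨ta, trivial⟩)
  pvt : Lf π (v * f ⟨ta, trivial⟩)
  pit : Lf π (f ⟨w1 * w2 * ta, trivial⟩)
  nc : ¬ IsConj v (f ⟨w1 * w2 * ta, trivial⟩)

/-- `C` is a non-split double cover of `A₈` with centre `⟨t⟩` -/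
structure DC (t : C) (φ : C →* alternatingGroup (Fin 8)) : Prop where
  sur : Function.Surjective φ
  ker : φ.ker = Subgroup.zpowers t
  ot : orderOf t = 2
  ns : ∃ x, (φ x : Perm (Fin 8)) = swap 0 1 * swap 2 3 ∧ x * x = t

/-- the global 3-local facts used at the end -/
structure T3 (G : Type*) [Group G] : Prop where
  /-- primes dividing the centralizer of an element of order three -/
  pr : ∀ x : G, orderOf x = 3 → ∀ r : ℕ, r.Prime → r ∣ Nat.card (𝒞[x] : Subgroup G) → r ≤ 5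
  /-- Sylow 3-subgroups have order `3 ^ 6` -/
  sy : ¬ 3 ^ 7 ∣ Nat.card G
  /-- no abelian subgroup of order `3 ^ 5` -/
  ab : ∀ A : Subgroup G, IsMulCommutative A → Nat.card A ≠ 3 ^ 5
  /-- no involution centralizes a subgroup of order `3 ^ 6` -/
  ci : ∀ y : G, orderOf y = 2 → ¬ 3 ^ 6 ∣ Nat.card (𝒞[y] : Subgroup G)

theorem realizeEqns_McL_Defs : True := by
  have := @CA.McL.a2.eq_1
  have := @CA.McL.a2.eq_def
  have := @CA.McL.a2.congr_simp
  have := @CA.McL.w1.eq_1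
  have := @CA.McL.w1.eq_def
  have := @CA.McL.w1.congr_simp
  have := @CA.McL.Lf.eq_1.{0,0}
  have := @CA.McL.Lf.eq_def.{0,0}
  have := @CA.McL.Lf.congr_simp.{0,0}
  have := @CA.McL.a1.eq_1
  have := @CA.McL.a1.eq_def
  have := @CA.McL.a1.congr_simp
  have := @CA.McL.w2.eq_1
  have := @CA.McL.w2.eq_def
  have := @CA.McL.w2.congr_simp
  have := @CA.McL.N2.eq_1
  have := @CA.McL.N2.eq_def
  have := @CA.McL.N2.congr_simp
  have := @CA.McL.ta.eq_1
  have := @CA.McL.ta.eq_def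
  have := @CA.McL.ta.congr_simp
  have := @CA.McL.N1.eq_1
  have := @CA.McL.N1.eq_def
  have := @CA.McL.N1.congr_simp
  trivial

end CA.McL
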