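/-
Finite computations in `SL₂(5)`, `S₅` and `A₆`.
-/
import Cfsg.Agent.McL.Defs
import Cfsg.Agent.Lin.Basic

set_option autoImplicit false
set_option maxRecDepth 100000
set_option synthInstance.maxSize 100000
set_option synthInstance.maxHeartbeats 200000

namespace CA.McL.A

open Equiv

abbrev SL5 := Matrix.SpecialLinearGroup (Fin 2) (ZMod 5)
abbrev T5 := ZMod 5 × ZMod 5 × ZMod 5 × ZMod 5

theorem all5 {p : ZMod 5 → Prop} : (∀ x, p x) ↔ p 0 ∧ p 1 ∧ p 2 ∧ p 3 ∧ p 4 :=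
  ⟨fun h => ⟨h _, h _, h _, h _, h _⟩, fun h x => by fin_cases x; exacts [h.1, h.2.1, h.2.2.1, h.2.2.2.1, h.2.2.2.2]⟩
instance (priority := high) decAll5 (p : ZMod 5 → Prop) [DecidablePred p] : Decidable (∀ x, p x) := decidable_of_iff' _ all5
instance (priority := high) decEx5 (p : ZMod 5 → Prop) [DecidablePred p] : Decidable (∃ x, p x) :=
  decidable_of_iff (p 0 ∨ p 1 ∨ p 2 ∨ p 3 ∨ p 4) (by rw [← not_iff_not, not_exists, all5]; tauto)
instance (priority := high) decAllT (p : T5 → Prop) [DecidablePred p] : Decidable (∀ x, p x) :=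
  decidable_of_iff (∀ a b c d : ZMod 5, p (a, b, c, d)) ⟨fun h x => h x.1 x.2.1 x.2.2.1 x.2.2.2, fun h _ _ _ _ => h _⟩
instance (priority := high) decExT (p : T5 → Prop) [DecidablePred p] : Decidable (∃ x, p x) :=
  decidable_of_iff (∃ a b c d : ZMod 5, p (a, b, c, d)) ⟨fun ⟨_, _, _, _, h⟩ => ⟨_, h⟩, fun ⟨x, h⟩ => ⟨x.1, x.2.1, x.2.2.1, x.2.2.2, h⟩⟩

def tm (x y : T5) : T5 := (x.1 * y.1 + x.2.1 * y.2.2.1, x.1 * y.2.1 + x.2.1 * y.2.2.2,
  x.2.2.1 * y.1 + x.2.2.2 * y.2.2.1, x.2.2.1 * y.2.1 + x.2.2.2 * y.2.2.2)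
def td (x : T5) : ZMod 5 := x.1 * x.2.2.2 - x.2.1 * x.2.2.1
def ti (x : T5) : T5 := (x.2.2.2, -x.2.1, -x.2.2.1, x.1)
def tpw (x : T5) : ℕ → T5
  | 0 => (1, 0, 0, 1)
  | k + 1 => tm (tpw x k) x
def tp (x : SL5) : T5 := (x.1 0 0, x.1 0 1, x.1 1 0, x.1 1 1)
def mk5 (x : T5) (h : td x = 1) : SL5 := ⟨!![x.1, x.2.1; x.2.2.1, x.2.2.2], by rw [Matrix.det_fin_two_of]; exact h⟩

theorem tp_mk5 (x : T5) (h : td x = 1) : tp (mk5 x h) = x := rfl
theorem tp_mul (x y : SL5) : tp (x * y) = tm (tp x) (tp y) := by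
  simp [tp, tm, Matrix.mul_apply, Fin.sum_univ_two]
theorem tp_one : tp 1 = (1, 0, 0, 1) := rfl
theorem tp_neg : tp (-1) = (4, 0, 0, 4) := by decide
theorem tp_pow (x : SL5) (k : ℕ) : tp (x ^ k) = tpw (tp x) k := by
  induction k with
  | zero => rfl
  | succ k ih => rw [pow_succ, tp_mul, ih]; rfl
theorem td_tp (x : SL5) : td (tp x) = 1 := by
  have := x.2; rw [Matrix.det_fin_two] at this; exact this
theorem tp_inj : Function.Injective tp := fun x y h => by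
  simp only [tp, Prod.mk.injEq] at h
  ext i j; fin_cases i <;> fin_cases j
  exacts [h.1, h.2.1, h.2.2.1, h.2.2.2]
theorem tp_inv (x : SL5) : tp x⁻¹ = ti (tp x) := by
  rw [Matrix.SpecialLinearGroup.SL2_inv_expl]; rfl
theorem tp_iff {x y : SL5} : x = y ↔ tp x = tp y := tp_inj.eq_iff.symm

theorem card_SL5 : Nat.card SL5 = 120 := by
  haveI : Fact (Nat.Prime 5) := ⟨by norm_num⟩
  exact Cfsg.Agent.Lin.card_SL2 (F := ZMod 5) (ZMod.card 5)

theorem tF1 : ∀ x : T5, td x = 1 → tpw x 3 = (1, 0, 0, 1) → x ≠ (1, 0, 0, 1) → ∀ y : T5, td y = 1 → tpw y 3 = (1, 0, 0, 1) →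
    y = (1, 0, 0, 1) ∨ y = x ∨ y = tm x x ∨ ∃ k : Fin 6, tpw (tm x y) k = (4, 0, 0, 4) ∨ tpw (tm x (tm y y)) k = (4, 0, 0, 4) ∨
      tpw (tm (tm x y) (tm x (tm y y))) k = (4, 0, 0, 4) := by decide +kernel

theorem sF1 {x y : SL5} (h : x ^ 3 = 1) (h1 : x ≠ 1) (hy : y ^ 3 = 1) {H : Subgroup SL5} (hx : x ∈ H) (hyH : y ∈ H) :
    y ∈ Subgroup.zpowers x ∨ -1 ∈ H := by
  rcases tF1 _ (td_tp x) (by rw [← tp_pow, h, tp_one]) (fun e => h1 (tp_inj e)) _ (td_tp y) (by rw [← tp_pow, hy, tp_one])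
    with e | e | e | ⟨k, e | e | e⟩
  · exact .inl (tp_inj (e.trans tp_one.symm) ▸ one_mem _)
  · exact .inl (tp_inj e ▸ Subgroup.mem_zpowers _)
  · rw [← tp_mul] at e; exact .inl (tp_inj e ▸ mul_mem (Subgroup.mem_zpowers _) (Subgroup.mem_zpowers _))
  all_goals
    simp only [← tp_mul, ← tp_pow, ← tp_neg] at e
    exact .inr (tp_inj e ▸ pow_mem (by repeat first | assumption | apply mul_mem) _)

theorem tF2 : ∀ x : T5, td x = 1 → tpw x 3 = (1, 0, 0, 1) → x ≠ (1, 0, 0, 1) → (∃ c : T5, td c = 1 ∧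
    tm (tm c x) (ti c) ≠ (1, 0, 0, 1) ∧ tm (tm c x) (ti c) ≠ x ∧ tm (tm c x) (ti c) ≠ tm x x) ∧
    (∃ a : T5, td a = 1 ∧ tm (tm a x) (ti a) = ti x ∧ tpw a 4 = (1, 0, 0, 1)) ∧
    ∀ y : T5, td y = 1 → tm x y = tm y x → tpw y 6 = (1, 0, 0, 1) := by decide +kernel

theorem mem_zp3 {H : Type*} [Group H] {x y : H} (h : x ^ 3 = 1) (hy : y ∈ Subgroup.zpowers x) : y = 1 ∨ y = x ∨ y = x * x := by
  obtain ⟨k, rfl⟩ := hy
  have e : x ^ k = x ^ (k % 3) := by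
    conv_lhs => rw [← Int.emod_add_mul_ediv k 3, zpow_add, zpow_mul, show x ^ (3 : ℤ) = 1 from by exact_mod_cast h, one_zpow, mul_one]
  have : k % 3 = 0 ∨ k % 3 = 1 ∨ k % 3 = 2 := by omega
  show x ^ k = 1 ∨ x ^ k = x ∨ x ^ k = x * x
  rcases this with a | a | a <;> rw [e, a] <;> simp [zpow_ofNat, pow_two]

theorem sF2 {x : SL5} (h : x ^ 3 = 1) (h1 : x ≠ 1) : ∃ c, c * x * c⁻¹ ∉ Subgroup.zpowers x := by
  obtain ⟨⟨c, d, a1, a2, a3⟩, -⟩ := tF2 _ (td_tp x) (by rw [← tp_pow, h, tp_one]) (fun e => h1 (tp_inj e))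
  refine ⟨mk5 c d, fun m => ?_⟩
  rcases mem_zp3 h m with e | e | e <;> simp only [tp_iff, tp_mul, tp_inv, tp_mk5, tp_one] at e
  exacts [a1 e, a2 e, a3 e]

theorem sF3 {x : SL5} (h : x ^ 3 = 1) (h1 : x ≠ 1) : ∃ a, a * x * a⁻¹ = x⁻¹ ∧ a ^ 4 = 1 := by
  obtain ⟨-, ⟨c, d, a1, a2⟩, -⟩ := tF2 _ (td_tp x) (by rw [← tp_pow, h, tp_one]) (fun e => h1 (tp_inj e))
  exact ⟨mk5 c d, by simp only [tp_iff, tp_mul, tp_inv, tp_mk5, a1], by simp only [tp_iff, tp_pow, tp_mk5, a2, tp_one]⟩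

theorem sF4 {x y : SL5} (h : x ^ 3 = 1) (h1 : x ≠ 1) (c : x * y = y * x) : y ^ 6 = 1 := by
  obtain ⟨-, -, a⟩ := tF2 _ (td_tp x) (by rw [← tp_pow, h, tp_one]) (fun e => h1 (tp_inj e))
  rw [tp_iff, tp_pow, tp_one]; exact a _ (td_tp y) (by rw [← tp_mul, c, tp_mul])

theorem tF5 : ∀ x : T5, td x = 1 → (tm x x = (1, 0, 0, 1) → x = (1, 0, 0, 1) ∨ x = (4, 0, 0, 4)) ∧
    ∃ y : T5, td y = 1 ∧ ∃ w : T5, td w = 1 ∧ x = tm (tm y y) (tm w w) := by decide +kernel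

theorem sF5 {x : SL5} (h : x * x = 1) : x = 1 ∨ x = -1 := by
  simp only [tp_iff, tp_mul, tp_one, tp_neg] at h ⊢; exact (tF5 _ (td_tp x)).1 h

theorem sF6 (x : SL5) : ∃ y w, x = y * y * (w * w) := by
  obtain ⟨y, a, w, b, e⟩ := (tF5 _ (td_tp x)).2
  exact ⟨mk5 y a, mk5 w b, by simp only [tp_iff, tp_mul, tp_mk5, ← e]⟩

theorem neg_ne_one5 : (-1 : SL5) ≠ 1 := fun h => by
  have := congrArg tp h; rw [tp_neg, tp_one] at this; revert this; decide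

/-- representatives of the five quaternion subgroups -/
def rp (i : Fin 5) : T5 :=
  match i with
  | 0 => (0, 1, 4, 0) | 1 => (1, 1, 3, 4) | 2 => (1, 2, 4, 4) | 3 => (1, 3, 1, 4) | 4 => (1, 4, 2, 4)

def cl (x : T5) : Fin 5 :=
  if tpw (tm x (rp 0)) 4 = (1, 0, 0, 1) then 0 else if tpw (tm x (rp 1)) 4 = (1, 0, 0, 1) then 1 else
  if tpw (tm x (rp 2)) 4 = (1, 0, 0, 1) then 2 else if tpw (tm x (rp 3)) 4 = (1, 0, 0, 1) then 3 else 4

theorem rp_td : ∀ i, td (rp i) = 1 ∧ tm (rp i) (rp i) = (4, 0, 0, 4) ∧ cl (rp i) = i := by decide +kernel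

theorem cl_iff : ∀ x : T5, td x = 1 → tm x x = (4, 0, 0, 4) → ∀ y : T5, td y = 1 → tm y y = (4, 0, 0, 4) →
    (cl x = cl y ↔ tpw (tm x y) 4 = (1, 0, 0, 1)) := by decide +kernel

def rq (i : Fin 5) : SL5 := mk5 (rp i) (rp_td i).1

theorem aut_neg (α : MulAut SL5) : α (-1) = -1 :=
  (sF5 (by rw [← map_mul]; simp)).resolve_left fun h => neg_ne_one5 (α.injective (h.trans (map_one α).symm))

theorem cl_iff' {x y : SL5} (hx : x * x = -1) (hy : y * y = -1) : cl (tp x) = cl (tp y) ↔ (x * y) ^ 4 = 1 := by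
  rw [tp_iff, tp_pow, tp_mul, tp_one]
  exact cl_iff _ (td_tp x) (by rw [← tp_mul, hx, tp_neg]) _ (td_tp y) (by rw [← tp_mul, hy, tp_neg])

theorem rq_sq (i : Fin 5) : rq i * rq i = -1 := by rw [tp_iff, tp_mul, tp_neg]; exact (rp_td i).2.1

theorem aut_sq (α : MulAut SL5) {x : SL5} (h : x * x = -1) : α x * α x = -1 := by rw [← map_mul, h, aut_neg]

theorem cl_aut (α : MulAut SL5) {x : SL5} (h : x * x = -1) : cl (tp (α (rq (cl (tp x))))) = cl (tp (α x)) := by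
  rw [cl_iff' (aut_sq α (rq_sq _)) (aut_sq α h), ← map_mul, ← map_pow, (cl_iff' (rq_sq _) h).1 (rp_td _).2.2, map_one]

/-- the action of `Aut(SL₂(5))` on the five quaternion subgroups -/
def chi0 : MulAut SL5 →* Perm (Fin 5) :=
  MonoidHom.toHomPerm
    { toFun := fun α => (fun i => cl (tp (α (rq i))) : Function.End (Fin 5))
      map_one' := funext fun i => (rp_td i).2.2
      map_mul' := fun α β => funext fun _ => (cl_aut α (aut_sq β (rq_sq _))).symm }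

theorem chi0_apply (α : MulAut SL5) (i : Fin 5) : chi0 α i = cl (tp (α (rq i))) := rfl

theorem chi0_conj (x : SL5) (i : Fin 5) : chi0 (MulAut.conj x) i = cl (tm (tm (tp x) (rp i)) (ti (tp x))) := by
  rw [chi0_apply, MulAut.conj_apply, tp_mul, tp_mul, tp_inv]; rfl

theorem tC3 : ∀ x : T5, td x = 1 → ((∀ i, cl (tm (tm x (rp i)) (ti x)) = i) → x = (1, 0, 0, 1) ∨ x = (4, 0, 0, 4)) ∧
    ∃ σ : Perm (Fin 5), (∀ i, cl (tm (tm x (rp i)) (ti x)) = σ i) ∧ Perm.sign σ = 1 := by decide +kernel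

theorem tC4 : ∀ σ : Perm (Fin 5), Perm.sign σ = 1 → ∃ x : T5, td x = 1 ∧ ∀ i, cl (tm (tm x (rp i)) (ti x)) = σ i := by
  decide +kernel

theorem chi0_ker {x : SL5} (h : chi0 (MulAut.conj x) = 1) : x = 1 ∨ x = -1 := by
  simp only [tp_iff, tp_one, tp_neg]
  exact (tC3 _ (td_tp x)).1 fun i => by rw [← chi0_conj, h]; rfl

theorem chi0_sign (x : SL5) : Perm.sign (chi0 (MulAut.conj x)) = 1 := by
  obtain ⟨σ, h, s⟩ := (tC3 _ (td_tp x)).2
  rwa [show chi0 (MulAut.conj x) = σ from Equiv.ext fun i => (chi0_conj x i).trans (h i)]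

theorem chi0_sur {σ : Perm (Fin 5)} (h : Perm.sign σ = 1) : ∃ x, chi0 (MulAut.conj x) = σ := by
  obtain ⟨x, d, e⟩ := tC4 σ h
  exact ⟨mk5 x d, Equiv.ext fun i => (chi0_conj _ i).trans (e i)⟩

theorem chi0_inj {α : MulAut SL5} (h : chi0 α = 1) (x : SL5) : α x = x := by
  have k : ∀ y, α (y * y) = y * y := fun y => by
    have e : MulAut.conj (α y) = α * MulAut.conj y * α⁻¹ := by ext w : 1; simp
    have : chi0 (MulAut.conj (α y * y⁻¹)) = 1 := by simp only [map_mul, map_inv, e, h]; simp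
    rw [map_mul]
    rcases chi0_ker this with a | a <;> rw [mul_inv_eq_iff_eq_mul.1 a] <;> simp
  obtain ⟨y, w, rfl⟩ := sF6 x
  rw [map_mul, k, k]

theorem relab : ∀ x : Perm (Fin 5), x ^ 3 = 1 → x ≠ 1 → ∀ y : Perm (Fin 5), y * x = x⁻¹ * y → Perm.sign y = 1 →
    ∃ c : Perm (Fin 5), c * x = swap 0 1 * swap 1 2 * c ∧ c * y = swap 0 1 * swap 3 4 * c := by decide +kernel

theorem relab2 : ∀ y : Perm (Fin 5), y * (swap 0 1 * swap 1 2) = (swap 0 1 * swap 1 2)⁻¹ * y →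
    y * (swap 0 1 * swap 3 4) = swap 0 1 * swap 3 4 * y → y = swap 0 1 ∨ y = swap 0 1 * swap 3 4 := by decide +kernel

theorem a6_rep : ∀ y : Perm (Fin 6), (swap 0 1 * swap 1 2 * y = y * (swap 0 1 * swap 1 2) ∨
    swap 0 1 * swap 1 2 * (swap 3 4 * swap 4 5) * y = y * (swap 0 1 * swap 1 2 * (swap 3 4 * swap 4 5))) → Perm.sign y = 1 →
    y * y * y = 1 := by decide +kernel

theorem ct3 {x : Perm (Fin 6)} (h : x ^ 3 = 1) (h1 : x ≠ 1) :
    x.cycleType = Multiset.replicate (x.support.card / 3) 3 ∧ (x.support.card = 3 ∨ x.support.card = 6) := by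
  haveI : Fact (Nat.Prime 3) := ⟨Nat.prime_three⟩
  have o := orderOf_eq_prime h h1
  obtain ⟨n, e⟩ := Perm.cycleType_prime_order (o ▸ Nat.prime_three)
  have s := x.sum_cycleType
  have l : x.support.card ≤ 6 := x.support.card_le_univ
  rw [e, o, Multiset.sum_replicate, smul_eq_mul] at s
  exact ⟨by rw [e, o, ← s, Nat.mul_div_cancel _ (by decide)], by omega⟩

theorem a6_cent {x y : Perm (Fin 6)} (h : x ^ 3 = 1) (h1 : x ≠ 1) (c : x * y = y * x) (s : Perm.sign y = 1) : y ^ 3 = 1 := by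
  have k : ∀ r : Perm (Fin 6), r ^ 3 = 1 → r ≠ 1 → r.support.card = x.support.card → (∀ y, r * y = y * r → Perm.sign y = 1 →
      y * y * y = 1) → y ^ 3 = 1 := fun r a b d f => by
    obtain ⟨g, rfl⟩ := isConj_iff.1 (Perm.isConj_iff_cycleType_eq.2 ((ct3 a b).1.trans (d ▸ (ct3 h h1).1.symm)))
    have := f (g⁻¹ * y * g) (by rw [show r * (g⁻¹ * y * g) = g⁻¹ * (g * r * g⁻¹ * y) * g by group, c]; group) (by simp [s])
    rw [show y ^ 3 = g * (g⁻¹ * y * g * (g⁻¹ * y * g) * (g⁻¹ * y * g)) * g⁻¹ by rw [pow_three']; group, this]; simp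
  rcases (ct3 h h1).2 with e | e
  · exact k _ (by decide) (by decide) (by rw [e]; decide) fun y a => a6_rep y (.inl a)
  · exact k _ (by decide) (by decide) (by rw [e]; decide) fun y a => a6_rep y (.inr a)

end CA.McL.A

theorem CA.realizeEqns_McL_A0b : True := by
  have := @CA.McL.A.rp.eq_1
  have := @CA.McL.A.rp.eq_2
  have := @CA.McL.A.rp.eq_3
  have := @CA.McL.A.rp.eq_4
  have := @CA.McL.A.rp.eq_5
  have := @CA.McL.A.rp.eq_def
  have := @CA.McL.A.rp.congr_simp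
  have := @CA.McL.A.chi0.eq_1
  have := @CA.McL.A.chi0.eq_def
  have := @CA.McL.A.chi0.congr_simp
  have := @CA.McL.A.td.eq_1
  have := @CA.McL.A.td.eq_def
  have := @CA.McL.A.td.congr_simp
  have := @CA.McL.A.SL5.eq_1
  have := @CA.McL.A.SL5.eq_def
  have := @CA.McL.A.SL5.congr_simp
  have := @CA.McL.A.rq.eq_1
  have := @CA.McL.A.rq.eq_def
  have := @CA.McL.A.rq.congr_simp
  have := @CA.McL.A.tpw.eq_1
  have := @CA.McL.A.tpw.eq_2
  have := @CA.McL.A.tpw.eq_def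
  have := @CA.McL.A.tpw.congr_simp
  have := @CA.McL.A.T5.eq_1
  have := @CA.McL.A.T5.eq_def
  have := @CA.McL.A.T5.congr_simp
  have := @CA.McL.A.mk5.eq_1
  have := @CA.McL.A.mk5.eq_def
  have := @CA.McL.A.mk5.congr_simp
  have := @CA.McL.A.cl.eq_1
  have := @CA.McL.A.cl.eq_def
  have := @CA.McL.A.cl.congr_simp
  have := @CA.McL.A.tm.eq_1
  have := @CA.McL.A.tm.eq_def
  have := @CA.McL.A.tm.congr_simp
  have := @CA.McL.A.tp.eq_1
  have := @CA.McL.A.tp.eq_def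
  have := @CA.McL.A.tp.congr_simp
  have := @CA.McL.A.ti.eq_1
  have := @CA.McL.A.ti.eq_def
  have := @CA.McL.A.ti.congr_simp
  trivial
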