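/-
The 3-local base: first consequences of the hypotheses.
-/
import Cfsg.Agent.McL.A0b
import Cfsg.Agent.FG.Nil

set_option autoImplicit false

namespace CA.McL.A

open Cfsg Subgroup CA.FG

variable {G : Type*} [Group G]

/-- the `3`-elements of a subgroup generate this -/
def gen3 (H : Subgroup G) : Subgroup G := closure {g : G | g ∈ H ∧ ∃ k : ℕ, orderOf g = 3 ^ k}

theorem gen3_le (H : Subgroup G) : gen3 H ≤ H := (closure_le _).2 fun _ h => h.1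

theorem mem_gen3 {H : Subgroup G} {g : G} (h : g ∈ H) {k : ℕ} (e : g ^ 3 ^ k = 1) : g ∈ gen3 H := by
  obtain ⟨j, -, a⟩ := (Nat.dvd_prime_pow Nat.prime_three).1 (orderOf_dvd_of_pow_eq_one e)
  exact subset_closure ⟨h, j, a⟩

theorem gen3_norm (H : Subgroup G) : H ≤ 𝒩(gen3 H) :=
  norm_closure fun _ ha _ hx => ⟨mul_mem (mul_mem ha hx.1) (inv_mem ha), hx.2.imp fun _ e => by rw [orderOf_conj, e]⟩

/-- the hypotheses in element form -/
structure Hyp (S : Subgroup G) (z : G) (J Q : Subgroup G) (lam : gen3 𝒩(zpowers z) →* SL5)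
    (mu : gen3 𝒩(J) →* alternatingGroup (Fin 6)) : Prop where
  syl : IsSylowOf 3 S ⊤
  oz : orderOf z = 3
  zS : 𝒵(S) = zpowers z
  JS : J ≤ S
  Jc : IsMulCommutative J
  J3 : ∀ a ∈ J, a ^ 3 = 1
  cJ : Nat.card J = 81
  JM : J ≤ gen3 𝒩(J)
  mus : Function.Surjective mu
  muk : ∀ x, mu x = 1 ↔ x.1 ∈ J
  QS : Q ≤ S
  QN : 𝒩(zpowers z) ≤ 𝒩(Q)
  cQ : Nat.card Q = 243
  Q3 : ∀ a ∈ Q, a ^ 3 = 1
  zQ : z ∈ Q
  Qc : ∀ a ∈ Q, ∀ b ∈ Q, a * b * a⁻¹ * b⁻¹ ∈ zpowers z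
  CQ : 𝒞(Q) ≤ zpowers z
  QL : Q ≤ gen3 𝒩(zpowers z)
  lams : Function.Surjective lam
  lamk : ∀ x, lam x = 1 ↔ x.1 ∈ Q

theorem card_ker_sub {H : Type*} [Group H] {L K : Subgroup G} (f : L →* H) (s : Function.Surjective f)
    (k : ∀ x, f x = 1 ↔ x.1 ∈ K) (le : K ≤ L) : Nat.card L = Nat.card K * Nat.card H := by
  have e : f.ker = K.subgroupOf L := by ext x; exact k x
  rw [← f.ker.card_mul_index, index_ker, MonoidHom.range_eq_top.2 s, card_top, e, card_subgroupOf le]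

theorem hyp_of [Finite G] (S : Sylow 3 G) (Z : Subgroup G) (hZ : Z = 𝒵((S : Subgroup G)))
    (J : Subgroup G) (hJS : J ≤ S) (hJcomm : IsMulCommutative J) (hJexp : ∀ a ∈ J, a ^ 3 = 1) (hJcard : Nat.card J = 3 ^ 4)
    (hJM : J ≤ gen3 𝒩(J)) [hJn : (J.subgroupOf (gen3 𝒩(J))).Normal]
    (eM : gen3 𝒩(J) ⧸ J.subgroupOf (gen3 𝒩(J)) ≃* alternatingGroup (Fin 6))
    (Q : Subgroup G) (hQ : Q = (pCore 3 𝒩(Z)).map 𝒩(Z).subtype)
    (hQex : IsExtraspecial 3 Q) (hQcard : Nat.card Q = 3 ^ 5) (hQexp : ∀ a ∈ Q, a ^ 3 = 1)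
    (hQL : Q ≤ gen3 𝒩(Z)) [hQn : (Q.subgroupOf (gen3 𝒩(Z))).Normal] (eL : gen3 𝒩(Z) ⧸ Q.subgroupOf (gen3 𝒩(Z)) ≃* SL5)
    (hiii : 𝒞((pCore 3 𝒞(Z)).map 𝒞(Z).subtype) ≤ (pCore 3 𝒞(Z)).map 𝒞(Z).subtype) :
    ∃ z lam mu, Hyp S z J Q lam mu := by
  have p3 := Nat.prime_three
  rw [pCore_map_subtype p3] at hQ hiii
  have sy := sylow_top p3 S
  have SC : (S : Subgroup G) ≤ 𝒞(Z) := le_cent_symm (hZ ▸ inf_le_right)
  have SN : (S : Subgroup G) ≤ 𝒩(Z) := SC.trans (cent_le_norm _)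
  have QN : 𝒩(Z) ≤ 𝒩(Q) := hQ ▸ pcore_norm _ _
  have QP : IsPGrp 3 Q := hQ ▸ pcore_pGrp _ _
  have QS : Q ≤ S := sy.le_of_norm_le QP le_top (SN.trans QN)
  have e : pCoreOf 3 𝒞(Z) = Q := le_antisymm
    (hQ ▸ pcore_max ⟨(pcore_le _ _).trans (cent_le_norm _), norm_pcore _ (norm_cent le_rfl)⟩ (pcore_pGrp _ _))
    (pcore_max ⟨QS.trans SC, (cent_le_norm _).trans QN⟩ QP)
  rw [e] at hiii
  have c3 : Nat.card (𝒵(Q) : Subgroup G) = 3 := by rw [← center_map_subtype, card_map_of_injective Q.subtype_injective, hQex.2]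
  have ZQ : Z ≤ 𝒵(Q) := le_inf ((le_cent_symm (QS.trans SC)).trans hiii) (le_cent_symm (QS.trans SC))
  have Z0 : Z ≠ ⊥ := hZ ▸ center_nil_ne_bot sy.pGrp.nil (ne_bot_mono QS (ne_bot_of_prime_dvd_card p3 (by rw [hQcard]; decide)))
  have eZ : Z = 𝒵(Q) := (eq_bot_or_eq_of_le_card_prime (c3 ▸ p3) ZQ).resolve_left Z0
  obtain ⟨z, hz, z1⟩ := exists_mem_ne_one Z0
  have ez : Z = zpowers z := eq_zpowers_of_card_prime (by rw [eZ, c3]; exact p3) hz z1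
  subst ez
  refine ⟨z, eL.toMonoidHom.comp (QuotientGroup.mk' _), eM.toMonoidHom.comp (QuotientGroup.mk' _), sy, ?_, hZ.symm, hJS,
    hJcomm, hJexp, hJcard, hJM, eM.surjective.comp (QuotientGroup.mk'_surjective _), fun x => ?_, QS, QN, hQcard, hQexp,
    (ZQ hz).1, fun a ha b hb => ?_, fun x hx => eZ ▸ ⟨hiii hx, hx⟩, hQL,
    eL.surjective.comp (QuotientGroup.mk'_surjective _), fun x => ?_⟩
  · rw [← Nat.card_zpowers, eZ, c3]
  · simp [mem_subgroupOf]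
  · rw [eZ, ← center_map_subtype, ← hQex.1.2.2]
    exact ⟨_, commutator_mem_commutator (mem_top (⟨a, ha⟩ : Q)) (mem_top (⟨b, hb⟩ : Q)), rfl⟩
  · simp [mem_subgroupOf]

theorem card_le_cent [Finite G] (A : Subgroup G) (x : G) (Y : Set G) (h : ∀ a ∈ A, a * x * a⁻¹ ∈ Y) :
    Nat.card A ≤ Y.ncard * Nat.card (A ⊓ 𝒞[x] : Subgroup G) := by
  letI : MulAction A G := MulAction.compHom G ((MulAut.conj (G := G)).comp A.subtype)
  have e : MulAction.stabilizer A x = (𝒞[x]).subgroupOf A := by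
    ext a; rw [mem_subgroupOf, mem_centralizer_singleton_iff, MulAction.mem_stabilizer_iff]
    exact mul_inv_eq_iff_eq_mul
  rw [← (MulAction.stabilizer A x).index_mul_card, MulAction.index_stabilizer, e, card_subgroupOf', inf_comm]
  exact Nat.mul_le_mul_right _ (Set.ncard_le_ncard (fun _ ⟨a, e⟩ => e ▸ h a a.2))

theorem card_mod_cent [Finite G] {A : Subgroup G} {l : G} {p : ℕ} (hp : p.Prime) (o : orderOf l = p) (n : l ∈ 𝒩(A)) :
    Nat.card A ≡ Nat.card (A ⊓ 𝒞[l] : Subgroup G) [MOD p] := by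
  haveI := Fact.mk hp
  letI : MulAction (zpowers l) A := MulAction.compHom A (A.normalizerMonoidHom.comp (inclusion (zpowers_le_of_mem n)))
  have P : IsPGroup p (zpowers l) := IsPGroup.of_card (n := 1) (by rw [Nat.card_zpowers, o, pow_one])
  have := P.card_modEq_card_fixedPoints A
  rwa [show Nat.card (MulAction.fixedPoints (zpowers l) A) = Nat.card (A ⊓ 𝒞[l] : Subgroup G) from ?_] at this
  rw [inf_comm, ← card_subgroupOf']
  refine Nat.card_congr (Equiv.subtypeEquivRight fun a => ⟨fun h => ?_, fun h g => Subtype.ext ?_⟩)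
  · exact mem_centralizer_singleton_iff.2 (mul_inv_eq_iff_eq_mul.1 (congrArg Subtype.val (h ⟨l, mem_zpowers l⟩))).symm
  · exact mul_inv_eq_iff_eq_mul.2 (mem_centralizer_singleton_iff.1
      (cent_singleton_le_of_mem_zpowers g.2 (show a.1 ∈ 𝒞[l] from h))).symm

/-- elements fixing `x` modulo `Z` -/
def St (Z : Subgroup G) (x : G) : Subgroup G where
  carrier := {l | l ∈ 𝒩(Z) ∧ l * x * l⁻¹ * x⁻¹ ∈ Z}
  one_mem' := ⟨one_mem _, by simp⟩
  mul_mem' := fun {a b} ha hb => ⟨mul_mem ha.1 hb.1, by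
    have := mul_mem (conj_mem_of_mem_norm ha.1 hb.2) ha.2
    convert this using 1; group⟩
  inv_mem' := fun {a} ha => ⟨inv_mem ha.1, by
    have := inv_mem (conj_mem_of_mem_norm' ha.1 ha.2)
    convert this using 1; group⟩

theorem St_symm {Z : Subgroup G} {x l : G} (h : l ∈ St Z x) (hx : x ∈ 𝒩(Z)) : x ∈ St Z l :=
  ⟨hx, by have := inv_mem h.2; convert this using 1; group⟩

theorem St_conj {Z : Subgroup G} {x l g : G} (h : l ∈ St Z x) (hg : g ∈ 𝒩(Z)) : g * l * g⁻¹ ∈ St Z (g * x * g⁻¹) :=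
  ⟨mul_mem (mul_mem hg h.1) (inv_mem hg), by have := conj_mem_of_mem_norm hg h.2; convert this using 1; group⟩

theorem St_comm {Z : Subgroup G} {x l : G} (h : l * x = x * l) (hl : l ∈ 𝒩(Z)) : l ∈ St Z x :=
  ⟨hl, by rw [h]; simp⟩

theorem mem_of_sq {H : Subgroup G} {x : G} (h3 : x ^ 3 = 1) (h : x * x ∈ H) : x ∈ H := by
  have := mul_mem h h
  rwa [show x * x * (x * x) = x ^ 3 * x by rw [pow_three']; group, h3, one_mul] at this

variable [Finite G] {S J Q : Subgroup G} {z : G} {lam : gen3 𝒩(zpowers z) →* SL5}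
  {mu : gen3 𝒩(J) →* alternatingGroup (Fin 6)}

namespace Hyp

variable (h : Hyp S z J Q lam mu)
include h

theorem z3 : z ^ 3 = 1 := h.oz ▸ pow_orderOf_eq_one z
theorem cZ : Nat.card (zpowers z) = 3 := by rw [Nat.card_zpowers, h.oz]
theorem ZQ : zpowers z ≤ Q := zpowers_le_of_mem h.zQ
theorem SC : S ≤ 𝒞[z] := mem_cent_iff_le_cent_singleton.1 (h.zS.ge (mem_zpowers z)).2
omit h in
theorem CN : 𝒞[z] ≤ 𝒩(zpowers z) := norm_zpowers_of_cent le_rfl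
theorem SN : S ≤ 𝒩(zpowers z) := h.SC.trans CN
theorem zc {s c : G} (hs : s ∈ 𝒞[z]) (hc : c ∈ zpowers z) : s * c = c * s :=
  mem_centralizer_singleton_iff.1 (cent_singleton_le_of_mem_zpowers hc hs)
theorem S3 {s : G} (hs : s ∈ S) : ∃ k, s ^ 3 ^ k = 1 := by
  obtain ⟨k, e⟩ := (pGrp_iff_card Nat.prime_three).1 h.syl.pGrp
  exact ⟨k, e ▸ pow_card_eq_one_of_mem hs⟩
theorem SL : S ≤ gen3 𝒩(zpowers z) := fun _ hs => (h.S3 hs).elim fun _ e => mem_gen3 (h.SN hs) e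
theorem cL : Nat.card (gen3 𝒩(zpowers z)) = 29160 := by rw [card_ker_sub lam h.lams h.lamk h.QL, h.cQ, card_SL5]
theorem cM : Nat.card (gen3 𝒩(J)) = 29160 := by
  have := two_mul_nat_card_alternatingGroup (α := Fin 6)
  rw [Nat.card_perm, Nat.card_eq_fintype_card (α := Fin 6), Fintype.card_fin, show Nat.factorial 6 = 720 from rfl] at this
  rw [card_ker_sub mu h.mus h.muk h.JM, h.cJ]; omega

theorem LC : gen3 𝒩(zpowers z) ≤ 𝒞[z] := (closure_le _).2 fun g ⟨hg, k, e⟩ => by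
  rcases mem_zp3 h.z3 (conj_mem_of_mem_norm hg (mem_zpowers z)) with a | a | a
  · have : orderOf (g * z * g⁻¹) = 3 := by rw [orderOf_conj, h.oz]
    rw [a, orderOf_one] at this; omega
  · exact mem_centralizer_singleton_iff.2 (mul_inv_eq_iff_eq_mul.1 a)
  · have c : g ^ 2 ∈ 𝒞[z] := mem_centralizer_singleton_iff.2 (mul_inv_eq_iff_eq_mul.1 (by
      rw [show g ^ 2 * z * (g ^ 2)⁻¹ = g * (g * z * g⁻¹) * g⁻¹ by rw [pow_two]; group, a,
        show g * (z * z) * g⁻¹ = g * z * g⁻¹ * (g * z * g⁻¹) by group, a, show z * z * (z * z) = z ^ 3 * z by rw [pow_three']; group, h.z3, one_mul]))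
    exact zpowers_le_of_mem c (mem_zpowers_pow_iff.2 (by rw [e]; exact Nat.Coprime.pow_right k (by decide)))

theorem cS : Nat.card S = 729 := by
  obtain ⟨k, e⟩ := (pGrp_iff_card Nat.prime_three).1 h.syl.pGrp
  have a := card_mul_relIndex h.SL
  have b := IsSylowOf.not_dvd_index (h.syl.of_le h.SL le_top) Nat.prime_three
  rw [h.cL, e] at a
  have : 3 ^ 6 ∣ 3 ^ k := (Nat.Coprime.pow_left 6 ((Nat.Prime.coprime_iff_not_dvd Nat.prime_three).2 b)).dvd_of_dvd_mul_right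
    (a ▸ by decide)
  have k1 := (Nat.pow_dvd_pow_iff_le_right (by decide)).1 this
  have k2 : ¬ 7 ≤ k := fun l => absurd ((pow_dvd_pow 3 l).trans (Dvd.intro _ a)) (by decide)
  rw [e, show k = 6 by omega]; rfl

theorem inS {g : G} (hg : g ∈ 𝒩(S)) {k : ℕ} (e : g ^ 3 ^ k = 1) : g ∈ S :=
  h.syl.le_of_le_norm (K := zpowers g) (pGrp_of_forall_pow Nat.prime_three (k := k) fun _ ⟨i, a⟩ => by
    rw [← a, ← zpow_natCast, ← zpow_mul, mul_comm, zpow_mul, zpow_natCast, e, one_zpow]) le_top (zpowers_le_of_mem hg) (mem_zpowers g)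

theorem cent_card {A : Subgroup G} (a : A ≤ Q) {x : G} (hx : x ∈ Q) : Nat.card A ≤ 3 * Nat.card (A ⊓ 𝒞[x] : Subgroup G) := by
  have := card_le_cent A x ((· * x) '' zpowers z) fun b hb => ⟨_, h.Qc b (a hb) x hx, by simp⟩
  rwa [Set.ncard_image_of_injective _ (mul_left_injective x), ← Nat.card_coe_set_eq, SetLike.coe_sort_coe, h.cZ] at this

theorem card_cases {A : Subgroup G} (a : A ≤ Q) : Nat.card A ≤ 27 ∨ Nat.card A = 81 ∨ A = Q := by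
  obtain ⟨k, l, e⟩ := (Nat.dvd_prime_pow Nat.prime_three (m := 5)).1 (h.cQ ▸ card_dvd_of_le a)
  interval_cases k
  iterate 4 exact .inl (by rw [e]; decide)
  exacts [.inr (.inl e), .inr (.inr (eq_of_le_of_card_ge a (by rw [e, h.cQ]; decide)))]

theorem ab27 {A : Subgroup G} (a : A ≤ Q) (c : IsMulCommutative A) : Nat.card A ≤ 27 := by
  have k := card_le_of_le h.CQ
  rw [h.cZ] at k
  rcases h.card_cases a with e | e | e
  · exact e
  · obtain ⟨x, xQ, xA⟩ := SetLike.not_le_iff_exists.1 (fun l : Q ≤ A => by have := card_le_of_le l; rw [e, h.cQ] at this; omega)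
    have l : A ⊔ zpowers x ≤ Q := sup_le a (zpowers_le_of_mem xQ)
    have lt := card_lt_of_lt (lt_of_le_of_ne (le_sup_left : A ≤ A ⊔ zpowers x) fun q => xA (q ▸ mem_sup_right (mem_zpowers x)))
    have eq : A ⊔ zpowers x = Q := by rcases h.card_cases l with b | b | b; exacts [by omega, by omega, b]
    have b := h.cent_card a xQ
    have : A ⊓ 𝒞[x] ≤ 𝒞(Q) := by
      rw [← eq, cent_sup, cent_zpowers]; exact inf_le_inf_right _ (abelian_iff_le_cent.1 c)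
    have := card_le_of_le this
    omega
  · subst e; have := card_le_of_le (abelian_iff_le_cent.1 c); rw [h.cQ] at this; omega

theorem ab81 {A : Subgroup G} (a : A ≤ S) (c : IsMulCommutative A) (e : 81 ≤ Nat.card A) :
    Nat.card (A ⊓ Q : Subgroup G) = 27 ∧ A ⊔ Q = S ∧ Nat.card A = 81 := by
  have b := card_sup_mul_card_inf (H := A) (K := Q) (.inl (a.trans (h.SN.trans h.QN)))
  have l := card_le_of_le (sup_le a h.QS)
  have k := h.ab27 (inf_le_right : A ⊓ Q ≤ Q) (abelian_of_le c inf_le_left)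
  rw [h.cQ] at b; rw [h.cS] at l
  have : Nat.card (A ⊓ Q : Subgroup G) = 27 ∧ Nat.card (A ⊔ Q : Subgroup G) = 729 ∧ Nat.card A = 81 := by
    refine ⟨?_, ?_, ?_⟩ <;> nlinarith
  exact ⟨this.1, eq_of_le_of_card_ge (sup_le a h.QS) (by rw [this.2.1, h.cS]), this.2.2⟩

theorem cW : Nat.card (J ⊓ Q : Subgroup G) = 27 := (h.ab81 h.JS h.Jc h.cJ.ge).1
theorem JQ : J ⊔ Q = S := (h.ab81 h.JS h.Jc h.cJ.ge).2.1
theorem jc {a b : G} (ha : a ∈ J) (hb : b ∈ J) : a * b = b * a := abelian_iff_forall.1 h.Jc a ha b hb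
theorem dec {s : G} (hs : s ∈ S) : ∃ j ∈ J, ∃ q ∈ Q, j * q = s :=
  (mem_sup_of_left_le_norm (h.JS.trans (h.SN.trans h.QN))).1 (h.JQ ▸ hs)

theorem CW {q : G} (hq : q ∈ Q) (c : q ∈ 𝒞(J ⊓ Q)) : q ∈ J := by
  have a := h.ab27 (sup_le inf_le_right (zpowers_le_of_mem hq) : (J ⊓ Q) ⊔ zpowers q ≤ Q)
    (abelian_sup (abelian_of_le h.Jc inf_le_left) (abelian_zpowers q) (le_cent_symm (zpowers_le_of_mem c)))
  have b : (J ⊓ Q) ⊔ zpowers q ≤ J ⊓ Q := (eq_of_le_of_card_ge le_sup_left (h.cW ▸ a)).ge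
  exact (b (mem_sup_right (mem_zpowers q))).1

theorem zJ : z ∈ J := h.CW h.zQ (cent_anti (inf_le_right.trans h.QS) (h.zS.ge (mem_zpowers z)).2)

theorem CSW {s : G} (hs : s ∈ S) (c : s ∈ 𝒞(J ⊓ Q)) : s ∈ J := by
  obtain ⟨j, hj, q, hq, rfl⟩ := h.dec hs
  exact mul_mem hj (h.CW hq ((mul_mem_cancel_left (cent_anti inf_le_left (abelian_iff_le_cent.1 h.Jc hj))).1 c))

theorem QSt {a b : G} (ha : a ∈ Q) (hb : b ∈ Q) : a ∈ St (zpowers z) b := ⟨h.SN (h.QS ha), h.Qc a ha b hb⟩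

theorem inn {l : G} (hl : l ∈ 𝒞[z]) (a : ∀ q ∈ Q, l ∈ St (zpowers z) q) : l ^ 3 ∈ zpowers z :=
  h.CQ fun q hq => by
    obtain ⟨c, hc, e⟩ : ∃ c ∈ zpowers z, l * q * l⁻¹ = c * q := ⟨_, (a q hq).2, by group⟩
    have k : l * c * l⁻¹ = c := mul_inv_eq_iff_eq_mul.2 (h.zc hl hc)
    have s : ∀ x y : G, l * (x * y) * l⁻¹ = l * x * l⁻¹ * (l * y * l⁻¹) := fun x y => by group
    refine (mul_inv_eq_iff_eq_mul.1 ?_).symm
    rw [show l ^ 3 * q * (l ^ 3)⁻¹ = l * (l * (l * q * l⁻¹) * l⁻¹) * l⁻¹ by rw [pow_three']; group, e, s c q, k, e, s c (c * q), s c q, k, e,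
      show c * (c * (c * q)) = c ^ 3 * q by rw [pow_three']; group, h.Q3 c (h.ZQ hc), one_mul]

theorem five {l : G} (hl : l ∈ 𝒞[z]) (o : orderOf l = 5) : Q ⊓ 𝒞[l] = zpowers z := by
  have a := card_mod_cent (by norm_num) o (h.QN (CN hl))
  have b : zpowers z ≤ Q ⊓ 𝒞[l] := zpowers_le_of_mem ⟨h.zQ, mem_cent_singleton_comm.1 hl⟩
  obtain ⟨k, l5, e⟩ := (Nat.dvd_prime_pow Nat.prime_three (m := 5)).1 (h.cQ ▸ card_dvd_of_le (inf_le_left : Q ⊓ 𝒞[l] ≤ Q))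
  rw [h.cQ, e] at a
  interval_cases k
  all_goals try exact absurd a (by decide)
  · exact (eq_of_le_of_card_ge b (by rw [e, h.cZ]; decide)).symm
  · have q : Q ≤ 𝒞[l] := (eq_of_le_of_card_ge (inf_le_left : Q ⊓ 𝒞[l] ≤ Q) (by rw [e, h.cQ]; decide)).ge.trans inf_le_right
    have := orderOf_dvd_card_of_mem (h.CQ (mem_cent_iff_le_cent_singleton.2 q))
    rw [o, h.cZ] at this; omega

theorem irr {A : Subgroup G} (a : A ≤ Q) (b : z ∈ A) (n : gen3 𝒩(zpowers z) ≤ 𝒩(A)) : A = zpowers z ∨ A = Q := by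
  obtain ⟨l, hl, o⟩ := exists_mem_orderOf_eq (p := 5) (by norm_num) (show 5 ∣ _ by rw [h.cL]; decide)
  have c := card_mod_cent (by norm_num) o (n hl)
  have f := h.five (h.LC hl) o
  rw [show A ⊓ 𝒞[l] = zpowers z from le_antisymm (f ▸ inf_le_inf_right _ a)
    (le_inf (zpowers_le_of_mem b) (f.ge.trans inf_le_right)), h.cZ] at c
  obtain ⟨k, l5, e⟩ := (Nat.dvd_prime_pow Nat.prime_three (m := 5)).1 (h.cQ ▸ card_dvd_of_le a)
  rw [e] at c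
  interval_cases k
  all_goals try exact absurd c (by decide)
  exacts [.inl (eq_of_le_of_card_ge (zpowers_le_of_mem b) (by rw [e, h.cZ]; decide)).symm,
    .inr (eq_of_le_of_card_ge a (by rw [e, h.cQ]; decide))]

theorem lam_eq {x y : gen3 𝒩(zpowers z)} (e : lam x = lam y) : x.1 * y.1⁻¹ ∈ Q :=
  (h.lamk (x * y⁻¹)).1 (by rw [map_mul, map_inv, e, mul_inv_cancel])

theorem V0 {t : gen3 𝒩(zpowers z)} (ht : lam t = -1) : Q ⊓ St (zpowers z) t = zpowers z := by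
  have tN := gen3_le _ t.2
  refine (h.irr inf_le_left ⟨h.zQ, St_comm (h.zc (h.LC t.2) (mem_zpowers z)).symm (h.SN (h.QS h.zQ))⟩
    fun l hl => mem_norm_of_forall fun q hq => ⟨conj_mem_of_mem_norm (h.QN (gen3_le _ hl)) hq.1, ?_⟩).resolve_right fun e => ?_
  · have qN := h.SN (h.QS hq.1)
    have a : (⟨l, hl⟩⁻¹ * t * ⟨l, hl⟩ : gen3 _).1 * t.1⁻¹ ∈ Q := h.lam_eq (by simp [ht])
    have b := St_conj (St_symm (mul_mem (h.QSt a hq.1) (St_symm hq.2 tN)) qN) (gen3_le _ hl)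
    convert b using 2; simp; group
  · have := (h.lamk (t ^ 3)).2 (h.ZQ (h.inn (h.LC t.2) fun q hq => St_symm (e.ge hq).2 tN))
    rw [map_pow, ht] at this
    exact neg_ne_one5 (by simpa [pow_three'] using this)

theorem inv {t : gen3 𝒩(zpowers z)} (ht : lam t = -1) {q : G} (hq : q ∈ Q) : t * q * t.1⁻¹ * q ∈ zpowers z := by
  have tN := gen3_le _ t.2
  have r := conj_mem_of_mem_norm (h.QN tN) hq
  have t2 : t.1 * t.1 ∈ Q := (h.lamk (t * t)).1 (by simp [ht])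
  refine (h.V0 ht).le ⟨mul_mem r hq, St_symm ⟨tN, ?_⟩ (h.SN (h.QS (mul_mem r hq)))⟩
  have := mul_mem (h.Qc _ t2 _ hq) (h.Qc _ hq _ r)
  convert this using 1; group

theorem gen {y : G} (hy : y ∈ Q) (y1 : y ∉ zpowers z) {s s' : gen3 𝒩(zpowers z)} (a : s.1 ∈ St (zpowers z) y)
    (b : s'.1 ∈ St (zpowers z) y) (s3 : lam s ^ 3 = 1) (s1 : s.1 ∉ Q) (s3' : lam s' ^ 3 = 1) : lam s' ∈ zpowers (lam s) := by
  refine (sF1 s3 (fun e => s1 ((h.lamk s).1 e)) s3' (H := ((St (zpowers z) y).subgroupOf _).map lam) ⟨s, a, rfl⟩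
    ⟨s', b, rfl⟩).resolve_right fun ⟨t, c, ht⟩ => y1 (mem_of_sq (h.Q3 y hy) ?_)
  have := mul_mem (inv_mem (show t.1 ∈ St (zpowers z) y from c).2) (h.inv ht hy)
  convert this using 1; group

theorem lam3 {s : gen3 𝒩(zpowers z)} (hs : s.1 ∈ S) : lam s ^ 3 = 1 := by
  obtain ⟨j, hj, q, hq, e⟩ := h.dec hs
  rw [show s = ⟨j, h.SL (h.JS hj)⟩ * ⟨q, h.QL hq⟩ from Subtype.ext e.symm, map_mul, (h.lamk ⟨q, _⟩).2 hq, mul_one, ← map_pow]
  exact (h.lamk _).2 (by show j ^ 3 ∈ Q; rw [h.J3 j hj]; exact one_mem _)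

theorem inS' {s s' : gen3 𝒩(zpowers z)} (hs : s.1 ∈ S) (e : lam s' ∈ zpowers (lam s)) : s'.1 ∈ S := by
  obtain ⟨k, e⟩ := e
  have := h.lam_eq (x := s') (y := s ^ k) (by rw [map_zpow]; exact e.symm)
  exact (mul_mem_cancel_right (inv_mem (zpow_mem hs k))).1 (h.QS this)

theorem WSt {s : G} (hs : s ∈ S) {w : G} (hw : w ∈ J ⊓ Q) : s ∈ St (zpowers z) w := by
  obtain ⟨j, hj, q, hq, rfl⟩ := h.dec hs
  exact mul_mem (St_comm (h.jc hj hw.1) (h.SN (h.JS hj))) (h.QSt hq hw.2)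

theorem CV {s : G} (hs : s ∈ S) (s1 : s ∉ Q) : Q ⊓ St (zpowers z) s = J ⊓ Q := by
  refine (eq_of_le_of_card_ge (show J ⊓ Q ≤ Q ⊓ St (zpowers z) s from fun w hw => ⟨hw.2, St_symm (h.WSt hs hw) (h.SN (h.QS hw.2))⟩) ?_).symm
  rw [h.cW]
  by_contra c
  have c1 : 81 ≤ Nat.card (Q ⊓ St (zpowers z) s : Subgroup G) := by
    rcases h.card_cases (inf_le_left : Q ⊓ St (zpowers z) s ≤ Q) with e | e | e
    exacts [absurd e c, e.ge, by rw [e, h.cQ]; decide]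
  have s3 := h.lam3 (s := ⟨s, h.SL hs⟩) hs
  obtain ⟨d, hd⟩ := sF2 s3 fun e => s1 ((h.lamk _).1 e)
  obtain ⟨l, rfl⟩ := h.lams d
  have lN := gen3_le _ l.2
  set A := Q ⊓ St (zpowers z) s
  have A' : A :^ l ≤ Q := conjg_le_of_mem_norm inf_le_left (h.QN lN)
  have n : A :^ l ≤ 𝒩(A) := fun q hq => mem_norm_of_forall fun x hx => by
    have := mul_mem (show q * x * q⁻¹ * x⁻¹ ∈ A from ?_) hx
    · simpa using this
    · have m := h.Qc q (A' hq) x hx.1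
      exact ⟨h.ZQ m, St_comm (h.zc (h.SC hs) m).symm (h.SN (h.QS (h.ZQ m)))⟩
  have e := card_sup_mul_card_inf (.inr n)
  have l1 := card_le_of_le (sup_le inf_le_left A' : A ⊔ A :^ l ≤ Q)
  rw [card_conjg] at e; rw [h.cQ] at l1
  obtain ⟨y, hy, y1⟩ := SetLike.not_le_iff_exists.1 (fun m : A ⊓ A :^ l ≤ zpowers z => by
    have := card_le_of_le m; rw [h.cZ] at this; nlinarith)
  obtain ⟨x, hx, ex⟩ := mem_conjg'.1 hy.2
  refine hd ?_
  have := h.gen hy.1.1 y1 (s := ⟨s, h.SL hs⟩) (s' := l * ⟨s, h.SL hs⟩ * l⁻¹) (St_symm hy.1.2 (h.SN hs))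
    (ex ▸ St_conj (St_symm hx.2 (h.SN hs)) lN) s3 s1 (by rw [map_mul, map_mul, map_inv, conj_pow, s3]; simp)
  simpa using this

theorem exJ : ∃ s ∈ J, s ∉ Q := SetLike.not_le_iff_exists.1 fun l => by have := h.ab27 l h.Jc; rw [h.cJ] at this; omega

theorem uniq {A : Subgroup G} (a : A ≤ S) (c : IsMulCommutative A) (e : Nat.card A = 81) : A = J := by
  obtain ⟨s, hs, s1⟩ := SetLike.not_le_iff_exists.1 fun l : A ≤ Q => by have := h.ab27 l c; omega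
  have w : A ⊓ Q = J ⊓ Q := eq_of_le_of_card_ge (fun x hx => (h.CV (a hs) s1).le
    ⟨hx.2, St_comm (abelian_iff_forall.1 c x hx.1 s hs) (h.SN (a hx.1))⟩) (by rw [h.cW, (h.ab81 a c e.ge).1])
  exact eq_of_le_of_card_ge (fun x hx => h.CSW (a hx) (w ▸ cent_anti inf_le_left (abelian_iff_le_cent.1 c hx))) (by rw [e, h.cJ])

theorem nJ {g : G} (a : J :^ g ≤ S) : g ∈ 𝒩(J) :=
  conjg_eq_self_iff.1 (h.uniq a (abelian_conjg.2 h.Jc) (by rw [card_conjg, h.cJ]))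

theorem NS : 𝒩(S) ≤ 𝒩(J) := fun _ hg => h.nJ (conjg_le_of_mem_norm h.JS hg)
theorem SJ : S ≤ 𝒩(J) := le_normalizer.trans h.NS
theorem SM : S ≤ gen3 𝒩(J) := fun _ hs => (h.S3 hs).elim fun _ e => mem_gen3 (h.SJ hs) e
theorem NSZ : 𝒩(S) ≤ 𝒩(zpowers z) := h.zS ▸ norm_inf le_rfl (norm_cent le_rfl)

theorem nS {g s : G} (hg : g ∈ 𝒩(zpowers z)) (hs : s ∈ S) (s1 : s ∉ Q) (a : g * s * g⁻¹ ∈ S) : g ∈ 𝒩(S) := by
  have l : Q ⊔ zpowers s ≤ S := sup_le h.QS (zpowers_le_of_mem hs)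
  have lt := card_lt_of_lt (lt_of_le_of_ne (le_sup_left : Q ≤ Q ⊔ zpowers s) fun q => s1 (q ▸ mem_sup_right (mem_zpowers s)))
  obtain ⟨k, l5, e⟩ := (Nat.dvd_prime_pow Nat.prime_three (m := 6)).1 (h.cS ▸ card_dvd_of_le l)
  rw [h.cQ, e] at lt
  have : k = 6 := by interval_cases k <;> first | rfl | exact absurd lt (by decide)
  have eq : Q ⊔ zpowers s = S := eq_of_le_of_card_ge l (by rw [e, this, h.cS]; decide)
  refine mem_norm_of_conjg_le ?_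
  conv_lhs => rw [← eq, conjg_sup, conjg_zpowers, conjg_of_mem_norm (h.QN hg)]
  exact sup_le h.QS (zpowers_le_of_mem a)

theorem star {g b : G} (hg : g ∈ 𝒩(zpowers z)) (hb : b ∈ J ⊓ Q) (b1 : b ∉ zpowers z) (a : g * b * g⁻¹ ∈ J) : g ∈ 𝒩(J) := by
  obtain ⟨s, hs, s1⟩ := h.exJ
  have sL := h.SL (h.JS hs)
  have s3 := h.lam3 (s := ⟨s, sL⟩) (h.JS hs)
  have gL := conj_mem_of_mem_norm (gen3_norm _ hg) sL
  refine h.NS (h.nS hg (h.JS hs) s1 (h.inS' (s := ⟨s, sL⟩) (s' := ⟨_, gL⟩) (h.JS hs) (h.gen (y := g * b * g⁻¹)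
    (conj_mem_of_mem_norm (h.QN hg) hb.2) (fun m => b1 ?_) (St_comm (h.jc hs a) (h.SN (h.JS hs)))
    (St_conj (St_comm (h.jc hs hb.1) (h.SN (h.JS hs))) hg) s3 s1 ?_)))
  · simpa [mul_assoc] using conj_mem_of_mem_norm' hg m
  · rw [← map_pow]; exact (h.lamk _).2 (by show (g * s * g⁻¹) ^ 3 ∈ Q; rw [conj_pow, h.J3 s hs]; simp)

theorem star2 {g s : G} (hg : g ∈ 𝒩(zpowers z)) (hs : s ∈ J) (s1 : s ∉ Q) (a : g * s * g⁻¹ ∈ J) : g ∈ 𝒩(J) :=
  h.NS (h.nS hg (h.JS hs) s1 (h.JS a))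

theorem exW : ∃ b ∈ J ⊓ Q, b ∉ zpowers z :=
  SetLike.not_le_iff_exists.1 fun l => by have := card_le_of_le l; rw [h.cW, h.cZ] at this; omega

theorem CJ : 𝒞(J) ≤ J := fun g hg => by
  have gz : g ∈ 𝒞[z] := cent_le_cent_singleton h.zJ hg
  have gQ := h.QN (CN gz)
  have g3 : g ^ 3 ∈ zpowers z := h.CQ fun q hq => by
    obtain ⟨c, hc, e⟩ : ∃ c ∈ J ⊓ Q, g * q * g⁻¹ = c * q := by
      have m := mul_mem (conj_mem_of_mem_norm gQ hq) (inv_mem hq)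
      refine ⟨_, ⟨h.CW m fun w hw => ?_, m⟩, by group⟩
      have a' : g⁻¹ * w * g = w := by rw [mul_assoc, hg w hw.1]; group
      have b : g * (q⁻¹ * w * q) = q⁻¹ * w * q * g := (hg _ (conj_mem_of_mem_norm' (h.SJ (h.QS hq)) hw.1)).symm
      calc w * (g * q * g⁻¹ * q⁻¹) = g * (g⁻¹ * w * g) * q * g⁻¹ * q⁻¹ := by group
        _ = g * q * g⁻¹ * (g * (q⁻¹ * w * q)) * g⁻¹ * q⁻¹ := by rw [a']; group
        _ = g * q * g⁻¹ * (q⁻¹ * w * q) * q⁻¹ := by rw [b]; group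
        _ = _ := by group
    have k : g * c * g⁻¹ = c := mul_inv_eq_iff_eq_mul.2 (hg c hc.1).symm
    have s : ∀ x y : G, g * (x * y) * g⁻¹ = g * x * g⁻¹ * (g * y * g⁻¹) := fun x y => by group
    refine (mul_inv_eq_iff_eq_mul.1 ?_).symm
    rw [show g ^ 3 * q * (g ^ 3)⁻¹ = g * (g * (g * q * g⁻¹) * g⁻¹) * g⁻¹ by rw [pow_three']; group, e, s c q, k, e, s c (c * q), s c q, k, e,
      show c * (c * (c * q)) = c ^ 3 * q by rw [pow_three']; group, h.Q3 c hc.2, one_mul]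
  obtain ⟨s, hs, s1⟩ := h.exJ
  refine h.CSW (h.inS (h.nS (CN gz) (h.JS hs) s1 ?_) (k := 2) ?_) (cent_anti inf_le_left hg)
  · rw [← hg s hs]; simpa using h.JS hs
  · rw [show 3 ^ 2 = 3 * 3 from rfl, pow_mul]; exact h.Q3 _ (h.ZQ g3)

theorem fus {x g : G} (hx : x ∈ J) (e : x = g * z * g⁻¹) : ∃ n ∈ 𝒩(J), x = n * z * n⁻¹ := by
  have a : S :^ g ≤ 𝒞[x] := by rw [e, ← conjg_cent1]; exact conjg_mono g h.SC
  have b : IsSylowOf 3 (S :^ g) 𝒞[x] := (h.syl.conjg_of_mem (mem_top g)).of_le a le_top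
  obtain ⟨c, hc, l⟩ := sylow_Jsub Nat.prime_three b (h.syl.pGrp.of_le h.JS)
    (mem_cent_iff_le_cent_singleton.1 (abelian_iff_le_cent.1 h.Jc hx))
  have n : g⁻¹ * c ∈ 𝒩(J) := h.nJ (by rw [conjg_mul]; exact le_conjg_iff.1 l)
  refine ⟨_, inv_mem n, ?_⟩
  rw [show (g⁻¹ * c)⁻¹ * z * (g⁻¹ * c)⁻¹⁻¹ = c⁻¹ * (g * z * g⁻¹) * c by group, ← e, mul_assoc,
    ← mem_centralizer_singleton_iff.1 hc, inv_mul_cancel_left]

theorem exM : ∃ m ∈ gen3 𝒩(J), m * z * m⁻¹ ∉ zpowers z := by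
  by_contra! c
  have a : gen3 𝒩(J) ≤ 𝒩(zpowers z) := fun m hm => mem_norm_of_conjg_le (by rw [conjg_zpowers]; exact zpowers_le_of_mem (c m hm))
  have b : gen3 𝒩(J) = gen3 𝒩(zpowers z) :=
    eq_of_le_of_card_ge (closure_mono fun g hg => ⟨a (subset_closure hg), hg.2⟩) (by rw [h.cM, h.cL])
  obtain ⟨s, hs, s1⟩ := h.exJ
  obtain ⟨d, hd⟩ := sF2 (h.lam3 (s := ⟨s, h.SL (h.JS hs)⟩) (h.JS hs)) fun e => s1 ((h.lamk _).1 e)
  obtain ⟨l, rfl⟩ := h.lams d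
  obtain ⟨y, hy, y1⟩ := h.exW
  have m := conj_mem_of_mem_norm (gen3_le _ (b.ge l.2)) hs
  have := h.gen hy.2 y1 (s := ⟨s, h.SL (h.JS hs)⟩) (s' := l * ⟨s, h.SL (h.JS hs)⟩ * l⁻¹) (h.WSt (h.JS hs) hy)
    (h.WSt (h.JS m) hy) (h.lam3 (h.JS hs)) s1 (h.lam3 (h.JS m))
  exact hd (by simpa using this)

theorem conjW {n : G} (hn : n ∈ 𝒩(J)) (a : n * z * n⁻¹ ∈ Q) : n ∈ 𝒩(zpowers z) := by
  have k := h.cent_card le_rfl a
  obtain ⟨r, hr, r1⟩ := SetLike.not_le_iff_exists.1 fun l : Q ⊓ 𝒞[n * z * n⁻¹] ≤ J ⊓ Q => by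
    have := card_le_of_le l; rw [h.cW] at this; rw [h.cQ] at k; omega
  have rJ : r ∉ J := fun m => r1 ⟨m, hr.1⟩
  have rM := h.SM (h.QS hr.1)
  have r3 : mu ⟨r, rM⟩ ^ 3 = 1 := by rw [← map_pow]; exact (h.muk _).2 (by show r ^ 3 ∈ J; rw [h.Q3 r hr.1]; exact one_mem _)
  let C := ((centralizer {mu ⟨r, rM⟩}).comap mu).map (gen3 𝒩(J)).subtype
  have mC : ∀ s (hs : s ∈ gen3 𝒩(J)), s * r * s⁻¹ * r⁻¹ ∈ J → s ∈ C := fun s hs e => ⟨⟨s, hs⟩, by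
    have := (h.muk (⟨s, hs⟩ * ⟨r, rM⟩ * ⟨s, hs⟩⁻¹ * ⟨r, rM⟩⁻¹)).2 e
    rw [map_mul, map_mul, map_mul, map_inv, map_inv, mul_inv_eq_one, mul_inv_eq_iff_eq_mul] at this
    exact mem_centralizer_singleton_iff.2 this, rfl⟩
  have sr : ∀ s ∈ S, ∀ r ∈ S, s * r * s⁻¹ * r⁻¹ ∈ J := fun s hs r hr => by
    obtain ⟨j, hj, q, hq, rfl⟩ := h.dec hs
    obtain ⟨i, hi, p, hp, rfl⟩ := h.dec hr
    have := mul_mem (mul_mem (mul_mem hj (conj_mem_of_mem_norm (h.SJ (h.QS hq)) hi))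
      (zpowers_le_of_mem h.zJ (h.Qc q hq p hp))) (inv_mem (mul_mem hi (conj_mem_of_mem_norm (h.SJ (h.QS hp)) hj)))
    convert this using 1; group
  have e : C = S := h.syl.eq_of_le (pGrp_of_forall_pow Nat.prime_three (k := 2) (by
    rintro _ ⟨c, hc, rfl⟩
    have := a6_cent (x := (mu ⟨r, rM⟩).1) (y := (mu c).1) (congrArg Subtype.val r3)
      (fun e => rJ ((h.muk ⟨r, rM⟩).1 (Subtype.ext e)))
      (congrArg Subtype.val (mem_centralizer_singleton_iff.1 hc).symm) (mu c).2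
    have k := (h.muk (c ^ 3)).1 (by rw [map_pow]; exact Subtype.ext this)
    rw [show 3 ^ 2 = 3 * 3 from rfl, pow_mul]; exact h.J3 _ k))
    (fun s hs => mC s (h.SM hs) (sr s hs r (h.QS hr.1))) le_top
  obtain ⟨s, hs, s1⟩ := h.exJ
  have r' : n⁻¹ * r * n ∈ S := h.inS (h.nS (CN (by
      have := conj_mem_conjg n⁻¹ hr.2
      rw [conjg_cent1] at this; simpa [mul_assoc] using this)) (h.JS hs) s1
    (h.JS (conj_mem_of_mem_norm (mul_mem (mul_mem (inv_mem hn) (h.SJ (h.QS hr.1))) hn) hs))) (k := 1)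
    (by rw [pow_one, show n⁻¹ * r * n = n⁻¹ * r * n⁻¹⁻¹ by simp, conj_pow, h.Q3 r hr.1]; simp)
  refine h.NSZ (mem_norm_of_forall fun x hx => e.le (mC _ (conj_mem_of_mem_norm (gen3_norm _ hn) (h.SM hx)) ?_))
  have := conj_mem_of_mem_norm hn (sr x hx _ r')
  convert this using 1; group

end Hyp

end CA.McL.A

theorem CA.realizeEqns_McL_A1 : True := by
  have := @CA.McL.A.gen3.eq_1.{0}
  have := @CA.McL.A.gen3.eq_def.{0}
  have := @CA.McL.A.gen3.congr_simp.{0}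
  have := @CA.McL.A.St.eq_1.{0}
  have := @CA.McL.A.St.eq_def.{0}
  have := @CA.McL.A.St.congr_simp.{0}
  trivial
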