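/-
The 3-local base: coordinates on `J` and the action of `N(J)`.
-/
import Cfsg.Agent.McL.A0
import Cfsg.Agent.McL.A1

set_option autoImplicit false
set_option synthInstance.maxSize 100000

namespace CA.McL.A

open Cfsg Subgroup CA.FG

variable {G : Type*} [Group G]

/-- coordinates on `J` -/
structure Cd (J Q : Subgroup G) (z : G) (e : V4 → G) : Prop where
  add : ∀ x y, e (x + y) = e x * e y
  inj : Function.Injective e
  mem : ∀ x, e x ∈ J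
  sur : ∀ j ∈ J, ∃ x, e x = j
  hQ : ∀ x, e x ∈ Q ↔ x.1 = 0
  hz : e (0, 0, 0, 1) = z

/-- `g` acts as `A` -/
def Act (e : V4 → G) (g : G) (A : V4 → V4) : Prop := ∀ x, g * e x * g⁻¹ = e (A x)
/-- some element of `K` acts as `A` -/
def In (e : V4 → G) (K : Subgroup G) (A : V4 → V4) : Prop := ∃ g ∈ K, Act e g A

variable {S J Q K : Subgroup G} {z g g' : G} {e : V4 → G} {A B C : V4 → V4}

theorem Act.mul (a : Act e g A) (b : Act e g' B) : Act e (g * g') (A ∘ B) := fun x => by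
  rw [Function.comp, ← a, ← b]; group
theorem act_one : Act e 1 id := fun x => by simp
theorem Act.pow (a : Act e g A) (n : ℕ) : Act e (g ^ n) A^[n] := by
  induction n with
  | zero => simpa using act_one
  | succ n ih => rw [pow_succ]; exact ih.mul a
theorem Act.congr (a : Act e g A) (h : ∀ x, A x = B x) : Act e g B := fun x => h x ▸ a x
theorem Act.inv (a : Act e g A) (h : ∀ x, A (B x) = x) : Act e g⁻¹ B := fun x => by
  conv_lhs => rw [← h x, ← a]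
  group
theorem In.mul (a : In e K A) (b : In e K B) : In e K (A ∘ B) :=
  let ⟨_, g, a⟩ := a; let ⟨_, g', b⟩ := b; ⟨_, mul_mem g g', a.mul b⟩
theorem In.pow (a : In e K A) (n : ℕ) : In e K A^[n] := let ⟨_, g, a⟩ := a; ⟨_, pow_mem g n, a.pow n⟩
theorem In.congr (a : In e K A) (h : ∀ x, A x = B x) : In e K B := let ⟨_, g, a⟩ := a; ⟨_, g, a.congr h⟩
theorem In.mono {L : Subgroup G} (a : In e K A) (h : K ≤ L) : In e L A := let ⟨_, g, a⟩ := a; ⟨_, h g, a⟩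

theorem pw_val {y : G} (h : y ^ 3 = 1) (a b : F3) : y ^ (a + b).val = y ^ a.val * y ^ b.val := by
  rw [ZMod.val_add, ← pow_eq_pow_mod _ h, pow_add]

theorem pw_mem {y : G} (h : y ^ 3 = 1) (n : y ∉ K) : ∀ k : F3, y ^ k.val ∈ K → k = 0 :=
  all3.2 ⟨fun _ => rfl, fun a => absurd (by simpa [ZMod.val_one] using a) n,
    fun a => absurd (mem_of_sq h (by rw [← pow_two]; exact a)) n⟩

namespace Cd

variable (c : Cd J Q z e)
include c

theorem zero : e 0 = 1 := by have := c.add 0 0; rw [add_zero] at this; exact mul_eq_left.1 this.symm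
theorem neg (x : V4) : e (-x) = (e x)⁻¹ := eq_inv_of_mul_eq_one_left (by rw [← c.add, neg_add_cancel, c.zero])
theorem sub (x y : V4) : e (x - y) = e x * (e y)⁻¹ := by rw [sub_eq_add_neg, c.add, c.neg]
theorem nsm (n : ℕ) (x : V4) : e (n • x) = e x ^ n := by
  induction n with
  | zero => simp [c.zero]
  | succ n ih => rw [succ_nsmul, c.add, ih, pow_succ]
theorem smul (k : F3) (x : V4) : e (k • x) = e x ^ k.val := by rw [← c.nsm, ← Nat.cast_smul_eq_nsmul F3, ZMod.natCast_zmod_val]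
theorem eq_one {x : V4} : e x = 1 ↔ x = 0 := by rw [← c.zero, c.inj.eq_iff]
theorem e3 (x : V4) : e x ^ 3 = 1 := by rw [← c.nsm, c.eq_one]; revert x; decide +kernel
theorem ord {x : V4} (h : x ≠ 0) : orderOf (e x) = 3 :=
  haveI : Fact (Nat.Prime 3) := ⟨Nat.prime_three⟩
  orderOf_eq_prime (c.e3 x) (mt c.eq_one.1 h)
theorem memP {x y : V4} : e y ∈ zpowers (e x) ↔ ∃ k : F3, y = k • x :=
  ⟨fun m => by
    rcases mem_zp3 (c.e3 x) m with a | a | a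
    exacts [⟨0, by simpa using c.eq_one.1 a⟩, ⟨1, by simpa using c.inj a⟩, ⟨2, c.inj (by rw [two_smul, c.add, a])⟩],
    fun ⟨k, a⟩ => by rw [a, c.smul]; exact pow_mem (mem_zpowers _) _⟩
theorem memZ {x : V4} : e x ∈ zpowers z ↔ x.1 = 0 ∧ x.2.1 = 0 ∧ x.2.2.1 = 0 := by
  rw [← c.hz, c.memP]; revert x; decide +kernel
theorem ad (a : Act e g A) : Ad A := fun x y => c.inj (by rw [c.add, ← a, ← a, ← a, c.add]; group)
theorem e4 (a : Act e g A) (b : Ad B) (h : E4 A B) : Act e g B := a.congr (h.ext (c.ad a) b)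
theorem in4 (a : In e K A) (b : Ad B) (h : E4 A B) : In e K B := let ⟨_, g, a⟩ := a; ⟨_, g, c.e4 a b h⟩
theorem ex (hg : g ∈ 𝒩(J)) : ∃ A, Act e g A :=
  ⟨fun x => (c.sur _ (conj_mem_of_mem_norm hg (c.mem x))).choose, fun x => (c.sur _ (conj_mem_of_mem_norm hg (c.mem x))).choose_spec.symm⟩
theorem norm [Finite G] (a : Act e g A) : g ∈ 𝒩(J) :=
  mem_norm_of_forall fun j hj => by obtain ⟨x, rfl⟩ := c.sur j hj; rw [a]; exact c.mem _
theorem ainj (a : Act e g A) : Function.Injective A := fun x y h => c.inj (by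
  have := (a x).trans (h ▸ (a y).symm); simpa using this)
theorem conj (a : Act e g A) (b : Act e g' B) (h : ∀ x, C (A x) = A (B x)) : Act e (g * g' * g⁻¹) C := fun y => by
  obtain ⟨x, rfl⟩ := Finite.surjective_of_injective (c.ainj a) y
  rw [h, ← a, ← a, ← b]; group
theorem uni (a : Act e g A) (b : Act e g B) (x : V4) : A x = B x := c.inj ((a x).symm.trans (b x))
theorem triv (hg : g ∈ J) : Act e g id := fun x => by
  obtain ⟨y, rfl⟩ := c.sur g hg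
  rw [← c.add, add_comm, c.add]; simp
theorem cent (a : Act e g A) (b : Act e g' A) : g * g'⁻¹ ∈ 𝒞(J) := fun j hj => by
  obtain ⟨x, rfl⟩ := c.sur j hj
  obtain ⟨y, rfl⟩ := Finite.surjective_of_injective (c.ainj a) x
  conv_lhs => rw [← a]
  conv_rhs => rw [← b]
  group
theorem comp {P : V4 → V4} (a : Ad P) (i : Function.Injective P) (h1 : ∀ x, (P x).1 = x.1) (h3 : P (0, 0, 0, 1) = (0, 0, 0, 1)) :
    Cd J Q z (e ∘ P) :=
  ⟨fun x y => by simp only [Function.comp, a x y, c.add], c.inj.comp i, fun _ => c.mem _, fun j hj => by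
    obtain ⟨x, rfl⟩ := c.sur j hj
    obtain ⟨y, rfl⟩ := Finite.surjective_of_injective i x
    exact ⟨y, rfl⟩, fun x => by rw [Function.comp, c.hQ, h1], by rw [Function.comp, h3, c.hz]⟩

end Cd

theorem In.comp {P : V4 → V4} (a : In e K A) (h : ∀ x, A (P x) = P (B x)) : In (e ∘ P) K B :=
  let ⟨_, g, a⟩ := a; ⟨_, g, fun x => (a (P x)).trans (congrArg e (h x))⟩

theorem Act.uu_pow {a b α β k : F3} (h : Act e g (uu a b α β k)) : ∀ i : F3, ∃ k', Act e (g ^ i.val) (uu (i * a) (i * b) (i * α) (i * β) k') :=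
  all3.2 ⟨⟨0, (h.pow 0).congr fun x => by simp [uu]⟩, ⟨k, (h.pow 1).congr fun x => by simp⟩,
    ⟨_, (h.pow 2).congr fun x => (uu_uu ..).trans (by simp only [two_mul]; rfl)⟩⟩

/-- normalised coordinates -/
structure Co (J Q : Subgroup G) (z : G) (δ : F3) (e : V4 → G) : Prop extends Cd J Q z e where
  hu : ∀ a b, In e Q (ud δ a b)
  h0 : ∃ m ∈ gen3 𝒩(J), e (1, 0, 0, 0) = m * z * m⁻¹

variable [Finite G] {lam : gen3 𝒩(zpowers z) →* SL5} {mu : gen3 𝒩(J) →* alternatingGroup (Fin 6)}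

namespace Hyp

variable (h : Hyp S z J Q lam mu)
include h

theorem ex_cd {y : G} (hy : y ∈ J) (y1 : y ∉ Q) : ∃ e, Cd J Q z e ∧ e (1, 0, 0, 0) = y := by
  obtain ⟨w1, m1, n1⟩ := h.exW
  obtain ⟨w2, m2, n2⟩ := SetLike.not_le_iff_exists.1 fun l : J ⊓ Q ≤ zpowers z ⊔ zpowers w1 => by
    have := Nat.le_of_dvd (Nat.mul_pos Nat.card_pos Nat.card_pos) (card_sup_dvd (H := zpowers z) (K := zpowers w1)
      (.inr ((zpowers_le_of_mem (h.QS m1.2)).trans h.SN)))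
    have a := card_le_of_le l
    have b := Nat.le_of_dvd (by decide) (orderOf_dvd_of_pow_eq_one (h.J3 _ m1.1))
    rw [h.cZ, Nat.card_zpowers] at this; rw [h.cW] at a; omega
  letI : CommGroup J := { (inferInstance : Group J) with mul_comm := h.Jc.1.1 }
  have j3 : ∀ j : J, j ^ 3 = 1 := fun j => Subtype.ext (h.J3 _ j.2)
  let E : Multiplicative V4 →* G := J.subtype.comp (MonoidHom.mk' (fun x => ⟨y, hy⟩ ^ x.toAdd.1.val * ⟨w1, m1.1⟩ ^ x.toAdd.2.1.val *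
    ⟨w2, m2.1⟩ ^ x.toAdd.2.2.1.val * ⟨z, h.zJ⟩ ^ x.toAdd.2.2.2.val) fun a b => by
      simp only [toAdd_mul, Prod.fst_add, Prod.snd_add, pw_val (j3 _)]; ac_rfl)
  have ev : ∀ x : V4, E (.ofAdd x) = y ^ x.1.val * w1 ^ x.2.1.val * w2 ^ x.2.2.1.val * z ^ x.2.2.2.val := fun _ => rfl
  have hQ : ∀ x : V4, E (.ofAdd x) ∈ Q ↔ x.1 = 0 := fun x => by
    rw [ev, mul_mem_cancel_right (pow_mem h.zQ _), mul_mem_cancel_right (pow_mem (show w2 ∈ Q from m2.2) _),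
      mul_mem_cancel_right (pow_mem (show w1 ∈ Q from m1.2) _)]
    exact ⟨pw_mem (h.J3 y hy) y1 _, fun a => by rw [a]; simp⟩
  have inj : Function.Injective E := (injective_iff_map_eq_one E).2 fun x a => by
    obtain ⟨x, rfl⟩ := Multiplicative.ofAdd.surjective x
    have x0 := (hQ x).1 (a ▸ one_mem _)
    rw [ev, x0, ZMod.val_zero, pow_zero, one_mul] at a
    have x2 : x.2.2.1 = 0 := pw_mem (h.J3 _ m2.1) n2 _ (by
      rw [← mul_mem_cancel_left (pow_mem (mem_sup_right (mem_zpowers w1)) x.2.1.val),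
        ← mul_mem_cancel_right (pow_mem (mem_sup_left (mem_zpowers z)) x.2.2.2.val), a]; exact one_mem _)
    rw [x2, ZMod.val_zero, pow_zero, mul_one] at a
    have x1 : x.2.1 = 0 := pw_mem (h.J3 _ m1.1) n1 _ (by
      rw [← mul_mem_cancel_right (pow_mem (mem_zpowers z) x.2.2.2.val), a]; exact one_mem _)
    rw [x1, ZMod.val_zero, pow_zero, one_mul] at a
    have x3 : x.2.2.2 = 0 := pw_mem (K := ⊥) h.z3 (fun b => by have := h.oz; rw [mem_bot.1 b, orderOf_one] at this; omega) _ a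
    exact congrArg Multiplicative.ofAdd (Prod.ext x0 (Prod.ext x1 (Prod.ext x2 x3)))
  have le : E.range ≤ J := by rintro _ ⟨x, rfl⟩; exact Subtype.prop _
  have eq : E.range = J := eq_of_le_of_card_ge le (by rw [h.cJ, ← Nat.card_congr (E.ofInjective inj).toEquiv]; simp)
  refine ⟨fun x => E (.ofAdd x), ⟨fun x y => by rw [ofAdd_add, map_mul], inj.comp Multiplicative.ofAdd.injective,
    fun x => le ⟨_, rfl⟩, fun j hj => (eq.ge hj : ∃ x, E x = j), hQ, ?_⟩, ?_⟩ <;> simp [ev, ZMod.val_one]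

theorem same (c : Cd J Q z e) (a : Act e g A) (b : Act e g' A) : g * g'⁻¹ ∈ J := h.CJ (c.cent a b)
theorem memJ (c : Cd J Q z e) (a : Act e g id) : g ∈ J := by simpa using h.same c a act_one

theorem shape (c : Cd J Q z e) (hg : g ∈ Q) : ∃ a b α β k, Act e g (uu a b α β k) := by
  obtain ⟨A, a⟩ := c.ex (h.SJ (h.QS hg))
  have k : ∀ x : V4, x.1 = 0 → (A x).1 = 0 ∧ (A x).2.1 = x.2.1 ∧ (A x).2.2.1 = x.2.2.1 := fun x hx => by
    have := h.Qc g hg _ ((c.hQ x).2 hx)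
    rw [a, ← c.sub, c.memZ] at this
    simpa [hx, sub_eq_zero] using this
  have k0 : (A (1, 0, 0, 0)).1 = 1 := by
    have := mul_mem hg (conj_mem_of_mem_norm (h.QN (h.SN (h.JS (c.mem (1, 0, 0, 0))))) (inv_mem hg))
    rw [← mul_assoc, ← mul_assoc, a, ← c.sub, c.hQ] at this
    simpa [sub_eq_zero] using this
  have k3 : A (0, 0, 0, 1) = (0, 0, 0, 1) := c.inj (by
    rw [← a, c.hz]; exact mul_inv_eq_iff_eq_mul.2 (mem_centralizer_singleton_iff.1 (h.SC (h.QS hg))))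
  obtain ⟨a1, a2, a3⟩ := k (0, 1, 0, 0) rfl
  obtain ⟨b1, b2, b3⟩ := k (0, 0, 1, 0) rfl
  refine ⟨(A (1, 0, 0, 0)).2.1, (A (1, 0, 0, 0)).2.2.1, (A (0, 1, 0, 0)).2.2.2, (A (0, 0, 1, 0)).2.2.2, (A (1, 0, 0, 0)).2.2.2,
    c.e4 a (ad_uu _ _ _ _ _) ⟨?_, ?_, ?_, ?_⟩⟩ <;> simp [uu, Prod.ext_iff, *]

theorem z0 (c : Cd J Q z e) (hg : g ∈ Q) {k : F3} (a : g * e (1, 0, 0, 0) * g⁻¹ = e (1, 0, 0, k)) : g ∈ J :=
  ((h.CV (h.JS (c.mem (1, 0, 0, 0))) (by rw [c.hQ]; decide)).le ⟨hg, h.SN (h.QS hg), by rw [a, ← c.sub, c.memZ]; simp⟩).1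

theorem ex_uu (c : Cd J Q z e) (a b : F3) : ∃ α β k, In e Q (uu a b α β k) := by
  obtain ⟨q1, m1, n1⟩ := SetLike.not_le_iff_exists.1 fun l : Q ≤ J ⊓ Q => by
    have := card_le_of_le l; rw [h.cW, h.cQ] at this; omega
  obtain ⟨q2, m2, n2⟩ := SetLike.not_le_iff_exists.1 fun l : Q ≤ (J ⊓ Q) ⊔ zpowers q1 => by
    have := Nat.le_of_dvd (Nat.mul_pos Nat.card_pos Nat.card_pos) (card_sup_dvd (H := J ⊓ Q) (K := zpowers q1)
      (.inr ((zpowers_le_of_mem m1).trans (norm_inf (h.QS.trans h.SJ) le_normalizer))))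
    have a := card_le_of_le l
    have b := Nat.le_of_dvd (by decide) (orderOf_dvd_of_pow_eq_one (h.Q3 _ m1))
    rw [h.cW, Nat.card_zpowers] at this; rw [h.cQ] at a; omega
  obtain ⟨a1, b1, α1, β1, k1, s1⟩ := h.shape c m1
  obtain ⟨a2, b2, α2, β2, k2, s2⟩ := h.shape c m2
  have d : a1 * b2 - a2 * b1 ≠ 0 := fun d => by
    have : ∀ a1 b1 a2 b2 : F3, a1 * b2 - a2 * b1 = 0 → (a1 = 0 ∧ b1 = 0) ∨ ∃ i, a2 + i * a1 = 0 ∧ b2 + i * b1 = 0 := by
      decide +kernel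
    rcases this _ _ _ _ d with ⟨rfl, rfl⟩ | ⟨i, e1, e2⟩
    · exact n1 ⟨h.z0 c m1 (k := k1) (by rw [s1]; simp [uu]), m1⟩
    · obtain ⟨k, s⟩ := s1.uu_pow i
      have m := mul_mem m2 (pow_mem m1 i.val)
      have := h.z0 c m (by rw [s2.mul s, Function.comp, uu_uu, e1, e2]; simp [uu]; rfl)
      exact n2 ((mul_mem_cancel_right (pow_mem (mem_sup_right (mem_zpowers q1)) i.val)).1 (mem_sup_left ⟨this, m⟩))
  obtain ⟨x, y, rfl, rfl⟩ := (det_inj _ _ _ _ d).2 a b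
  obtain ⟨k, s⟩ := s1.uu_pow x
  obtain ⟨k', s'⟩ := s2.uu_pow y
  exact ⟨_, _, _, _, mul_mem (pow_mem m1 _) (pow_mem m2 _), (s.mul s').congr (uu_uu _ _ _ _ _ _ _ _ _ _)⟩

theorem ex_co : ∃ δ e, (δ = 1 ∨ δ = 2) ∧ Co J Q z δ e := by
  obtain ⟨m, hm, m1⟩ := h.exM
  obtain ⟨e, c, e0⟩ := h.ex_cd (conj_mem_of_mem_norm (gen3_le _ hm) h.zJ)
    fun a => m1 (conj_mem_of_mem_norm (h.conjW (gen3_le _ hm) a) (mem_zpowers z))
  obtain ⟨α, β, k1, q1, m1, s1⟩ := h.ex_uu c 1 0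
  obtain ⟨β', γ, k2, q2, m2, s2⟩ := h.ex_uu c 0 1
  obtain rfl : β = β' := by
    have a := ((c.triv (zpowers_le_of_mem h.zJ (h.Qc q1 m1 q2 m2))).mul s2).mul s1
    rw [show q1 * q2 * q1⁻¹ * q2⁻¹ * q2 * q1 = q1 * q2 by group] at a
    have := congrArg (fun x : V4 => x.2.2.2) (c.uni a (s1.mul s2) (1, 0, 0, 0))
    simp only [uu, Function.comp, id] at this
    linear_combination -this
  have cb : ∀ i j : F3, ∃ k, In e Q (uu i j (i * α + j * β) (i * β + j * γ) k) := fun i j => by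
    obtain ⟨k, s⟩ := s1.uu_pow i
    obtain ⟨k', s'⟩ := s2.uu_pow j
    exact ⟨_, _, mul_mem (pow_mem m1 _) (pow_mem m2 _), (s.mul s').congr fun x => (uu_uu ..).trans (by simp; rfl)⟩
  have nd : α * γ - β * β ≠ 0 := fun d => by
    obtain ⟨i, j, n, e1, e2⟩ := nondeg _ _ _ d
    obtain ⟨k, q, hq, s⟩ := cb i j
    have := c.uni s (c.triv (h.CW hq fun w hw => by
      obtain ⟨x, rfl⟩ := c.sur w hw.1
      refine (mul_inv_eq_iff_eq_mul.1 ?_).symm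
      rw [s]; congr 1; simp [uu, e1, e2, (c.hQ x).1 hw.2, Prod.ext_iff])) (1, 0, 0, 0)
    simp [uu] at this; tauto
  obtain ⟨δ, i1, j1, i2, j2, hδ, d, f1, f2, f3⟩ := nrm _ _ _ nd
  obtain ⟨l1, u1⟩ := cb i1 j1
  obtain ⟨l2, u2⟩ := cb i2 j2
  let P := lin (1, 0, 0, 0) (0, i1, j1, l1 - 1) (0, i2, j2, l2 - δ) (0, 0, 0, 1)
  have v1 : In (e ∘ P) Q (ud δ 1 0) := u1.comp fun x => by
    simp only [P, lin, ud, uu, Prod.mk.injEq]
    refine ⟨by ring, by ring, by ring, ?_⟩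
    linear_combination x.2.1 * f1 + x.2.2.1 * f3
  have v2 : In (e ∘ P) Q (ud δ 0 1) := u2.comp fun x => by
    simp only [P, lin, ud, uu, Prod.mk.injEq]
    refine ⟨by ring, by ring, by ring, ?_⟩
    linear_combination x.2.2.1 * f2 + x.2.1 * f3
  have o : In (e ∘ P) Q (ud δ 0 0) := ⟨1, one_mem _, act_one.congr fun x => (ud_zero δ x).symm⟩
  have w1 : ∀ a, In (e ∘ P) Q (ud δ a 0) := all3.2 ⟨o, v1, (v1.mul v1).congr fun x => ud_ud ..⟩
  have w2 : ∀ a, In (e ∘ P) Q (ud δ 0 a) := all3.2 ⟨o, v2, (v2.mul v2).congr fun x => ud_ud ..⟩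
  refine ⟨δ, e ∘ P, hδ, c.comp (ad_lin _ _ _ _) ((injective_iff_map_eq_zero (AddMonoidHom.mk' P (ad_lin _ _ _ _))).2 fun x a => ?_)
    (fun x => by simp [P, lin]) (by simp [P, lin]), fun a b => ((w1 a).mul (w2 b)).congr fun x => (ud_ud ..).trans (by simp),
    m, hm, by simp [P, lin, e0]⟩
  change P x = 0 at a
  simp only [P, lin, Prod.ext_iff, Prod.fst_zero, Prod.snd_zero, mul_one, mul_zero, add_zero, zero_add] at a ⊢
  obtain ⟨a1, a2⟩ := (det_inj _ _ _ _ d).1 _ _ a.2.1 a.2.2.1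
  simpa [a.1, a1, a2] using a.2.2.2

variable {δ : F3}

theorem actQ (c : Co J Q z δ e) (hg : g ∈ Q) : ∃ a b, Act e g (ud δ a b) := by
  obtain ⟨a, b, α, β, k, s⟩ := h.shape c.toCd hg
  obtain ⟨q, hq, u⟩ := c.hu (-a) (-b)
  have := c.triv (h.z0 c.toCd (mul_mem hq hg) (by rw [u.mul s]; simp [ud, uu]; rfl))
  obtain ⟨q', hq', u'⟩ := c.hu a b
  have i : Act e q⁻¹ (ud δ a b) := u.inv fun x => by rw [ud_ud]; simp [ud_zero]
  exact ⟨a, b, by simpa using i.mul this⟩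

theorem sing (c : Co J Q z δ e) (hδ : δ = 1 ∨ δ = 2) {n : G} (hn : n ∈ 𝒩(J)) {x : V4} (a : e x = n * z * n⁻¹) : Sgd δ x := by
  classical
  let O : V4 → Prop := fun x => ∃ m ∈ gen3 𝒩(J), e x = m * z * m⁻¹
  have inv : ∀ {g A}, g ∈ gen3 𝒩(J) → Act e g A → ∀ x, O x → O (A x) := fun hg a x ⟨m, hm, b⟩ =>
    ⟨_, mul_mem hg hm, by rw [← a, b]; group⟩
  have ty : ∀ a b x, O (ud δ a b x) ↔ O x := fun a b x => by
    obtain ⟨q, hq, u⟩ := c.hu a b
    obtain ⟨q', hq', u'⟩ := c.hu (-a) (-b)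
    refine ⟨fun o => ?_, inv (h.SM (h.QS hq)) u x⟩
    simpa [ud_ud, ud_zero] using inv (h.SM (h.QS hq')) u' _ o
  have o3 : O (0, 0, 0, 1) := ⟨1, one_mem _, by simp [c.hz]⟩
  have eO : ∀ x, O x ↔ Orb δ (decide (O (0, 0, 0, 2))) (decide (O (1, 0, 0, 1))) (decide (O (1, 0, 0, 2))) (decide (O (2, 0, 0, 0)))
      (decide (O (2, 0, 0, 1))) (decide (O (2, 0, 0, 2))) x = true := fun x => by
    by_cases x0 : x.1 = 0
    · rw [Orb, if_pos x0]
      simp only [Bool.or_eq_true, Bool.and_eq_true, decide_eq_true_eq]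
      refine ⟨fun ⟨m, hm, b⟩ => ?_, fun o => o.elim (fun a => a ▸ o3) fun a => a.1 ▸ a.2⟩
      have m1 := c.memZ.1 (b ▸ conj_mem_of_mem_norm (h.conjW (gen3_le _ hm) (b ▸ (c.hQ x).2 x0)) (mem_zpowers z))
      have m2 : x ≠ 0 := fun y => by have := orderOf_conj z m; rw [← b, y, c.zero, h.oz, orderOf_one] at this; omega
      have : ∀ x : V4, x.1 = 0 ∧ x.2.1 = 0 ∧ x.2.2.1 = 0 → x ≠ 0 → x = (0, 0, 0, 1) ∨ x = (0, 0, 0, 2) := by decide +kernel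
      exact (this x m1 m2).imp id fun y => ⟨y, y ▸ ⟨m, hm, b⟩⟩
    · obtain ⟨a, b, t⟩ := ud_type δ x x0
      rw [Orb, if_neg x0, ← t, ty, t]
      generalize x.1 = i at x0 ⊢
      generalize qf δ x = k
      have o0 : O (1, 0, 0, 0) := c.h0
      revert i k
      refine all3.2 ⟨fun y => absurd rfl y, fun _ => all3.2 ⟨?_, ?_, ?_⟩, fun _ => all3.2 ⟨?_, ?_, ?_⟩⟩ <;>
        simp only [show (2 : F3) * 2 = 1 from rfl, mul_one, mul_zero, show (2 : F3) ≠ 1 by decide, show (2 : F3) ≠ 0 by decide,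
          show (1 : F3) ≠ 2 by decide, one_ne_zero, if_true, if_false, decide_eq_true_eq, o0, one_mul]
  have key : ∀ x, O x → Sgd δ x := fun x o => orb_cnt δ hδ _ _ _ _ _ _ (fun b => by
      obtain ⟨m, hm, b⟩ := of_decide_eq_true b
      obtain ⟨m', hm', b'⟩ := c.h0
      refine decide_eq_true ⟨_, mul_mem hm' hm, ?_⟩
      rw [show m' * m * z * (m' * m)⁻¹ = m' * (m * z * m⁻¹) * m'⁻¹ by group, ← b,
        show ((0, 0, 0, 2) : V4) = -(0, 0, 0, 1) from rfl, show ((2, 0, 0, 0) : V4) = -(1, 0, 0, 0) from rfl, c.neg, c.neg, b', c.hz]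
      group) (by
      letI : MulAction (gen3 𝒩(J)) G := MulAction.compHom G ((MulAut.conj (G := G)).comp (gen3 𝒩(J)).subtype)
      have i : S.relIndex (gen3 𝒩(J)) = 40 := by have := card_mul_relIndex h.SM; rw [h.cS, h.cM] at this; omega
      have d := index_dvd_of_le (show S.subgroupOf _ ≤ MulAction.stabilizer (gen3 𝒩(J)) z from fun s hs =>
        mul_inv_eq_iff_eq_mul.2 (mem_centralizer_singleton_iff.1 (h.SC hs)))
      rw [MulAction.index_stabilizer, show (S.subgroupOf _).index = 40 from i] at d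
      rw [← Set.ncard_coe_finset, ← Set.ncard_image_of_injective _ c.inj]
      convert d
      ext y
      simp only [Finset.coe_filter, Finset.mem_univ, true_and, Set.mem_image, Set.mem_setOf_eq, ← eO]
      refine ⟨fun ⟨x, ⟨m, hm, b⟩, a⟩ => ⟨⟨m, hm⟩, b.symm.trans a⟩, fun ⟨m, b⟩ => ?_⟩
      obtain ⟨x, a⟩ := c.sur _ (conj_mem_of_mem_norm (gen3_le _ m.2) h.zJ)
      exact ⟨x, ⟨m, m.2, a⟩, a.trans b⟩) x ((eO x).1 o)
  obtain ⟨m, hm, k, hk, rfl⟩ := frattini_arg_mem Nat.prime_three (h.syl.of_le h.SM le_top) (gen3_norm _ hn)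
  rw [show m * k * z * (m * k)⁻¹ = m * (k * z * k⁻¹) * m⁻¹ by group] at a
  rcases mem_zp3 h.z3 (conj_mem_of_mem_norm (h.NSZ hk) (mem_zpowers z)) with b | b | b
  · have := orderOf_conj z k; rw [b, h.oz, orderOf_one] at this; omega
  · exact key x ⟨m, hm, b ▸ a⟩
  · have := sgd_neg δ _ (key (-x) ⟨m, hm, by
      rw [c.neg, a, b, inv_eq_iff_mul_eq_one, show m * (z * z) * m⁻¹ * (m * z * m⁻¹) = m * (z * z * z) * m⁻¹ by group,
        ← pow_three', h.z3]; simp⟩)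
    rwa [neg_neg] at this

theorem pres (c : Co J Q z δ e) (hδ : δ = 1 ∨ δ = 2) (a : Act e g A) (x : V4) (s : Sgd δ x) : Sgd δ (A x) := by
  have k : ∀ x n, n ∈ 𝒩(J) → e x = n * z * n⁻¹ → Sgd δ (A x) := fun x n hn b =>
    h.sing c hδ (mul_mem (c.norm a) hn) (by rw [← a, b]; group)
  have ng : ∀ x, A (-x) = -A x := (AddMonoidHom.mk' A (c.ad a)).map_neg
  have : ∀ δ : F3, ∀ x : V4, Sgd δ x → ∃ y, (x = y ∨ x = -y) ∧ (y = (0, 0, 0, 1) ∨ ∃ a b, y = ud δ a b (1, 0, 0, 0)) := by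
    decide +kernel
  obtain ⟨y, b, d⟩ := this δ x s
  have : Sgd δ (A y) := by
    rcases d with rfl | ⟨i, j, rfl⟩
    · exact k _ 1 (one_mem _) (by simp [c.hz])
    · obtain ⟨q, hq, u⟩ := c.hu i j
      obtain ⟨m, hm, b⟩ := c.h0
      exact k _ _ (mul_mem (c.norm u) (gen3_le _ hm)) (by rw [← u, b]; group)
  rcases b with rfl | rfl
  exacts [this, ng y ▸ sgd_neg δ _ this]

theorem ex_co1 : ∃ e, Co J Q z 1 e := by
  obtain ⟨δ, e, rfl | rfl, c⟩ := h.ex_co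
  · exact ⟨e, c⟩
  obtain ⟨m, hm, b⟩ := c.h0
  obtain ⟨A, a⟩ := c.ex (inv_mem (gen3_le _ hm))
  have a0 : A (1, 0, 0, 0) = (0, 0, 0, 1) := c.inj (by rw [← a, b, c.hz]; group)
  have ad := c.ad a
  have := hyp_ex (A (0, 1, 1, 0)) (by rw [← a0, ← ad]; exact h.pres c (.inr rfl) a _ (by decide))
    (by rw [← a0, ← ad, ← ad]; exact h.pres c (.inr rfl) a _ (by decide))
  rw [← a0, ← ad.smul] at this
  exact absurd (congrArg (fun x : V4 => x.2.1) (c.ainj a this)) (by simp)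

variable (c : Co J Q z 1 e)
include c

theorem borel (a : Ad A) (s : ∀ x, Sg x → Sg (A x)) (i : Function.Injective A) {f : F3} (h3 : A (0, 0, 0, 1) = (0, 0, 0, f)) :
    ∃ a b d p q r s, Sim d p q r s f ∧ ∀ x, A x = ux a b (hm d p q r s f x) := by
  have f0 : f ≠ 0 := fun y => (s (0, 0, 0, 1) (by decide)).2.1 (by rw [h3, y]; rfl)
  rcases sg_cases _ (s (1, 0, 0, 0) (by decide)) with ⟨f', -, b⟩ | ⟨d, x, y, d0, b⟩
  · have : A (1, 0, 0, 0) = A ((f' * f) • (0, 0, 0, 1)) := by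
      have : ∀ f f' : F3, f ≠ 0 → ((0, 0, 0, f') : V4) = (f' * f) • (0, 0, 0, f) := by decide
      rw [a.smul, h3, b]; exact this f f' f0
    exact absurd (congrArg Prod.fst (i this)) (by simp)
  · obtain ⟨p, q, r, s, k, l⟩ := h32 ((ad_ud 1 (-x) (-y)).comp a) (fun v w => sg_ux _ _ _ (s v w)) d0 f0
      (by rw [Function.comp, b, ud_ud]; simp [ud_zero]) (by rw [Function.comp, h3]; simp [ud, uu])
    exact ⟨x, y, d, p, q, r, s, k, fun v => by rw [← l, Function.comp, ux, ud_ud]; simp [ud_zero]⟩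

theorem in_nn : In e (gen3 𝒩(J)) nn ∧ In e (gen3 𝒩(J)) ap := by
  obtain ⟨m, hm, b⟩ := c.h0
  obtain ⟨A, a⟩ := c.ex (gen3_le _ hm)
  have a0 : A (0, 0, 0, 1) = (1, 0, 0, 0) := c.inj (by rw [← a, b, c.hz])
  obtain ⟨x, y, d, p, q, r, s, k, l⟩ := h.borel c (ad_nn.comp (c.ad a)) (fun v w => sg_nn _ (h.pres c (.inl rfl) a v w))
    ((Function.LeftInverse.injective nn_nn).comp (c.ainj a)) (f := 1) (by rw [Function.comp, a0]; rfl)
  have u : ∀ a b, In e (gen3 𝒩(J)) (ux a b) := fun a b => (c.hu a b).mono (h.QS.trans h.SM)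
  have v : ∀ a b, In e (gen3 𝒩(J)) (nn ∘ ux a b ∘ nn) := fun i j => by
    obtain ⟨i', j', t⟩ := hm_ux _ _ _ _ _ _ k i j
    obtain ⟨w, hw, u⟩ := u i' j'
    refine ⟨_, mul_mem (mul_mem hm hw) (inv_mem hm), c.conj a u fun v => ?_⟩
    have l' : ∀ v, A v = nn (ux x y (McL.A.hm d p q r s 1 v)) := fun v => by rw [← l, Function.comp, nn_nn]
    have t' := t.ext ((ad_ud _ _ _).comp (ad_hm _ _ _ _ _ _)) ((ad_hm _ _ _ _ _ _).comp (ad_ud _ _ _)) v
    simp only [Function.comp, l', nn_nn] at t' ⊢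
    rw [← t', ux, ux, ud_ud, ud_ud, add_comm i, add_comm j]
  have n := c.in4 ((u 0 1).mul ((v 0 1).mul (u 0 1))) ad_nn w_nn
  exact ⟨n, c.in4 (n.mul ((u 1 1).mul ((v 1 2).mul (u 1 1)))) ad_ap w_ap⟩

omit c in
theorem lamJ {s : G} (hs : s ∈ J) (s1 : s ∉ Q) : lam ⟨s, h.SL (h.JS hs)⟩ ^ 3 = 1 ∧ lam ⟨s, h.SL (h.JS hs)⟩ ≠ 1 :=
  ⟨h.lam3 (h.JS hs), fun e => s1 ((h.lamk _).1 e)⟩

omit c in
theorem ex_co2 : ∃ e, Co J Q z 1 e ∧ In e (gen3 𝒩(zpowers z)) aa := by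
  obtain ⟨e, c⟩ := h.ex_co1
  have n0 : e (1, 0, 0, 0) ∉ Q := by rw [c.hQ]; decide
  obtain ⟨s3, s1⟩ := h.lamJ (c.mem _) n0
  obtain ⟨a', i, a4⟩ := sF3 s3 s1
  obtain ⟨l, rfl⟩ := h.lams a'
  have m := h.inS' (s := ⟨_, h.SL (h.JS (c.mem (1, 0, 0, 0)))⟩) (s' := l * ⟨_, h.SL (h.JS (c.mem (1, 0, 0, 0)))⟩ * l⁻¹)
    (h.JS (c.mem _)) (by rw [map_mul, map_mul, map_inv, i]; exact inv_mem (mem_zpowers _))
  obtain ⟨A, a⟩ := c.ex (h.NS (h.nS (gen3_le _ l.2) (h.JS (c.mem _)) n0 m))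
  obtain ⟨x, y, d, p, q, r, s, k, f⟩ := h.borel c (c.ad a) (h.pres c (.inl rfl) a) (c.ainj a) (f := 1) (c.inj (by
    rw [← a, c.hz]; exact mul_inv_eq_iff_eq_mul.2 (mem_centralizer_singleton_iff.1 (h.LC l.2))))
  obtain ⟨w, hw, u⟩ := c.hu (-x) (-y)
  have b : Act e (w * l) (hm d p q r s 1) := (u.mul a).congr fun v => by rw [Function.comp, f, ud_ud]; simp [ud_zero]
  have el : lam (⟨w, h.QL hw⟩ * l) = lam l := by rw [map_mul, (h.lamk _).2 hw, one_mul]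
  obtain rfl : d = 2 := by
    have : ∀ d : F3, d ≠ 0 → d ≠ 1 → d = 2 := by decide
    refine this d k.1 fun d1 => s1 ?_
    have t : (⟨w, h.QL hw⟩ * l) * ⟨_, h.SL (h.JS (c.mem (1, 0, 0, 0)))⟩ * (⟨w, h.QL hw⟩ * l)⁻¹ =
        (⟨_, h.SL (h.JS (c.mem (1, 0, 0, 0)))⟩ : gen3 _) := Subtype.ext ((b _).trans (by simp [hm, d1]))
    have t' := congrArg lam t
    rw [map_mul, map_mul, map_inv, el, i, inv_eq_iff_mul_eq_one] at t'
    rwa [pow_three', t', one_mul] at s3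
  obtain ⟨i1, i2, t⟩ := h.actQ c ((h.lamk ((⟨w, h.QL hw⟩ * l) ^ 4)).1 (by rw [map_pow, el, a4]))
  have t' := c.uni (b.pow 4) t
  obtain ⟨j, t | t⟩ := a_cases p q r s k ⟨i1, i2, t' _, t' _, t' _, t' _⟩
  · exact ⟨e, c, c.in4 (In.pow ⟨_, mul_mem (h.QL hw) l.2, b⟩ _) ad_aa t⟩
  · refine ⟨e ∘ rr, ⟨c.toCd.comp ad_rr (Function.LeftInverse.injective rr_rr) (fun v => one_mul _) rfl, fun i j =>
      (c.hu i (-j)).comp ((rr_ux i j).ext ((ad_ud _ _ _).comp ad_rr) (ad_rr.comp (ad_ud _ _ _))), c.h0⟩,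
      (In.pow ⟨_, mul_mem (h.QL hw) l.2, b⟩ _).comp (t.ext (((ad_hm _ _ _ _ _ _).iter _).comp ad_rr) (ad_rr.comp ad_aa))⟩

variable (ia : In e (gen3 𝒩(zpowers z)) aa)
include ia

theorem gam1 (a : Act e g A) {f : F3} (h3 : A (0, 0, 0, 1) = (0, 0, 0, f)) :
    ∃ s i j k, s ≠ 0 ∧ Act e g (gm s false 0 0 i j k) := by
  obtain ⟨x, y, d, p, q, r, s, k, l⟩ := h.borel c (c.ad a) (h.pres c (.inl rfl) a) (c.ainj a) h3
  rcases h16 _ _ _ _ _ _ k with ⟨s', k', s0, t⟩ | ⟨i, t1, t2, t3⟩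
  · exact ⟨s', x, y, k', s0, a.congr fun v => by
      rw [l, t.ext (ad_hm _ _ _ _ _ _) (ad_gm _ _ _ _ _ _ _), (ux_gm s' 0 0 x y k' v).2]⟩
  obtain ⟨w, hw, u⟩ := c.hu (-x) (-y)
  have b : Act e (w * g) (hm d p q r s f) := (u.mul a).congr fun v => by rw [Function.comp, l, ud_ud]; simp [ud_zero]
  have n : w * g ∈ 𝒩(zpowers z) := mem_norm_of_conjg_le (by
    rw [conjg_zpowers]; refine zpowers_le_of_mem ?_; rw [← c.hz, b, c.hz, c.memZ]; simp [hm])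
  obtain ⟨l, hl, al⟩ := ia
  have m := mul_mem hl (conj_mem_of_mem_norm (gen3_norm _ n) hl)
  have k := al.mul (c.conj b al (t1.ext ((ad_hm _ _ _ _ _ _).comp (ad_hm _ _ _ _ _ _)) ((ad_hm _ _ _ _ _ _).comp ad_aa)))
  obtain ⟨s3, s1⟩ := h.lamJ (c.mem (1, 0, 0, 0)) (by rw [c.hQ]; decide)
  have := sF4 (y := lam ⟨_, m⟩) s3 s1 (by
    rw [← map_mul, ← map_mul]; exact congrArg lam (Subtype.ext (mul_inv_eq_iff_eq_mul.1 ((k _).trans (congrArg e t2))).symm))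
  obtain ⟨i1, i2, t⟩ := h.actQ c ((h.lamk (⟨_, m⟩ ^ 6)).1 (by rw [map_pow, this]))
  exact absurd (c.uni (k.pow 6) t _) (t3 i1 i2)

theorem gam (hg : g ∈ 𝒩(J)) : ∃ s w a b i j k, s ≠ 0 ∧ Act e g (gm s w a b i j k) := by
  obtain ⟨A, a⟩ := c.ex hg
  rcases sg_cases _ (h.pres c (.inl rfl) a (0, 0, 0, 1) (by decide)) with ⟨f, -, b⟩ | ⟨d, x, y, -, b⟩
  · obtain ⟨s, i, j, k, s0, t⟩ := h.gam1 c ia a b
    exact ⟨s, false, 0, 0, i, j, k, s0, t⟩
  obtain ⟨w, -, u⟩ := c.hu x y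
  obtain ⟨n, -, v⟩ := (h.in_nn c).1
  have u' : Act e w⁻¹ (ux (-x) (-y)) := u.inv fun x => by rw [ud_ud]; simp [ud_zero]
  obtain ⟨s, i, j, k, s0, t⟩ := h.gam1 c ia ((v.inv nn_nn).mul (u'.mul a)) (f := d) (by
    simp only [Function.comp, b, ud_ud]; simp [ud_zero, nn])
  exact ⟨s, true, x, y, i, j, k, s0, by simpa using (u.mul (v.mul t)).congr fun v => (ux_gm s x y i j k v).1⟩

theorem in_el (w : Bool) (a b i j : F3) (k : Fin 8) : In e 𝒩(J) (el w a b i j k) := by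
  have N : ∀ {K A}, In e K A → In e 𝒩(J) A := fun ⟨g, _, a⟩ => ⟨g, c.norm a, a⟩
  obtain ⟨x, y, t⟩ := hq_w k
  have q := c.in4 (((N ia).pow x).mul ((N (h.in_nn c).2).pow y)) (ad_hq k) ⟨t.1.symm, t.2.1.symm, t.2.2.1.symm, t.2.2.2.symm⟩
  cases w
  exacts [(N (c.hu i j)).mul q, (N (c.hu a b)).mul ((N (h.in_nn c).1).mul ((N (c.hu i j)).mul q))]

end Hyp

end CA.McL.A

theorem CA.realizeEqns_McL_A2 : True := by
  have := @CA.McL.A.In.eq_1.{0}
  have := @CA.McL.A.In.eq_def.{0}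
  have := @CA.McL.A.In.congr_simp.{0}
  have := @CA.McL.A.Act.eq_1.{0}
  have := @CA.McL.A.Act.eq_def.{0}
  have := @CA.McL.A.Act.congr_simp.{0}
  trivial
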