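/-
Package B of the McLaughlin characterisation: parts (a) and (e).
-/
import Cfsg.Agent.McL.B0
import Cfsg.Agent.BG.I01

set_option autoImplicit false
set_option linter.unusedSectionVars false

namespace CA.McL

open Cfsg CA.Chr CA.FG Equiv Subgroup Multiplicative
open scoped Classical

theorem lin_three {A : Type*} [Group A] {l : A →* ℂˣ} {a : A} (h : l a ≠ 1) (a3 : a ^ 3 = 1) : l ≠ 1 ∧ l⁻¹ ≠ l :=
  ⟨fun e => h (by rw [e]; rfl), fun e => h (by
    have k : l a * l a = 1 := by nth_rw 1 [← e]; simp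
    have := congrArg l a3
    rwa [map_pow, map_one, pow_three', k, one_mul] at this)⟩

theorem Be (F : Type*) [Group F] [Finite F] (a τ : F) (ha : orderOf a = 3) (hc : 𝒞[a] = zpowers a)
    (τ2 : τ * τ = 1) (hτ : τ * a * τ⁻¹ = a⁻¹) :
    ∃ K : Subgroup F, K.Normal ∧ (∀ y, orderOf y = 2 → ¬ IsConj τ y → y ∈ K) ∧ (a ∉ K ∨ K.index = 2) := by
  have a3 : a ^ 3 = 1 := ha ▸ pow_orderOf_eq_one a
  have a1 : a ≠ 1 := fun e => by simp [e] at ha
  have m3 : ∀ b ∈ zpowers a, b = 1 ∨ b = a ∨ b = a⁻¹ := fun b hb => by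
    obtain ⟨n, rfl⟩ := mem_powers_iff_mem_zpowers.2 hb
    have e : a ^ 2 = a⁻¹ := by rw [eq_inv_iff_mul_eq_one, ← pow_succ, a3]
    simp only
    rw [← pow_mod_orderOf, ha]
    have : n % 3 = 0 ∨ n % 3 = 1 ∨ n % 3 = 2 := by omega
    rcases this with h | h | h <;> simp [h, e]
  have b3 : ∀ b ∈ zpowers a, b ^ 3 = 1 := fun b hb => by rcases m3 b hb with e | e | e <;> simp [e, a3]
  have τi : τ⁻¹ = τ := inv_eq_of_mul_eq_one_right τ2
  have hw : ∀ b ∈ zpowers a, τ⁻¹ * b * τ = b⁻¹ := fun b hb => by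
    have : τ⁻¹ * a * τ = a⁻¹ := by rw [← hτ, τi]
    rcases m3 b hb with e | e | e
    · simp [e]
    · rw [e, this]
    · rw [e, show τ⁻¹ * a⁻¹ * τ = (τ⁻¹ * a * τ)⁻¹ by group, this]
  have ne : ∀ b ∈ zpowers a, b⁻¹ = b → b = 1 := fun b hb e => by
    have := b3 b hb
    rwa [pow_three', show b * b = 1 by nth_rw 1 [← e]; simp, one_mul] at this
  have cz : ∀ b ∈ zpowers a, b ≠ 1 → ∀ x, x⁻¹ * b * x = b → x ∈ zpowers a := fun b hb b1 x k => by
    rw [← hc, mem_centralizer_singleton_iff]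
    have k' : Commute x b := by
      change _ = _; nth_rw 1 [← k]; group
    rcases m3 b hb with e | e | e
    · exact absurd e b1
    · exact (e ▸ k').eq
    · exact (Commute.inv_right_iff.1 (e ▸ k')).eq
  have ti : ∀ b ∈ zpowers a, b ≠ 1 → ∀ x, x⁻¹ * b * x ∈ zpowers a → x ∈ zpowers a ∨ τ⁻¹ * x ∈ zpowers a :=
    fun b hb b1 x k => by
    have : x⁻¹ * b * x = b ∨ x⁻¹ * b * x = b⁻¹ := by
      have k1 : x⁻¹ * b * x ≠ 1 := fun e => b1 (by simpa using (conj_eq_one_iff (a := x⁻¹)).1 (by simpa using e))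
      rcases m3 _ k with e | e | e
      · exact absurd e k1
      · rcases m3 b hb with e' | e' | e'
        exacts [absurd e' b1, Or.inl (e.trans e'.symm), Or.inr (by rw [e, e', inv_inv])]
      · rcases m3 b hb with e' | e' | e'
        exacts [absurd e' b1, Or.inr (e.trans (congrArg _ e'.symm)), Or.inl (e.trans e'.symm)]
    refine this.imp (cz b hb b1 x) fun e => cz b hb b1 _ ?_
    calc _ = x⁻¹ * (τ⁻¹ * b * τ) * x := by rw [mul_inv_rev, inv_inv, τi]; simp only [mul_assoc]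
      _ = (x⁻¹ * b * x)⁻¹ := by rw [hw b hb]; group
      _ = b := by rw [e, inv_inv]
  obtain ⟨l, hl⟩ := exists_lin_ne_one (G := zpowers a) (g := ⟨a, mem_zpowers a⟩) fun e => a1 (congrArg Subtype.val e)
  obtain ⟨l1, l2⟩ := lin_three hl (Subtype.ext a3)
  obtain ⟨K, hK, k1, k2⟩ := kern4 (fun a b => mul_comm' a b) (zpowers a).subtype_injective l1 l2 (w := τ)
    (fun e => a1 (ne a (mem_zpowers a) (by
      rw [range_subtype, ← hc, mem_centralizer_singleton_iff] at e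
      rw [← hτ, e]; group))) (fun b => hw b b.2) fun b b1 x k => by
      rw [range_subtype] at k ⊢; exact ti b b.2 (fun e => b1 (Subtype.ext e)) x k
  refine ⟨K, hK, fun y hy ny => ?_, Or.inl fun e => hl (k1 ⟨a, mem_zpowers a⟩ e)⟩
  have y2 : y * y = 1 := by rw [← pow_two, ← hy, pow_orderOf_eq_one]
  have y3 : ∀ g : F, (g * y * g⁻¹) ^ 3 ≠ 1 := fun g e => by
    rw [conj_pow, conj_eq_one_iff, pow_three', y2, one_mul] at e
    simp [e] at hy
  refine k2 y (fun b e => ?_) fun x b e => by_contra fun b1 => ?_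
  · obtain ⟨g, e⟩ := isConj_iff.1 e.symm
    exact absurd (e ▸ b3 b b.2) (y3 g)
  have b1' : (b : F) ≠ 1 := fun k => b1 (by rw [show b = 1 from Subtype.ext k, map_one])
  obtain ⟨g, e⟩ := isConj_iff.1 e.symm
  have yi : y⁻¹ = y := inv_eq_of_mul_eq_one_right y2
  have : (g * y * g⁻¹)⁻¹ * b * (g * y * g⁻¹) = (b : F)⁻¹ := by
    change _ * (zpowers a).subtype b * _ = ((zpowers a).subtype b)⁻¹
    rw [← e]
    calc _ = g * (x * y * x⁻¹ * y) * g⁻¹ := by group
      _ = g * (x * y⁻¹ * x⁻¹ * y⁻¹) * g⁻¹ := by rw [yi]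
      _ = _ := by group
  rcases ti b b.2 b1' _ (this ▸ inv_mem b.2) with k | k
  · exact y3 g (b3 _ k)
  · set c := τ⁻¹ * (g * y * g⁻¹) with hc'
    refine ny ((isConj_iff.2 ⟨c, ?_⟩).trans (isConj_iff.2 ⟨g, rfl⟩).symm)
    have c3 := b3 c k
    calc _ = τ * (τ⁻¹ * c * τ) * c⁻¹ := by group
      _ = τ * c * (c ^ 3)⁻¹ := by rw [hw c k, pow_three']; group
      _ = _ := by rw [c3, hc']; group

variable {H : Type*} [Group H] [Finite H]

theorem Ba (e : Multiplicative (Fin 2 → ZMod 3) →* H) (he : Function.Injective e) (hC : 𝒞(e.range) ≤ e.range)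
    (hx : ∀ x, x ≠ 1 → Subgroup.centralizer {e x} ≤ Subgroup.normalizer (e.range : Set H))
    (hN : ∀ g ∈ Subgroup.normalizer (e.range : Set H),
      (∀ x, g * e x * g⁻¹ = e x) ∨ ∀ x, g * e x * g⁻¹ = (e x)⁻¹) :
    Subgroup.normalizer (e.range : Set H) = ⊤ := by
  set J := e.range with hJ
  have x3 : ∀ x : Multiplicative (Fin 2 → ZMod 3), x ^ 3 = 1 := by decide
  have ne : ∀ x : Multiplicative (Fin 2 → ZMod 3), x = x⁻¹ → x = 1 := by decide
  have j3 : ∀ x, e x ^ 3 = 1 := fun x => by rw [← map_pow, x3, map_one]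
  have cen : ∀ g, (∀ x, g * e x * g⁻¹ = e x) → g ∈ J := fun g k => hC (mem_centralizer_iff.2 (by
    rintro _ ⟨x, rfl⟩; exact (mul_inv_eq_iff_eq_mul.1 (k x)).symm))
  have hx' : ∀ x ∈ J, x ≠ 1 → 𝒞[x] ≤ 𝒩(J) := by
    rintro _ ⟨x, rfl⟩ x1; exact hx x fun k => x1 (by rw [k, map_one])
  have cJ : ∀ x ∈ J, ∀ y ∈ J, x * y = y * x := by
    rintro _ ⟨x, rfl⟩ _ ⟨y, rfl⟩; rw [← map_mul, mul_comm, map_mul]
  set y0 : Multiplicative (Fin 2 → ZMod 3) := ofAdd ![1, 0] with hy0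
  have sc : ∀ x ∈ J, ∀ y ∈ 𝒩(J), IsConj x y → y ∈ J := by
    rintro _ ⟨x, rfl⟩ y hy k
    refine cen y ((hN y hy).resolve_right fun c => ?_)
    obtain ⟨g, rfl⟩ := isConj_iff.1 k
    set y := g * e x * g⁻¹ with hy
    have y3 : y * y * y = 1 := by rw [← pow_three', hy, conj_pow, j3]; simp
    have : e y0 = e y0⁻¹ := calc
      _ = y * y * y * e y0 * (y * y * y)⁻¹ := by rw [y3]; simp
      _ = y * (y * (y * e y0 * y⁻¹) * y⁻¹) * y⁻¹ := by group
      _ = _ := by rw [c, ← map_inv, c, ← map_inv, c, inv_inv, map_inv]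
    exact absurd (ne _ (he this)) (by decide)
  have hT := fun a (a1 : a ≠ 1) => tiJ hx' sc cJ (a := e a) ⟨a, rfl⟩ fun k => a1 (he (k.trans (map_one e).symm))
  have fus : ∀ a b, IsConj (e a) (e b) → b = a ∨ b = a⁻¹ := fun a b k => by
    obtain ⟨g, k⟩ := isConj_iff.1 k
    by_cases a1 : a = 1
    · left; apply he; rw [← k, a1]; simp
    exact (hN g (hT a a1 g (k ▸ le_normalizer ⟨b, rfl⟩))).imp (fun c => he (k.symm.trans (c a)))
      fun c => he (k.symm.trans ((c a).trans (map_inv e a).symm))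
  obtain ⟨χ, hχ⟩ := exists_lin_ne_one (G := Multiplicative (ZMod 3)) (g := ofAdd 1) (by decide)
  have χ1 : ∀ t, χ t = 1 ↔ t = 1 := fun t => ⟨fun k => by
    have : t = 1 ∨ t = ofAdd 1 ∨ t = (ofAdd 1)⁻¹ := by clear k; revert t; decide
    rcases this with c | c | c
    exacts [c, absurd (c ▸ k) hχ, absurd (by simpa [c] using k) hχ], fun k => by rw [k, map_one]⟩
  have key : ∀ (i : Fin 2) (y : Multiplicative (Fin 2 → ZMod 3)), y ≠ 1 → y.toAdd i = 0 →
      ∃ K : Subgroup H, K.Normal ∧ (∀ a, e a ∈ K → a.toAdd i = 0) ∧ e y ∈ K := fun i y y1 yi => by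
    let l : Multiplicative (Fin 2 → ZMod 3) →* ℂˣ :=
      χ.comp (AddMonoidHom.toMultiplicative (Pi.evalAddMonoidHom (fun _ => ZMod 3) i))
    have hl : ∀ a, l a = 1 ↔ a.toAdd i = 0 := fun a => χ1 _
    obtain ⟨l1, l2⟩ := lin_three (l := l) (a := ofAdd (Pi.single i 1)) (by rw [Ne, hl]; simp) (x3 _)
    have f1 : ∀ a, IsConj (e a) (e y) → l a = 1 := fun a k => by
      rw [hl]; rcases fus _ _ k.symm with c | c <;> simp [c, yi]
    by_cases hw : ∃ w, ∀ x, w * e x * w⁻¹ = (e x)⁻¹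
    · obtain ⟨w, hw⟩ := hw
      obtain ⟨K, hK, k1, k2⟩ := kern4 mul_comm he l1 l2 (w := w⁻¹) (fun c => by
          have := hw y0
          rw [cJ w (inv_mem_iff.1 c) _ ⟨y0, rfl⟩, mul_inv_cancel_right, ← map_inv] at this
          exact absurd (ne _ (he this)) (by decide)) (by simpa using hw) fun a a1 x k => by
        rcases hN x⁻¹ (hT a a1 _ (le_normalizer (by rwa [inv_inv]))) with c | c
        · exact Or.inl (inv_mem_iff.1 (cen _ c))
        · refine Or.inr (inv_mem_iff.1 (cen _ fun b => ?_))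
          calc _ = x⁻¹ * (w⁻¹ * e b * w) * x⁻¹⁻¹ := by group
            _ = x⁻¹ * e b⁻¹ * x⁻¹⁻¹ := by
              have := hw b⁻¹
              rw [map_inv, inv_inv] at this
              rw [← this, map_inv]; group
            _ = _ := by rw [c, map_inv, inv_inv]
      refine ⟨K, hK, fun a k => (hl a).1 (k1 a k), k2 _ f1 fun x a k => ?_⟩
      rcases tri hx' sc cJ (a := e y) (b := x * e y * x⁻¹) ⟨y, rfl⟩ (fun k => y1 (he (k.trans (map_one e).symm)))
        (j3 y) (by rw [conj_pow, j3]; simp) (by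
          obtain ⟨g, k⟩ := isConj_iff.1 k
          rw [← k, conj_pow, j3]; simp) ⟨y, rfl⟩ (isConj_iff.2 ⟨x, rfl⟩) with ⟨b, c⟩ | ⟨-, c⟩
      · rw [← c, ← map_mul] at k
        have := fus _ _ (isConj_iff.2 ⟨x, c.symm⟩)
        rw [hl]
        rcases fus _ _ k.symm with c | c <;> rcases this with d | d <;> simp [c, d, yi]
      · rw [← map_inv] at c
        rw [hl]; rcases fus _ _ (c.trans k.symm) with c | c <;> simp [c, yi]
    · obtain ⟨K, hK, k1, k2⟩ := kern2 he l1 fun a a1 x k => inv_mem_iff.1 (cen _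
        ((hN x⁻¹ (hT a a1 _ (le_normalizer (by rwa [inv_inv])))).resolve_right fun c => hw ⟨_, c⟩))
      exact ⟨K, hK, fun a k => (hl a).1 (k1 a k), k2 _ f1⟩
  obtain ⟨K0, n0, a0, b0⟩ := key 0 (ofAdd ![0, 1]) (by decide) rfl
  obtain ⟨K1, n1, a1, b1⟩ := key 1 y0 (by decide) rfl
  have dj : ∀ r ∈ K0 ⊓ K1, r ∈ J → r = 1 := by
    rintro _ hr ⟨a, rfl⟩
    rw [show a = 1 from toAdd.injective (funext (Fin.forall_fin_two.2 ⟨a0 a hr.1, a1 a hr.2⟩)), map_one]
  have eq := MonoidHom.ofInjective he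
  have cd : Nat.card J = 3 ^ 2 := by rw [← Nat.card_congr eq.toEquiv]; simp
  have R : K0 ⊓ K1 ≤ ⊥ := by
    refine BG.coprime_abelian_gen_cent1_le (A := J) ⟨⟨fun a b => Subtype.ext (cJ _ a.2 _ b.2)⟩⟩ (fun c => ?_)
      (by rw [normalizer_eq_top]; exact le_top) ?_ ?_
    · have := eq.isCyclic.2 c
      obtain ⟨g, hg⟩ := this.exists_ofOrder_eq_natCard
      have := orderOf_dvd_of_pow_eq_one (x3 g)
      rw [hg] at this; simp at this
    · rw [cd]
      refine (Nat.prime_three.coprime_iff_not_dvd.2 fun c => ?_).symm.pow_right _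
      let _ : MulAction J (K0 ⊓ K1 : Subgroup H) :=
        MulAction.compHom _ ((MulAut.conjNormal (H := K0 ⊓ K1)).comp J.subtype)
      have := (IsPGroup.of_card (p := 3) cd).card_modEq_card_fixedPoints (K0 ⊓ K1 : Subgroup H)
      rw [show MulAction.fixedPoints J (K0 ⊓ K1 : Subgroup H) = {1} from Set.eq_singleton_iff_unique_mem.2
        ⟨fun g => map_one (MulAut.conjNormal (g : H)), fun r hr => Subtype.ext (dj _ r.2 (hC (mem_centralizer_iff.2 fun g hg => ?_)))⟩] at this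
      · have := (this.dvd_iff dvd_rfl).1 c
        simp at this
      · exact mul_inv_eq_iff_eq_mul.1 (congrArg Subtype.val (hr ⟨g, hg⟩))
    · rintro _ ⟨a, rfl⟩ a1 r hr
      refine dj r hr.1 (cen r ((hN r (hx' _ ⟨a, rfl⟩ a1 hr.2)).resolve_right fun c => a1 ?_))
      have := c a
      rw [mem_centralizer_singleton_iff.1 hr.2, mul_inv_cancel_right, ← map_inv] at this
      rw [ne a (he this), map_one]
  refine eq_top_iff.2 fun g _ => hT y0 (by decide) g (hx (ofAdd ![0, 1]) (by decide)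
    (mem_centralizer_singleton_iff.2 ?_))
  exact (commute_of_normal_of_disjoint K0 K1 n0 n1 (disjoint_iff_inf_le.2 R) _ _ b0 (n1.conj_mem _ b1 g)).symm.eq

end CA.McL
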