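/-
The 3-local base: centralisers of elements of order three.
-/
import Cfsg.Agent.McL.A2
import Cfsg.Agent.McL.B1

set_option autoImplicit false
set_option synthInstance.maxSize 100000

namespace CA.McL.A

open Cfsg Subgroup CA.FG Equiv

universe u

/-- the statement of the exceptional character results in rank three -/
def BP (P : Perm (Fin 3) → (Fin 3 → F3) → Prop) : Prop :=
  ∀ (H : Type u) [Group H] [Finite H] (e : Multiplicative (Fin 3 → ZMod 3) →* H), Function.Injective e → 𝒞(e.range) ≤ e.range →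
    (∀ x, x ≠ 1 → centralizer {e x} ≤ 𝒩(e.range)) →
    (∀ g ∈ 𝒩(e.range), ∃ σ s, P σ s ∧ ∀ x, g * e (.ofAdd x) * g⁻¹ = e (.ofAdd (mon σ s x))) →
    (∀ σ s, P σ s → ∃ g, ∀ x, g * e (.ofAdd x) * g⁻¹ = e (.ofAdd (mon σ s x))) →
    (∀ g, g * e (.ofAdd fun _ => 1) * g⁻¹ ∈ 𝒩(e.range) → g * e (.ofAdd fun _ => 1) * g⁻¹ ∈ e.range) → 𝒩(e.range) = ⊤

variable {G : Type u} [Group G] {S J Q K : Subgroup G} {z g g' : G} {e : V4 → G} {A B C : V4 → V4}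

theorem Cd.div (c : Cd J Q z e) (a : Act e g (B ∘ A)) (b : Act e g' A) : Act e (g * g'⁻¹) B := fun y => by
  obtain ⟨x, rfl⟩ := Finite.surjective_of_injective (c.ainj b) y
  rw [← b, ← Function.comp_apply (f := B), ← a]; group

/-- the subgroup of `J` belonging to a subspace -/
def Cd.sg (c : Cd J Q z e) (T : AddSubgroup V4) : Subgroup G where
  carrier := {g | ∃ x ∈ T, e x = g}
  one_mem' := ⟨0, zero_mem _, c.zero⟩
  mul_mem' := by rintro _ _ ⟨x, a, rfl⟩ ⟨y, b, rfl⟩; exact ⟨_, add_mem a b, c.add x y⟩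
  inv_mem' := by rintro _ ⟨x, a, rfl⟩; exact ⟨_, neg_mem a, c.neg x⟩

theorem sq_gm : ∀ s i j : F3, s ≠ 0 → ∀ k : Fin 8, ∃ i' j', ∃ m : Fin 2, E4 (ux i' j' ∘ (aa ∘ aa)^[m.val]) (gm s false 0 0 i j k)^[2] := by
  decide +kernel

theorem col : ∀ p π : V4, Sg p → Sg (p + π) → Sg (p + π + π) → qf 1 π = 0 := by decide +kernel

variable [Finite G] {lam : gen3 𝒩(zpowers z) →* SL5} {mu : gen3 𝒩(J) →* alternatingGroup (Fin 6)}

namespace Hyp

variable (h : Hyp S z J Q lam mu)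
include h

theorem quo (c : Cd J Q z e) {n : ℕ} (T : AddSubgroup V4) (ι : (Fin n → F3) →+ V4) (hd : ∀ x, ∃ y, x - ι y ∈ T)
    (hi : ∀ y, ι y ∈ T → y = 0) (R : ((Fin n → F3) → Fin n → F3) → Prop)
    (hA : ∀ g ∈ 𝒞(c.sg T), g ∈ 𝒩(J) → ∃ m, R m ∧ ∀ y, g * e (ι y) * g⁻¹ = e (ι (m y)))
    (hx : ∀ g ∈ 𝒞(c.sg T), ∀ y ≠ 0, ∀ k ∈ T, g * e (ι y) * g⁻¹ = e (ι y + k) → g ∈ 𝒩(J)) :
    ∃ (H : Type u) (_ : Group H) (_ : Finite H) (E : Multiplicative (Fin n → F3) →* H), Function.Injective E ∧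
      𝒞(E.range) ≤ E.range ∧ (∀ x, x ≠ 1 → centralizer {E x} ≤ 𝒩(E.range)) ∧
      (∀ g ∈ 𝒩(E.range), ∃ m, R m ∧ ∀ y, g * E (.ofAdd y) * g⁻¹ = E (.ofAdd (m y))) ∧
      (∀ g ∈ 𝒞(c.sg T), ∀ m : (Fin n → F3) → Fin n → F3, (∀ y, g * e (ι y) * g⁻¹ = e (ι (m y))) →
        ∃ g', ∀ y, g' * E (.ofAdd y) * g'⁻¹ = E (.ofAdd (m y))) ∧
      (∀ y, (∀ g, g * e (ι y) * g⁻¹ ∈ 𝒩(J) → g * e (ι y) * g⁻¹ ∈ J) →
        ∀ g', g' * E (.ofAdd y) * g'⁻¹ ∈ 𝒩(E.range) → g' * E (.ofAdd y) * g'⁻¹ ∈ E.range) ∧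
      (𝒩(E.range) = ⊤ → 𝒞(c.sg T) ≤ 𝒩(J)) := by
  have kJ : c.sg T ≤ J := by rintro _ ⟨x, -, rfl⟩; exact c.mem x
  have JC : J ≤ 𝒞(c.sg T) := (abelian_iff_le_cent.1 h.Jc).trans (cent_anti kJ)
  haveI : ((c.sg T).subgroupOf 𝒞(c.sg T)).Normal := normal_subgroupOf_of_normalIn ⟨kJ.trans JC, cent_le_norm _⟩
  let π := QuotientGroup.mk' ((c.sg T).subgroupOf 𝒞(c.sg T))
  have πs : Function.Surjective π := QuotientGroup.mk'_surjective _
  have πe : ∀ a b, π a = π b ↔ a.1⁻¹ * b.1 ∈ c.sg T := fun a b => QuotientGroup.eq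
  let E : Multiplicative (Fin n → F3) →* _ := π.comp (MonoidHom.mk' (fun y => ⟨e (ι y.toAdd), JC (c.mem _)⟩) fun a b =>
    Subtype.ext (by simp only [toAdd_mul, map_add, c.add]; rfl))
  have ev : ∀ y, E (.ofAdd y) = π ⟨e (ι y), JC (c.mem _)⟩ := fun _ => rfl
  have r : ∀ g, π g ∈ E.range ↔ g.1 ∈ J := fun g => ⟨fun ⟨y, a⟩ => (mul_mem_cancel_left (inv_mem (c.mem _))).1 (kJ ((πe _ _).1 a)),
    fun a => by
      obtain ⟨x, a⟩ := c.sur _ a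
      obtain ⟨y, b⟩ := hd x
      exact ⟨.ofAdd y, (πe _ _).2 ⟨_, b, by rw [sub_eq_neg_add, c.add, c.neg, a]; rfl⟩⟩⟩
  have nr : ∀ g, π g ∈ 𝒩(E.range) ↔ g.1 ∈ 𝒩(J) := fun g => ⟨fun a => mem_norm_of_forall fun j hj => (r (g * ⟨j, JC hj⟩ * g⁻¹)).1 (by
      rw [map_mul, map_mul, map_inv]; exact conj_mem_of_mem_norm a ((r _).2 hj)),
    fun a => mem_norm_of_forall fun j hj => by
      obtain ⟨j, rfl⟩ := πs j
      rw [← map_inv, ← map_mul, ← map_mul, r]; exact conj_mem_of_mem_norm a ((r j).1 hj)⟩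
  have cj : ∀ g y y', π g * E (.ofAdd y) * (π g)⁻¹ = E (.ofAdd y') ↔ ∃ k ∈ T, g.1 * e (ι y) * g.1⁻¹ = e (ι y' + k) := fun g y y' => by
    rw [ev, ev, ← map_inv, ← map_mul, ← map_mul, eq_comm, πe]
    exact ⟨fun ⟨k, a, b⟩ => ⟨k, a, by rw [c.add, b]; simp⟩, fun ⟨k, a, b⟩ => ⟨k, a, by
      show _ = (e (ι y'))⁻¹ * (g.1 * e (ι y) * g.1⁻¹); rw [b, c.add]; simp⟩⟩
  refine ⟨_, inferInstance, inferInstance, E, (injective_iff_map_eq_one E).2 fun y a => ?_, fun g hg => ?_, fun y y1 g hg => ?_,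
    fun g hg => ?_, fun g hg m a => ⟨π ⟨g, hg⟩, fun y => (cj _ _ _).2 ⟨0, zero_mem _, by rw [add_zero]; exact a y⟩⟩,
    fun y a g hg => ?_, fun a g hg => (nr ⟨g, hg⟩).1 (a ▸ mem_top _)⟩
  · obtain ⟨k, a, b⟩ := (πe 1 _).1 ((map_one π).trans a.symm)
    exact hi y.toAdd (c.inj (show e k = e (ι y.toAdd) from b.trans (by simp)) ▸ a)
  · obtain ⟨g, rfl⟩ := πs g
    obtain ⟨m, -, a⟩ := hA g g.2 ((nr g).1 (cent_le_norm _ hg))
    refine (r g).2 (h.CJ fun j hj => ?_)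
    obtain ⟨x, rfl⟩ := c.sur j hj
    obtain ⟨y, b⟩ := hd x
    obtain ⟨k, d, f⟩ := (cj g y y).1 (mul_inv_eq_iff_eq_mul.2 (hg _ ⟨_, rfl⟩).symm)
    have k0 : m y - y = 0 := hi _ (by rw [map_sub, c.inj ((a y).symm.trans f)]; simpa using d)
    have := a y
    rw [sub_eq_zero.1 k0, mul_inv_eq_iff_eq_mul] at this
    rw [← sub_add_cancel x (ι y), c.add, mul_assoc, ← this, ← mul_assoc, g.2 _ ⟨_, b, rfl⟩, mul_assoc]
  · obtain ⟨g, rfl⟩ := πs g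
    obtain ⟨k, d, f⟩ := (cj g y.toAdd y.toAdd).1 (mul_inv_eq_iff_eq_mul.2 (mem_centralizer_singleton_iff.1 hg))
    exact (nr g).2 (hx g g.2 _ y1 k d f)
  · obtain ⟨g, rfl⟩ := πs g
    obtain ⟨m, b, a⟩ := hA g g.2 ((nr g).1 hg)
    exact ⟨m, b, fun y => (cj _ _ _).2 ⟨0, zero_mem _, by rw [add_zero]; exact a y⟩⟩
  · obtain ⟨g, rfl⟩ := πs g
    rw [ev, ← map_inv, ← map_mul, ← map_mul] at hg ⊢
    exact (r _).2 (a g ((nr _).1 hg))

theorem Qconj {x : G} (hx : x ∈ Q) : ∃ l ∈ gen3 𝒩(zpowers z), l * x * l⁻¹ ∈ J := by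
  by_cases x1 : x ∈ zpowers z
  · exact ⟨1, one_mem _, by simpa using zpowers_le_of_mem h.zJ x1⟩
  have a := card_le_cent (gen3 𝒩(zpowers z)) x Q fun l hl => conj_mem_of_mem_norm (h.QN (gen3_le _ hl)) hx
  rw [h.cL, ← Nat.card_coe_set_eq, SetLike.coe_sort_coe, h.cQ] at a
  have P : IsPGrp 3 (gen3 𝒩(zpowers z) ⊓ 𝒞[x]) := fun p hp d => by
    obtain ⟨y, hy, o⟩ := exists_mem_orderOf_eq hp d
    have d' : p ∣ 2 ^ 3 * 3 ^ 6 * 5 := d.trans ((card_dvd_of_le inf_le_left).trans (by rw [h.cL]; decide))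
    have c := mem_centralizer_singleton_iff.1 hy.2
    rcases (hp.dvd_mul.1 d').imp_left hp.dvd_mul.1 with (d | d) | d
    · obtain rfl := (Nat.prime_dvd_prime_iff_eq hp Nat.prime_two).1 (hp.dvd_of_dvd_pow d)
      have y2 : y * y = 1 := by rw [← pow_two, ← o, pow_orderOf_eq_one]
      rcases sF5 (x := lam ⟨y, hy.1⟩) (by rw [← map_mul, show (⟨y, hy.1⟩ * ⟨y, hy.1⟩ : gen3 _) = 1 from Subtype.ext y2, map_one])
        with b | b
      · have := orderOf_dvd_of_pow_eq_one (h.Q3 y ((h.lamk _).1 b)); rw [o] at this; omega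
      · exact absurd (mem_of_sq (h.Q3 x hx) (by simpa [c] using h.inv b hx)) x1
    · exact (Nat.prime_dvd_prime_iff_eq hp Nat.prime_three).1 (hp.dvd_of_dvd_pow d)
    · obtain rfl := (Nat.prime_dvd_prime_iff_eq hp (by norm_num)).1 d
      exact absurd ((h.five (h.LC hy.1) o).le ⟨hx, mem_cent_singleton_comm.1 hy.2⟩) x1
  obtain ⟨l, hl, b⟩ := sylow_Jsub Nat.prime_three (h.syl.of_le h.SL le_top) P inf_le_left
  have xQ := conj_mem_of_mem_norm (h.QN (gen3_le _ hl)) hx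
  have d : (gen3 𝒩(zpowers z) ⊓ 𝒞[x]) :^ l ≤ 𝒞[l * x * l⁻¹] := by rw [← conjg_cent1]; exact conjg_mono l inf_le_right
  obtain ⟨s, hs, s1⟩ := SetLike.not_le_iff_exists.1 fun m : (gen3 𝒩(zpowers z) ⊓ 𝒞[x]) :^ l ≤ Q => by
    rcases h.card_cases m with f | f | f
    iterate 2 rw [card_conjg] at f; omega
    have := conj_mem_of_mem_norm' (gen3_le _ hl) (h.CQ (mem_cent_iff_le_cent_singleton.2 (f ▸ d)))
    exact x1 (by convert this using 1; group)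
  exact ⟨l, hl, ((h.CV (b hs) s1).le ⟨xQ, St_comm (mem_centralizer_singleton_iff.1 (d hs)).symm (h.SN (h.QS xQ))⟩).1⟩

variable (c : Co J Q z 1 e)
include c

theorem S3c {s : G} (hs : s ∈ S) (s3 : s ^ 3 = 1) : s ∈ J ∨ s ∈ Q := by
  obtain ⟨j, hj, q, hq, rfl⟩ := h.dec hs
  obtain ⟨x, rfl⟩ := c.sur j hj
  obtain ⟨a, b, u⟩ := h.actQ c hq
  rcases gG5 a b x (c.eq_one.1 (by
    rw [c.add, c.add, ← u (ux a b x), ← u x, ← s3, ← mul_one (_ * (_ * _)), ← h.Q3 q hq, pow_three', pow_three']; group)) with d | ⟨rfl, rfl⟩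
  exacts [.inr (mul_mem ((c.hQ x).2 d) hq), .inl (mul_mem hj (h.memJ c.toCd (u.congr (ud_zero 1))))]

variable (ia : In e (gen3 𝒩(zpowers z)) aa)
include ia

theorem sgP {x : V4} (s : Sg x) : ∃ n A, Act e n A ∧ A (0, 0, 0, 1) = x := by
  obtain ⟨w, k, a, b, f⟩ := gG4a x s
  obtain ⟨n, -, d⟩ := h.in_el c ia w a b 0 0 k
  exact ⟨n, _, d, f⟩

theorem fusS {x y : V4} (s : Sg x) (a : g * e x * g⁻¹ = e y) : Sg y := by
  obtain ⟨n, A, b, rfl⟩ := h.sgP c ia s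
  obtain ⟨m, hm, d⟩ := h.fus (g := g * n) (c.mem y) (by rw [← a, ← b, c.hz]; group)
  exact h.sing c (.inl rfl) hm d

theorem key {x y : V4} (s : Sg x) (i : ∀ k : F3, y ≠ k • x) (a : g * e x * g⁻¹ ∈ zpowers (e x)) (b : g * e y * g⁻¹ ∈ J) :
    g ∈ 𝒩(J) := by
  obtain ⟨n, A, d, rfl⟩ := h.sgP c ia s
  obtain ⟨y, rfl⟩ := Finite.surjective_of_injective (c.ainj d) y
  have nJ := c.norm d
  have f : n⁻¹ * g * n ∈ 𝒩(zpowers z) := mem_norm_of_conjg_le (by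
    rw [conjg_zpowers]; refine zpowers_le_of_mem ?_
    rw [← d, c.hz, ← conjg_zpowers, mem_conjg] at a
    convert a using 1; group)
  have b' : n⁻¹ * g * n * e y * (n⁻¹ * g * n)⁻¹ ∈ J := by
    have := conj_mem_of_mem_norm' nJ b
    rw [← d] at this; convert this using 1; group
  have : n⁻¹ * g * n ∈ 𝒩(J) := by
    by_cases q : e y ∈ Q
    · refine h.star f ⟨c.mem y, q⟩ (fun m => ?_) b'
      obtain ⟨k, rfl⟩ := c.memP.1 (c.hz ▸ m)
      exact i k ((c.ad d).smul k _)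
    · exact h.star2 f (c.mem y) q b'
  simpa [mul_assoc] using mul_mem (mul_mem nJ this) (inv_mem nJ)

theorem zN {y : V4} (s : Sg y) (g : G) (a : g * e y * g⁻¹ ∈ 𝒩(J)) : g * e y * g⁻¹ ∈ J := by
  have x3 : (g * e y * g⁻¹) ^ 3 = 1 := by rw [conj_pow, c.e3]; simp
  obtain ⟨n, hn, b⟩ := sylow_Jsub Nat.prime_three (h.syl.of_le h.SJ le_top) (pGrp_of_card_eq Nat.prime_three
    (by rw [Nat.card_zpowers, orderOf_conj, c.ord s.2.1])) (zpowers_le_of_mem a)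
  have d : n * (g * e y * g⁻¹) * n⁻¹ ∈ J := (h.S3c c (b (conj_mem_conjg n (mem_zpowers _))) (by rw [conj_pow, x3]; simp)).elim id fun q => by
    obtain ⟨l, hl, m⟩ := h.Qconj q
    obtain ⟨x, f⟩ := c.sur _ m
    have s' := h.fusS c ia (g := l * n * g) s (f.trans (by group)).symm
    have x0 := (c.hQ x).1 (f ▸ conj_mem_of_mem_norm (h.QN (gen3_le _ hl)) q)
    have := c.memZ.2 ⟨x0, s'.2.2 x0⟩
    rw [f] at this
    exact zpowers_le_of_mem h.zJ (by simpa [mul_assoc] using conj_mem_of_mem_norm' (gen3_le _ hl) this)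
  simpa [mul_assoc] using conj_mem_of_mem_norm' hn d

theorem fix {p k : V4} (s : Sg p) (a : g * e p * g⁻¹ = e (p + k)) (b : g * e k * g⁻¹ = e k) : qf 1 k = 0 :=
  col p k s (h.fusS c ia s a) (h.fusS c ia (g := g) (h.fusS c ia s a) (by
    rw [c.add, show g * (e p * e k) * g⁻¹ = g * e p * g⁻¹ * (g * e k * g⁻¹) by group, a, b, ← c.add]))

omit h c ia [Finite G] in
/-- the anisotropic plane -/
def T0 : AddSubgroup V4 where
  carrier := {x | x.1 = 0 ∧ x.2.2.2 = 0}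
  zero_mem' := ⟨rfl, rfl⟩
  add_mem' := fun a b => ⟨by simp [a.1, b.1], by simp [a.2, b.2]⟩
  neg_mem' := fun a => ⟨by simp [a.1], by simp [a.2]⟩

theorem actT0 (hg : g ∈ 𝒞(c.sg T0)) (n : g ∈ 𝒩(J)) : Act e g id ∨ Act e g (hm 2 1 0 0 1 2) := by
  obtain ⟨s, w, a, b, i, j, k, s0, t⟩ := h.gam c ia n
  have f : ∀ x ∈ T0, gm s w a b i j k x = x := fun x hx => c.inj (by
    rw [← t]; exact mul_inv_eq_iff_eq_mul.2 (hg _ ⟨x, hx, rfl⟩).symm)
  exact (gG1 s s0 w a b i j k (f _ ⟨rfl, rfl⟩) (f _ ⟨rfl, rfl⟩)).imp (c.e4 t ad_id) (c.e4 t (ad_hm _ _ _ _ _ _))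

theorem CT0 : 𝒞(c.sg T0) ≤ 𝒩(J) := by
  obtain ⟨H, _, _, E, a1, a2, a3, a4, -, -, a5⟩ := h.quo c.toCd T0
    (AddMonoidHom.mk' (fun y : Fin 2 → F3 => ((y 0, 0, 0, y 1) : V4)) fun a b => by simp)
    (fun x => ⟨![x.1, x.2.2.2], by simp, by simp⟩) (fun y a => by ext i; fin_cases i; exacts [a.1, a.2])
    (fun m => m = id ∨ m = Neg.neg) (fun g hg n => (h.actT0 c ia hg n).elim (fun a => ⟨id, .inl rfl, fun y => a _⟩)
      fun a => ⟨_, .inr rfl, fun y => (a _).trans (congrArg e (by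
        simp only [hm, AddMonoidHom.mk'_apply, Pi.neg_apply]; generalize y 0 = a; generalize y 1 = b; revert a b; decide))⟩)
    fun g hg y y0 k hk a => by
      have : ∀ a b : F3, a ≠ 0 ∨ b ≠ 0 → ∃ i j, Sg ((0, i, j, 0) + (a, 0, 0, b)) ∧ ∀ k : F3, (0, 1, 0, 0) ≠ k • ((0, i, j, 0) + (a, 0, 0, b) : V4) := by
        decide +kernel
      obtain ⟨i, j, s, d⟩ := this (y 0) (y 1) (by
        by_contra! b; exact y0 (by ext i; fin_cases i; exacts [b.1, b.2]))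
      have f : ∀ x ∈ T0, g * e x * g⁻¹ = e x := fun x hx => mul_inv_eq_iff_eq_mul.2 (hg _ ⟨x, hx, rfl⟩).symm
      have b : g * e ((0, i, j, 0) + (y 0, 0, 0, y 1)) * g⁻¹ = e ((0, i, j, 0) + (y 0, 0, 0, y 1) + k) := by
        have a' : g * e (y 0, 0, 0, y 1) * g⁻¹ = e ((y 0, 0, 0, y 1) + k) := a
        rw [add_assoc, c.add, c.add (0, i, j, 0), ← a']; conv_rhs => rw [← f (0, i, j, 0) ⟨rfl, rfl⟩]
        group
      have k0 : k = 0 := by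
        have : ∀ k : V4, k.1 = 0 ∧ k.2.2.2 = 0 → qf 1 k = 0 → k = 0 := by decide +kernel
        exact this k hk (h.fix c ia s b (f k hk))
      exact h.key c ia s d (by rw [b, k0, add_zero]; exact mem_zpowers _) (by rw [f _ ⟨rfl, rfl⟩]; exact c.mem _)
  refine a5 (Ba E a1 a2 a3 fun g hg => ?_)
  obtain ⟨m, rfl | rfl, b⟩ := a4 g hg
  exacts [.inl fun x => b x.toAdd, .inr fun x => (b x.toAdd).trans (map_inv E x)]

theorem NT0 (hg : g ∈ 𝒩(c.sg T0)) : g ∈ 𝒩(J) := mem_norm_of_forall fun j hj => by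
  have kJ : c.sg T0 ≤ J := by rintro _ ⟨x, -, rfl⟩; exact c.mem x
  have m := conj_mem_of_mem_norm (norm_cent le_rfl hg) ((abelian_iff_le_cent.1 h.Jc).trans (cent_anti kJ) hj)
  refine (h.actT0 c ia m (h.CT0 c ia m)).elim (h.memJ c.toCd) fun a => ?_
  have := c.uni (a.pow 3) (by rw [conj_pow, h.J3 j hj]; simpa using act_one) (1, 0, 0, 0)
  exact absurd this (by decide)

theorem s1 (n : ¬ In e 𝒩(J) (sc 2)) {s : F3} {w : Bool} {a b i j : F3} {k : Fin 8} (s0 : s ≠ 0) (t : Act e g (gm s w a b i j k)) :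
    s = 1 := by
  obtain ⟨g', -, d⟩ := h.in_el c ia w a b i j k
  have := c.div (B := sc s) t d
  have x : ∀ s : F3, s ≠ 0 → s = 1 ∨ s = 2 := by decide
  exact (x s s0).resolve_right fun y => n ⟨_, c.norm this, y ▸ this⟩

theorem in_gm {s : F3} (n : s = 1 ∨ s = 2 ∧ In e 𝒩(J) (sc 2)) (w : Bool) (a b i j : F3) (k : Fin 8) : In e 𝒩(J) (gm s w a b i j k) := by
  rcases n with rfl | ⟨rfl, n⟩
  exacts [(h.in_el c ia w a b i j k).congr fun x => by simp [gm, sc], n.mul (h.in_el c ia w a b i j k)]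

theorem Cb (Bb : BP.{u} fun σ s => s 0 * s 1 * s 2 = 1 ∧ Perm.sign σ = 1)
    (Bc : BP.{u} fun σ s => s 0 * s 1 * s 2 = ((Perm.sign σ : ℤ) : ZMod 3)) : 𝒞[e (1, 0, 0, 1)] ≤ 𝒩(J) := by
  have mT : ∀ x : V4, x ∈ AddSubgroup.zmultiples ((1, 0, 0, 1) : V4) ↔ ∃ k : F3, x = k • (1, 0, 0, 1) := fun x =>
    ⟨fun ⟨k, a⟩ => ⟨k, by rw [← a, Int.cast_smul_eq_zsmul]⟩, fun ⟨k, a⟩ => ⟨k.val, by
      rw [a]; simp only [natCast_zsmul, ← Nat.cast_smul_eq_nsmul F3, ZMod.natCast_zmod_val]⟩⟩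
  have eT : c.sg (AddSubgroup.zmultiples (1, 0, 0, 1)) = zpowers (e (1, 0, 0, 1)) := by
    refine le_antisymm ?_ (zpowers_le_of_mem ⟨_, AddSubgroup.mem_zmultiples _, rfl⟩)
    rintro _ ⟨x, a, rfl⟩; exact c.memP.2 ((mT x).1 a)
  obtain ⟨H, _, _, E, a1, a2, a3, a4, a5, a6, a7⟩ := h.quo c.toCd (AddSubgroup.zmultiples (1, 0, 0, 1))
    (AddMonoidHom.mk' io fun a b => by simp [io, add_comm])
    (fun x => ⟨![2 * (x.1 - x.2.2.2), x.2.1, x.2.2.1], (mT _).2 (by revert x; decide +kernel)⟩)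
    (fun y a => by
      obtain ⟨k, a⟩ := (mT _).1 a
      have : ∀ k a b c : F3, ((a, b, c, -a) : V4) = k • (1, 0, 0, 1) → a = 0 ∧ b = 0 ∧ c = 0 := by decide +kernel
      obtain ⟨b1, b2, b3⟩ := this k _ _ _ a
      ext i; fin_cases i; exacts [b1, b2, b3])
    (fun m => ∃ σ s, m = mon σ s ∧ s 0 * s 1 * s 2 = ((Perm.sign σ : ℤ) : ZMod 3) ∧ (¬ In e 𝒩(J) (sc 2) → Perm.sign σ = 1))
    (fun g hg n => by
      obtain ⟨s, w, a, b, i, j, k, s0, t⟩ := h.gam c ia n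
      obtain ⟨-, σ, d, s0', s1, s2, f, m⟩ := gG2 s s0 w a b i j k (c.inj (by
        rw [← t]; exact mul_inv_eq_iff_eq_mul.2 (hg _ ⟨_, AddSubgroup.mem_zmultiples _, rfl⟩).symm))
      exact ⟨_, ⟨σ, ![s0', s1, s2], rfl, f, fun x => d (h.s1 c ia x s0 t)⟩, fun y => (t _).trans (congrArg e (m.ext (c.ad t) y))⟩)
    fun g hg y y0 k hk a => by
      have f : ∀ j : F3, g * e (j • (1, 0, 0, 1)) * g⁻¹ = e (j • (1, 0, 0, 1)) := fun j =>
        mul_inv_eq_iff_eq_mul.2 (hg _ ⟨_, (mT _).2 ⟨j, rfl⟩, rfl⟩).symm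
      obtain ⟨k, rfl⟩ := (mT k).1 hk
      have ey : y = ![y 0, y 1, y 2] := by ext i; fin_cases i <;> rfl
      have b : ∀ i j : F3, g * e (i • (1, 0, 0, 1) + j • io y) * g⁻¹ = e ((i + j * k) • (1, 0, 0, 1) + j • io y) := fun i j => by
        have := congrArg (· ^ j.val) (show g * e (io y) * g⁻¹ = e (io y + k • (1, 0, 0, 1)) from a)
        simp only [conj_pow, ← c.smul] at this
        rw [c.add, show g * (e (i • (1, 0, 0, 1)) * e (j • io y)) * g⁻¹ = g * e (i • (1, 0, 0, 1)) * g⁻¹ * (g * e (j • io y) * g⁻¹) by group,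
          f, this, ← c.add, smul_add, smul_smul, add_smul]
        congr 1; abel
      have : ∀ a b c : F3, ![a, b, c] ≠ 0 → qf 1 (io ![a, b, c]) = 1 ∨ ∃ i : F3, Sg (i • (1, 0, 0, 1) + (1 : F3) • io ![a, b, c]) ∧
          ∀ k : F3, (1 : F3) • ((1, 0, 0, 1) : V4) ≠ k • (i • (1, 0, 0, 1) + (1 : F3) • io ![a, b, c]) := by decide +kernel
      rcases this _ _ _ (ey ▸ y0) with q | ⟨i, s, d⟩
      · obtain ⟨p, -, c1, d1, f1, c2, d2, dt, f2⟩ := gG4c _ _ _ q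
        obtain ⟨n, hn, t⟩ := h.in_el c ia true p.1 p.2.1 p.2.2.1 p.2.2.2 0
        have ad := c.ad t
        have : n⁻¹ * g * n ∈ 𝒩(c.sg T0) := mem_norm_of_forall (by
          rintro _ ⟨x, hx, rfl⟩
          obtain ⟨i, j, e1, e2⟩ := (det_inj c1 d1 c2 d2 dt).2 x.2.1 x.2.2.1
          have ex : x = i • (0, c1, d1, 0) + j • (0, c2, d2, 0) := by simp [Prod.ext_iff, hx.1, hx.2, ← e1, ← e2]
          refine ⟨(i + j * k) • (0, c1, d1, 0) + j • (0, c2, d2, 0), ⟨by simp, by simp⟩, ?_⟩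
          rw [show n⁻¹ * g * n * e x * (n⁻¹ * g * n)⁻¹ = n⁻¹ * (g * (n * e x * n⁻¹) * g⁻¹) * n by group, t, ex, ad, ad.smul, ad.smul,
            f1, f2, ← ey, b, ey, ← f1, ← f2, ← ad.smul, ← ad.smul, ← ad, ← t]
          group)
        simpa [mul_assoc] using mul_mem (mul_mem hn (h.NT0 c ia this)) (inv_mem hn)
      · rw [← ey] at s d
        have k0 : k = 0 := by
          have : ∀ k : F3, qf 1 (k • (1, 0, 0, 1)) = 0 → k = 0 := by decide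
          exact this k (h.fix c ia s (by rw [b, one_mul, add_smul]; congr 1; abel) (f k))
        exact h.key c ia s d (by rw [b, k0, mul_zero, add_zero]; exact mem_zpowers _) (by rw [f]; exact c.mem _)
  rw [← cent_zpowers, ← eT]
  have z1 := a6 (fun _ => 1) (h.zN c ia (by decide))
  have ex : ∀ σ (s : Fin 3 → F3), s 0 * s 1 * s 2 = ((Perm.sign σ : ℤ) : ZMod 3) → (Perm.sign σ ≠ 1 → In e 𝒩(J) (sc 2)) →
      ∃ g, ∀ x, g * E (.ofAdd x) * g⁻¹ = E (.ofAdd (mon σ s x)) := fun σ s a b => by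
    obtain ⟨p, -, d, m, f⟩ := gG3 σ _ _ _ a
    obtain ⟨g, -, t⟩ := h.in_gm c ia (d.imp id fun d => ⟨d.1, b d.2⟩) p.2.1 p.2.2.1 p.2.2.2.1 p.2.2.2.2.1 p.2.2.2.2.2.1 p.2.2.2.2.2.2
    rw [show ![s 0, s 1, s 2] = s by ext i; fin_cases i <;> rfl] at m
    exact a5 g (by rw [eT, cent_zpowers]; exact mem_centralizer_singleton_iff.2 (mul_inv_eq_iff_eq_mul.1 ((t _).trans (congrArg e f))))
      _ fun y => (t _).trans (congrArg e (m.ext (c.ad t) y))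
  by_cases n : In e 𝒩(J) (sc 2)
  · refine a7 (Bc H E a1 a2 a3 (fun g hg => ?_) (fun σ s a => ex σ s a fun _ => n) z1)
    obtain ⟨_, ⟨σ, s, rfl, a, -⟩, b⟩ := a4 g hg
    exact ⟨σ, s, a, b⟩
  · refine a7 (Bb H E a1 a2 a3 (fun g hg => ?_) (fun σ s a => ex σ s (by rw [a.1, a.2]; rfl) fun b => absurd a.2 b) z1)
    obtain ⟨_, ⟨σ, s, rfl, a, d⟩, b⟩ := a4 g hg
    exact ⟨σ, s, ⟨by rw [a, d n]; rfl, d n⟩, b⟩

theorem NZ1 (hg : g ∈ 𝒩(zpowers z)) : ∃ l ∈ gen3 𝒩(zpowers z), ∃ n s i j k, g = l * n ∧ s ≠ 0 ∧ Act e n (gm s false 0 0 i j k) := by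
  obtain ⟨l, hl, n, hn, rfl⟩ := frattini_arg_mem Nat.prime_three (h.syl.of_le h.SL le_top) (gen3_norm _ hg)
  obtain ⟨A, a⟩ := c.ex (h.NS hn)
  have := conj_mem_of_mem_norm (h.NSZ hn) (mem_zpowers z)
  rw [← c.hz, a, c.hz, c.memZ] at this
  obtain ⟨s, i, j, k, s0, t⟩ := h.gam1 c ia a (f := (A (0, 0, 0, 1)).2.2.2) (by simp [Prod.ext_iff, this])
  exact ⟨l, hl, n, s, i, j, k, rfl, s0, t⟩

theorem NZsq (hg : g ∈ 𝒩(zpowers z)) : g ^ 2 ∈ gen3 𝒩(zpowers z) := by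
  obtain ⟨l, hl, n, s, i, j, k, rfl, s0, t⟩ := h.NZ1 c ia hg
  obtain ⟨i', j', m, f⟩ := sq_gm s i j s0 k
  obtain ⟨y, hy, b⟩ := c.in4 (((c.hu i' j').mono h.QL).mul ((ia.mul ia).pow m)) ((ad_gm _ _ _ _ _ _ _).iter 2) f
  have := mul_mem (mul_mem hl (conj_mem_of_mem_norm (gen3_norm _ ((mul_mem_cancel_left (gen3_le _ hl)).1 hg)) hl))
    (mul_mem (h.SL (h.JS (h.same c.toCd (t.pow 2) b))) hy)
  convert this using 1; rw [pow_two, pow_two]; group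

theorem cls {x : G} (o : orderOf x = 3) : (∃ g, g * x * g⁻¹ = z) ∨ ∃ g, g * x * g⁻¹ = e (1, 0, 0, 1) := by
  obtain ⟨n, -, b⟩ := sylow_Jsub Nat.prime_three h.syl (pGrp_of_card_eq Nat.prime_three (by rw [Nat.card_zpowers, o])) le_top
  obtain ⟨g, m⟩ : ∃ g, g * x * g⁻¹ ∈ J := (h.S3c c (b (conj_mem_conjg n (mem_zpowers _)))
    (by rw [conj_pow, ← o, pow_orderOf_eq_one]; simp)).elim (fun a => ⟨n, a⟩) fun q => by
      obtain ⟨l, -, m⟩ := h.Qconj q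
      exact ⟨l * n, by convert m using 1; group⟩
  obtain ⟨y, f⟩ := c.sur _ m
  by_cases s : Sg y
  · obtain ⟨k, A, a, rfl⟩ := h.sgP c ia s
    exact .inl ⟨k⁻¹ * g, by rw [show k⁻¹ * g * x * (k⁻¹ * g)⁻¹ = k⁻¹ * (g * x * g⁻¹) * k by group, ← f, ← a, c.hz]; group⟩
  · obtain ⟨w, k', i, j, a, b, rfl⟩ := gG4b y (fun y0 => by
      have := orderOf_conj x g; rw [← f, y0, c.zero, o, orderOf_one] at this; omega) s
    obtain ⟨k, -, a⟩ := h.in_el c ia w a b i j k'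
    exact .inr ⟨k⁻¹ * g, by rw [show k⁻¹ * g * x * (k⁻¹ * g)⁻¹ = k⁻¹ * (g * x * g⁻¹) * k by group, ← f, ← a]; group⟩

theorem t3 (cb : 𝒞[e (1, 0, 0, 1)] ≤ 𝒩(J)) : T3 G := by
  have cG : ∀ A : Subgroup G, ∀ k, Nat.card A = 3 ^ k → ∃ g, A :^ g ≤ S := fun A k a =>
    (sylow_Jsub Nat.prime_three h.syl (pGrp_of_card_eq_pow Nat.prime_three a) le_top).imp fun _ b => b.2
  refine ⟨fun x o r hr d => ?_, fun d => ?_, fun A a b => ?_, fun y o d => ?_⟩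
  · have k : ∀ g y, g * x * g⁻¹ = y → ∀ n, (∀ w ∈ (𝒞[y] : Subgroup G), w ^ n = 1) → r ∣ n := fun g y a n b => by
      rw [← card_conjg _ g, conjg_cent1, a] at d
      obtain ⟨w, hw, o⟩ := exists_mem_orderOf_eq hr d
      exact o ▸ orderOf_dvd_of_pow_eq_one (b w hw)
    have : r ∣ 2 ^ 4 * 3 ^ 6 * 5 := by
      rcases h.cls c ia o with ⟨g, a⟩ | ⟨g, a⟩
      · exact k g _ a _ fun w hw => by
          rw [show 2 ^ 4 * 3 ^ 6 * 5 = 2 * 29160 from rfl, pow_mul, ← h.cL]; exact pow_card_eq_one_of_mem (h.NZsq c ia (CN hw))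
      · refine (k g _ a (12 * 3) fun w hw => ?_).trans (by decide)
        obtain ⟨s, w', a, b, i, j, k, s0, t⟩ := h.gam c ia (cb hw)
        have := (gG2 s s0 w' a b i j k (c.inj (by
          rw [← t]; exact mul_inv_eq_iff_eq_mul.2 (mem_centralizer_singleton_iff.1 hw)))).1
        rw [pow_mul]; exact h.J3 _ (h.memJ c.toCd (c.e4 (t.pow 12) ad_id this))
    rcases (hr.dvd_mul.1 this).imp_left hr.dvd_mul.1 with (d | d) | d
    exacts [(Nat.le_of_dvd (by decide) (hr.dvd_of_dvd_pow d)).trans (by decide),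
      (Nat.le_of_dvd (by decide) (hr.dvd_of_dvd_pow d)).trans (by decide), Nat.le_of_dvd (by decide) d]
  · obtain ⟨A, -, a⟩ := exists_le_card_eq_pow (H := (⊤ : Subgroup G)) Nat.prime_three (by rwa [card_top])
    obtain ⟨g, b⟩ := cG A 7 a
    have := card_le_of_le b
    rw [card_conjg, a, h.cS] at this; omega
  · obtain ⟨g, d⟩ := cG A 5 b
    have := (h.ab81 d (abelian_conjg.2 a) (by rw [card_conjg, b]; decide)).2.2
    rw [card_conjg, b] at this; omega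
  · obtain ⟨A, l, a⟩ := exists_le_card_eq_pow Nat.prime_three d
    obtain ⟨g, b⟩ := cG A 6 a
    have eq : A :^ g = S := eq_of_le_of_card_ge b (by rw [card_conjg, a, h.cS]; decide)
    have m : Q ≤ 𝒞[g * y * g⁻¹] := by rw [← conjg_cent1]; exact h.QS.trans (eq ▸ conjg_mono g l)
    have := orderOf_dvd_card_of_mem (h.CQ (mem_cent_iff_le_cent_singleton.2 m))
    rw [orderOf_conj, o, h.cZ] at this; omega

end Hyp

end CA.McL.A

theorem CA.realizeEqns_McL_A3 : True := by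
  have := @CA.McL.A.Hyp.T0.eq_1
  have := @CA.McL.A.Hyp.T0.eq_def
  have := @CA.McL.A.Hyp.T0.congr_simp
  have := @CA.McL.A.BP.eq_1.{0}
  have := @CA.McL.A.BP.eq_def.{0}
  have := @CA.McL.A.BP.congr_simp.{0}
  have := @CA.McL.A.Cd.sg.eq_1.{0}
  have := @CA.McL.A.Cd.sg.eq_def.{0}
  have := @CA.McL.A.Cd.sg.congr_simp.{0}
  trivial
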