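/-
The 3-local base: the 2-elements of `N(J)` centralising the involution `t`.
-/
import Cfsg.Agent.McL.A3

set_option autoImplicit false
set_option synthInstance.maxSize 100000

namespace CA.McL.A

open Cfsg Subgroup CA.FG Equiv

universe u

variable {G : Type u} [Group G] {S J Q K : Subgroup G} {z g g' p a v t w : G} {e : V4 → G} {A B C : V4 → V4}

/-- lifts of the generators of the semidihedral group -/
structure Lt (e : V4 → G) (L : Subgroup G) (p a v t : G) : Prop where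
  hp : Act e p ap
  ha : Act e a aa
  hv : Act e v nn
  ht : Act e t tt
  aL : a ∈ L
  pp : p * p = t
  a2 : a * a = t
  t2 : t * t = 1
  vv : v * v = 1
  vt : v * t = t * v
  pa : p * a * p⁻¹ = a⁻¹
  vp : v * p * v⁻¹ = p⁻¹
  va : v * a * v⁻¹ = a * p
  c1 : IsConj t v
  c2 : IsConj t (v * t)

/-- the lift of `-1` -/
structure Lw (e : V4 → G) (p a v w : G) : Prop where
  hw : Act e w (sc 2)
  ww : w * w = 1
  wp : w * p = p * w
  wa : w * a = a * w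
  wv : w * v = v * w

theorem conj_inv3 {x y : G} (hx : x * x = 1) (hy : y * y = 1) (h : (y * x⁻¹) ^ 3 = 1) :
    (y * x) ^ 2 * x * ((y * x) ^ 2)⁻¹ = y := by
  have a : x⁻¹ = x := inv_eq_of_mul_eq_one_left hx
  have b : y⁻¹ = y := inv_eq_of_mul_eq_one_left hy
  rw [a, pow_three'] at h
  rw [pow_two, mul_inv_rev, mul_inv_rev, a, b, show y * x * (y * x) * x * (x * y * (x * y)) =
    y * x * (y * x) * (x * x) * y * x * y by group, hx, mul_one, mul_assoc _ y x, h, one_mul]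

/-- elements centralising or inverting `p` -/
def Tt (p : G) : Subgroup G where
  carrier := {g | g * p * g⁻¹ = p ∨ g * p * g⁻¹ = p⁻¹}
  one_mem' := .inl (by simp)
  mul_mem' := fun {a b} ha hb => by
    have e : a * b * p * (a * b)⁻¹ = a * (b * p * b⁻¹) * a⁻¹ := by group
    have e' : a * p⁻¹ * a⁻¹ = (a * p * a⁻¹)⁻¹ := by group
    rcases ha with x | x <;> rcases hb with y | y <;> simp only [Set.mem_setOf_eq, e, y, e', x, inv_inv] <;> simp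
  inv_mem' := fun {a} ha => Or.imp (fun x : a * p * a⁻¹ = p => by
      calc a⁻¹ * p * a⁻¹⁻¹ = a⁻¹ * (a * p * a⁻¹) * a := by rw [x, inv_inv]
        _ = p := by group) (fun x : a * p * a⁻¹ = p⁻¹ => by
      calc a⁻¹ * p * a⁻¹⁻¹ = a⁻¹ * (a * p * a⁻¹)⁻¹ * a := by rw [x, inv_inv, inv_inv]
        _ = p⁻¹ := by group) ha

theorem mem_Tt : g ∈ Tt p ↔ g * p * g⁻¹ = p ∨ g * p * g⁻¹ = p⁻¹ := Iff.rfl

theorem gG8 : ∀ s : F3, s ≠ 0 → ∀ (w : Bool) (a b c d : F3) (k : Fin 8), (gm s w a b c d k (1, 0, 0, 0)).2.1 = 0 →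
    (gm s w a b c d k (1, 0, 0, 0)).2.2.1 = 0 → (gm s w a b c d k (0, 0, 0, 1)).2.1 = 0 →
    (gm s w a b c d k (0, 0, 0, 1)).2.2.1 = 0 → E4 (gm s w a b c d k)^[8] id := by decide +kernel

theorem gm_w : ∀ s i j : F3, ∀ k : Fin 8, ∃ (m : Fin 4) (n : Fin 2), E4 (ux i j ∘ aa^[m.val] ∘ ap^[n.val] ∘ sc s) (gm s false 0 0 i j k) := by
  decide +kernel

/-- the secant line -/
def T2 : AddSubgroup V4 where
  carrier := {x | x.2.1 = 0 ∧ x.2.2.1 = 0}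
  zero_mem' := ⟨rfl, rfl⟩
  add_mem' := fun a b => ⟨by simp [a.1, b.1], by simp [a.2, b.2]⟩
  neg_mem' := fun a => ⟨by simp [a.1], by simp [a.2]⟩

theorem Lt.pt {L : Subgroup G} (l : Lt e L p a v t) : p * t = t * p := by rw [← l.pp, mul_assoc]
theorem Lt.at {L : Subgroup G} (l : Lt e L p a v t) : a * t = t * a := by rw [← l.a2, mul_assoc]
theorem Lt.tL {L : Subgroup G} (l : Lt e L p a v t) : t ∈ L := l.a2 ▸ mul_mem l.aL l.aL
theorem Lt.ainv {L : Subgroup G} (l : Lt e L p a v t) : a⁻¹ = a * t := by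
  rw [inv_eq_iff_mul_eq_one, ← mul_assoc, l.a2, l.t2]
theorem Lt.pinv {L : Subgroup G} (l : Lt e L p a v t) : p⁻¹ = p * t := by
  rw [inv_eq_iff_mul_eq_one, ← mul_assoc, l.pp, l.t2]
theorem Lw.wt {L : Subgroup G} (k : Lw e p a v w) (l : Lt e L p a v t) : w * t = t * w := by
  rw [← l.pp, ← mul_assoc, k.wp, mul_assoc, k.wp, mul_assoc]
theorem Lt.t1 {L : Subgroup G} (l : Lt e L p a v t) (c : Cd J Q z e) : t ≠ 1 := fun x =>
  absurd (c.uni l.ht (x ▸ act_one) (0, 1, 0, 0)) (by decide)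
theorem Lt.ot {L : Subgroup G} (l : Lt e L p a v t) (c : Cd J Q z e) : orderOf t = 2 :=
  orderOf_eq_prime (by rw [pow_two, l.t2]) (l.t1 c)
theorem Lt.memD {L : Subgroup G} (l : Lt e L p a v t) (c : Cd J Q z e) {x : V4} : e x ∈ (𝒞[t] : Subgroup G) ↔ x ∈ T2 := by
  rw [mem_centralizer_singleton_iff, eq_comm, ← mul_inv_eq_iff_eq_mul, l.ht, c.inj.eq_iff]
  exact ⟨(ap_sur x).2.2.2, fun ⟨a, b⟩ => by simp [tt, hm, a, b, Prod.ext_iff]⟩

variable [Finite G] {lam : gen3 𝒩(zpowers z) →* SL5} {mu : gen3 𝒩(J) →* alternatingGroup (Fin 6)}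

namespace Hyp

variable (h : Hyp S z J Q lam mu) (c : Co J Q z 1 e)
include h c

theorem Teq (hp : Act e p ap) (a : Act e g A) (b : Act e g' B) (f : E4 A B) (x : g ∈ Tt p) (y : g' ∈ Tt p) : g = g' := by
  obtain ⟨k, d⟩ := c.sur _ (h.same c.toCd (c.e4 a (c.ad b) f) b)
  rcases mem_Tt.1 (mul_mem x (inv_mem y)) with m | m <;> rw [← d] at m
  · have := (ap_sur k).2.2.1 (c.inj (by rw [← hp, mul_inv_eq_iff_eq_mul, eq_comm, ← mul_inv_eq_iff_eq_mul, m]))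
    rwa [this, c.zero, eq_comm, mul_inv_eq_one] at d
  · have n := (c.conj (C := ap) (c.triv (c.mem k)) hp fun _ => rfl).mul hp
    rw [m, inv_mul_cancel] at n
    exact absurd (c.uni n act_one (0, 1, 0, 0)) (by decide)

theorem p4 (hp : Act e p ap) : p * p * (p * p) = 1 :=
  h.Teq c hp ((hp.mul hp).mul (hp.mul hp)) act_one (by decide) (Or.inl (by group)) (one_mem _)

theorem lift (hp : Act e p ap) (a : Act e g A) (f : E4 (ap ∘ A) (A ∘ ap) ∨ E4 (ap ∘ tt ∘ A) (A ∘ ap)) :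
    ∃ j ∈ J, j * g ∈ Tt p := by
  have k : ∀ {q C}, Act e q C → (∀ x, ∃ y, y + x = C y) → E4 (C ∘ A) (A ∘ ap) → ∃ j ∈ J, j * g * p * (j * g)⁻¹ = q :=
    fun {q C} b s f => by
      obtain ⟨x, d⟩ := c.sur _ (h.same c.toCd (c.conj a hp (f.ext ((c.ad b).comp (c.ad a)) ((c.ad a).comp ad_ap))) b)
      obtain ⟨y, s⟩ := s x
      refine ⟨_, c.mem y, ?_⟩
      rw [show e y * g * p * (e y * g)⁻¹ = e y * (g * p * g⁻¹ * q⁻¹) * (q * e y * q⁻¹)⁻¹ * q by group, ← d, b, ← c.add, s]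
      simp
  rcases f with f | f
  · exact (k hp (fun x => (ap_sur x).1) f).imp fun _ m => ⟨m.1, Or.inl m.2⟩
  · exact (k (C := ap ∘ tt) (hp.inv (by decide +kernel)) (fun x => (ap_sur x).2.1) f).imp fun _ m => ⟨m.1, Or.inr m.2⟩

variable (ia : In e (gen3 𝒩(zpowers z)) aa)
include ia

theorem ex_lt : ∃ p a v t, Lt e (gen3 𝒩(zpowers z)) p a v t ∧ (In e 𝒩(J) (sc 2) → ∃ w, Lw e p a v w) := by
  obtain ⟨p, -, hp⟩ := (h.in_nn c).2
  obtain ⟨a, aL, ha⟩ := id ia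
  obtain ⟨v, -, hv⟩ := (h.in_nn c).1
  obtain ⟨j, hj, aT⟩ := h.lift c hp ha (.inr (by decide))
  obtain ⟨i, hi, vT⟩ := h.lift c hp hv (.inr (by decide))
  replace ha : Act e (j * a) aa := (c.triv hj).mul ha
  replace hv : Act e (i * v) nn := (c.triv hi).mul hv
  have aL' := mul_mem (h.SL (h.JS hj)) aL
  generalize j * a = a at *
  generalize i * v = v at *
  have pT : p ∈ Tt p := Or.inl (by group)
  have ht : Act e (p * p) tt := c.e4 (hp.mul hp) ad_tt (by decide)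
  have vv : v * v = 1 := h.Teq c hp (hv.mul hv) act_one (by decide) (mul_mem vT vT) (one_mem _)
  have vt : v * (p * p) = p * p * v := h.Teq c hp (hv.mul ht) (ht.mul hv) (by decide) (mul_mem vT (mul_mem pT pT)) (mul_mem (mul_mem pT pT) vT)
  have cj : ∀ {y B}, Act e y B → y * y = 1 → ∀ a b i j, E4 (B ∘ el true a b i j 0) (el true a b i j 0 ∘ tt) → IsConj (p * p) y :=
    fun {y B} b y2 i1 i2 i3 i4 f => by
      obtain ⟨n, -, d⟩ := h.in_el c ia true i1 i2 i3 i4 0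
      have m := h.same c.toCd b (c.conj d ht (f.ext ((c.ad b).comp (c.ad d)) ((c.ad d).comp ad_tt)))
      exact (isConj_iff.2 ⟨n, rfl⟩).trans (isConj_iff.2 ⟨_, conj_inv3 (by
        rw [show n * (p * p) * n⁻¹ * (n * (p * p) * n⁻¹) = n * (p * p * (p * p)) * n⁻¹ by group, h.p4 c hp]; simp) y2 (h.J3 _ m)⟩)
  refine ⟨p, a, v, p * p, ⟨hp, ha, hv, ht, aL', rfl, h.Teq c hp (ha.mul ha) ht (by decide) (mul_mem aT aT) (mul_mem pT pT),
    h.p4 c hp, vv, vt, ?_, ?_, ?_, cj hv vv 1 0 1 0 (by decide), cj (hv.mul ht) (by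
      rw [mul_assoc, ← mul_assoc (p * p), ← vt, mul_assoc, h.p4 c hp, mul_one, vv]) 0 1 0 2 (by decide)⟩, fun ⟨w, _, hw⟩ => ?_⟩
  · rw [mul_inv_eq_iff_eq_mul, eq_inv_mul_iff_mul_eq]
    exact h.Teq c hp (ha.mul (hp.mul ha)) hp (by decide) (mul_mem aT (mul_mem pT aT)) pT
  · rw [eq_inv_iff_mul_eq_one, inv_eq_of_mul_eq_one_left vv]
    exact h.Teq c hp (((hv.mul hp).mul hv).mul hp) act_one (by decide) (mul_mem (mul_mem (mul_mem vT pT) vT) pT) (one_mem _)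
  · rw [mul_inv_eq_iff_eq_mul]
    exact h.Teq c hp (hv.mul ha) ((ha.mul hp).mul hv) (by decide) (mul_mem vT aT) (mul_mem (mul_mem aT pT) vT)
  · obtain ⟨k, hk, wT⟩ := h.lift c hp hw (.inl (by decide))
    replace hw : Act e (k * w) (sc 2) := (c.triv hk).mul hw
    exact ⟨_, hw, h.Teq c hp (hw.mul hw) act_one (by decide) (mul_mem wT wT) (one_mem _),
      h.Teq c hp (hw.mul hp) (hp.mul hw) (by decide) (mul_mem wT pT) (mul_mem pT wT),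
      h.Teq c hp (hw.mul ha) (ha.mul hw) (by decide) (mul_mem wT aT) (mul_mem aT wT),
      h.Teq c hp (hw.mul hv) (hv.mul hw) (by decide) (mul_mem wT vT) (mul_mem vT wT)⟩

variable (l : Lt e (gen3 𝒩(zpowers z)) p a v t)
include l

theorem NZ2 (hw : Act e w (sc 2) ∨ ¬ In e 𝒩(J) (sc 2) ∧ w = 1) (hg : g ∈ 𝒩(zpowers z)) :
    ∃ x ∈ gen3 𝒩(zpowers z), ∃ i j : Fin 2, g = x * p ^ i.val * w ^ j.val := by
  obtain ⟨x, hx, n, s, i, j, k, rfl, s0, f⟩ := h.NZ1 c ia hg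
  obtain ⟨m, m', d⟩ := gm_w s i j k
  obtain ⟨q, hq, u⟩ := c.hu i j
  obtain ⟨r, b⟩ : ∃ r : Fin 2, Act e (w ^ r.val) (sc s) := by
    have y : ∀ s : F3, s ≠ 0 → s = 1 ∨ s = 2 := by decide
    have o : Act e (w ^ (0 : Fin 2).val) (sc 1) := by simpa using act_one.congr fun x => by simp [sc]
    rcases hw with hw | ⟨hw, -⟩
    · rcases y s s0 with rfl | rfl
      exacts [⟨0, o⟩, ⟨1, by simpa using hw⟩]
    · exact ⟨0, h.s1 c ia hw s0 f ▸ o⟩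
  have := h.same c.toCd f (c.e4 (u.mul ((l.ha.pow m).mul ((l.hp.pow m').mul b))) (c.ad f) d)
  exact ⟨_, mul_mem hx (mul_mem (h.SL (h.JS this)) (mul_mem (h.QL hq) (pow_mem l.aL m.val))), m', r, by group⟩

theorem ND (hg : g ∈ 𝒩(c.sg T2)) : g ∈ 𝒩(J) ∧ (g ∈ 𝒩(zpowers z) ∨ g * v ∈ 𝒩(zpowers z)) := by
  have k : ∀ g ∈ 𝒩(c.sg T2), g * z * g⁻¹ ∈ zpowers z → g ∈ 𝒩(J) ∧ g ∈ 𝒩(zpowers z) := fun g hg a => by
    obtain ⟨x, -, b⟩ := conj_mem_of_mem_norm hg (⟨(1, 0, 0, 0), ⟨rfl, rfl⟩, rfl⟩ : _ ∈ c.sg T2)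
    exact ⟨h.key c ia (x := (0, 0, 0, 1)) (y := (1, 0, 0, 0)) (by decide) (by decide) (c.hz.symm ▸ a) (b ▸ c.mem x),
      mem_norm_of_conjg_le (by rw [conjg_zpowers]; exact zpowers_le_of_mem a)⟩
  obtain ⟨x, hx, b⟩ := conj_mem_of_mem_norm hg (⟨(1, 0, 0, 0), ⟨rfl, rfl⟩, rfl⟩ : _ ∈ c.sg T2)
  obtain ⟨y, hy, d⟩ := conj_mem_of_mem_norm hg (⟨(0, 0, 0, 1), ⟨rfl, rfl⟩, rfl⟩ : _ ∈ c.sg T2)
  have : ∀ x y : V4, Sg x → Sg y → (x.2.1 = 0 ∧ x.2.2.1 = 0) → (y.2.1 = 0 ∧ y.2.2.1 = 0) →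
    y.1 = 0 ∨ x.1 = 0 ∨ x = y ∨ x + y = 0 := by decide +kernel
  rcases this x y (h.fusS c ia (by decide) b.symm) (h.fusS c ia (by decide) d.symm) hx hy with f | f | f | f
  · exact (k g hg (by rw [← c.hz, ← d, c.hz, c.memZ]; exact ⟨f, hy⟩)).imp_right .inl
  · have vD : v ∈ 𝒩(c.sg T2) := mem_norm_of_forall (by
      rintro _ ⟨x, hx, rfl⟩; exact ⟨nn x, ⟨hx.1, by simp [nn, hx.2]⟩, (l.hv x).symm⟩)
    have := k _ (mul_mem hg vD) (by
      rw [show g * v * z * (g * v)⁻¹ = g * (v * z * v⁻¹) * g⁻¹ by group, ← c.hz, l.hv, c.hz]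
      exact b ▸ c.memZ.2 ⟨f, hx⟩)
    exact ⟨(mul_mem_cancel_right (c.norm l.hv)).1 this.1, .inr this.2⟩
  · rw [f, d] at b
    exact absurd (c.inj (by simpa using b)) (by decide : ((0, 0, 0, 1) : V4) ≠ (1, 0, 0, 0))
  · have := congrArg e f
    rw [c.add, b, d, c.zero, show g * e (1, 0, 0, 0) * g⁻¹ * (g * e (0, 0, 0, 1) * g⁻¹) =
      g * (e (1, 0, 0, 0) * e (0, 0, 0, 1)) * g⁻¹ by group, ← c.add, conj_eq_one_iff, c.eq_one] at this
    exact absurd this (by decide)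

omit h ia in
theorem DC : c.sg T2 ≤ 𝒞[t] := by rintro _ ⟨x, a, rfl⟩; exact (l.memD c.toCd).2 a

theorem sylD : IsSylowOf 3 (c.sg T2) 𝒞[t] := by
  have P : IsPGrp 3 (c.sg T2) := pGrp_of_forall_pow Nat.prime_three (k := 1) (by rintro _ ⟨x, -, rfl⟩; exact c.e3 x)
  refine sylow_of_sylow_norm Nat.prime_three (DC c l) (sylow_of_maximal Nat.prime_three P (le_inf (DC c l) le_normalizer)
    fun R a b d => le_antisymm (fun g hg => ?_) b)
  obtain ⟨s, w, i1, i2, i3, i4, k, s0, f⟩ := h.gam c ia (h.ND c ia l (d hg).2).1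
  have m : ∀ x ∈ T2, gm s w i1 i2 i3 i4 k x ∈ T2 := fun x hx => by
    obtain ⟨y, hy, b⟩ := conj_mem_of_mem_norm (d hg).2 (⟨x, hx, rfl⟩ : _ ∈ c.sg T2)
    rwa [← c.inj (b.trans (f x))]
  have g8 := h.memJ c.toCd (c.e4 (f.pow 8) ad_id (gG8 s s0 w i1 i2 i3 i4 k (m _ ⟨rfl, rfl⟩).1 (m _ ⟨rfl, rfl⟩).2
    (m _ ⟨rfl, rfl⟩).1 (m _ ⟨rfl, rfl⟩).2))
  obtain ⟨n, o⟩ := (piNat_singleton_iff Nat.prime_three (orderOf_pos g).ne').1 (a.piElt hg)
  obtain ⟨x, rfl⟩ := c.sur g (zpowers_le_of_mem g8 (mem_zpowers_pow_iff.2 (by rw [o]; exact Nat.Coprime.pow_right n (by decide))))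
  exact ⟨x, (l.memD c.toCd).1 (d hg).1, rfl⟩

theorem lamt : lam ⟨t, l.tL⟩ = -1 :=
  (sF5 (by rw [← map_mul, show (⟨t, l.tL⟩ * ⟨t, l.tL⟩ : gen3 _) = 1 from Subtype.ext l.t2, map_one])).resolve_left fun b => by
    have := orderOf_dvd_of_pow_eq_one (h.Q3 t ((h.lamk _).1 b)); rw [l.ot c.toCd] at this; omega

theorem nconj (k : Lw e p a v w) : ¬ IsConj t w := fun b => by
  obtain ⟨g, b⟩ := isConj_iff.1 b
  have ex : ∀ i j, ∃ q ∈ Q ⊓ 𝒞[w], Act e q (ux i j) := fun i j => by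
    obtain ⟨q, hq, u⟩ := c.hu i j
    have wN : w ∈ 𝒩(zpowers z) := mem_norm_of_conjg_le (by
      rw [conjg_zpowers]; refine zpowers_le_of_mem ?_; rw [← c.hz, k.hw, c.hz, c.memZ]; simp [sc])
    obtain ⟨x, d⟩ := c.sur _ (h.same c.toCd (c.conj k.hw u fun x => (ad_ud _ _ _).smul 2 x) u)
    have x0 := (c.hQ x).1 (d ▸ mul_mem (conj_mem_of_mem_norm (h.QN wN) hq) (inv_mem hq))
    refine ⟨e (-x) * q, ⟨mul_mem ((c.hQ _).2 (by simp [x0])) hq, mem_centralizer_singleton_iff.2 (mul_inv_eq_iff_eq_mul.1 ?_).symm⟩,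
      (c.triv (c.mem _)).mul u⟩
    rw [show w * (e (-x) * q) * w⁻¹ = w * e (-x) * w⁻¹ * (w * q * w⁻¹ * q⁻¹) * q by group, ← d, k.hw, ← c.add]
    congr 2; generalize x = x; revert x; decide +kernel
  obtain ⟨n, -, m⟩ := sylow_Jsub Nat.prime_three (h.sylD c ia l) (Q := (Q ⊓ 𝒞[w]) :^ g⁻¹)
    (((h.syl.pGrp.of_le h.QS).inf_left _).conjg _) (by rw [← b, ← conjg_cent1, conjg_inf, conjg_inv_cancel]; exact inf_le_right)
  rw [← conjg_mul] at m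
  have ns : ∀ q ∈ Q ⊓ 𝒞[w], ∀ i j, i ≠ 0 ∨ j ≠ 0 → Act e q (ux i j) → ∀ y, e y = n * g⁻¹ * q * (n * g⁻¹)⁻¹ → y ≠ 0 ∧ ¬ Sg y :=
    fun q hq i j n0 u y f => by
      have qJ : q ∉ J := fun x => by
        have := c.uni u (c.triv x) (1, 0, 0, 0)
        simp [ud, uu] at this; tauto
      refine ⟨fun x => qJ ?_, fun s => qJ ?_⟩
      · rw [x, c.zero, eq_comm, conj_eq_one_iff] at f; exact f ▸ one_mem _
      · have := h.zN c ia s (n * g⁻¹)⁻¹ (by rw [f]; simpa [mul_assoc] using c.norm u)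
        rw [f] at this; simpa [mul_assoc] using this
  obtain ⟨q1, m1, u1⟩ := ex 1 0
  obtain ⟨q2, m2, u2⟩ := ex 0 1
  obtain ⟨y1, a1, b1⟩ := m (conj_mem_conjg _ m1)
  obtain ⟨y2, a2, b2⟩ := m (conj_mem_conjg _ m2)
  have : ∀ x y : V4, (x.2.1 = 0 ∧ x.2.2.1 = 0) → (y.2.1 = 0 ∧ y.2.2.1 = 0) → (x ≠ 0 ∧ ¬ Sg x) → (y ≠ 0 ∧ ¬ Sg y) →
    (x + y ≠ 0 ∧ ¬ Sg (x + y)) → ¬ (x + (y + y) ≠ 0 ∧ ¬ Sg (x + (y + y))) := by decide +kernel
  exact this y1 y2 a1 a2 (ns _ m1 1 0 (by decide) u1 _ b1) (ns _ m2 0 1 (by decide) u2 _ b2)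
    (ns _ (mul_mem m1 m2) 1 1 (by decide) ((u1.mul u2).congr fun x => ud_ud ..) _ (by rw [c.add, b1, b2]; group))
    (ns _ (mul_mem m1 (mul_mem m2 m2)) 1 2 (by decide) ((u1.mul ((u2.mul u2).congr fun x => ud_ud ..)).congr fun x => ud_ud ..) _
      (by rw [c.add, c.add, b1, b2]; group))

end Hyp

end CA.McL.A

theorem CA.realizeEqns_McL_A4 : True := by
  have := @CA.McL.A.Tt.eq_1.{0}
  have := @CA.McL.A.Tt.eq_def.{0}
  have := @CA.McL.A.Tt.congr_simp.{0}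
  have := @CA.McL.A.T2.eq_1
  have := @CA.McL.A.T2.eq_def
  have := @CA.McL.A.T2.congr_simp
  trivial
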