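/-
The 3-local base: the map from `N(Z) ∩ C(t)` to `S₃ × S₅`.
-/
import Cfsg.Agent.McL.A4

set_option autoImplicit false
set_option synthInstance.maxSize 100000

namespace CA.McL.A

open Cfsg Subgroup CA.FG Equiv

universe u

theorem desc {N L H : Type*} [Group N] [Group L] [Group H] (φ : N →* MulAut L) (f : L →* H) (s : Function.Surjective f)
    (k : ∀ g x, f x = 1 → f (φ g x) = 1) : ∃ κ : N →* MulAut H, ∀ g x, κ g (f x) = f (φ g x) := by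
  let F : N → H →* H := fun g => f.liftOfSurjective s ⟨f.comp (φ g).toMonoidHom, k g⟩
  have hF : ∀ g x, F g (f x) = f (φ g x) := fun g x => f.liftOfRightInverse_comp_apply _ _ _ x
  have i : ∀ g, (F g⁻¹).comp (F g) = MonoidHom.id H := fun g => MonoidHom.ext fun y => by
    obtain ⟨x, rfl⟩ := s y; simp [hF]
  refine ⟨MonoidHom.mk' (fun g => MonoidHom.toMulEquiv (F g) (F g⁻¹) (i g) (by simpa using i g⁻¹)) fun a b => MulEquiv.ext fun y => ?_, hF⟩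
  obtain ⟨x, rfl⟩ := s y
  show F (a * b) (f x) = F a (F b (f x))
  simp [hF]

/-- `S₃ × S₅ → S₈` -/
def emb0 : Perm (Fin 3) × Perm (Fin 5) →* Perm (Fin 8) :=
  (finSumFinEquiv (m := 3) (n := 5)).permCongrHom.toMonoidHom.comp (Perm.sumCongrHom _ _)

theorem emb0_mem (x : Perm (Fin 3) × Perm (Fin 5)) : emb0 x ∈ N2 := fun i => by
  obtain ⟨i, rfl⟩ := (finSumFinEquiv (m := 3) (n := 5)).surjective i
  show _ ↔ (finSumFinEquiv (Perm.sumCongr x.1 x.2 (finSumFinEquiv.symm (finSumFinEquiv i)))).val < 3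
  rw [symm_apply_apply]
  rcases i with i | i <;> simp only [Sum.map_inl, Sum.map_inr, Perm.sumCongr_apply, finSumFinEquiv_apply_left,
    finSumFinEquiv_apply_right, Fin.val_castAdd, Fin.val_natAdd] <;> omega

def emb : Perm (Fin 3) × Perm (Fin 5) →* N2 := emb0.codRestrict N2 emb0_mem

theorem emb_inj : Function.Injective emb := fun _ _ h =>
  Perm.sumCongrHom_injective ((finSumFinEquiv (m := 3) (n := 5)).permCongrHom.injective (congrArg Subtype.val h))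

theorem emb_sur (y : N2) : ∃ x, emb x = y := by
  obtain ⟨x, a⟩ := Perm.mem_sumCongrHom_range_of_perm_mapsTo_inl
    (σ := (finSumFinEquiv (m := 3) (n := 5)).permCongrHom.symm y.1) (by
      rintro _ ⟨i, rfl⟩
      exact ⟨⟨_, (y.2 (Fin.castAdd 5 i)).1 i.2⟩, finSumFinEquiv.injective (by
        simp only [permCongrHom_symm, finSumFinEquiv_apply_left]; exact (apply_symm_apply _ _).symm)⟩)
  exact ⟨x, Subtype.ext (by show finSumFinEquiv.permCongrHom (Perm.sumCongrHom _ _ x) = _; rw [a, MulEquiv.apply_symm_apply])⟩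

theorem emb_N1 (x : Perm (Fin 3) × Perm (Fin 5)) : emb x ∈ N1 ↔ Perm.sign x.1 * Perm.sign x.2 = 1 := by
  rw [← Perm.sign_sumCongr, ← Perm.sign_permCongr (finSumFinEquiv (m := 3) (n := 5))]; rfl

/-- translations -/
def tr (k : F3) : Perm (Fin 3) := Equiv.addLeft k

theorem tr_spec : ∀ x y : F3, tr x * tr y = tr (x + y) ∧ swap 0 1 * tr y = tr (-y) * swap 0 1 ∧ Perm.sign (tr x) = 1 ∧
    tr x * swap 0 1 ≠ 1 ∧ (tr x = 1 → x = 0) := by decide +kernel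
theorem tr_sur : ∀ σ : Perm (Fin 3), Perm.sign σ = 1 → ∃ k, tr k = σ := by decide +kernel
theorem emb_val : emb (tr 1, 1) = a1 ∧ emb (tr 0, swap 0 1 * swap 1 2) = a2 ∧ emb (tr 0, swap 0 1 * swap 3 4) = w1 ∧
    emb (tr 0 * swap 0 1, swap 0 1) = w1 * w2 ∧ emb (tr 0 * swap 0 1, swap 0 1 * swap 3 4) = w1 * w2 * ta ∧ emb (tr 0, 1) = 1 ∧
    w1 * w2 ∈ N1 ∧ w1 * w2 * ta ∉ N1 := by
  simp only [Subtype.ext_iff, N1, mem_subgroupOf, Perm.mem_alternatingGroup]; decide +kernel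

variable {G : Type u} [Group G] {S J Q K : Subgroup G} {z g g' p a v t w : G} {e : V4 → G} {A B C : V4 → V4}
  [Finite G] {lam : gen3 𝒩(zpowers z) →* SL5} {mu : gen3 𝒩(J) →* alternatingGroup (Fin 6)}

namespace Hyp

variable (h : Hyp S z J Q lam mu) (c : Co J Q z 1 e) (ia : In e (gen3 𝒩(zpowers z)) aa) (l : Lt e (gen3 𝒩(zpowers z)) p a v t)
include h c ia l

omit h ia in
theorem pz : p * z * p⁻¹ = z⁻¹ := by rw [← c.hz, l.hp, ← c.neg]; rfl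
omit ia in
theorem pN : p ∈ 𝒩(zpowers z) ⊓ 𝒞[t] := ⟨mem_norm_of_conjg_le (by
  rw [conjg_zpowers, pz c l]; exact zpowers_le_of_mem (inv_mem (mem_zpowers z))), mem_centralizer_singleton_iff.2 l.pt⟩
omit ia in
theorem dich (hg : g ∈ 𝒩(zpowers z)) : g ∈ 𝒞[z] ∨ g * p⁻¹ ∈ 𝒞[z] := by
  rcases mem_zp3 h.z3 (conj_mem_of_mem_norm hg (mem_zpowers z)) with b | b | b
  · have := orderOf_conj z g; rw [b, h.oz, orderOf_one] at this; omega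
  · exact .inl (mem_centralizer_singleton_iff.2 (mul_inv_eq_iff_eq_mul.1 b))
  · refine .inr (mem_centralizer_singleton_iff.2 (mul_inv_eq_iff_eq_mul.1 ?_))
    have : p⁻¹ * z * p = z⁻¹ := by
      rw [show p⁻¹ * z * p = p⁻¹ * (z⁻¹)⁻¹ * p by rw [inv_inv], ← pz c l, show p⁻¹ * (p * z * p⁻¹)⁻¹ * p = z⁻¹ by group, pz c l]
    rw [show g * p⁻¹ * z * (g * p⁻¹)⁻¹ = g * (p⁻¹ * z * p) * g⁻¹ by group, this, show g * z⁻¹ * g⁻¹ = (g * z * g⁻¹)⁻¹ by group, b,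
      inv_eq_iff_mul_eq_one, ← pow_three', h.z3]
omit ia in
theorem pC : p ∉ (𝒞[z] : Subgroup G) := fun b => by
  have := pz c l
  rw [mem_centralizer_singleton_iff.1 b, mul_inv_cancel_right, eq_inv_iff_mul_eq_one, ← c.hz, ← c.add, c.eq_one] at this
  exact absurd this (by decide)

theorem ex_tau : ∃ τ : G → F3, (∀ x ∈ 𝒞[z] ⊓ 𝒞[t], ∀ y ∈ 𝒞[z] ⊓ 𝒞[t], τ (x * y) = τ x + τ y) ∧
    (∀ x ∈ 𝒞[z] ⊓ 𝒞[t], τ (p * x * p⁻¹) = -τ x) ∧ τ z = 1 ∧ τ (e (1, 0, 0, 0)) = 0 := by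
  classical
  have JC : J ≤ 𝒞[z] := h.JS.trans h.SC
  have DC' : c.sg T2 ≤ 𝒞[z] ⊓ 𝒞[t] := le_inf (by rintro _ ⟨x, -, rfl⟩; exact JC (c.mem x)) (DC c l)
  have mD : ∀ i k : F3, e (i, 0, 0, k) ∈ c.sg T2 := fun i k => ⟨_, ⟨rfl, rfl⟩, rfl⟩
  have zD : z ∈ c.sg T2 := c.hz ▸ mD 0 1
  have nd := IsSylowOf.not_dvd_index ((h.sylD c ia l).of_le DC' inf_le_right) Nat.prime_three
  have aC : a ∈ 𝒞[z] ⊓ 𝒞[t] := ⟨h.LC l.aL, mem_centralizer_singleton_iff.2 l.at⟩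
  have k0 : ∀ σ : (𝒞[z] ⊓ 𝒞[t] : Subgroup G) →* Multiplicative F3, σ ⟨_, DC' (mD 1 0)⟩ = 1 := fun σ => by
    have := congrArg σ (show ⟨a, aC⟩ * ⟨_, DC' (mD 1 0)⟩ * ⟨a, aC⟩⁻¹ = ⟨_, DC' (mD 1 0)⟩⁻¹ from Subtype.ext ((l.ha _).trans (c.neg (1, 0, 0, 0))))
    rw [map_mul, map_mul, map_inv, map_inv, mul_inv_cancel_comm] at this
    revert this; generalize σ _ = y; revert y; decide
  have k1 : ∀ σ : (𝒞[z] ⊓ 𝒞[t] : Subgroup G) →* Multiplicative F3, σ ⟨z, DC' zD⟩ = 1 → ∀ x, σ x = 1 := fun σ b x => by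
    have le : (c.sg T2).subgroupOf _ ≤ σ.ker := by
      rintro ⟨_, y⟩ ⟨x, hx, rfl⟩
      rw [MonoidHom.mem_ker, show (⟨e x, y⟩ : (𝒞[z] ⊓ 𝒞[t] : Subgroup G)) = ⟨_, DC' (mD 1 0)⟩ ^ x.1.val * ⟨z, DC' zD⟩ ^ x.2.2.2.val from
        Subtype.ext (by
          show e x = e (1, 0, 0, 0) ^ x.1.val * z ^ x.2.2.2.val
          rw [← c.smul, ← show e (x.2.2.2 • (0, 0, 0, 1)) = z ^ x.2.2.2.val by rw [c.smul, c.hz], ← c.add]
          congr 1; simp [Prod.ext_iff, hx.1, hx.2]), map_mul, map_pow, map_pow, b, k0]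
      simp
    have i1 := index_dvd_of_le le
    have i2 : σ.ker.index ∣ 3 := by rw [index_ker]; exact (card_subgroup_dvd_card _).trans (by simp)
    rcases (Nat.dvd_prime Nat.prime_three).1 i2 with i | i
    · exact (index_eq_one.1 i).ge (mem_top x)
    · rw [i] at i1; exact absurd i1 nd
  have iv : ∀ x, Function.invFun e (e x) = x := Function.leftInverse_invFun c.inj
  let ϕ : (c.sg T2).subgroupOf (𝒞[z] ⊓ 𝒞[t]) →* Multiplicative F3 :=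
    MonoidHom.mk' (fun d => .ofAdd (Function.invFun e d.1.1).2.2.2) (by
      intro i j
      obtain ⟨x, -, ex⟩ : i.1.1 ∈ c.sg T2 := i.2
      obtain ⟨y, -, ey⟩ : j.1.1 ∈ c.sg T2 := j.2
      show Multiplicative.ofAdd (Function.invFun e (i.1.1 * j.1.1)).2.2.2 = _
      rw [← ex, ← ey, ← c.add, iv, iv, iv]; rfl)
  let m := (c.sg T2).relIndex (𝒞[z] ⊓ 𝒞[t])
  let τ := (powMonoidHom m).comp (MonoidHom.transfer ϕ)
  have tz : τ ⟨z, DC' zD⟩ = .ofAdd 1 := by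
    have := MonoidHom.transfer_eq_pow ϕ ⟨z, DC' zD⟩ fun k g _ => Subtype.ext (by
      show g.1⁻¹ * z ^ k * g.1 = z ^ k
      rw [mul_assoc, ← h.zc g.2.1 (pow_mem (mem_zpowers z) k), inv_mul_cancel_left])
    show (MonoidHom.transfer ϕ ⟨z, DC' zD⟩) ^ m = _
    rw [this]
    show Multiplicative.ofAdd (Function.invFun e (z ^ m)).2.2.2 ^ m = _
    rw [← show e (m • (0, 0, 0, 1)) = z ^ m by rw [c.nsm, c.hz], iv, ← ofAdd_nsmul]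
    have : (m : F3) ≠ 0 := fun y => nd ((ZMod.natCast_eq_zero_iff m 3).1 y)
    rw [← Nat.cast_smul_eq_nsmul F3, ← Nat.cast_smul_eq_nsmul F3]
    revert this; generalize (m : F3) = y; revert y; decide
  have pN' : p ∈ 𝒩(𝒞[z] ⊓ 𝒞[t]) := norm_inf (cent_zpowers z ▸ norm_cent inf_le_left) (inf_le_right.trans le_normalizer) (h.pN c l)
  refine ⟨fun x => if b : x ∈ 𝒞[z] ⊓ 𝒞[t] then (τ ⟨x, b⟩).toAdd else 0, fun x hx y hy => ?_, fun x hx => ?_, ?_, ?_⟩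
  · simp only [dif_pos hx, dif_pos hy, dif_pos (mul_mem hx hy), ← toAdd_mul, ← map_mul]; rfl
  · have := k1 (τ.comp ((𝒞[z] ⊓ 𝒞[t] : Subgroup G).normalizerMonoidHom ⟨p, pN'⟩).toMonoidHom * τ) (by
      show τ _ * τ _ = 1
      rw [← map_mul, ← map_one τ]; congr 1; exact Subtype.ext (show p * z * p⁻¹ * z = 1 by rw [pz c l]; simp)) ⟨x, hx⟩
    simp only [dif_pos hx, dif_pos (conj_mem_of_mem_norm pN' hx), eq_neg_iff_add_eq_zero, ← toAdd_mul]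
    exact congrArg Multiplicative.toAdd this
  · simp only [dif_pos (DC' zD), tz]; rfl
  · simp only [dif_pos (DC' (mD 1 0)), k0]; rfl

theorem ex_psi : ∃ (τ : G → F3) (ψ : (𝒩(zpowers z) ⊓ 𝒞[t] : Subgroup G) →* Perm (Fin 3)),
    (∀ x, x.1 ∈ 𝒞[z] → ψ x = tr (τ x)) ∧ (∀ x, x.1 ∉ 𝒞[z] → ψ x = tr (τ (x * p⁻¹)) * swap 0 1) ∧ τ z = 1 ∧ τ (e (1, 0, 0, 0)) = 0 ∧
    ∀ x ∈ 𝒞[z] ⊓ 𝒞[t], x * x * (x * x) = 1 → τ x = 0 := by
  classical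
  obtain ⟨τ, t1, t2, t3, t4⟩ := h.ex_tau c ia l
  have t0 : τ 1 = 0 := by have := t1 1 (one_mem _) 1 (one_mem _); rw [mul_one] at this; exact add_eq_left.1 this.symm
  have t5 : ∀ x ∈ 𝒞[z] ⊓ 𝒞[t], x * x * (x * x) = 1 → τ x = 0 := fun x hx b => by
    have := t1 _ (mul_mem hx hx) _ (mul_mem hx hx)
    rw [b, t0, t1 x hx x hx] at this
    revert this; generalize τ x = y; revert y; decide
  have pN := h.pN c l
  have tC : t ∈ 𝒞[z] ⊓ 𝒞[t] := ⟨h.LC l.tL, mem_cent_singleton_self t⟩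
  have pn : ∀ x ∈ 𝒞[z] ⊓ 𝒞[t], p * x * p⁻¹ ∈ 𝒞[z] ⊓ 𝒞[t] := fun x hx => conj_mem_of_mem_norm
    (norm_inf (cent_zpowers z ▸ norm_cent inf_le_left) (inf_le_right.trans le_normalizer) pN) hx
  have d : ∀ x : (𝒩(zpowers z) ⊓ 𝒞[t] : Subgroup G), x.1 ∉ 𝒞[z] → x * p⁻¹ ∈ 𝒞[z] ⊓ 𝒞[t] := fun x b =>
    ⟨(h.dich c l x.2.1).resolve_left b, (𝒞[t] : Subgroup G).mul_mem x.2.2 ((𝒞[t] : Subgroup G).inv_mem pN.2)⟩
  refine ⟨τ, MonoidHom.mk' (fun x => if x.1 ∈ 𝒞[z] then tr (τ x) else tr (τ (x * p⁻¹)) * swap 0 1) fun x y => ?_,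
    fun x b => if_pos b, fun x b => if_neg b, t3, t4, t5⟩
  by_cases a : x.1 ∈ 𝒞[z] <;> by_cases b : y.1 ∈ 𝒞[z]
  · simp only [coe_mul, if_pos a, if_pos b, if_pos (mul_mem a b), t1 _ ⟨a, x.2.2⟩ _ ⟨b, y.2.2⟩, (tr_spec _ _).1]
  · simp only [coe_mul, if_pos a, if_neg b, if_neg (mt (mul_mem_cancel_left a).1 b)]
    rw [mul_assoc x.1, t1 _ ⟨a, x.2.2⟩ _ (d y b), ← mul_assoc, (tr_spec _ _).1]
  · simp only [coe_mul, if_neg a, if_pos b, if_neg (mt (mul_mem_cancel_right b).1 a)]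
    rw [show x.1 * y * p⁻¹ = x * p⁻¹ * (p * y * p⁻¹) by group, t1 _ (d x a) _ (pn _ ⟨b, y.2.2⟩), t2 _ ⟨b, y.2.2⟩, mul_assoc,
      (tr_spec 0 _).2.1, ← mul_assoc, (tr_spec _ _).1]
  · have eq : x.1 * y = x * p⁻¹ * (p * (y * p⁻¹) * p⁻¹) * t := by
      rw [show x.1 * p⁻¹ * (p * (y * p⁻¹) * p⁻¹) * t = x * y * (p * p)⁻¹ * t by group, l.pp]; group
    have m := mul_mem (d x a) (pn _ (d y b))
    have xy : x.1 * y.1 ∈ (𝒞[z] : Subgroup G) := by rw [eq]; exact (mul_mem m tC).1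
    simp only [coe_mul, if_neg a, if_neg b, if_pos xy]
    rw [eq, t1 _ m _ tC, t5 t tC (by rw [l.t2, one_mul]), add_zero, t1 _ (d x a) _ (pn _ (d y b)), t2 _ (d y b), mul_assoc, ← mul_assoc (swap 0 1),
      (tr_spec 0 _).2.1, mul_assoc, swap_mul_self, mul_one, (tr_spec _ _).1]

theorem ex_chi : ∃ χ : 𝒩(zpowers z) →* Perm (Fin 5),
    (∀ x : gen3 𝒩(zpowers z), χ ⟨x, gen3_le _ x.2⟩ = 1 ↔ lam x = 1 ∨ lam x = -1) ∧
    (∀ x : gen3 𝒩(zpowers z), Perm.sign (χ ⟨x, gen3_le _ x.2⟩) = 1) ∧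
    (∀ σ, Perm.sign σ = 1 → ∃ x : gen3 𝒩(zpowers z), χ ⟨x, gen3_le _ x.2⟩ = σ) ∧
    χ ⟨_, h.SN (h.JS (c.mem (1, 0, 0, 0)))⟩ = swap 0 1 * swap 1 2 ∧ χ ⟨a, gen3_le _ l.aL⟩ = swap 0 1 * swap 3 4 ∧
    χ ⟨p, (h.pN c l).1⟩ = swap 0 1 ∧ ∀ w (m : w ∈ 𝒩(zpowers z)), Lw e p a v w → χ ⟨w, m⟩ = swap 0 1 * swap 3 4 := by
  obtain ⟨κ, k⟩ := desc ((gen3 𝒩(zpowers z)).normalizerMonoidHom.comp (inclusion (gen3_norm _))) lam h.lams fun g x b =>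
    (h.lamk _).2 (conj_mem_of_mem_norm (h.QN g.2) ((h.lamk x).1 b))
  have kL : ∀ x : gen3 𝒩(zpowers z), κ ⟨x, gen3_le _ x.2⟩ = MulAut.conj (lam x) := fun x => MulEquiv.ext fun y => by
    obtain ⟨y, rfl⟩ := h.lams y
    rw [k, MulAut.conj_apply, ← map_inv, ← map_mul, ← map_mul]; rfl
  let s : 𝒩(zpowers z) := ⟨_, h.SN (h.JS (c.mem (1, 0, 0, 0)))⟩
  let a' : 𝒩(zpowers z) := ⟨a, gen3_le _ l.aL⟩
  let p' : 𝒩(zpowers z) := ⟨p, (h.pN c l).1⟩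
  obtain ⟨s3, s1⟩ := h.lamJ (c.mem (1, 0, 0, 0)) (by rw [c.hQ]; decide)
  have inv : ∀ (χ : 𝒩(zpowers z) →* Perm (Fin 5)) (y : 𝒩(zpowers z)), y.1 * e (1, 0, 0, 0) * y.1⁻¹ = e (2, 0, 0, 0) →
      χ y * χ s = (χ s)⁻¹ * χ y := fun χ y b => by
    rw [← map_inv, ← map_mul, ← map_mul]; congr 1
    exact Subtype.ext (mul_inv_eq_iff_eq_mul.1 (b.trans (c.neg (1, 0, 0, 0))))
  obtain ⟨d, d1, d2⟩ := relab (chi0 (κ s)) (by
      rw [← map_pow, ← map_pow, show s ^ 3 = 1 from Subtype.ext (c.e3 _), map_one, map_one])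
    (fun b => (chi0_ker (kL ⟨_, h.SL (h.JS (c.mem (1, 0, 0, 0)))⟩ ▸ b)).elim s1 fun b => by
      rw [b] at s3; exact neg_ne_one5 (by simpa [pow_three'] using s3))
    (chi0 (κ a')) (inv (chi0.comp κ) a' (l.ha _)) (kL ⟨a, l.aL⟩ ▸ chi0_sign _)
  let χ := (MulAut.conj d).toMonoidHom.comp (chi0.comp κ)
  have ev : ∀ x, χ x = d * chi0 (κ x) * d⁻¹ := fun _ => rfl
  have e1 : χ s = swap 0 1 * swap 1 2 := by rw [ev, d1, mul_inv_cancel_right]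
  have e2 : χ a' = swap 0 1 * swap 3 4 := by rw [ev, d2, mul_inv_cancel_right]
  have i1 : ∀ x : gen3 𝒩(zpowers z), χ ⟨x, gen3_le _ x.2⟩ = 1 ↔ lam x = 1 ∨ lam x = -1 := fun x => by
    rw [ev, conj_eq_one_iff, kL]
    refine ⟨chi0_ker, fun b => ?_⟩
    rw [show MulAut.conj (lam x) = 1 from MulEquiv.ext fun y => by rcases b with b | b <;> simp [b], map_one]
  have et : χ ⟨t, gen3_le _ l.tL⟩ = 1 := (i1 ⟨t, l.tL⟩).2 (.inr (h.lamt c ia l))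
  have no : ∀ y : 𝒩(zpowers z), y.1 * a * y.1⁻¹ = a⁻¹ → χ y ≠ 1 := fun y b f => by
    have := chi0_inj (conj_eq_one_iff.1 ((ev y).symm.trans f)) (lam ⟨a, l.aL⟩)
    rw [k, show ((gen3 𝒩(zpowers z)).normalizerMonoidHom.comp (inclusion (gen3_norm _))) y ⟨a, l.aL⟩ = ⟨a, l.aL⟩ * ⟨t, l.tL⟩ from
      Subtype.ext (b.trans l.ainv), map_mul, h.lamt c ia l, mul_eq_left] at this
    exact neg_ne_one5 this
  have e3 : χ p' = swap 0 1 := (relab2 (χ p') (e1 ▸ inv χ p' (l.hp _)) (by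
      have : p' * a' = a' * ⟨t, gen3_le _ l.tL⟩ * p' := Subtype.ext (mul_inv_eq_iff_eq_mul.1 (l.pa.trans l.ainv))
      rw [← e2, ← map_mul, this, map_mul, map_mul, et, mul_one])).resolve_right fun b =>
    no (p' * a'⁻¹) (by rw [← l.pa]; simp [p', a', mul_assoc]) (by rw [map_mul, map_inv, b, e2, mul_inv_cancel])
  refine ⟨χ, i1, fun x => by rw [ev, kL]; simp [chi0_sign], fun σ b => ?_, e1, e2, e3, fun w m k => ?_⟩
  · obtain ⟨y, f⟩ := chi0_sur (σ := d⁻¹ * σ * d) (by simp [b])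
    obtain ⟨y, rfl⟩ := h.lams y
    exact ⟨y, by rw [ev, kL, f]; group⟩
  · refine (relab2 (χ ⟨w, m⟩) (e1 ▸ inv χ _ (k.hw _)) (by
      rw [← e2, ← map_mul, ← map_mul]; exact congrArg χ (Subtype.ext k.wa))).resolve_left fun b =>
        no (p' * ⟨w, m⟩⁻¹) ?_ (by rw [map_mul, map_inv, b, e3, mul_inv_cancel])
    show p * w⁻¹ * a * (p * w⁻¹)⁻¹ = _
    rw [← l.pa, show p * w⁻¹ * a * (p * w⁻¹)⁻¹ = p * (w⁻¹ * (a * w)) * p⁻¹ by group, ← k.wa]; group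

theorem ex_phi (hw : Lw e p a v w ∨ ¬ In e 𝒩(J) (sc 2) ∧ w = 1) : ∃ φ : (𝒩(zpowers z) ⊓ 𝒞[t] : Subgroup G) →* N2,
    (∀ x, φ x = 1 ↔ x.1 ∈ zpowers t) ∧ (∀ x, x.1 = z → φ x = a1) ∧ (∀ x, x.1 = e (1, 0, 0, 0) → φ x = a2) ∧
    (∀ x, x.1 = a → φ x = w1) ∧ (∀ x, x.1 = p → φ x = w1 * w2) ∧ N1 ≤ φ.range ∧ (w = 1 → φ.range ≤ N1) ∧
    (Lw e p a v w → w ∈ 𝒩(zpowers z) ⊓ 𝒞[t] ∧ ∀ x, x.1 = w → φ x = w1 * w2 * ta) := by
  obtain ⟨τ, ψ, p1, p2, t1, t2, t3⟩ := h.ex_psi c ia l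
  obtain ⟨χ, x1, x2, x3, x4, x5, x6, x7⟩ := h.ex_chi c ia l
  let φ := emb.comp (ψ.prod (χ.comp (inclusion inf_le_left)))
  have ev : ∀ x, φ x = emb (ψ x, χ ⟨x, x.2.1⟩) := fun _ => rfl
  have zN : z ∈ 𝒩(zpowers z) ⊓ 𝒞[t] := ⟨h.SN (h.QS h.zQ), mem_cent_singleton_comm.1 (h.LC l.tL)⟩
  have tN : t ∈ 𝒩(zpowers z) ⊓ 𝒞[t] := ⟨gen3_le _ l.tL, mem_cent_singleton_self t⟩
  have pN := h.pN c l
  have wz : Lw e p a v w → w * z * w⁻¹ = z⁻¹ := fun k => by rw [← c.hz, k.hw, ← c.neg]; rfl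
  have wN : w ∈ 𝒩(zpowers z) ⊓ 𝒞[t] := hw.elim (fun k => ⟨mem_norm_of_conjg_le (by
    rw [conjg_zpowers, wz k]; exact zpowers_le_of_mem (inv_mem (mem_zpowers z))), mem_centralizer_singleton_iff.2 (k.wt l)⟩)
    fun k => k.2 ▸ one_mem _
  have wC : Lw e p a v w → w ∉ (𝒞[z] : Subgroup G) := fun k b => by
    have := wz k
    rw [mem_centralizer_singleton_iff.1 b, mul_inv_cancel_right, eq_inv_iff_mul_eq_one, ← c.hz, ← c.add, c.eq_one] at this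
    exact absurd this (by decide)
  have cz : χ ⟨z, zN.1⟩ = 1 := (x1 ⟨z, h.QL h.zQ⟩).2 (.inl ((h.lamk _).2 h.zQ))
  have ez : φ ⟨z, zN⟩ = a1 := by rw [ev, p1 _ (mem_cent_singleton_self z), cz, t1, emb_val.1]
  have ep : φ ⟨p, pN⟩ = w1 * w2 := by
    rw [ev, p2 _ (h.pC c l), x6, mul_inv_cancel, t3 1 (one_mem _) (by simp), emb_val.2.2.2.1]
  have et : φ ⟨t, tN⟩ = 1 := by
    rw [ev, p1 _ (h.LC l.tL), (x1 ⟨t, l.tL⟩).2 (.inr (h.lamt c ia l)), t3 t ⟨h.LC l.tL, tN.2⟩ (by rw [l.t2, one_mul]), emb_val.2.2.2.2.2.1]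
  have dc : ∀ x : (𝒩(zpowers z) ⊓ 𝒞[t] : Subgroup G), ∃ (y : (𝒩(zpowers z) ⊓ 𝒞[t] : Subgroup G)) (i j : Fin 2),
      y.1 ∈ gen3 𝒩(zpowers z) ∧ x = y * ⟨p, pN⟩ ^ i.val * ⟨w, wN⟩ ^ j.val := fun x => by
    obtain ⟨y, hy, i, j, b⟩ := h.NZ2 c ia l (hw.imp_left (·.hw)) x.2.1
    exact ⟨x * (⟨w, wN⟩ ^ j.val)⁻¹ * (⟨p, pN⟩ ^ i.val)⁻¹, i, j, by simpa [b] using hy, by group⟩
  have LN : ∀ y : (𝒩(zpowers z) ⊓ 𝒞[t] : Subgroup G), y.1 ∈ gen3 𝒩(zpowers z) → φ y ∈ N1 := fun y b => by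
    rw [ev, emb_N1, p1 _ (h.LC b), (tr_spec _ 0).2.2.1, x2 ⟨y, b⟩, one_mul]
  have kz : ∀ y : (𝒩(zpowers z) ⊓ 𝒞[t] : Subgroup G), y.1 ∈ Q → φ y = 1 → y = 1 := fun y b f => by
    rw [ev, ← map_one emb, emb_inj.eq_iff, Prod.ext_iff] at f
    rcases mem_zp3 h.z3 ((h.V0 (h.lamt c ia l)).le ⟨b, St_comm (mem_centralizer_singleton_iff.1 y.2.2) y.2.1⟩) with m | m | m
    · exact Subtype.ext m
    · have : ψ y = 1 := f.1
      rw [show y = ⟨z, zN⟩ from Subtype.ext m, p1 _ (mem_cent_singleton_self z), t1] at this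
      exact absurd this (by decide)
    · have : ψ y = 1 := f.1
      rw [show y = ⟨z, zN⟩ * ⟨z, zN⟩ from Subtype.ext m, map_mul, p1 _ (mem_cent_singleton_self z), t1] at this
      exact absurd this (by decide)
  have ev1 : ∀ σ π, Perm.sign σ = 1 → Perm.sign π = 1 → emb (σ, π) ∈ φ.range := fun σ π b1 b2 => by
    obtain ⟨y, rfl⟩ := x3 π b2
    have q : (y * ⟨t, l.tL⟩ * y⁻¹ : gen3 _).1 * t⁻¹ ∈ Q := h.lam_eq (y := ⟨t, l.tL⟩) (by simp [h.lamt c ia l])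
    have tt' : t⁻¹ = t := inv_eq_of_mul_eq_one_left l.t2
    have cj := conj_inv3 (y := y.1 * t * y.1⁻¹) l.t2 (by
      rw [show y.1 * t * y.1⁻¹ * (y.1 * t * y.1⁻¹) = y * (t * t) * y.1⁻¹ by group, l.t2]; simp) (h.Q3 _ q)
    rw [tt'] at q
    have mL := mul_mem (inv_mem (pow_mem (h.QL q) 2)) y.2
    have mN : ((y.1 * t * y.1⁻¹ * t) ^ 2)⁻¹ * y ∈ 𝒩(zpowers z) ⊓ 𝒞[t] := ⟨gen3_le _ mL, mem_centralizer_singleton_iff.2 (by
      rw [← mul_inv_eq_iff_eq_mul, show ((y.1 * t * y.1⁻¹ * t) ^ 2)⁻¹ * y * t * (((y.1 * t * y.1⁻¹ * t) ^ 2)⁻¹ * y)⁻¹ =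
        ((y.1 * t * y.1⁻¹ * t) ^ 2)⁻¹ * (y.1 * t * y.1⁻¹) * (y.1 * t * y.1⁻¹ * t) ^ 2 by group]
      generalize (y.1 * t * y.1⁻¹ * t) ^ 2 = r at cj ⊢
      rw [← cj]; group)⟩
    obtain ⟨k, rfl⟩ := tr_sur σ b1
    have f : χ ⟨_, mN.1⟩ = χ ⟨y, gen3_le _ y.2⟩ := by
      rw [show (⟨_, mN.1⟩ : 𝒩(zpowers z)) = (⟨_, gen3_le _ (h.QL q)⟩ ^ 2)⁻¹ * ⟨y, gen3_le _ y.2⟩ from rfl, map_mul, map_inv, map_pow,
        (x1 ⟨_, h.QL q⟩).2 (.inl ((h.lamk _).2 q))]; simp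
    refine ⟨⟨z, zN⟩ ^ (k - τ (((y.1 * t * y.1⁻¹ * t) ^ 2)⁻¹ * y)).val * ⟨_, mN⟩, ?_⟩
    rw [map_mul, map_pow, ev, ev, ← map_pow, ← map_mul, p1 _ (mem_cent_singleton_self z), p1 _ (h.LC mL), t1, cz, f]
    congr 1
    simp only [Prod.pow_mk, one_pow, Prod.mk_mul_mk, one_mul, Prod.mk.injEq, and_true]
    generalize τ _ = r; revert k r; decide
  refine ⟨φ, fun x => ⟨fun b => ?_, fun ⟨k, b⟩ => ?_⟩, fun x b => (show x = ⟨z, zN⟩ from Subtype.ext b) ▸ ez, fun x b => ?_, fun x b => ?_,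
    fun x b => (show x = ⟨p, pN⟩ from Subtype.ext b) ▸ ep, fun y b => ?_, ?_, fun k => ⟨wN, fun x b => ?_⟩⟩
  · obtain ⟨y, i, j, hy, rfl⟩ := dc x
    have b' := b
    rw [ev, ← map_one emb, emb_inj.eq_iff, Prod.ext_iff] at b'
    have xC : (y * ⟨p, pN⟩ ^ i.val * ⟨w, wN⟩ ^ j.val).1 ∈ (𝒞[z] : Subgroup G) := by
      by_contra n; exact (tr_spec _ 0).2.2.2.1 ((p2 _ n).symm.trans b'.1)
    have sw : Perm.sign (χ ⟨w, wN.1⟩) = 1 := hw.elim (fun k => by rw [x7 w _ k]; decide) fun k => by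
      rw [show (⟨w, wN.1⟩ : 𝒩(zpowers z)) = 1 from Subtype.ext k.2]; simp
    have i0 : i = 0 := by
      have := congrArg Perm.sign (show χ (⟨y, y.2.1⟩ * ⟨p, pN.1⟩ ^ i.val * ⟨w, wN.1⟩ ^ j.val) = 1 from b'.2)
      simp only [map_mul, map_pow, x6, sw, x2 ⟨y, hy⟩, one_pow] at this
      revert this; fin_cases i <;> decide
    have j0 : (⟨w, wN⟩ : (𝒩(zpowers z) ⊓ 𝒞[t] : Subgroup G)) ^ j.val = 1 := by
      fin_cases j
      · exact pow_zero _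
      · rcases hw with k | k
        · exact absurd ((mul_mem_cancel_left (h.LC hy)).1 (by simpa [i0] using xC)) (wC k)
        · exact Subtype.ext (by simp [k.2])
    simp only [i0, j0, Fin.val_zero, pow_zero, mul_one] at b b' ⊢
    rcases (x1 ⟨y, hy⟩).1 b'.2 with f | f
    · rw [kz y ((h.lamk _).1 f) b]; exact one_mem _
    · have := kz (y * ⟨t, tN⟩⁻¹) (h.lam_eq (x := ⟨y, hy⟩) (y := ⟨t, l.tL⟩) (f.trans (h.lamt c ia l).symm)) (by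
        rw [map_mul, map_inv, b, et]; simp)
      rw [mul_inv_eq_one.1 this]; exact mem_zpowers t
  · rw [show x = ⟨t, tN⟩ ^ k from Subtype.ext b.symm, map_zpow, et, one_zpow]
  · obtain ⟨_, m⟩ := x
    obtain rfl := b
    rw [ev, p1 _ (h.SC (h.JS (c.mem _))), t2, ← emb_val.2.1, ← x4]
  · obtain ⟨_, m⟩ := x
    obtain rfl := b
    rw [ev, p1 _ (h.LC l.aL), t3 _ ⟨h.LC l.aL, mem_centralizer_singleton_iff.2 l.at⟩ (by rw [l.a2, l.t2]), ← emb_val.2.2.1, ← x5]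
  · obtain ⟨⟨σ, π⟩, rfl⟩ := emb_sur y
    rw [emb_N1] at b
    rcases Int.units_eq_one_or (Perm.sign σ) with s | s
    · exact ev1 σ π s (by simpa [s] using b)
    · have := mul_mem (ev1 (σ * (tr 0 * swap 0 1)⁻¹) (π * (swap 0 1)⁻¹) (by simp [s, (tr_spec 0 0).2.2.1]) (by
        simp only [s] at b; simp; simpa using b)) ⟨_, ep⟩
      rwa [← emb_val.2.2.2.1, ← map_mul, Prod.mk_mul_mk, inv_mul_cancel_right, inv_mul_cancel_right] at this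
  · rintro rfl _ ⟨x, rfl⟩
    obtain ⟨y, i, j, hy, rfl⟩ := dc x
    rw [show (⟨1, wN⟩ : (𝒩(zpowers z) ⊓ 𝒞[t] : Subgroup G)) = 1 from rfl, one_pow, mul_one, map_mul, map_pow, ep]
    exact mul_mem (LN y hy) (pow_mem emb_val.2.2.2.2.2.2.1 _)
  · obtain rfl : x = ⟨w, wN⟩ := Subtype.ext b
    rw [ev, p2 _ (wC k), x7 w _ k, t3 _ ⟨(h.dich c l wN.1).resolve_left (wC k), (𝒞[t] : Subgroup G).mul_mem wN.2 ((𝒞[t] : Subgroup G).inv_mem pN.2)⟩ ?_, emb_val.2.2.2.2.1]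
    have : w * p⁻¹ * (w * p⁻¹) = t⁻¹ := by
      rw [← l.pp, show w * p⁻¹ * (w * p⁻¹) = w * p⁻¹ * (w * p) * p⁻¹ * p⁻¹ by group, k.wp,
        show w * p⁻¹ * (p * w) * p⁻¹ * p⁻¹ = w * w * (p * p)⁻¹ by group, k.ww, one_mul]
    show w * p⁻¹ * (w * p⁻¹) * (w * p⁻¹ * (w * p⁻¹)) = 1
    rw [this, ← mul_inv_rev, l.t2, inv_one]

end Hyp

end CA.McL.A

theorem CA.realizeEqns_McL_A5 : True := by
  have := @CA.McL.A.emb0.eq_1
  have := @CA.McL.A.emb0.eq_def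
  have := @CA.McL.A.emb0.congr_simp
  have := @CA.McL.A.tr.eq_1
  have := @CA.McL.A.tr.eq_def
  have := @CA.McL.A.tr.congr_simp
  have := @CA.McL.A.emb.eq_1
  have := @CA.McL.A.emb.eq_def
  have := @CA.McL.A.emb.congr_simp
  trivial
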