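/-
Package B of the McLaughlin characterisation: parts (b) and (c).
-/
import Cfsg.Agent.McL.B6

set_option autoImplicit false
set_option linter.unusedSectionVars false

namespace CA.McL

open Cfsg CA.FG Multiplicative Subgroup SemidirectProduct Equiv

set_option synthInstance.maxSize 2000 in
set_option synthInstance.maxHeartbeats 400000 in
theorem tab3 : ∀ a < 24, (∀ b < 24, ac a 1 = ac b 1 → ac a 3 = ac b 3 → ac a 9 = ac b 9 → a = b) ∧
    (a < 4 → mt a a = 0 ∧ iv a < 4 ∧ (∀ b < 4, mt a b < 4) ∧ ∀ b < 24, mt (mt b a) (iv b) < 4) ∧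
    (a ≠ 0 → mt (mt a a) a = 0 → (∀ b < 24, mt b a = mt a b → b = 0 ∨ mt b (iv a) = 0 ∨ mt b (iv (mt a a)) = 0) ∧
      ∃ r < 12, ac a (ac r 13) = ac r 13 ∧ ac r 13 ≠ 0 ∧ adc (ac r 13) (ac r 13) < 27 ∧
        ∀ c < 27, ac a c = c → c = 0 ∨ c = ac r 13 ∨ c = adc (ac r 13) (ac r 13)) := by
  decide +kernel

theorem tab4 : ∀ c < 27, ac 1 c = c → ac 2 c = c → c = 0 := by decide +kernel

variable {n : ℕ} [hn : Fact (n = 12 ∨ n = 24)] {H : Type*} [Group H] [Finite H]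

theorem KK_faith {a b : KK n} (h : ∀ x : J0, a • x = b • x) : a = b := by
  have k : ∀ c < 27, ac a.val c = ac b.val c := fun c hc => by
    rw [← cdv_mo' _ (lt24 a) _ hc, ← cdv_mo' _ (lt24 b) _ hc]; exact congrArg (fun x : J0 => cdv x.toAdd) (h (ofAdd (vc c)))
  exact Fin.ext ((tab3 _ (lt24 a)).1 _ (lt24 b) (k 1 (by norm_num)) (k 3 (by norm_num)) (k 9 (by norm_num)))

theorem exists_sec (e : J0 →* H) (he : Function.Injective e) (hC : 𝒞(e.range) ≤ e.range)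
    (h1 : ∀ g ∈ 𝒩(e.range), ∃ k : KK n, ∀ x, g * e x * g⁻¹ = e (k • x))
    (h2 : ∀ k : KK n, ∃ g, ∀ x, g * e x * g⁻¹ = e (k • x)) :
    ∃ s : KK n →* H, ∀ k x, s k * e x * (s k)⁻¹ = e (k • x) := by
  set N := 𝒩(e.range) with hN
  choose p hp using h1
  let π : N →* KK n := MonoidHom.mk' (fun g => p g g.2) fun a b => KK_faith fun x => he (by
    rw [← hp, mul_smul, ← hp, ← hp, coe_mul]; group)
  have hπ : ∀ (g : N) x, g * e x * (g : H)⁻¹ = e (π g • x) := fun g => hp g g.2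
  have su : Function.Surjective π := fun k => by
    obtain ⟨g, hg⟩ := h2 k
    exact ⟨⟨g, mem_normalizer_fintype (S := (e.range : Set H)) (by rintro _ ⟨x, rfl⟩; exact ⟨_, (hg x).symm⟩)⟩,
      KK_faith fun x => he ((hπ _ x).symm.trans (hg x))⟩
  let V : Subgroup (KK n) :=
    { carrier := {k | k.val < 4}
      one_mem' := (by norm_num : 0 < 4)
      mul_mem' := fun {a b} ha hb => ((tab3 _ (lt24 a)).2.1 ha).2.2.1 _ hb
      inv_mem' := fun {a} ha => ((tab3 _ (lt24 a)).2.1 ha).2.1 }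
  have nV : V.Normal := ⟨fun a ha b => ((tab3 _ (lt24 a)).2.1 ha).2.2.2 _ (lt24 b)⟩
  have pV : IsPGroup 2 V := fun a => ⟨1, Subtype.ext (by
    rw [pow_one, coe_pow, pow_two]; exact Fin.ext ((tab3 _ (lt24 a.1)).2.1 a.2).1)⟩
  obtain ⟨P⟩ : Nonempty (Sylow 2 (V.comap π)) := inferInstance
  set Q := (P : Subgroup (V.comap π)).map (V.comap π).subtype with hQ
  have hV : ∀ k ∈ V, ∃ q ∈ Q, π q = k := fun k hk => by
    let ρ : V.comap π →* V := (π.comp (V.comap π).subtype).codRestrict V fun x => x.2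
    have sρ : Function.Surjective ρ := fun ⟨k, hk⟩ => by
      obtain ⟨g, rfl⟩ := su k; exact ⟨⟨g, hk⟩, rfl⟩
    have := (P.mapSurjective sρ).is_maximal' (pV.to_subgroup ⊤) le_top
    obtain ⟨q, hq, e⟩ : (⟨k, hk⟩ : V) ∈ (P : Subgroup (V.comap π)).map ρ := by
      rw [← Sylow.coe_mapSurjective sρ, ← this]; trivial
    exact ⟨q, ⟨q, hq, rfl⟩, congrArg Subtype.val e⟩
  have bi : Function.Bijective (π.comp (normalizer (Q : Set N)).subtype) := by
    refine ⟨(injective_iff_map_eq_one _).2 fun ⟨g, hg⟩ g1 => Subtype.ext (Subtype.ext ?_), fun k => ?_⟩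
    · change π g = 1 at g1
      obtain ⟨x, hx⟩ : (g : H) ∈ e.range := hC (mem_centralizer_iff.2 (by
        rintro _ ⟨x, rfl⟩
        have := hπ g x
        rw [g1, one_smul] at this
        exact (mul_inv_eq_iff_eq_mul.1 this).symm))
      have fx : ∀ k ∈ V, k • x = x := fun k hk => by
        obtain ⟨q, hq, rfl⟩ := hV k hk
        have m : g * q * g⁻¹ * q⁻¹ ∈ Q := mul_mem ((mem_normalizer_iff.1 hg q).1 hq) (inv_mem hq)
        obtain ⟨j, hj⟩ := (P.2.map (V.comap π).subtype) ⟨_, m⟩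
        have e1 : ((g * q * g⁻¹ * q⁻¹ : N) : H) = e (x * (π q • x)⁻¹) := by
          rw [map_mul, map_inv, ← hπ, hx]; push_cast; group
        have e2 : (x * (π q • x)⁻¹) ^ 2 ^ j = 1 := he (by
          rw [map_pow, ← e1, map_one]; exact congrArg (fun y : Q => ((y : N) : H)) hj)
        have e3 : ∀ x : J0, x ^ 3 = 1 := by decide
        have := pow_gcd_eq_one.2 ⟨e2, e3 _⟩
        rw [show Nat.gcd (2 ^ j) 3 = 1 from Nat.Coprime.pow_left _ (by norm_num), pow_one, mul_inv_eq_one] at this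
        exact this.symm
      have f1 := congrArg (fun x : J0 => cdv x.toAdd) (fx ⟨1, by have := hn.out; omega⟩ (by norm_num : 1 < 4))
      have f2 := congrArg (fun x : J0 => cdv x.toAdd) (fx ⟨2, by have := hn.out; omega⟩ (by norm_num : 2 < 4))
      have := tab4 _ (cdv_lt x.toAdd) ((cdv_mo (by norm_num) _).symm.trans f1) ((cdv_mo (by norm_num) _).symm.trans f2)
      rw [← hx, show x = 1 from toAdd.injective (cdv_inj this), map_one]; rfl
    · have : (normalizer (Q : Set N)).map π = ⊤ := by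
        rw [eq_top_iff, ← map_top_of_surjective π su, ← P.normalizer_sup_eq_top, Subgroup.map_sup, sup_le_iff]
        refine ⟨le_rfl, ?_⟩
        rintro _ ⟨g, hg, rfl⟩
        obtain ⟨q, hq, e⟩ := hV _ hg
        exact ⟨q, le_normalizer hq, e⟩
      obtain ⟨g, hg, e⟩ : k ∈ (normalizer (Q : Set N)).map π := by rw [this]; trivial
      exact ⟨⟨g, hg⟩, e⟩
  refine ⟨N.subtype.comp ((normalizer (Q : Set N)).subtype.comp (MulEquiv.ofBijective _ bi).symm.toMonoidHom), fun k x => ?_⟩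
  exact (hπ _ x).trans (congrArg (fun k => e (k • x)) ((MulEquiv.ofBijective _ bi).apply_symm_apply k))

theorem exists_ctx (e : J0 →* H) (he : Function.Injective e) (hC : 𝒞(e.range) ≤ e.range)
    (hx : ∀ x, x ≠ 1 → Subgroup.centralizer {e x} ≤ 𝒩(e.range))
    (h1 : ∀ g ∈ 𝒩(e.range), ∃ k : KK n, ∀ x, g * e x * g⁻¹ = e (k • x))
    (h2 : ∀ k : KK n, ∃ g, ∀ x, g * e x * g⁻¹ = e (k • x))
    (hz : ∀ g, g * e (ofAdd fun _ => 1) * g⁻¹ ∈ 𝒩(e.range) → g * e (ofAdd fun _ => 1) * g⁻¹ ∈ e.range) :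
    ∃ f : Ga n →* H, Ctx f e.range := by
  obtain ⟨s, hs⟩ := exists_sec e he hC h1 h2
  let f : Ga n →* H := lift e s fun k => MonoidHom.ext fun x => (hs k x).symm
  have hf : ∀ g : Ga n, f g = e g.left * s g.right := fun _ => rfl
  have fl : ∀ x, f (inl x) = e x := lift_inl _ _ _
  have cm : ∀ x y, e x * e y * (e x)⁻¹ = e y := fun x y => by rw [← map_inv, ← map_mul, ← map_mul]; simp
  have inj : Function.Injective f := (injective_iff_map_eq_one _).2 fun g g1 => by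
    rw [hf, mul_eq_one_iff_inv_eq, ← map_inv] at g1
    have k : g.right = 1 := KK_faith fun x => he (by rw [← hs, ← g1, cm, one_smul])
    rw [k, map_one, map_inv, inv_eq_one] at g1
    exact SemidirectProduct.ext (he (g1.trans (map_one e).symm)) k
  have mem : ∀ y, y ∈ e.range ↔ ∃ g, gk g = 0 ∧ f g = y := fun y =>
    ⟨by rintro ⟨x, rfl⟩; exact ⟨inl x, rfl, fl x⟩, by rintro ⟨g, hg, rfl⟩; rw [eq_jv hg]; exact ⟨_, (fl _).symm⟩⟩
  have ran : f.range = 𝒩(e.range) := by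
    refine le_antisymm ?_ fun g hg => ?_
    · rintro _ ⟨g, rfl⟩
      exact mul_mem (le_normalizer ⟨_, rfl⟩) (mem_normalizer_fintype (S := (e.range : Set H))
        (by rintro _ ⟨x, rfl⟩; exact ⟨_, (hs _ x).symm⟩))
    · obtain ⟨k, hk⟩ := h1 g hg
      obtain ⟨x, e1⟩ : g * (s k)⁻¹ ∈ e.range := hC (mem_centralizer_iff.2 (by
        rintro _ ⟨x, rfl⟩
        have := hk (k⁻¹ • x)
        rw [smul_inv_smul, ← hs, map_inv] at this
        nth_rw 1 [← this]; group))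
      exact ⟨⟨x, k⟩, by rw [hf, e1]; simp⟩
  have hx' : ∀ x ∈ e.range, x ≠ 1 → 𝒞[x] ≤ 𝒩(e.range) := by
    rintro _ ⟨x, rfl⟩ x1; exact hx x fun k => x1 (by rw [k, map_one])
  refine ⟨f, inj, mem, ran, hx', ?_⟩
  rintro _ ⟨x, rfl⟩ y hy c
  obtain ⟨γ, rfl⟩ : y ∈ f.range := ran ▸ hy
  refine (mem _).2 ⟨γ, by_contra fun k0 => ?_, rfl⟩
  obtain ⟨g, hg⟩ := isConj_iff.1 c
  have x1 : x ≠ 1 := fun k => k0 (by rw [show γ = 1 from inj (by rw [← hg, k]; simp)]; rfl)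
  have γ3 : γ * γ * γ = 1 := inj (by
    have e3 : ∀ x : J0, x ^ 3 = 1 := by decide
    rw [← pow_three', map_pow, ← hg, conj_pow, ← map_pow, e3]; simp)
  obtain ⟨t1, r, r12, t2, t3, t4, t5⟩ := (tab3 _ (gk_lt' γ)).2.2 k0 (congrArg gk γ3)
  have z27 : ac r 13 < 27 := ac_lt (by omega) (by norm_num)
  set z := jv n (ac r 13) with hzz
  have cz : γ * z * γ⁻¹ = z := by rw [hzz, conj_jv γ z27, t2]
  obtain ⟨w, hw⟩ : g⁻¹ * f z * g ∈ e.range := by
    let ρ : Ga n := inr ⟨r, by have := hn.out; omega⟩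
    have e1 : g⁻¹ * f z * g = (g⁻¹ * f ρ) * e (ofAdd fun _ => 1) * (g⁻¹ * f ρ)⁻¹ := by
      rw [hzz, show jv n (ac r 13) = ρ * jv n 13 * ρ⁻¹ from (conj_jv ρ (by norm_num)).symm, map_mul, map_mul, map_inv, jv, fl,
        show vc 13 = fun _ => 1 by decide]
      group
    rw [e1]
    refine hz _ (e1 ▸ hx x x1 (mem_centralizer_singleton_iff.2 ?_))
    have := congrArg f cz
    rw [map_mul, map_mul, map_inv, ← hg] at this
    nth_rw 1 [← this]; group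
  have su : Function.Surjective fun p : Fin 3 × Fin 3 => w ^ p.1.val * x ^ p.2.val := fun x' => by
    obtain ⟨δ, hδ⟩ : g * e x' * g⁻¹ ∈ f.range := ran ▸ hx' (f z) ((mem _).2 ⟨z, rfl, rfl⟩)
      (fun k => t3 (by rw [← gc_jv (n := n) z27, ← hzz, inj (k.trans (map_one f).symm)]; rfl))
      (mem_centralizer_singleton_iff.2 (by
        rw [show f z = g * e w * g⁻¹ by rw [hw]; group, conj_mul, conj_mul, ← map_mul, mul_comm, map_mul]))
    have cδ : δ * γ = γ * δ := inj (by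
      rw [map_mul, map_mul, hδ, ← hg, conj_mul, conj_mul, ← map_mul, mul_comm, map_mul])
    obtain ⟨i, hi⟩ : ∃ i : Fin 3, gk (δ * (γ ^ i.val)⁻¹) = 0 := by
      rcases t1 _ (gk_lt' δ) (congrArg gk cδ) with k | k | k
      · exact ⟨0, by simpa using k⟩
      · exact ⟨1, by change gk (δ * (γ ^ 1)⁻¹) = 0; rw [pow_one]; exact k⟩
      · exact ⟨2, by change gk (δ * (γ ^ 2)⁻¹) = 0; rw [pow_two]; exact k⟩
    obtain ⟨l, hl⟩ : ∃ l : Fin 3, δ * (γ ^ i.val)⁻¹ = z ^ l.val := by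
      have c1 : γ * (δ * (γ ^ i.val)⁻¹) * γ⁻¹ = δ * (γ ^ i.val)⁻¹ := by rw [← mul_assoc, ← cδ]; group
      rw [eq_jv hi, conj_jv γ (gc_lt _)] at c1
      have c2 := congrArg gc c1
      rw [gc_jv (ac_lt (gk_lt' γ) (gc_lt _)), gc_jv (gc_lt _)] at c2
      rcases t5 _ (gc_lt _) c2 with k | k | k
      · exact ⟨0, g_ext hi k⟩
      · exact ⟨1, by rw [eq_jv hi, k]; simp [hzz]⟩
      · refine ⟨2, g_ext (hi.trans ?_) (k.trans ?_)⟩
        · change 0 = gk (z ^ 2); rw [pow_two, gk_mul, hzz, gk_jv]; decide +kernel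
        · change _ = gc (z ^ 2); rw [pow_two, gc_mul, hzz, gk_jv, gc_jv z27, (tb2 z27).1]
    refine ⟨(l, i), he ?_⟩
    rw [mul_inv_eq_iff_eq_mul] at hl
    rw [map_mul, map_pow, map_pow, hw, show e x' = g⁻¹ * f δ * g by rw [hδ]; group, hl, map_mul, map_pow, map_pow, ← hg, conj_pow,
      show g⁻¹ * f z * g = g⁻¹ * f z * g⁻¹⁻¹ by rw [inv_inv], conj_pow]
    group
  have := Fintype.card_le_of_surjective _ su
  simp at this

theorem mon_eq {σ : Perm (Fin 3)} {s : Fin 3 → ZMod 3} {k : ℕ}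
    (h : ∀ i, s i = sk k i ∧ (σ i).val = pk k i % 3) (x : Fin 3 → ZMod 3) : mon σ s x = mo k x :=
  funext fun i => by rw [mon, mo, (h i).1]; exact congrArg (fun j => _ * x j) (Fin.ext (h i).2)

theorem Bb (e : Multiplicative (Fin 3 → ZMod 3) →* H) (he : Function.Injective e) (hC : 𝒞(e.range) ≤ e.range)
    (hx : ∀ x, x ≠ 1 → Subgroup.centralizer {e x} ≤ Subgroup.normalizer (e.range : Set H))
    (hN : ∀ g ∈ Subgroup.normalizer (e.range : Set H), ∃ (σ : Perm (Fin 3)) (s : Fin 3 → ZMod 3),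
      (s 0 * s 1 * s 2 = 1 ∧ Perm.sign σ = 1) ∧ ∀ x, g * e (ofAdd x) * g⁻¹ = e (ofAdd (mon σ s x)))
    (hN2 : ∀ (σ : Perm (Fin 3)) (s : Fin 3 → ZMod 3), s 0 * s 1 * s 2 = 1 ∧ Perm.sign σ = 1 →
      ∃ g, ∀ x, g * e (ofAdd x) * g⁻¹ = e (ofAdd (mon σ s x)))
    (hz : ∀ g, g * e (ofAdd fun _ => 1) * g⁻¹ ∈ Subgroup.normalizer (e.range : Set H) →
      g * e (ofAdd fun _ => 1) * g⁻¹ ∈ e.range) : Subgroup.normalizer (e.range : Set H) = ⊤ := by
  have k1 : ∀ (σ : Perm (Fin 3)) (s : Fin 3 → ZMod 3), s 0 * s 1 * s 2 = 1 ∧ Perm.sign σ = 1 →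
    ∃ k : Fin 12, ∀ i, s i = sk k i ∧ (σ i).val = pk k i % 3 := by decide +kernel
  have k2 : ∀ k : Fin 12, ∃ (σ : Perm (Fin 3)) (s : Fin 3 → ZMod 3), (s 0 * s 1 * s 2 = 1 ∧ Perm.sign σ = 1) ∧
    ∀ i, s i = sk k i ∧ (σ i).val = pk k i % 3 := by decide +kernel
  refine (exists_ctx (n := 12) e he hC hx (fun g hg => ?_) (fun k => ?_) hz).elim fun f hf => hf.top12
  · obtain ⟨σ, s, h, h'⟩ := hN g hg
    obtain ⟨k, hk⟩ := k1 σ s h
    exact ⟨k, fun x => (h' x.toAdd).trans (by rw [mon_eq hk]; rfl)⟩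
  · obtain ⟨σ, s, h, hk⟩ := k2 k
    obtain ⟨g, h'⟩ := hN2 σ s h
    exact ⟨g, fun x => (h' x.toAdd).trans (by rw [mon_eq hk]; rfl)⟩

theorem Bc (e : Multiplicative (Fin 3 → ZMod 3) →* H) (he : Function.Injective e) (hC : 𝒞(e.range) ≤ e.range)
    (hx : ∀ x, x ≠ 1 → Subgroup.centralizer {e x} ≤ Subgroup.normalizer (e.range : Set H))
    (hN : ∀ g ∈ Subgroup.normalizer (e.range : Set H), ∃ (σ : Perm (Fin 3)) (s : Fin 3 → ZMod 3),
      s 0 * s 1 * s 2 = ((Perm.sign σ : ℤ) : ZMod 3) ∧ ∀ x, g * e (ofAdd x) * g⁻¹ = e (ofAdd (mon σ s x)))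
    (hN2 : ∀ (σ : Perm (Fin 3)) (s : Fin 3 → ZMod 3), s 0 * s 1 * s 2 = ((Perm.sign σ : ℤ) : ZMod 3) →
      ∃ g, ∀ x, g * e (ofAdd x) * g⁻¹ = e (ofAdd (mon σ s x)))
    (hz : ∀ g, g * e (ofAdd fun _ => 1) * g⁻¹ ∈ Subgroup.normalizer (e.range : Set H) →
      g * e (ofAdd fun _ => 1) * g⁻¹ ∈ e.range) : Subgroup.normalizer (e.range : Set H) = ⊤ := by
  have k1 : ∀ (σ : Perm (Fin 3)) (s : Fin 3 → ZMod 3), s 0 * s 1 * s 2 = ((Perm.sign σ : ℤ) : ZMod 3) →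
    ∃ k : Fin 24, ∀ i, s i = sk k i ∧ (σ i).val = pk k i % 3 := by decide +kernel
  have k2 : ∀ k : Fin 24, ∃ (σ : Perm (Fin 3)) (s : Fin 3 → ZMod 3), s 0 * s 1 * s 2 = ((Perm.sign σ : ℤ) : ZMod 3) ∧
    ∀ i, s i = sk k i ∧ (σ i).val = pk k i % 3 := by decide +kernel
  refine (exists_ctx (n := 24) e he hC hx (fun g hg => ?_) (fun k => ?_) hz).elim fun f hf => hf.top24
  · obtain ⟨σ, s, h, h'⟩ := hN g hg
    obtain ⟨k, hk⟩ := k1 σ s h
    exact ⟨k, fun x => (h' x.toAdd).trans (by rw [mon_eq hk]; rfl)⟩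
  · obtain ⟨σ, s, h, hk⟩ := k2 k
    obtain ⟨g, h'⟩ := hN2 σ s h
    exact ⟨g, fun x => (h' x.toAdd).trans (by rw [mon_eq hk]; rfl)⟩

end CA.McL
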