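/-
The 3-local base: the data in the centraliser of an involution.
-/
import Cfsg.Agent.McL.A5
import Cfsg.Agent.McL.B7

set_option autoImplicit false
set_option synthInstance.maxSize 100000

namespace CA.McL.A

open Cfsg Subgroup CA.FG Equiv

universe u

variable {G : Type u} [Group G] {S J Q : Subgroup G} {z p a v t w : G} {e : V4 → G}
  [Finite G] {lam : gen3 𝒩(zpowers z) →* SL5} {mu : gen3 𝒩(J) →* alternatingGroup (Fin 6)}

omit [Finite G] in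
theorem mem_zp2 (h : t * t = 1) {y : G} (hy : y ∈ zpowers t) : y = 1 ∨ y = t := by
  obtain ⟨k, rfl⟩ := hy
  have e : t ^ k = t ^ (k % 2) := by
    conv_lhs => rw [← Int.emod_add_mul_ediv k 2, zpow_add, zpow_mul, show t ^ (2 : ℤ) = 1 from by rw [zpow_two, h], one_zpow, mul_one]
  show t ^ k = 1 ∨ t ^ k = t
  rcases Int.emod_two_eq_zero_or_one k with a | a <;> rw [e, a] <;> simp

theorem Hyp.xh (h : Hyp S z J Q lam mu) (c : Co J Q z 1 e) (ia : In e (gen3 𝒩(zpowers z)) aa)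
    (l : Lt e (gen3 𝒩(zpowers z)) p a v t) (cb : 𝒞[e (1, 0, 0, 1)] ≤ 𝒩(J)) {X : Type*} [Group X]
    (π : (𝒞[t] : Subgroup G) →* X) (πs : Function.Surjective π) (πk : π.ker = zpowers ⟨t, mem_cent_singleton_self t⟩)
    (φ : (𝒩(zpowers z) ⊓ 𝒞[t] : Subgroup G) →* N2) (k : ∀ x, φ x = 1 ↔ x.1 ∈ zpowers t) (f1 : ∀ x, x.1 = z → φ x = a1)
    (f2 : ∀ x, x.1 = e (1, 0, 0, 0) → φ x = a2) (f3 : ∀ x, x.1 = a → φ x = w1) (f4 : ∀ x, x.1 = p → φ x = w1 * w2)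
    (N : Subgroup N2) (n1 : N1 ≤ N) (eN : φ.range = N) :
    ∃ f : N →* X, (∀ x y, φ x = y.1 → f y = π ⟨x, x.2.2⟩) ∧
      XH π ⟨t, mem_cent_singleton_self t⟩ N f (π ⟨v, mem_centralizer_singleton_iff.2 l.vt⟩) := by
  subst eN
  haveI := Finite.of_surjective π πs
  have pk : ∀ x, π x = 1 ↔ x.1 ∈ zpowers t := fun x => by
    rw [← MonoidHom.mem_ker, πk]
    exact ⟨fun ⟨i, b⟩ => ⟨i, congrArg Subtype.val b⟩, fun ⟨i, b⟩ => ⟨i, Subtype.ext b⟩⟩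
  have pe : ∀ x y, π x = π y ↔ x.1 = y.1 ∨ x.1 = y.1 * t := fun x y => by
    rw [eq_comm, ← inv_mul_eq_one, ← map_inv, ← map_mul, pk]
    show y.1⁻¹ * x.1 ∈ _ ↔ _
    exact ⟨fun b => (mem_zp2 l.t2 b).imp (fun b => (inv_mul_eq_one.1 b).symm) fun b => inv_mul_eq_iff_eq_mul.1 b,
      fun b => by rcases b with b | b <;> simp [b]⟩
  let f := φ.rangeRestrict.liftOfSurjective φ.rangeRestrict_surjective ⟨π.comp (inclusion inf_le_right), fun x b =>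
    (pk _).2 ((k x).1 (congrArg Subtype.val b))⟩
  have ev : ∀ x y, φ x = y.1 → f y = π ⟨x, x.2.2⟩ := fun x y b => by
    rw [show y = φ.rangeRestrict x from Subtype.ext b.symm]; exact MonoidHom.liftOfRightInverse_comp_apply _ _ _ _ x
  have mr : ∀ g : (𝒞[t] : Subgroup G), g.1 ∈ 𝒩(zpowers z) → π g ∈ f.range := fun g b => ⟨φ.rangeRestrict ⟨g, b, g.2⟩, ev ⟨g, b, g.2⟩ _ rfl⟩
  have mD : ∀ i j : F3, e (i, 0, 0, j) ∈ (𝒞[t] : Subgroup G) := fun i j => (l.memD c.toCd).2 ⟨rfl, rfl⟩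
  have zC : z ∈ (𝒞[t] : Subgroup G) := c.hz ▸ mD 0 1
  have aC : a ∈ (𝒞[t] : Subgroup G) := mem_centralizer_singleton_iff.2 l.at
  have pN := h.pN c l
  have g1 : ∀ x : φ.range, x.1 = a1 → f x = π ⟨z, zC⟩ := fun x b => ev ⟨z, h.SN (h.QS h.zQ), zC⟩ x ((f1 _ rfl).trans b.symm)
  have g2 : ∀ x : φ.range, x.1 = a2 → f x = π ⟨_, mD 1 0⟩ := fun x b =>
    ev ⟨_, h.SN (h.JS (c.mem _)), mD 1 0⟩ x ((f2 _ rfl).trans b.symm)
  have g3 : ∀ x : φ.range, x.1 = w1 → f x = π ⟨a, aC⟩ := fun x b => ev ⟨a, gen3_le _ l.aL, aC⟩ x ((f3 _ rfl).trans b.symm)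
  have g4 : ∀ x : φ.range, x.1 = w1 * w2 → f x = π ⟨p, pN.2⟩ := fun x b => ev ⟨p, pN⟩ x ((f4 _ rfl).trans b.symm)
  have od : ∀ x y : (𝒞[t] : Subgroup G), x.1 ^ 3 = 1 → y.1 ^ 3 = 1 → π x = π y → x.1 = y.1 := fun x y a b d =>
    ((pe x y).1 d).resolve_right fun m => l.t1 c.toCd (by
      rwa [m, (show Commute y.1 t from mem_centralizer_singleton_iff.1 y.2).mul_pow, b, one_mul, pow_three', l.t2, one_mul] at a)
  have cj3 : ∀ (g : (𝒞[t] : Subgroup G)) (x : V4), (g.1 * e x * g.1⁻¹) ^ 3 = 1 := fun g x => by rw [conj_pow, c.e3]; simp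
  have cD : closure {π ⟨z, zC⟩, π ⟨_, mD 1 0⟩} = ((c.sg T2).subgroupOf 𝒞[t]).map π := by
    refine le_antisymm ((closure_le _).2 ?_) ?_
    · rintro _ (rfl | rfl)
      exacts [⟨⟨z, zC⟩, ⟨(0, 0, 0, 1), ⟨rfl, rfl⟩, c.hz⟩, rfl⟩, ⟨⟨_, mD 1 0⟩, ⟨(1, 0, 0, 0), ⟨rfl, rfl⟩, rfl⟩, rfl⟩]
    · rintro _ ⟨y, ⟨x, hx, b⟩, rfl⟩
      rw [show y = ⟨_, mD 1 0⟩ ^ x.1.val * ⟨z, zC⟩ ^ x.2.2.2.val from Subtype.ext (by
        show _ = e (1, 0, 0, 0) ^ x.1.val * z ^ x.2.2.2.val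
        rw [← c.smul, ← show e (x.2.2.2 • (0, 0, 0, 1)) = z ^ x.2.2.2.val by rw [c.smul, c.hz], ← c.add]
        refine b.symm.trans ?_
        congr 1; simp [Prod.ext_iff, hx.1, hx.2]), map_mul, map_pow, map_pow]
      exact mul_mem (pow_mem (subset_closure (.inr rfl)) _) (pow_mem (subset_closure (.inl rfl)) _)
  have lf : ∀ y : (𝒞[t] : Subgroup G), Lf π (π y) ↔ y.1 * y.1 = 1 := fun y => ⟨fun b => congrArg Subtype.val (b y rfl), fun b x d =>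
    Subtype.ext (by
      show x.1 * x.1 = 1
      rcases (pe x y).1 d with m | m
      · rw [m, b]
      · rw [m, mul_assoc, ← mul_assoc t, ← mem_centralizer_singleton_iff.1 y.2, mul_assoc, l.t2, mul_one, b])⟩
  refine ⟨f, ev, πs, πk, by rw [← orderOf_coe]; exact l.ot c.toCd, n1, (injective_iff_map_eq_one f).2 fun y b => ?_, fun x b => ?_,
    by rw [← map_mul, ← map_one π]; exact congrArg π (Subtype.ext l.vv), fun x y b d => ?_, fun x y b d => ?_, fun x y b d g hg => ?_,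
    fun x y b d g hg => ?_, fun x b => ?_, fun x b => ?_, (lf _).2 l.vv⟩
  · obtain ⟨_, x, rfl⟩ := y
    exact Subtype.ext ((k x).2 ((pk _).1 ((ev x _ rfl).symm.trans b)))
  · rw [g1 x b]
    refine le_antisymm ?_ fun g hg => ?_
    · rintro _ ⟨⟨_, y, rfl⟩, rfl⟩
      rw [ev y _ rfl]
      refine mem_norm_of_conjg_le ?_
      obtain ⟨i, m⟩ := conj_mem_of_mem_norm y.2.1 (mem_zpowers z)
      rw [conjg_zpowers, ← map_inv, ← map_mul, ← map_mul]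
      exact zpowers_le_of_mem ⟨i, (map_zpow π _ i).symm.trans (congrArg π (Subtype.ext m))⟩
    · obtain ⟨g, rfl⟩ := πs g
      obtain ⟨i, m⟩ := conj_mem_of_mem_norm hg (mem_zpowers _)
      refine mr g (mem_norm_of_conjg_le ?_)
      rw [conjg_zpowers]
      refine zpowers_le_of_mem ⟨i, od (⟨z, zC⟩ ^ i) (g * ⟨z, zC⟩ * g⁻¹) (h.Q3 _ (zpow_mem h.zQ i)) (c.hz ▸ cj3 g _) ?_⟩
      rw [map_zpow, map_mul, map_mul, map_inv]; exact m
  · rw [g1 x b, g2 y d, ← map_inv, ← map_mul, ← map_mul]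
    exact congrArg π (Subtype.ext (show v * z * v⁻¹ = _ by rw [← c.hz, l.hv]; rfl))
  · have m : (x⁻¹ * (x * y)) = y := by group
    rw [← m, map_mul, map_inv, g4 (x * y) (by rw [coe_mul, b, d]), g3 x b, ← map_inv, ← map_inv, ← map_mul, ← map_mul, ← map_mul, eq_comm, pe]
    refine .inr ?_
    show a⁻¹ * p = v * a * v⁻¹ * t
    rw [l.va, l.ainv, mul_assoc, mul_assoc, l.pt]
  · obtain ⟨g, rfl⟩ := πs g
    rw [g1 x b, g2 y d, cD] at hg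
    have : g.1 ∈ 𝒩(c.sg T2) := mem_norm_of_forall (by
      rintro _ ⟨x, hx, rfl⟩
      obtain ⟨y, ⟨x', hx', m⟩, n⟩ := conj_mem_of_mem_norm hg (⟨⟨e x, (l.memD c.toCd).2 hx⟩, ⟨x, hx, rfl⟩, rfl⟩ :
        _ ∈ map π ((c.sg T2).subgroupOf 𝒞[t]))
      exact ⟨x', hx', m.trans (od y (g * ⟨e x, (l.memD c.toCd).2 hx⟩ * g⁻¹) ((show e x' = y.1 from m) ▸ c.e3 x') (cj3 g x)
        (by rw [map_mul, map_mul, map_inv]; exact n))⟩)
    exact (h.ND c ia l this).2.imp (mr g) fun m => by rw [← map_mul]; exact mr _ m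
  · obtain ⟨g, rfl⟩ := πs g
    rw [g1 x b, g2 y d] at hg ⊢
    have m : (⟨z, zC⟩ * ⟨_, mD 1 0⟩ : (𝒞[t] : Subgroup G)) = ⟨_, mD 1 1⟩ := Subtype.ext (show z * _ = _ by rw [← c.hz, ← c.add]; rfl)
    rw [← map_mul, m] at hg
    have n := cb (mem_centralizer_singleton_iff.2 (mul_inv_eq_iff_eq_mul.1 (od (g * ⟨_, mD 1 1⟩ * g⁻¹) ⟨_, mD 1 1⟩ (cj3 g _) (c.e3 _)
      (by rw [map_mul, map_mul, map_inv, hg.eq, mul_inv_cancel_right]))))
    rw [cD]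
    refine mem_norm_of_forall ?_
    rintro _ ⟨y, ⟨x, hx, m⟩, rfl⟩
    obtain ⟨x', m'⟩ := c.sur _ (conj_mem_of_mem_norm n (m ▸ c.mem x))
    exact ⟨g * y * g⁻¹, ⟨x', (l.memD c.toCd).1 (m' ▸ (g * y * g⁻¹).2), m'⟩, by rw [map_mul, map_mul, map_inv]⟩
  · rw [g3 x b, lf, l.a2]; exact l.t1 c.toCd
  · rw [g4 x b, lf, l.pp]; exact l.t1 c.toCd

theorem Hyp.loc (h : Hyp S z J Q lam mu) : T3 G ∧ ∃ (t : G) (ht : t ∈ 𝒞[t]), orderOf t = 2 ∧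
    (∃ g, g * t * g⁻¹ ≠ t ∧ Commute (g * t * g⁻¹) t) ∧ ∃ (X : Type u) (_ : Group X) (π : (𝒞[t] : Subgroup G) →* X),
    (∃ f v, XH π ⟨t, ht⟩ N1 f v) ∨ ∃ f v, XH2 π ⟨t, ht⟩ f v ∧ (∀ c : (𝒞[t] : Subgroup G), π c = v → IsConj t (c : G)) ∧
      ∃ w : (𝒞[t] : Subgroup G), w * w = 1 ∧ π w = f ⟨w1 * w2 * ta, trivial⟩ ∧ ¬ IsConj t (w : G) := by
  obtain ⟨e, c, ia⟩ := h.ex_co2
  have cb := h.Cb c ia (fun H _ _ e => Bb e) fun H _ _ e => Bc e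
  obtain ⟨p, a, v, t, l, lw⟩ := h.ex_lt c ia
  haveI : (zpowers (⟨t, mem_cent_singleton_self t⟩ : (𝒞[t] : Subgroup G))).Normal := ⟨fun x ⟨i, b⟩ g => by
    rw [← b, show g * _ = _ * g from (Commute.zpow_right (Subtype.ext (mem_centralizer_singleton_iff.1 g.2)) i).eq,
      mul_inv_cancel_right]; exact ⟨i, rfl⟩⟩
  let π := QuotientGroup.mk' (zpowers (⟨t, mem_cent_singleton_self t⟩ : (𝒞[t] : Subgroup G)))
  have πs : Function.Surjective π := QuotientGroup.mk'_surjective _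
  have πk : π.ker = _ := QuotientGroup.ker_mk' _
  refine ⟨h.t3 c ia cb, t, mem_cent_singleton_self t, l.ot c.toCd, ?_, _, inferInstance, π, ?_⟩
  · obtain ⟨g, b⟩ := isConj_iff.1 l.c1
    exact ⟨g, b ▸ fun d => absurd (c.uni l.hv (d ▸ l.ht) (1, 0, 0, 0)) (by decide), b ▸ l.vt⟩
  by_cases n : In e 𝒩(J) (sc 2)
  swap
  · obtain ⟨φ, k, f1, f2, f3, f4, f5, f6, -⟩ := h.ex_phi c ia l (.inr ⟨n, rfl⟩)
    obtain ⟨f, -, x⟩ := h.xh c ia l cb π πs πk φ k f1 f2 f3 f4 N1 le_rfl (le_antisymm (f6 rfl) f5)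
    exact .inl ⟨f, _, x⟩
  obtain ⟨w, lw⟩ := lw n
  obtain ⟨φ, k, f1, f2, f3, f4, f5, -, f6⟩ := h.ex_phi c ia l (.inl lw)
  obtain ⟨wN, f6⟩ := f6 lw
  obtain ⟨f, ev, x⟩ := h.xh c ia l cb π πs πk φ k f1 f2 f3 f4 ⊤ le_top (eq_top_iff.2 fun y _ => by
    by_cases b : y ∈ N1
    · exact f5 b
    · refine (mul_mem_cancel_right (inv_mem (show w1 * w2 * ta ∈ φ.range from ⟨_, f6 ⟨w, wN⟩ rfl⟩))).1 (f5 ?_)
      have := emb_val.2.2.2.2.2.2.2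
      simp only [N1, mem_subgroupOf, Perm.mem_alternatingGroup, coe_mul, InvMemClass.coe_inv, map_mul, map_inv] at b this ⊢
      rw [(Int.units_eq_one_or _).resolve_left b, (Int.units_eq_one_or _).resolve_left this]; rfl)
  have pN := h.pN c l
  have vC : v ∈ (𝒞[t] : Subgroup G) := mem_centralizer_singleton_iff.2 l.vt
  have g1 : f ⟨w1 * w2 * ta, trivial⟩ = π ⟨w, wN.2⟩ := ev ⟨w, wN⟩ _ (f6 _ rfl)
  have g2 : f ⟨ta, trivial⟩ = π (⟨p, pN.2⟩ * ⟨w, wN.2⟩) := ev (⟨p, pN⟩ * ⟨w, wN⟩) _ (by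
    rw [map_mul, f4 _ rfl, f6 _ rfl]; decide)
  have pe : ∀ x y, π x = π y → x.1 = y.1 ∨ x.1 = y.1 * t := fun x y b => by
    obtain ⟨i, m⟩ := QuotientGroup.eq.1 b.symm
    exact (mem_zp2 l.t2 (⟨i, congrArg Subtype.val m⟩ : y.1⁻¹ * x.1 ∈ zpowers t)).imp (fun b => (inv_mul_eq_one.1 b).symm)
      fun b => inv_mul_eq_iff_eq_mul.1 b
  have lf : ∀ y : (𝒞[t] : Subgroup G), y.1 * y.1 = 1 → Lf π (π y) := fun y b x d => Subtype.ext (by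
    show x.1 * x.1 = 1
    rcases pe x y d with m | m
    · rw [m, b]
    · rw [m, mul_assoc, ← mul_assoc t, ← mem_centralizer_singleton_iff.1 y.2, mul_assoc, l.t2, mul_one, b])
  have cv : ∀ c : (𝒞[t] : Subgroup G), π c = π ⟨v, vC⟩ → IsConj t (c : G) := fun y b =>
    (pe _ _ b).elim (fun m => m ▸ l.c1) fun m => m ▸ l.c2
  have vp : v * p = p * t * v := by rw [← l.pinv, ← l.vp]; group
  refine .inr ⟨f, _, ⟨x, ?_, fun b => ?_, ?_, g1 ▸ lf _ lw.ww, fun b => ?_⟩, cv, ⟨w, wN.2⟩, Subtype.ext lw.ww, g1.symm, h.nconj c ia l lw⟩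
  · rw [g2, Commute, SemiconjBy, ← map_mul, ← map_mul, show ⟨v, vC⟩ * (⟨p, pN.2⟩ * ⟨w, wN.2⟩) = ⟨p, pN.2⟩ * ⟨w, wN.2⟩ * ⟨v, vC⟩ *
      (⟨t, mem_cent_singleton_self t⟩ : (𝒞[t] : Subgroup G)) from Subtype.ext (show v * (p * w) = p * w * v * t by
        rw [← mul_assoc, vp, mul_assoc _ v, ← lw.wv, mul_assoc _ v, l.vt, mul_assoc p, mul_assoc p, ← mul_assoc t, ← lw.wt l, mul_assoc]),
      map_mul π _ ⟨t, _⟩, show π ⟨t, _⟩ = 1 from (QuotientGroup.eq_one_iff _).2 (mem_zpowers _), mul_one]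
  · have : p * w * (p * w) = 1 := congrArg Subtype.val (b _ g2.symm)
    rw [mul_assoc, ← mul_assoc w, lw.wp, mul_assoc, lw.ww, mul_one, l.pp] at this
    exact l.t1 c.toCd this
  · rw [g2, ← map_mul]
    refine lf _ (show v * (p * w) * (v * (p * w)) = 1 from ?_)
    rw [show v * (p * w) * (v * (p * w)) = v * p * (w * v) * p * w by group, lw.wv, mul_assoc _ p w, ← lw.wp,
      show v * p * (v * w) * (w * p) = v * p * v⁻¹ * (v * v) * (w * w) * p by group, l.vp, l.vv, lw.ww]; simp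
  · obtain ⟨g, b⟩ := isConj_iff.1 b.symm
    obtain ⟨g, rfl⟩ := πs g
    rw [g1, ← map_inv, ← map_mul, ← map_mul] at b
    exact h.nconj c ia l lw ((cv _ b).trans (isConj_iff.2 ⟨g.1, rfl⟩).symm)

end CA.McL.A

namespace CA.McL

open Cfsg Subgroup CA.FG

universe u

theorem locA {G : Type u} [Group G] [Finite G]
    (S : Sylow 3 G) (Z : Subgroup G) (hZ : Z = (S : Subgroup G) ⊓ Subgroup.centralizer ((S : Subgroup G) : Set G))
    (J : Subgroup G) (hJS : J ≤ S) (hJcomm : IsMulCommutative J) (hJexp : ∀ a ∈ J, a ^ 3 = 1) (hJcard : Nat.card J = 3 ^ 4)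
    (M₀ : Subgroup G) (hM₀ : M₀ = Subgroup.closure {g : G | g ∈ Subgroup.normalizer (J : Set G) ∧ ∃ k : ℕ, orderOf g = 3 ^ k})
    (hJM : J ≤ M₀) [hJn : (J.subgroupOf M₀).Normal] (eM : M₀ ⧸ J.subgroupOf M₀ ≃* alternatingGroup (Fin 6))
    (L₀ : Subgroup G) (hL₀ : L₀ = Subgroup.closure {g : G | g ∈ Subgroup.normalizer (Z : Set G) ∧ ∃ k : ℕ, orderOf g = 3 ^ k})
    (Q : Subgroup G) (hQ : Q = (Cfsg.pCore 3 (Subgroup.normalizer (Z : Set G))).map (Subgroup.normalizer (Z : Set G)).subtype)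
    (hQex : Cfsg.IsExtraspecial 3 Q) (hQcard : Nat.card Q = 3 ^ 5) (hQexp : ∀ a ∈ Q, a ^ 3 = 1)
    (hQL : Q ≤ L₀) [hQn : (Q.subgroupOf L₀).Normal] (eL : L₀ ⧸ Q.subgroupOf L₀ ≃* Matrix.SpecialLinearGroup (Fin 2) (ZMod 5))
    (hiii : Subgroup.centralizer (((Cfsg.pCore 3 (Subgroup.centralizer (Z : Set G))).map (Subgroup.centralizer (Z : Set G)).subtype : Subgroup G) : Set G)
        ≤ (Cfsg.pCore 3 (Subgroup.centralizer (Z : Set G))).map (Subgroup.centralizer (Z : Set G)).subtype) :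
    T3 G ∧ ∃ (t : G) (ht : t ∈ 𝒞[t]), orderOf t = 2 ∧
    (∃ g, g * t * g⁻¹ ≠ t ∧ Commute (g * t * g⁻¹) t) ∧ ∃ (X : Type u) (_ : Group X) (π : (𝒞[t] : Subgroup G) →* X),
    (∃ f v, XH π ⟨t, ht⟩ N1 f v) ∨ ∃ f v, XH2 π ⟨t, ht⟩ f v ∧ (∀ c : (𝒞[t] : Subgroup G), π c = v → IsConj t (c : G)) ∧
      ∃ w : (𝒞[t] : Subgroup G), w * w = 1 ∧ π w = f ⟨w1 * w2 * ta, trivial⟩ ∧ ¬ IsConj t (w : G) := by
  subst hM₀ hL₀
  obtain ⟨z, lam, mu, h⟩ := A.hyp_of S Z hZ J hJS hJcomm hJexp hJcard hJM (hJn := hJn) eM Q hQ hQex hQcard hQexp hQL (hQn := hQn) eL hiii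
  exact h.loc

end CA.McL

theorem CA.realizeEqns_McL_A9 : True := by

  trivial
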