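/-
Package B of the McLaughlin characterisation: a verified search for the decompositions of virtual characters
with a given Gram matrix.
-/
import Cfsg.Agent.McL.B0

set_option autoImplicit false
set_option linter.unusedSectionVars false

namespace CA.McL

open Cfsg CA.Chr

/-- code of a column -/
def cdl (l : List ℤ) : ℤ := l.foldl (fun s d => 8 * s + d) 0

/-- the gcd stored at the head -/
def gmm : List (List ℤ × ℤ × ℤ) → ℤ
  | [] => 0
  | q :: _ => q.2.2

/-- columns with codes and suffix gcds -/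
def prep : List (List ℤ) → List (List ℤ × ℤ × ℤ)
  | [] => []
  | ds :: t => (ds, cdl ds, (Int.gcd (cdl ds) (gmm (prep t)) : ℤ)) :: prep t

/-- all coefficient vectors on the known columns -/
def enu : List (List ℤ × ℤ × ℤ) → (List (List ℤ) → ℕ → Bool) → ℤ → ℕ → Bool
  | [], k, g, b => g != 0 || k [] b
  | q :: t, k, g, b => g % q.2.2 != 0 ||
      (enu t (fun S => k ((0 :: q.1) :: S)) g b &&
      (decide (b < 1) || (enu t (fun S => k ((1 :: q.1) :: S)) (g - q.2.1) (b - 1) &&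
        enu t (fun S => k ((-1 :: q.1) :: S)) (g + q.2.1) (b - 1))) &&
      (decide (b < 4) || (enu t (fun S => k ((2 :: q.1) :: S)) (g - 2 * q.2.1) (b - 4) &&
        enu t (fun S => k ((-2 :: q.1) :: S)) (g + 2 * q.2.1) (b - 4))))

/-- all ways to add new columns -/
def nwc (z : List ℤ) : ℕ → (List (List ℤ) → Bool) → ℕ → Bool
  | 0, k, _ => k []
  | f + 1, k, b => if b = 0 then k [] else
      nwc z f (fun N => k ((1 :: z) :: N)) (b - 1) && (decide (b < 4) || nwc z f (fun N => k ((2 :: z) :: N)) (b - 4))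

/-- the search -/
def goS (leaf : List (List ℤ) → Bool) (d : ℕ → ℕ → ℤ) : List ℕ → List ℕ → List (List ℤ) → Bool
  | [], _, S => leaf S
  | i :: rest, as, S => enu (prep S) (fun S' b => nwc (as.map fun _ => 0) b
      (fun N => goS leaf d rest (i :: as) (S' ++ N)) b) (cdl (as.map (d i))) (d i i).toNat

theorem gmm_dvd (S : List (List ℤ)) : ∀ ds ∈ S, gmm (prep S) ∣ cdl ds := by
  induction S with
  | nil => simp
  | cons e t ih =>
    intro ds h
    rcases List.mem_cons.1 h with rfl | h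
    · exact Int.gcd_dvd_left _ _
    · exact (Int.gcd_dvd_right _ _).trans (ih ds h)

theorem enu_sound {ι : Type*} (cl : ι → List ℤ) (a : ι → ℤ) (L : List ι) :
    ∀ (k : List (List ℤ) → ℕ → Bool) (g : ℤ) (b b' : ℕ), enu (prep (L.map cl)) k g b = true → b ≤ 8 →
      g = (L.map fun x => a x * cdl (cl x)).sum → (L.map fun x => a x ^ 2).sum + b' = b →
      k (L.map fun x => a x :: cl x) b' = true := by
  induction L with
  | nil =>
    intro k g b b' h _ e1 e2
    simp only [List.map_nil, List.sum_nil, zero_add, Nat.cast_inj] at e1 e2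
    simpa [prep, enu, e1, e2] using h
  | cons x L ih =>
    intro k g b b' h hb e1 e2
    have dv : gmm (prep ((x :: L).map cl)) ∣ g := e1 ▸ List.dvd_sum fun y hy => by
      obtain ⟨z, hz, rfl⟩ := List.mem_map.1 hy
      exact (gmm_dvd _ _ (List.mem_map_of_mem hz)).mul_left _
    have nn : 0 ≤ (L.map fun x => a x ^ 2).sum := List.sum_nonneg fun y hy => by
      obtain ⟨z, -, rfl⟩ := List.mem_map.1 hy; positivity
    simp only [List.map_cons, List.sum_cons, prep, gmm] at e1 e2 h dv ⊢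
    simp only [enu, Int.emod_eq_zero_of_dvd dv, bne_self_eq_false, Bool.false_or, Bool.and_eq_true, Bool.or_eq_true,
      decide_eq_true_eq] at h
    obtain ⟨⟨h0, h1⟩, h2⟩ := h
    have c : a x = 0 ∨ a x = 1 ∨ a x = -1 ∨ a x = 2 ∨ a x = -2 := by
      have : a x ^ 2 ≤ 8 := by omega
      have : a x < 3 := by nlinarith
      have : -3 < a x := by nlinarith
      omega
    rcases c with c | c | c | c | c <;> rw [c] at e1 e2 ⊢
    · exact ih _ _ _ _ h0 hb (by rw [e1]; ring) (by omega)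
    · exact ih _ _ _ _ (h1.resolve_left (by omega)).1 (by omega) (by rw [e1]; ring) (by omega)
    · exact ih _ _ _ _ (h1.resolve_left (by omega)).2 (by omega) (by rw [e1]; ring) (by omega)
    · exact ih _ _ _ _ (h2.resolve_left (by omega)).1 (by omega) (by rw [e1]; ring) (by omega)
    · exact ih _ _ _ _ (h2.resolve_left (by omega)).2 (by omega) (by rw [e1]; ring) (by omega)

variable {H : Type*} [Group H] [Finite H]

/-- `β` is in the span of the orthonormal list `L` -/
def Sp (L : List (H → ℂ)) (β : H → ℂ) : Prop := β = (L.map fun x => ⟪β, x⟫ • x).sum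

theorem dot_lsum (L : List (H → ℂ)) (c : (H → ℂ) → ℂ) (y : H → ℂ) :
    ⟪(L.map fun x => c x • x).sum, y⟫ = (L.map fun x => c x * ⟪x, y⟫).sum := by
  induction L with
  | nil => simp [dot_zero_left]
  | cons x L ih => simp [dot_add_left, dot_smul_left, ih]

theorem Sp.lin {L : List (H → ℂ)} {β γ : H → ℂ} (h : Sp L β) (h' : Sp L γ) (c : ℂ) : Sp L (c • β + γ) := by
  have : ∀ L : List (H → ℂ), (L.map fun x => ⟪c • β + γ, x⟫ • x).sum =
      c • (L.map fun x => ⟪β, x⟫ • x).sum + (L.map fun x => ⟪γ, x⟫ • x).sum := fun L => by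
    induction L with
    | nil => simp
    | cons x L ih =>
      rw [List.map_cons, List.sum_cons, ih]
      simp only [List.map_cons, List.sum_cons, dot_add_left, dot_smul_left, add_smul, mul_smul, smul_add]
      abel
  rw [Sp, this, ← h, ← h']

theorem Sp.zero (L : List (H → ℂ)) : Sp L 0 := by simp [Sp, dot_zero_left]

theorem Sp.orth {L : List (H → ℂ)} {β y : H → ℂ} (h : Sp L β) (o : ∀ x ∈ L, ⟪x, y⟫ = 0) : ⟪β, y⟫ = 0 := by
  rw [h, dot_lsum]
  exact List.sum_eq_zero fun z hz => by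
    obtain ⟨x, hx, rfl⟩ := List.mem_map.1 hz; rw [o x hx, mul_zero]

theorem dot_lsum_mem {L : List (H → ℂ)} (hd : ∀ x ∈ L, Dirr x) (ho : L.Pairwise fun x y => ⟪x, y⟫ = 0)
    (c : (H → ℂ) → ℂ) {y : H → ℂ} (hy : y ∈ L) : ⟪(L.map fun x => c x • x).sum, y⟫ = c y := by
  rw [dot_lsum]
  induction L with
  | nil => simp at hy
  | cons x L ih =>
    rw [List.pairwise_cons] at ho
    rw [List.map_cons, List.sum_cons]
    rcases List.mem_cons.1 hy with rfl | hy
    · rw [(hd y List.mem_cons_self).dot_self, mul_one, List.sum_eq_zero, add_zero]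
      intro z hz
      obtain ⟨x, hx, rfl⟩ := List.mem_map.1 hz
      rw [dot_comm_zero (ho.1 x hx), mul_zero]
    · rw [ho.1 y hy, mul_zero, zero_add, ih (fun x hx => hd x (List.mem_cons_of_mem _ hx)) ho.2 hy]

theorem nwc_sound (z : List ℤ) (f : ℕ) : ∀ (k : List (List ℤ) → Bool) (b : ℕ) (ρ : H → ℂ) (L : List (H → ℂ)),
    nwc z f k b = true → b ≤ f → b ≤ 8 → ρ ∈ ZIrr H → ⟪ρ, ρ⟫ = b → (∀ x ∈ L, Dirr x ∧ ⟪ρ, x⟫ = 0) →
    ∃ N : List (H → ℂ), (∀ y ∈ N, Dirr y ∧ ∀ x ∈ L, ⟪x, y⟫ = 0) ∧ (N.Pairwise fun x y => ⟪x, y⟫ = 0) ∧ Sp N ρ ∧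
      k (N.map fun y => zdot ρ y :: z) = true := by
  have z0 : ∀ (k : List (List ℤ) → Bool) (ρ : H → ℂ) (L : List (H → ℂ)), k [] = true → ⟪ρ, ρ⟫ = (0 : ℕ) →
      ∃ N : List (H → ℂ), (∀ y ∈ N, Dirr y ∧ ∀ x ∈ L, ⟪x, y⟫ = 0) ∧ (N.Pairwise fun x y => ⟪x, y⟫ = 0) ∧ Sp N ρ ∧
      k (N.map fun y => zdot ρ y :: z) = true := fun k ρ L h e =>
    ⟨[], by simp, .nil, by rw [(dot_self_eq_zero (φ := ρ)).1 (by simpa using e)]; exact Sp.zero _, h⟩
  induction f with
  | zero => intro k b ρ L h hb _ _ e _; rw [Nat.le_zero.1 hb] at e; exact z0 k ρ L h e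
  | succ f ih =>
    intro k b ρ L h hb h8 hρ e o
    by_cases b0 : b = 0
    · rw [b0] at e; exact z0 k ρ L (by simpa [nwc, b0] using h) e
    obtain ⟨χ, hχ, ne⟩ := CF_exists_constt (ZIrr.mem_CF hρ) fun c => b0 (by simpa [c, dot_zero_left] using e.symm)
    obtain ⟨y, hy, c, c0, hc⟩ : ∃ y, Dirr y ∧ ∃ c : ℤ, 0 < c ∧ ⟪ρ, y⟫ = c := by
      obtain ⟨c, hc⟩ := ZIrr.dot_int hρ (IsIrr.mem_ZIrr hχ)
      have : c ≠ 0 := fun c0 => ne (by simp [hc, c0])
      rcases lt_or_gt_of_ne this with c0 | c0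
      · exact ⟨-χ, (IsIrr.dirr hχ).neg, -c, by omega, by simp [dot_neg_right, hc]⟩
      · exact ⟨χ, IsIrr.dirr hχ, c, c0, hc⟩
    have yL : ∀ x ∈ L, ⟪x, y⟫ = 0 := fun x hx => by
      refine (o x hx).1.dot_eq_zero hy (fun e => ?_) fun e => ?_
      · have := (o x hx).2; rw [e, hc] at this; exact c0.ne' (by exact_mod_cast this)
      · have := (o x hx).2; rw [e, dot_neg_right, hc, neg_eq_zero] at this; exact c0.ne' (by exact_mod_cast this)
    have z' : ρ - (c : ℂ) • y ∈ ZIrr H := sub_mem hρ (ZIrr.intCast_smul hy.mem_ZIrr c)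
    have ry : ⟪ρ - (c : ℂ) • y, y⟫ = 0 := by rw [dot_sub_left, dot_smul_left, hy.dot_self, hc]; ring
    have n' : ⟪ρ - (c : ℂ) • y, ρ - (c : ℂ) • y⟫ = b - c ^ 2 := by
      rw [dot_sub_right, dot_smul_right, ry, dot_sub_left, dot_smul_left, e, dot_comm_of_int hc]; ring
    obtain ⟨m, hm⟩ := ZIrr.nrm_nat z'
    have em : (m : ℤ) = b - c ^ 2 := by
      have := n'; rw [dot_self, hm] at this; exact_mod_cast this
    have key : ∀ k' : List (List ℤ) → Bool, nwc z f k' m = true → (∀ N, k' N = true → k ((c :: z) :: N) = true) →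
        ∃ N : List (H → ℂ), (∀ y ∈ N, Dirr y ∧ ∀ x ∈ L, ⟪x, y⟫ = 0) ∧ (N.Pairwise fun x y => ⟪x, y⟫ = 0) ∧ Sp N ρ ∧
        k (N.map fun y => zdot ρ y :: z) = true := fun k' h' hk => by
      have : 0 < c ^ 2 := by positivity
      obtain ⟨N, h1, h2, h3, h4⟩ := ih k' m _ (y :: L) h' (by omega) (by omega) z' (by rw [dot_self, hm]; simp)
        fun x hx => by
          rcases List.mem_cons.1 hx with rfl | hx
          · exact ⟨hy, ry⟩
          · exact ⟨(o x hx).1, by rw [dot_sub_left, dot_smul_left, (o x hx).2, dot_comm_zero (yL x hx)]; ring⟩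
      have eq : ∀ w ∈ N, ⟪ρ - (c : ℂ) • y, w⟫ = ⟪ρ, w⟫ := fun w hw => by
        rw [dot_sub_left, dot_smul_left, (h1 w hw).2 y List.mem_cons_self]; ring
      refine ⟨y :: N, fun w hw => ?_, List.pairwise_cons.2 ⟨fun w hw => (h1 w hw).2 y List.mem_cons_self, h2⟩, ?_, ?_⟩
      · rcases List.mem_cons.1 hw with rfl | hw
        exacts [⟨hy, yL⟩, ⟨(h1 w hw).1, fun x hx => (h1 w hw).2 x (List.mem_cons_of_mem _ hx)⟩]
      · rw [Sp, List.map_cons, List.sum_cons, hc, ← List.map_congr_left fun w hw => congrArg (· • w) (eq w hw), ← h3]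
        abel
      · rw [List.map_cons, zdot_eq hc]
        refine hk _ ?_
        rwa [List.map_congr_left fun w hw => congrArg (· :: z) (show zdot _ w = zdot ρ w by rw [zdot, zdot, eq w hw])] at h4
    simp only [nwc, if_neg b0, Bool.and_eq_true, Bool.or_eq_true, decide_eq_true_eq] at h
    have : c = 1 ∨ c = 2 := by
      have : c < 3 := by nlinarith
      omega
    rcases this with rfl | rfl
    · exact key _ (show m = b - 1 by omega ▸ h.1) fun _ h => h
    · exact key _ (show m = b - 4 by omega ▸ h.2.resolve_left (by omega)) fun _ h => h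

theorem goS_sound (leaf : List (List ℤ) → Bool) (d : ℕ → ℕ → ℤ) (β : ℕ → H → ℂ) (m : ℕ)
    (hz : ∀ i < m, β i ∈ ZIrr H) (hd : ∀ i < m, ∀ j < m, ⟪β i, β j⟫ = d i j) (h8 : ∀ i < m, d i i ≤ 8)
    (rest : List ℕ) : ∀ (as : List ℕ) (L : List (H → ℂ)), (∀ i ∈ rest, i < m) → (∀ i ∈ as, i < m) →
    (∀ x ∈ L, Dirr x) → (L.Pairwise fun x y => ⟪x, y⟫ = 0) → (∀ i ∈ as, Sp L (β i)) →
    goS leaf d rest as (L.map fun x => as.map fun i => zdot (β i) x) = true →
    ∃ L' : List (H → ℂ), (∀ x ∈ L', Dirr x) ∧ (∀ i ∈ rest.reverse ++ as, Sp L' (β i)) ∧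
      leaf (L'.map fun x => (rest.reverse ++ as).map fun i => zdot (β i) x) = true := by
  induction rest with
  | nil => exact fun as L _ _ h1 _ h3 h => ⟨L, h1, h3, h⟩
  | cons i rest ih =>
    intro as L r1 r2 h1 h2 h3 h
    have hi := r1 i List.mem_cons_self
    set ρ := β i - (L.map fun x => ⟪β i, x⟫ • x).sum with hρ
    have cz : ∀ j < m, ∀ x ∈ L, (zdot (β j) x : ℂ) = ⟪β j, x⟫ := fun j hj x hx =>
      ZIrr.coe_zdot (hz j hj) (h1 x hx).mem_ZIrr
    have zρ : ρ ∈ ZIrr H := sub_mem (hz i hi) (list_sum_mem fun w hw => by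
      obtain ⟨x, hx, rfl⟩ := List.mem_map.1 hw
      rw [← cz i hi x hx]; exact ZIrr.intCast_smul (h1 x hx).mem_ZIrr _)
    have oρ : ∀ x ∈ L, ⟪ρ, x⟫ = 0 := fun x hx => by rw [hρ, dot_sub_left, dot_lsum_mem h1 h2 _ hx, sub_self]
    have sy : ∀ x ∈ L, ⟪x, β i⟫ = ⟪β i, x⟫ := fun x hx => ZIrr.dot_comm (h1 x hx).mem_ZIrr (hz i hi)
    obtain ⟨b, hb⟩ := ZIrr.nrm_nat zρ
    have hb' : ⟪ρ, ρ⟫ = b := by rw [dot_self, hb]; simp
    have eb : (L.map fun x => zdot (β i) x ^ 2).sum + b = d i i := by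
      have : ⟪ρ, β i⟫ = b := by
        rw [← hb', show β i = ρ + (L.map fun x => ⟪β i, x⟫ • x).sum by rw [hρ]; abel, dot_add_right,
          dot_comm_zero (φ := List.sum _), add_zero]
        rw [dot_lsum]
        exact List.sum_eq_zero fun w hw => by
          obtain ⟨x, hx, rfl⟩ := List.mem_map.1 hw; rw [dot_comm_zero (oρ x hx), mul_zero]
      rw [hρ, dot_sub_left, dot_lsum, hd i hi i hi] at this
      apply Int.cast_injective (α := ℂ)
      push_cast
      rw [← this, List.map_map, List.map_congr_left (g := fun x => ⟪β i, x⟫ * ⟪x, β i⟫) fun x hx => by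
        simp [cz i hi x hx, sy x hx, pow_two]]
      ring
    have nn : 0 ≤ (L.map fun x => zdot (β i) x ^ 2).sum := List.sum_nonneg fun y hy => by
      obtain ⟨z, -, rfl⟩ := List.mem_map.1 hy; positivity
    have cd : ∀ (as : List ℕ) (s : ℤ) (t : (H → ℂ) → ℤ), (∀ j ∈ as, j < m ∧ Sp L (β j)) →
        s = (L.map fun x => zdot (β i) x * t x).sum → (as.map (d i)).foldl (fun s d => 8 * s + d) s =
        (L.map fun x => zdot (β i) x * (as.map fun j => zdot (β j) x).foldl (fun s d => 8 * s + d) (t x)).sum :=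
      fun as => by
      induction as with
      | nil => exact fun s t _ e => e
      | cons j as ih =>
        intro s t hj e
        refine ih _ (fun x => 8 * t x + zdot (β j) x) (fun l hl => hj l (List.mem_cons_of_mem _ hl)) ?_
        obtain ⟨j1, j2⟩ := hj j List.mem_cons_self
        have : d i j = (L.map fun x => zdot (β i) x * zdot (β j) x).sum := by
          apply Int.cast_injective (α := ℂ)
          rw [← hd i hi j j1, ZIrr.dot_comm (hz i hi) (hz j j1), j2, dot_lsum, ← j2]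
          push_cast
          rw [List.map_map]
          exact congrArg _ (List.map_congr_left fun x hx => by simp [cz i hi x hx, cz j j1 x hx, sy x hx, mul_comm])
        beta_reduce
        rw [this, e, ← List.sum_map_mul_left, ← List.sum_map_add]
        exact congrArg _ (List.map_congr_left fun x _ => by ring)
    have k := enu_sound _ (zdot (β i)) L _ _ _ b h (by have := h8 i hi; omega)
      (cd as 0 (fun _ => 0) (fun j hj => ⟨r2 j hj, h3 j hj⟩) (by simp)) (by omega)
    obtain ⟨N, n1, n2, n3, n4⟩ := nwc_sound _ _ _ _ ρ L k le_rfl (by have := h8 i hi; omega) zρ hb'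
      fun x hx => ⟨h1 x hx, oρ x hx⟩
    have o2 : ∀ j ∈ as, ∀ y ∈ N, ⟪β j, y⟫ = 0 := fun j hj y hy => (h3 j hj).orth (n1 y hy).2
    have e2 : ∀ y ∈ N, ⟪ρ, y⟫ = ⟪β i, y⟫ := fun y hy => by
      rw [hρ, dot_sub_left, dot_lsum, List.sum_eq_zero, sub_zero]
      intro w hw
      obtain ⟨x, hx, rfl⟩ := List.mem_map.1 hw; rw [(n1 y hy).2 x hx, mul_zero]
    have := ih (i :: as) (L ++ N) (fun j hj => r1 j (List.mem_cons_of_mem _ hj))
      (fun j hj => (List.mem_cons.1 hj).elim (fun e => e ▸ hi) (r2 j))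
      (fun x hx => (List.mem_append.1 hx).elim (h1 x) fun hx => (n1 x hx).1)
      (List.pairwise_append.2 ⟨h2, n2, fun x hx y hy => (n1 y hy).2 x hx⟩) (fun j hj => ?_) ?_
    · simpa using this
    · rw [Sp, List.map_append, List.sum_append]
      rcases List.mem_cons.1 hj with rfl | hj
      · rw [← List.map_congr_left fun w hw => congrArg (· • w) (e2 w hw), ← n3, hρ]; abel
      · rw [← h3 j hj, List.sum_eq_zero (l := N.map _), add_zero]
        intro w hw
        obtain ⟨x, hx, rfl⟩ := List.mem_map.1 hw; rw [o2 j hj x hx, zero_smul]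
    · rw [List.map_append, ← n4]
      congr 2
      refine List.map_congr_left fun y hy => ?_
      rw [List.map_cons, zdot, zdot, e2 y hy]
      exact congrArg _ (List.map_congr_left fun j hj => zdot_eq (by simpa using o2 j hj y hy))

end CA.McL

theorem CA.realizeEqns_McL_B2 : True := by
  have := @CA.McL.cdl.eq_1
  have := @CA.McL.cdl.eq_def
  have := @CA.McL.cdl.congr_simp
  have := @CA.McL.prep.eq_1
  have := @CA.McL.prep.eq_2
  have := @CA.McL.prep.eq_def
  have := @CA.McL.prep.congr_simp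
  have := @CA.McL.Sp.eq_1.{0}
  have := @CA.McL.Sp.eq_def.{0}
  have := @CA.McL.Sp.congr_simp.{0}
  have := @CA.McL.gmm.eq_1
  have := @CA.McL.gmm.eq_2
  have := @CA.McL.gmm.eq_def
  have := @CA.McL.gmm.congr_simp
  have := @CA.McL.enu.eq_1
  have := @CA.McL.enu.eq_2
  have := @CA.McL.enu.eq_def
  have := @CA.McL.enu.congr_simp
  have := @CA.McL.nwc.eq_1
  have := @CA.McL.nwc.eq_2
  have := @CA.McL.nwc.eq_def
  have := @CA.McL.nwc.congr_simp
  have := @CA.McL.goS.eq_1
  have := @CA.McL.goS.eq_2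
  have := @CA.McL.goS.eq_def
  have := @CA.McL.goS.congr_simp
  trivial
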