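/-
Package B of the McLaughlin characterisation: class level computations and the equations for the exceptional characters.
-/
import Cfsg.Agent.McL.B2
import Cfsg.Agent.McL.B3

set_option autoImplicit false
set_option linter.unusedSectionVars false

namespace CA.McL

open Cfsg CA.Chr CA.FG Finset Multiplicative Z4 Subgroup SemidirectProduct
open scoped ComplexConjugate

variable {n : ℕ} [hn : Fact (n = 12 ∨ n = 24)] {CT nc : ℕ} {sz : ℕ → ℕ}

/-- integral combinations -/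
def cmb (a : List ℤ) (Fs : List (ℕ → Z4)) : ℕ → Z4 := fun c => su (a.zip Fs) fun p => sm p.1 (p.2 c)

theorem cf_cmb (a : List ℤ) (Fs : List (ℕ → Z4)) :
    cf n CT (cmb a Fs) = ((a.zip Fs).map fun p => (p.1 : ℂ) • cf n CT p.2).sum := by
  ext g
  rw [cf, cmb, ev_su]
  induction a.zip Fs with
  | nil => rfl
  | cons p l ih => simp only [List.map_cons, List.sum_cons, Pi.add_apply, ← ih, ev_sm]; rfl

theorem cmb_ZIrr (a : List ℤ) {Fs : List (ℕ → Z4)} (h : ∀ F ∈ Fs, cf n CT F ∈ ZIrr (Ga n)) :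
    cf n CT (cmb a Fs) ∈ ZIrr (Ga n) := by
  rw [cf_cmb]
  refine list_sum_mem fun w hw => ?_
  obtain ⟨p, hp, rfl⟩ := List.mem_map.1 hw
  exact ZIrr.intCast_smul (h _ (List.of_mem_zip hp).2) _

/-- class sizes -/
def szc (n CT nc : ℕ) (sz : ℕ → ℕ) : Bool :=
  alN n (fun k => alN 27 fun c => cl CT k c < nc) && alN nc fun i =>
    ((List.range n).map fun k => ((List.range 27).map fun c => if cl CT k c = i then 1 else 0).sum).sum == sz i

theorem cl_lt (h : szc n CT nc sz = true) (g : Ga n) : cl CT (gk g) (gc g) < nc := by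
  simp only [szc, Bool.and_eq_true, alN_iff, decide_eq_true_eq] at h
  exact h.1 _ (gk_lt g) _ (gc_lt g)

theorem sum_cl (h : szc n CT nc sz = true) (F : ℕ → Z4) :
    ∑ g : Ga n, cf n CT F g = ev (su (List.range nc) fun i => sm (sz i) (F i)) := by
  have h1 := cl_lt h
  simp only [szc, Bool.and_eq_true, alN_iff, beq_iff_eq, lsum_range] at h
  rw [ev_su, lsum_range, sum_congr rfl (g := fun g => ∑ i ∈ range nc, if cl CT (gk g) (gc g) = i then ev (F i) else 0)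
    fun g _ => by rw [sum_ite_eq, if_pos (mem_range.2 (h1 g)), cf], sum_comm]
  refine sum_congr rfl fun i hi => ?_
  rw [ev_sm, ← h.2 i (mem_range.1 hi), sum_Ga fun k c => if cl CT k c = i then ev (F i) else 0]
  push_cast
  simp only [sum_mul, ite_mul, one_mul, zero_mul]

theorem cG : (Nat.card (Ga n) : ℂ) = 27 * n := by rw [card_Ga]; simp

theorem dot_cf (h : szc n CT nc sz = true) {F G : ℕ → Z4} {d : ℤ}
    (e : (su (List.range nc) fun i => sm (sz i) (mc (F i) (G i))) = nt (27 * n * d)) : ⟪cf n CT F, cf n CT G⟫ = d := by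
  have := sum_cl h fun i => mc (F i) (G i)
  rw [e, ev_nt] at this
  rw [dot_def, sum_congr rfl (f := fun g => cf n CT F g * conj (cf n CT G g)) (g := cf n CT fun i => mc (F i) (G i))
    fun g _ => (ev_mc _ _).symm, this,
    inv_mul_eq_iff_eq_mul₀ card_ne_zero, cG]
  push_cast; ring

theorem cf_congr (h : szc n CT nc sz = true) {F G : ℕ → Z4} (e : ∀ i < nc, F i = G i) : cf n CT F = cf n CT G :=
  funext fun g => by rw [cf, cf, e _ (cl_lt h g)]

/-- multiples of indicator functions -/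
def dl (mask : ℕ) (M : ℤ) (c : ℕ) : Z4 := if mask.testBit c then nt M else nt 0

/-- the element of `3³` with code `c` -/
def jv (n : ℕ) [Fact (n = 12 ∨ n = 24)] (c : ℕ) : Ga n := inl (ofAdd (vc c))

theorem gk_jv (c : ℕ) : gk (jv n c) = 0 := rfl
theorem gc_jv {c : ℕ} (hc : c < 27) : gc (jv n c) = c := cdv_vc c hc
theorem eq_jv {g : Ga n} (h : gk g = 0) : g = jv n (gc g) := g_ext h (gc_jv (gc_lt g)).symm
theorem ac_lt {k c : ℕ} (hk : k < 24) (hc : c < 27) : ac k c < 27 := by rw [← cdv_mo' _ hk _ hc]; exact cdv_lt _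

theorem conj_jv (g : Ga n) {c : ℕ} (hc : c < 27) : g * jv n c * g⁻¹ = jv n (ac (gk g) c) := by
  rw [← inl_left_mul_inr_right g, mul_inv_rev, show ∀ a b x c d : Ga n, a * b * x * (c * d) = a * (b * x * c) * d from
    fun _ _ _ _ _ => by group, jv, ← map_inv, ← inl_aut, ← map_inv, ← map_mul, ← map_mul, mul_inv_cancel_comm]
  refine g_ext rfl ?_
  have l1 := ac_lt (gk_lt' g) hc
  rw [inl_left_mul_inr_right, gc_jv l1, ← cdv_mo' _ (gk_lt' g) _ hc]
  rfl

/-- check for a single class -/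
def sgc (n CT nc : ℕ) (sz : ℕ → ℕ) (mask : ℕ) (M : ℤ) (v : ℕ) : Bool :=
  v < 27 && (su (List.range nc) fun i => sm (sz i) (dl mask M i)) == nt (27 * n) &&
  alN n fun k => alN 27 fun c => !mask.testBit (cl CT k c) || (k == 0 && (List.range n).any fun r => ac r v == c)

theorem dot_sgc (h : szc n CT nc sz = true) {mask v : ℕ} {M : ℤ} (e : sgc n CT nc sz mask M v = true) {ψ : Ga n → ℂ}
    (hψ : ψ ∈ CF (Ga n)) : ⟪cf n CT (dl mask M), ψ⟫ = conj (ψ (jv n v)) := by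
  simp only [sgc, Bool.and_eq_true, Bool.or_eq_true, alN_iff, beq_iff_eq, decide_eq_true_eq, List.any_eq_true,
    List.mem_range, Bool.not_eq_true'] at e
  obtain ⟨⟨v27, e1⟩, e2⟩ := e
  have := sum_cl h (dl mask M)
  rw [e1, ev_nt] at this
  rw [dot_def, sum_congr rfl (g := fun g => cf n CT (dl mask M) g * conj (ψ (jv n v))) fun g _ => ?_, ← sum_mul, this,
    inv_mul_eq_iff_eq_mul₀ card_ne_zero, cG]
  · push_cast; ring
  rcases e2 _ (gk_lt g) _ (gc_lt g) with c | ⟨c, r, hr, c'⟩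
  · simp [cf, dl, c, ev_nt]
  · have := conj_jv (inr ⟨r, hr⟩ : Ga n) v27
    rw [← CF_conj hψ (jv n v) (inr ⟨r, hr⟩), this]
    exact congrArg (fun g' => cf n CT (dl mask M) g * conj (ψ g')) ((eq_jv c).trans (by rw [← c']; rfl))

/-- powers on codes -/
def pc (g : ℕ × ℕ) : ℕ → ℕ × ℕ
  | 0 => (0, 0)
  | m + 1 => (mt g.1 (pc g m).1, adc g.2 (ac g.1 (pc g m).2))

theorem pc_pow (g : Ga n) (m : ℕ) : pc (gk g, gc g) m = (gk (g ^ m), gc (g ^ m)) := by
  induction m with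
  | zero => rfl
  | succ m ih => rw [pc, ih, pow_succ', gk_mul, gc_mul]

variable {H : Type*} [Group H] [Finite H]

/-- the local configuration -/
structure Ctx (f : Ga n →* H) (J : Subgroup H) : Prop where
  inj : Function.Injective f
  mem : ∀ y, y ∈ J ↔ ∃ g, gk g = 0 ∧ f g = y
  ran : f.range = 𝒩(J)
  hx : ∀ x ∈ J, x ≠ 1 → 𝒞[x] ≤ 𝒩(J)
  sc : ∀ x ∈ J, ∀ y ∈ 𝒩(J), IsConj x y → y ∈ J

theorem J_comm {g h : Ga n} (hg : gk g = 0) (hh : gk h = 0) : g * h = h * g := by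
  rw [eq_jv hg, eq_jv hh, jv, jv, ← map_mul, mul_comm, map_mul]

theorem J_cube {g : Ga n} (hg : gk g = 0) : g ^ 3 = 1 := by
  have : ∀ x : J0, x ^ 3 = 1 := by decide
  rw [eq_jv hg, jv, ← map_pow, this, map_one]

namespace Ctx

variable {f : Ga n →* H} {J : Subgroup H} (h : Ctx f J)
include h

theorem cJ : ∀ x ∈ J, ∀ y ∈ J, x * y = y * x := fun x hx y hy => by
  obtain ⟨g, hg, rfl⟩ := (h.mem x).1 hx
  obtain ⟨k, hk, rfl⟩ := (h.mem y).1 hy
  rw [← map_mul, J_comm hg hk, map_mul]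

theorem ti {g : Ga n} (hg : gk g = 0) (g1 : g ≠ 1) {x : H} (hx : x * f g * x⁻¹ ∈ f.range) : x ∈ f.range :=
  h.ran ▸ tiJ h.hx h.sc h.cJ ((h.mem _).2 ⟨g, hg, rfl⟩) (fun e => g1 (h.inj (e.trans (map_one f).symm))) x (h.ran ▸ hx)

theorem idx (ne : 𝒩(J) ≠ ⊤) : 28 ≤ f.range.index := by
  obtain ⟨g, hg⟩ : ∃ g, g ∉ f.range := by_contra fun c => ne (h.ran ▸ eq_top_iff.2 fun g _ => by_contra fun k => c ⟨g, k⟩)
  have := Nat.card_le_card_of_injective (fun o : Option J0 => (o.elim 1 (fun x => f (inl x) * g) : H) : _ → H ⧸ f.range) ?_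
  · rw [index_eq_card]; simpa using this
  rintro (_ | x) (_ | y) e
  · rfl
  · exact absurd ((f.range.mul_mem_cancel_left ⟨_, rfl⟩).1 (by simpa using QuotientGroup.eq.1 e)) hg
  · exact absurd ((f.range.mul_mem_cancel_left ⟨_, rfl⟩).1 (by simpa using QuotientGroup.eq.1 e.symm)) hg
  · by_contra c
    refine hg (inv_mem_iff.1 (h.ti (g := inl (x⁻¹ * y)) rfl (fun k => c ?_) ?_))
    · rw [inv_mul_eq_one.1 (inl_injective (k.trans (map_one inl).symm))]
    · simpa [mul_assoc] using QuotientGroup.eq.1 e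

theorem triple {δ : Ga n → ℂ} (hδ : δ ∈ CF (Ga n)) (sp : ∀ g, δ g ≠ 0 → gk g = 0 ∧ g ≠ 1) {a b : Ga n}
    (ha : gk a = 0) (a1 : a ≠ 1) (hb : gk b = 0) (b1 : b ≠ 1) (h0 : δ a⁻¹ = 0) [Fintype H] :
    ∑ x, ind f δ (f a * (x * f b * x⁻¹)) = ∑ g, δ (a * (g * b * g⁻¹)) := by
  classical
  rw [← sum_subset (subset_univ (univ.image f)), sum_image fun x _ y _ e => h.inj e]
  · refine sum_congr rfl fun g _ => ?_
    rw [← map_inv, ← map_mul, ← map_mul, ← map_mul]
    refine ind_apply_TI h.inj hδ _ fun x c hc e => h.ti (sp c hc).1 (sp c hc).2 ?_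
    exact ⟨a * (g * b * g⁻¹), by rw [e]; group⟩
  · intro x _ hx
    refine ind_eq_zero fun c hc => by_contra fun c0 => ?_
    have c3 : ∀ g : Ga n, gk g = 0 → f g ^ 3 = 1 := fun g hg => by rw [← map_pow, J_cube hg, map_one]
    rcases tri h.hx h.sc h.cJ (a := f a) (b := x * f b * x⁻¹) ((h.mem _).2 ⟨a, ha, rfl⟩)
      (fun e => a1 (h.inj (e.trans (map_one f).symm))) (c3 a ha) (by rw [conj_pow, c3 b hb]; simp) (by
        obtain ⟨g, k⟩ := isConj_iff.1 hc
        rw [← k, conj_pow, c3 c (sp c c0).1]; simp) ((h.mem _).2 ⟨b, hb, rfl⟩) (isConj_iff.2 ⟨x, rfl⟩) with k | ⟨-, k⟩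
    · obtain ⟨g, hg⟩ := h.ti hb b1 (h.ran ▸ le_normalizer k)
      exact hx (mem_image.2 ⟨g, mem_univ _, hg⟩)
    · obtain ⟨y, hy⟩ := isConj_iff.1 (hc.trans k.symm)
      obtain ⟨g, rfl⟩ := h.ti (sp c c0).1 (sp c c0).2 (x := y) ⟨a⁻¹, by rw [hy, map_inv]⟩
      rw [← map_inv, ← map_inv, ← map_mul, ← map_mul] at hy
      exact c0 (by rw [← CF_conj hδ c g, h.inj hy, h0])

end Ctx

theorem Sp.apply {L : List (H → ℂ)} {D : H → ℂ} (h : Sp L D) (g : H) : D g = (L.map fun x => ⟪D, x⟫ * x g).sum := by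
  have : ∀ (c : (H → ℂ) → ℂ) (L : List (H → ℂ)), (L.map fun x => c x • x).sum g = (L.map fun x => c x * x g).sum :=
    fun c L => by induction L with
    | nil => rfl
    | cons x L ih => simp [ih]
  rw [← this, ← h]

theorem Sp.tri [Fintype H] {L : List (H → ℂ)} {D : H → ℂ} (h : Sp L D) (hL : ∀ x ∈ L, Dirr x) (a b : H) :
    ∑ g, D (a * (g * b * g⁻¹)) = Nat.card H * (L.map fun x => ⟪D, x⟫ * x a * x b / x 1).sum := by
  simp only [h.apply]
  clear h
  induction L with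
  | nil => simp
  | cons x L ih =>
    simp only [List.map_cons, List.sum_cons, sum_add_distrib, ih fun y hy => hL y (List.mem_cons_of_mem _ hy), ← mul_sum]
    have := Blk.dirr_sum_conj (hL x List.mem_cons_self) a b
    have n0 := (hL x List.mem_cons_self).deg_ne_zero
    field_simp
    linear_combination ⟪D, x⟫ * this

/-- support check -/
def spc (n CT nc ia : ℕ) (al : ℕ → ℕ → Z4) : Bool :=
  alN n (fun k => alN 27 fun c => !ia.testBit (cl CT k c) ||
    [1, 2, 3, 4].any fun m => (pc (k, c) m).1 == 0 && (pc (k, c) m).2 != 0) &&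
  alN 10 fun i => i == 0 || alN nc fun c => ia.testBit c || al i c == nt 0

/-- Gram matrix check -/
def grc (n nc : ℕ) (sz : ℕ → ℕ) (al : ℕ → ℕ → Z4) (d : ℕ → ℕ → ℤ) : Bool :=
  alN nc (fun c => al 0 c == nt 1) && alN 10 fun i => d i i ≤ 8 && alN 10 fun j =>
    (su (List.range nc) fun c => sm (sz c) (mc (al i c) (al j c))) == nt (27 * n * d i j)

/-- expansion of an indicator function supported on `J#` -/
def dlc (n CT nc : ℕ) (al : ℕ → ℕ → Z4) (W : List ℤ) (mask : ℕ) (M : ℤ) : Bool :=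
  (W.zip (List.range 10).reverse).all (fun p => p.2 != 0 || p.1 == 0) &&
  alN nc (fun c => cmb W ((List.range 10).reverse.map al) c == dl mask M c) &&
  alN n fun k => alN 27 fun c => !mask.testBit (cl CT k c) || (k == 0 && c != 0)

/-- structure constants -/
def trc (n CT a b mask : ℕ) (M t : ℤ) : Bool :=
  a < 27 && b < 27 && a != 0 && b != 0 && !mask.testBit (cl CT 0 (adc a a)) &&
  adc a (adc a a) == 0 && adc a a < 27 && alN 27 (fun c => adc a c < 27) &&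
  (su (List.range n) fun k => dl mask M (cl CT 0 (adc a (ac k b)))) == nt t

/-- dot product -/
def dtl (W ds : List ℤ) : ℤ := ((W.zip ds).map fun p => p.1 * p.2).sum

/-- the induced virtual characters -/
noncomputable def bet (f : Ga n →* H) (CT : ℕ) (al : ℕ → ℕ → Z4) (i : ℕ) : H → ℂ :=
  if i = 0 then 1 else ind f (cf n CT (al i))

theorem bet_ZIrr (f : Ga n →* H) {al : ℕ → ℕ → Z4} (hz : ∀ i, cf n CT (al i) ∈ ZIrr (Ga n)) (i : ℕ) :
    bet f CT al i ∈ ZIrr H := by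
  rw [bet]; split_ifs
  exacts [one_mem _, ZIrr.ind (hz i) f]

theorem Ctx.gram {f : Ga n →* H} {J : Subgroup H} (h : Ctx f J) (hs : szc n CT nc sz = true) {al : ℕ → ℕ → Z4}
    (hz : ∀ i, cf n CT (al i) ∈ ZIrr (Ga n)) {ia : ℕ} (sp : spc n CT nc ia al = true) {d : ℕ → ℕ → ℤ}
    (gr : grc n nc sz al d = true) : (∀ i < 10, d i i ≤ 8) ∧ ∀ i < 10, ∀ j < 10, ⟪bet f CT al i, bet f CT al j⟫ = d i j := by
  simp only [spc, grc, Bool.and_eq_true, Bool.or_eq_true, alN_iff, beq_iff_eq, decide_eq_true_eq, List.any_eq_true,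
    Bool.not_eq_true', bne_iff_ne] at sp gr
  refine ⟨fun i hi => (gr.2 i hi).1, fun i hi j hj => ?_⟩
  rw [← dot_cf hs ((gr.2 i hi).2 j hj)]
  have e1 : cf n CT (al 0) = 1 := (cf_congr hs gr.1).trans (funext fun g => by simp [cf, ev_nt])
  have sA : ∀ i < 10, i ≠ 0 → ∀ g, cf n CT (al i) g ≠ 0 → g ∈ {g : Ga n | ∃ m, gk (g ^ m) = 0 ∧ g ^ m ≠ 1} :=
    fun i hi i0 g hg => by
    rcases sp.1 _ (gk_lt g) _ (gc_lt g) with c | ⟨m, -, c⟩
    · rcases (sp.2 i hi).resolve_left i0 _ (cl_lt hs g) with c' | c'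
      · rw [c] at c'; cases c'
      · exact absurd (by simp [cf, c', ev_nt]) hg
    · rw [pc_pow] at c
      exact ⟨m, c.1, fun e => c.2 (by rw [e]; rfl)⟩
  simp only [bet]
  split_ifs with i0 j0 j0
  · rw [i0, j0, e1, dot_one_one, dot_one_one]
  · rw [i0, e1, frob_rec' _ _ (one_mem _)]; rfl
  · rw [j0, e1, dot_ind_one]
  · refine dot_ind_TI h.inj (fun x a ha b _ e => ?_) (ZIrr.mem_CF (hz i)) (sA i hi i0) (sA j hj j0)
    obtain ⟨m, a0, a1⟩ := ha
    exact inv_mem_iff.1 (h.ti a0 a1 ⟨b ^ m, by rw [map_pow, map_pow, e, ← conj_pow, inv_inv]⟩)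

theorem delta (f : Ga n →* H) (hs : szc n CT nc sz = true) {al : ℕ → ℕ → Z4}
    (hz : ∀ i, cf n CT (al i) ∈ ZIrr (Ga n)) {W : List ℤ} {mask : ℕ} {M : ℤ} (hd : dlc n CT nc al W mask M = true)
    {L : List (H → ℂ)} (hL : ∀ i ∈ (List.range 10).reverse, Sp L (bet f CT al i)) :
    cf n CT (dl mask M) ∈ CF (Ga n) ∧ (∀ g, cf n CT (dl mask M) g ≠ 0 → gk g = 0 ∧ g ≠ 1) ∧
    Sp L (ind f (cf n CT (dl mask M))) ∧ ∀ x, Dirr x → ⟪ind f (cf n CT (dl mask M)), x⟫ =
      dtl W ((List.range 10).reverse.map fun i => zdot (bet f CT al i) x) := by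
  simp only [dlc, Bool.and_eq_true, Bool.or_eq_true, alN_iff, beq_iff_eq, List.all_eq_true,
    Bool.not_eq_true', bne_iff_ne] at hd
  obtain ⟨⟨h1, h2⟩, h3⟩ := hd
  have e := cf_congr hs h2
  refine ⟨e ▸ ZIrr.mem_CF (cmb_ZIrr _ fun F hF => ?_), fun g hg => ?_, ?_⟩
  · obtain ⟨i, -, rfl⟩ := List.mem_map.1 hF; exact hz i
  · rcases h3 _ (gk_lt g) _ (gc_lt g) with c | c
    · exact absurd (by simp [cf, dl, c, ev_nt]) hg
    · exact ⟨c.1, fun k => c.2 (by rw [k]; rfl)⟩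
  rw [← e, cf_cmb]
  simp only [dtl, List.zip_map_right]
  have h4 : ∀ p ∈ W.zip (List.range 10).reverse, Sp L (bet f CT al p.2) := fun p hp => hL _ (List.of_mem_zip hp).2
  generalize W.zip (List.range 10).reverse = l at h1 h4
  induction l with
  | nil => exact ⟨by simpa using Sp.zero L, fun x _ => by simp [dot_zero_left]⟩
  | cons p l ih =>
    obtain ⟨i1, i2⟩ := ih (fun q hq => h1 q (List.mem_cons_of_mem _ hq)) fun q hq => h4 q (List.mem_cons_of_mem _ hq)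
    have k : ind f ((p.1 : ℂ) • cf n CT (al p.2)) = (p.1 : ℂ) • bet f CT al p.2 := by
      rcases h1 p List.mem_cons_self with c | c
      · rw [bet, if_neg c, map_smul]
      · simp [c]
    simp only [List.map_cons, List.sum_cons, map_add, Prod.map_fst, Prod.map_snd, id, k]
    refine ⟨(h4 p List.mem_cons_self).lin i1 _, fun x hx => ?_⟩
    rw [dot_add_left, i2 x hx, dot_smul_left, ← ZIrr.coe_zdot (bet_ZIrr f hz _) hx.mem_ZIrr]
    push_cast; rfl

theorem Ctx.trc [Fintype H] {f : Ga n →* H} {J : Subgroup H} (h : Ctx f J) {a b mask : ℕ} {M t : ℤ}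
    (ht : trc n CT a b mask M t = true) (hδ : cf n CT (dl mask M) ∈ CF (Ga n))
    (sp : ∀ g, cf n CT (dl mask M) g ≠ 0 → gk g = 0 ∧ g ≠ 1) :
    ∑ x, ind f (cf n CT (dl mask M)) (f (jv n a) * (x * f (jv n b) * x⁻¹)) = 27 * t := by
  simp only [McL.trc, Bool.and_eq_true, alN_iff, beq_iff_eq, Bool.not_eq_true', bne_iff_ne, decide_eq_true_eq] at ht
  obtain ⟨⟨⟨⟨⟨⟨⟨⟨a27, b27⟩, a0⟩, b0⟩, h1⟩, h2⟩, h3⟩, h4⟩, h5⟩ := ht
  have mu : ∀ c < 27, jv n a * jv n c = jv n (adc a c) := fun c hc =>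
    g_ext (by rw [gk_mul, gk_jv, gk_jv, gk_jv]; decide +kernel) (by rw [gc_mul, gc_jv a27, gc_jv hc, gc_jv (h4 c hc), gk_jv, (tb2 hc).1])
  have n1 : ∀ c < 27, c ≠ 0 → jv n c ≠ 1 := fun c hc c0 e => c0 (by rw [← gc_jv (n := n) hc, e]; rfl)
  rw [h.triple hδ sp rfl (n1 a a27 a0) rfl (n1 b b27 b0)]
  · have := congrArg ev h5
    rw [ev_su, ev_nt, lsum_range] at this
    rw [← this, sum_congr rfl (g := fun g => ev (dl mask M (cl CT 0 (adc a (ac (gk g) b))))) fun g _ => by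
      rw [conj_jv g b27, mu _ (ac_lt (gk_lt' g) b27), cf, gc_jv (h4 _ (ac_lt (gk_lt' g) b27)), gk_jv],
      sum_Ga fun k _ => ev (dl mask M (cl CT 0 (adc a (ac k b))))]
    simp [mul_sum]
  · rw [inv_eq_of_mul_eq_one_right ((mu _ h3).trans (g_ext rfl (by rw [h2]; rfl))), cf, gc_jv h3, gk_jv]
    simp [dl, h1, ev_nt]

end CA.McL

theorem CA.realizeEqns_McL_B4 : True := by
  have := @CA.McL.jv.eq_1
  have := @CA.McL.jv.eq_def
  have := @CA.McL.jv.congr_simp
  have := @CA.McL.szc.eq_1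
  have := @CA.McL.szc.eq_def
  have := @CA.McL.szc.congr_simp
  have := @CA.McL.dl.eq_1
  have := @CA.McL.dl.eq_def
  have := @CA.McL.dl.congr_simp
  have := @CA.McL.dtl.eq_1
  have := @CA.McL.dtl.eq_def
  have := @CA.McL.dtl.congr_simp
  have := @CA.McL.dlc.eq_1
  have := @CA.McL.dlc.eq_def
  have := @CA.McL.dlc.congr_simp
  have := @CA.McL.cmb.eq_1
  have := @CA.McL.cmb.eq_def
  have := @CA.McL.cmb.congr_simp
  have := @CA.McL.pc.eq_1
  have := @CA.McL.pc.eq_2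
  have := @CA.McL.pc.eq_def
  have := @CA.McL.pc.congr_simp
  have := @CA.McL.trc.eq_1
  have := @CA.McL.trc.eq_def
  have := @CA.McL.trc.congr_simp
  have := @CA.McL.grc.eq_1
  have := @CA.McL.grc.eq_def
  have := @CA.McL.grc.congr_simp
  have := @CA.McL.bet.eq_1.{0}
  have := @CA.McL.bet.eq_def.{0}
  have := @CA.McL.bet.congr_simp.{0}
  have := @CA.McL.sgc.eq_1
  have := @CA.McL.sgc.eq_def
  have := @CA.McL.sgc.congr_simp
  have := @CA.McL.spc.eq_1
  have := @CA.McL.spc.eq_def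
  have := @CA.McL.spc.congr_simp
  trivial
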