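/-
Package B of the McLaughlin characterisation: the equations for degrees and values, and their arithmetic.
-/
import Cfsg.Agent.McL.B4

set_option autoImplicit false
set_option linter.unusedSectionVars false

namespace CA.McL

open Cfsg CA.Chr CA.FG Finset Multiplicative Z4 Subgroup SemidirectProduct
open scoped ComplexConjugate

/-- the facts on values `(e, y, z + z⁻¹)` and degrees -/
structure Eqs (T : List ((ℤ × ℤ × ℤ) × ℤ)) (m t1 t2 t3 t4 : ℤ) : Prop where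
  b : ∀ t ∈ T, t.2 ≠ 0 ∧ t.2 ^ 2 ≤ 27 * m ∧ 27 ∣ t.2 + 6 * t.1.1 + 12 * t.1.2.1 + 4 * t.1.2.2
  u : (T.map fun t => (((2 * t.1.1 - 4 * t.1.2.1 + t.1.2.2) * t.2 : ℤ) : ℚ)).sum = 0
  e : ∀ a b c d : ℤ, m * (T.map fun t => ((t.1.2.1 * (a * t.1.1 * t.1.1 + b * t.1.1 * t.1.2.1 + c * t.1.2.2 * t.1.2.1 +
    d * t.1.2.2 * t.1.1) : ℤ) : ℚ) / t.2).sum = a * t1 + b * t2 + c * t3 + d * t4

variable {n : ℕ} [hn : Fact (n = 12 ∨ n = 24)] {CT nc : ℕ} {sz : ℕ → ℕ} {H : Type*} [Group H] [Finite H]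

theorem Ctx.core {f : Ga n →* H} {J : Subgroup H} (h : Ctx f J) (hs : szc n CT nc sz = true) {al : ℕ → ℕ → Z4}
    (hz : ∀ i, cf n CT (al i) ∈ ZIrr (Ga n)) {ia : ℕ} (sp : spc n CT nc ia al = true) {d : ℕ → ℕ → ℤ}
    (gr : grc n nc sz al d = true) {We Wy WZ : List ℤ} {Me My MZ : ℤ} {zm : ℕ} (de : dlc n CT nc al We 2 Me = true)
    (dy : dlc n CT nc al Wy 4 My = true) (dz : dlc n CT nc al WZ zm MZ = true) (se : sgc n CT nc sz 2 Me 1 = true)
    (sy : sgc n CT nc sz 4 My 4 = true) (s0 : sgc n CT nc sz 1 (27 * n) 0 = true) {ρ : ℕ → Z4}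
    (hρ : cf n CT ρ ∈ ZIrr (Ga n)) (ρc : alN nc (fun c => sm 27 (ρ c) == ad (dl 1 (27 * n) c) (ad (sm 6 (dl 2 Me c))
      (ad (sm 12 (dl 4 My c)) (sm 4 (dl zm MZ c))))) = true) {t1 t2 t3 t4 : ℤ} (T1 : McL.trc n CT 1 1 4 My t1 = true)
    (T2 : McL.trc n CT 1 4 4 My t2 = true) (T3 : McL.trc n CT 4 4 zm MZ t3 = true) (T4 : McL.trc n CT 1 4 zm MZ t4 = true)
    {lf : List (ℤ × ℤ × ℤ) → Bool} (go : goS (fun S => lf (S.map fun ds => (dtl We ds, dtl Wy ds, dtl WZ ds))) d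
      (List.range 10) [] [] = true) :
    ∃ T : List ((ℤ × ℤ × ℤ) × ℤ), lf (T.map Prod.fst) = true ∧ Eqs T (n * f.range.index) t1 t2 t3 t4 := by
  cases nonempty_fintype H
  obtain ⟨g8, gd⟩ := h.gram hs hz sp gr
  obtain ⟨L, hL, hS, hl⟩ := goS_sound _ d (bet f CT al) 10 (fun i _ => bet_ZIrr f hz i) gd g8 (List.range 10) [] []
    (by simp) (by simp) (by simp) .nil (by simp) go
  rw [List.append_nil] at hS hl
  obtain ⟨e1, e2, e3, e4⟩ := delta f hs hz de hS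
  obtain ⟨y1, y2, y3, y4⟩ := delta f hs hz dy hS
  obtain ⟨z1, z2, z3, z4⟩ := delta f hs hz dz hS
  obtain ⟨c, hc⟩ : ∃ c : (H → ℂ) → List ℤ, ∀ x, ((List.range 10).reverse.map fun i => zdot (bet f CT al i) x) = c x :=
    ⟨_, fun _ => rfl⟩
  simp only [hc] at e4 y4 z4 hl
  have cx : ∀ x ∈ L, x ∈ CF H := fun x hx => ZIrr.mem_CF (hL x hx).mem_ZIrr
  have cj : ∀ {w : ℂ} {m : ℤ}, conj w = m → w = m := fun {w m} e => by rw [← Complex.conj_conj w, e, map_intCast]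
  have ve : ∀ x ∈ L, x (f (jv n 1)) = dtl We (c x) := fun x hx =>
    cj ((dot_sgc hs se (CF_comp (cx x hx) f)).symm.trans ((frob_rec _ _ (cx x hx)).symm.trans (e4 x (hL x hx))))
  have vy : ∀ x ∈ L, x (f (jv n 4)) = dtl Wy (c x) := fun x hx =>
    cj ((dot_sgc hs sy (CF_comp (cx x hx) f)).symm.trans ((frob_rec _ _ (cx x hx)).symm.trans (y4 x (hL x hx))))
  have dg : ∀ x ∈ L, x 1 = (⌊(x 1).re⌋ : ℤ) := fun x hx => by
    obtain ⟨m, -, e⟩ := (hL x hx).deg_int; simp [e]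
  have cH : Nat.card H = 27 * n * f.range.index := by rw [← card_mul_index_range h.inj, card_Ga]
  refine ⟨L.map fun x => ((dtl We (c x), dtl Wy (c x), dtl WZ (c x)), ⌊(x 1).re⌋), by
    rw [← hl, List.map_map, List.map_map]; rfl, fun t ht => ?_, ?_, fun a1 a2 a3 a4 => ?_⟩
  · obtain ⟨x, hx, rfl⟩ := List.mem_map.1 ht
    refine ⟨fun e => (hL x hx).deg_ne_zero (by rw [dg x hx]; exact_mod_cast e), ?_, ?_⟩
    · obtain ⟨ε, ψ, hε, hψ, e⟩ := (hL x hx).exists_sign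
      have k := IsIrr.deg_sq_le hψ
      have : (⌊(x 1).re⌋ : ℤ) = ε * deg ψ := by
        apply Int.cast_injective (α := ℂ)
        rw [← dg x hx, e]; push_cast; rw [IsIrr.coe_deg hψ]; rfl
      rw [cH] at k
      have k' : ((deg ψ : ℤ)) ^ 2 ≤ 27 * (n * f.range.index) := by rw [← mul_assoc]; exact_mod_cast k
      rcases hε with rfl | rfl <;> simpa [this] using k'
    · obtain ⟨m, hm⟩ := ZIrr.dot_int hρ (ZIrr.comp (hL x hx).mem_ZIrr f)
      simp only [alN_iff, beq_iff_eq] at ρc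
      have e : (27 : ℂ) • cf n CT ρ = cf n CT (dl 1 (27 * n)) + ((6 : ℂ) • cf n CT (dl 2 Me) + ((12 : ℂ) • cf n CT (dl 4 My) +
          (4 : ℂ) • cf n CT (dl zm MZ))) := funext fun g => by
        simpa [ev_sm, ev_ad, cf] using congrArg ev (ρc _ (cl_lt hs g))
      have k := congrArg (⟪·, x ∘ f⟫) e
      simp only [dot_smul_left, dot_add_left, hm] at k
      rw [dot_sgc hs s0 (CF_comp (cx x hx) f), ← frob_rec _ _ (cx x hx), ← frob_rec _ _ (cx x hx),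
        ← frob_rec _ _ (cx x hx), e4 x (hL x hx), y4 x (hL x hx), z4 x (hL x hx), Function.comp_apply,
        show jv n 0 = 1 from g_ext rfl rfl, map_one, dg x hx, map_intCast] at k
      exact ⟨m, Int.cast_injective (α := ℂ) (by push_cast; linear_combination -k)⟩
  · have k : ∀ {δ : Ga n → ℂ}, (∀ g, δ g ≠ 0 → gk g = 0 ∧ g ≠ 1) → ind f δ 1 = 0 := fun {δ} hδ => by
      rw [ind_one h.inj, show δ 1 = 0 from by_contra fun c => (hδ 1 c).2 rfl, mul_zero]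
    have k1 := (k e2).symm.trans (e3.apply 1)
    have k2 := (k y2).symm.trans (y3.apply 1)
    have k3 := (k z2).symm.trans (z3.apply 1)
    apply Rat.cast_injective (α := ℂ)
    rw [Rat.cast_list_sum, List.map_map, List.map_map, List.map_congr_left (g := fun x => 2 * (⟪ind f (cf n CT (dl 2 Me)), x⟫ * x 1) +
      (-4) * (⟪ind f (cf n CT (dl 4 My)), x⟫ * x 1) + ⟪ind f (cf n CT (dl zm MZ)), x⟫ * x 1) fun x hx => by
        rw [e4 x (hL x hx), y4 x (hL x hx), z4 x (hL x hx), dg x hx]; simp; ring,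
      List.sum_map_add, List.sum_map_add, List.sum_map_mul_left, List.sum_map_mul_left, ← k1, ← k2, ← k3]
    simp
  · have k1 := (h.trc T1 y1 y2).symm.trans (y3.tri hL _ _)
    have k2 := (h.trc T2 y1 y2).symm.trans (y3.tri hL _ _)
    have k3 := (h.trc T3 z1 z2).symm.trans (z3.tri hL _ _)
    have k4 := (h.trc T4 z1 z2).symm.trans (z3.tri hL _ _)
    apply Rat.cast_injective (α := ℂ)
    rw [Rat.cast_mul, Rat.cast_list_sum, List.map_map, List.map_map, List.map_congr_left (g := fun x =>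
      a1 * (⟪ind f (cf n CT (dl 4 My)), x⟫ * x (f (jv n 1)) * x (f (jv n 1)) / x 1) +
      a2 * (⟪ind f (cf n CT (dl 4 My)), x⟫ * x (f (jv n 1)) * x (f (jv n 4)) / x 1) +
      a3 * (⟪ind f (cf n CT (dl zm MZ)), x⟫ * x (f (jv n 4)) * x (f (jv n 4)) / x 1) +
      a4 * (⟪ind f (cf n CT (dl zm MZ)), x⟫ * x (f (jv n 1)) * x (f (jv n 4)) / x 1)) fun x hx => by
        rw [y4 x (hL x hx), z4 x (hL x hx), ve x hx, vy x hx, dg x hx]; simp; ring,
      List.sum_map_add, List.sum_map_add, List.sum_map_add, List.sum_map_mul_left, List.sum_map_mul_left,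
      List.sum_map_mul_left, List.sum_map_mul_left]
    rw [cH] at k1 k2 k3 k4
    push_cast at k1 k2 k3 k4 ⊢
    linear_combination (-(a1 : ℂ) * k1 - a2 * k2 - a3 * k3 - a4 * k4) / 27

/-- the cubic form `e y (e + y - Z)` -/
def gq (v : ℤ × ℤ × ℤ) : ℤ := v.2.1 * (1 * v.1 * v.1 + 1 * v.1 * v.2.1 + 0 * v.2.2 * v.2.1 + (-1) * v.2.2 * v.1)

/-- numerator and denominator modulo 27 -/
def frc : List (ℤ × ℤ × ℤ) → ℤ × ℤ
  | [] => (0, 1)
  | v :: V => if gq v = 0 then frc V else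
    ((frc V).1 * (-(6 * v.1 + 12 * v.2.1 + 4 * v.2.2)) + gq v / 18 * (frc V).2, (frc V).2 * (-(6 * v.1 + 12 * v.2.1 + 4 * v.2.2)))

theorem frc_sound (T : List ((ℤ × ℤ × ℤ) × ℤ))
    (h : ∀ t ∈ T, t.2 ≠ 0 ∧ 27 ∣ t.2 + 6 * t.1.1 + 12 * t.1.2.1 + 4 * t.1.2.2 ∧ 18 ∣ gq t.1) :
    ∃ a b : ℤ, b ≠ 0 ∧ (T.map fun t => (gq t.1 : ℚ) / t.2).sum * b = 18 * a ∧ 27 ∣ a - (frc (T.map Prod.fst)).1 ∧
      27 ∣ b - (frc (T.map Prod.fst)).2 := by
  induction T with
  | nil => exact ⟨0, 1, by simp [frc]⟩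
  | cons t T ih =>
    obtain ⟨a, b, b0, e, ⟨r, h1⟩, s, h2⟩ := ih fun u hu => h u (List.mem_cons_of_mem _ hu)
    obtain ⟨d0, ⟨w, h3⟩, q, h4⟩ := h t List.mem_cons_self
    simp only [List.map_cons, List.sum_cons, frc]
    split_ifs with c
    · exact ⟨a, b, b0, by simpa [c] using e, ⟨r, h1⟩, s, h2⟩
    · rw [h4, Int.mul_ediv_cancel_left _ (by norm_num)]
      refine ⟨a * t.2 + q * b, b * t.2, mul_ne_zero b0 d0, ?_, ⟨r * t.2 + (frc (T.map Prod.fst)).1 * w + q * s, ?_⟩,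
        s * t.2 + (frc (T.map Prod.fst)).2 * w, ?_⟩
      · have : (t.2 : ℚ) ≠ 0 := by exact_mod_cast d0
        push_cast
        field_simp
        linear_combination t.2 * e
      · linear_combination t.2 * h1 + (frc (T.map Prod.fst)).1 * h3 + q * h2
      · linear_combination t.2 * h2 + (frc (T.map Prod.fst)).2 * h3

/-- signed degrees of the columns with value `± w` -/
def sgd (w : ℤ × ℤ × ℤ) (t : (ℤ × ℤ × ℤ) × ℤ) : Option ℤ := if t.1 = w then some t.2 else if t.1 = -w then some (-t.2) else none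

theorem sgd_len (w : ℤ × ℤ × ℤ) (T : List ((ℤ × ℤ × ℤ) × ℤ)) :
    (T.filterMap (sgd w)).length = ((T.map Prod.fst).filter fun v => v = w ∨ v = -w).length := by
  induction T with
  | nil => rfl
  | cons t T ih => by_cases c : t.1 = w <;> by_cases c' : t.1 = -w <;> simp_all [sgd]

theorem sgd_sum (F : ℤ × ℤ × ℤ → ℤ → ℚ) (hF : ∀ v d, F (-v) d = F v (-d)) (T : List ((ℤ × ℤ × ℤ) × ℤ))
    (h : ∀ t ∈ T, (t.1 = (0, -3, 6) ∨ t.1 = -(0, -3, 6)) ∨ (t.1 = (-4, 2, -2) ∨ t.1 = -(-4, 2, -2)) ∨ F t.1 t.2 = 0) :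
    (T.map fun t => F t.1 t.2).sum = ((T.filterMap (sgd (0, -3, 6))).map (F (0, -3, 6))).sum +
      ((T.filterMap (sgd (-4, 2, -2))).map (F (-4, 2, -2))).sum := by
  induction T with
  | nil => simp
  | cons t T ih =>
    rw [List.map_cons, List.sum_cons, ih fun u hu => h u (List.mem_cons_of_mem _ hu)]
    obtain ⟨v, d⟩ := t
    by_cases c1 : v = (0, -3, 6)
    · subst c1; simp [sgd, add_assoc]
    by_cases c2 : v = -(0, -3, 6)
    · subst c2; rw [hF]; simp [sgd, add_assoc]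
    by_cases c3 : v = (-4, 2, -2)
    · subst c3; simp [sgd, add_left_comm]
    by_cases c4 : v = -(-4, 2, -2)
    · subst c4; rw [hF]; simp [sgd, add_left_comm]
    have := h _ List.mem_cons_self
    simp only [c1, c2, c3, c4, false_or] at this
    simp only [this, List.filterMap_cons, sgd, if_neg c1, if_neg c2, if_neg c3, if_neg c4, zero_add]

theorem sgd_mem {T : List ((ℤ × ℤ × ℤ) × ℤ)} {m t1 t2 t3 t4 : ℤ} (h : Eqs T m t1 t2 t3 t4) {w : ℤ × ℤ × ℤ} {p : ℤ}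
    (hp : p ∈ T.filterMap (sgd w)) : p ≠ 0 ∧ p ^ 2 ≤ 27 * m ∧ 27 ∣ p + 6 * w.1 + 12 * w.2.1 + 4 * w.2.2 := by
  obtain ⟨t, ht, e⟩ := List.mem_filterMap.1 hp
  obtain ⟨h1, h2, h3⟩ := h.b t ht
  rw [sgd] at e
  split_ifs at e with c c'
  · cases e; exact ⟨h1, h2, c ▸ h3⟩
  · cases e
    rw [c'] at h3
    exact ⟨neg_ne_zero.2 h1, by simpa using h2, by
      have := h3.neg_right
      simp only [Prod.fst_neg, Prod.snd_neg] at this
      omega⟩

theorem ar_h1 {N a b c : ℤ} (hN : 28 ≤ N) (ha : 0 < a) (hb : b < 0) (hc : c < 0) (ma : a % 27 = 8) (mb : b % 27 = 8)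
    (mc : c % 27 = 8) (s : -108 ≤ a + b + c) (e : 8 * N * (a * b + a * c + b * c) = 3 * (a * b * c)) : False := by
  have p : 0 < b * c := mul_pos_of_neg_of_neg hb hc
  have k : 0 < a * b + a * c + b * c := by
    by_contra k
    nlinarith [mul_pos ha p]
  have k2 : 4 * a < -b - c := by nlinarith [sq_nonneg (b - c)]
  have a8 : a = 8 := by omega
  subst a8
  have : b ≤ -19 := by omega
  have : c ≤ -19 := by omega
  nlinarith

theorem ar_h2 {N a b c : ℤ} (hN : 28 ≤ N) (ha : 0 < a) (hb : 0 < b) (s : a + b + c < 0) (q : c ^ 2 ≤ 648 * N)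
    (e : 8 * N * (a * b + a * c + b * c) = 3 * (a * b * c)) : False := by
  have p : 0 < a * b := mul_pos ha hb
  have k : 3 * (a * b) ≤ -(a * b + a * c + b * c) := by nlinarith [sq_nonneg (a - b)]
  have k2 : 8 * N ≤ -c := by
    by_contra k2
    nlinarith
  nlinarith

theorem ar_S4 {N p q a b c : ℤ} (hN : 28 ≤ N) (p0 : p ≠ 0) (q0 : q ≠ 0) (hp : p ^ 2 ≤ 648 * N) (hq : q ^ 2 ≤ 648 * N)
    (ha : a ^ 2 ≤ 648 * N) (hb : b ^ 2 ≤ 648 * N) (hc : c ^ 2 ≤ 648 * N) (ma : a % 27 = 8) (mb : b % 27 = 8)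
    (mc : c % 27 = 8) (e1 : 6 * N * (p + q) = p * q) (s : p + q = a + b + c)
    (e : 8 * N * (a * b + a * c + b * c) = 3 * (a * b * c)) : False := by
  have k1 : p + q ≤ 108 := by nlinarith [sq_nonneg (p - q)]
  have k2 : -108 ≤ p + q := by nlinarith [sq_nonneg (p + q)]
  have k3 : p + q < 0 := by
    by_contra k
    have : p + q ≠ 0 := fun c => mul_ne_zero p0 q0 (by rw [← e1, c, mul_zero])
    have : 0 < p + q := by omega
    nlinarith [sq_nonneg (p - q)]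
  rcases lt_or_gt_of_ne (show a ≠ 0 by omega) with a0 | a0 <;> rcases lt_or_gt_of_ne (show b ≠ 0 by omega) with b0 | b0 <;>
    rcases lt_or_gt_of_ne (show c ≠ 0 by omega) with c0 | c0
  · nlinarith [mul_pos_of_neg_of_neg a0 b0, mul_pos_of_neg_of_neg a0 c0, mul_pos_of_neg_of_neg b0 c0]
  · exact ar_h1 hN c0 a0 b0 mc ma mb (by omega) (by linear_combination e)
  · exact ar_h1 hN b0 a0 c0 mb ma mc (by omega) (by linear_combination e)
  · exact ar_h2 hN b0 c0 (c := a) (by omega) ha (by linear_combination e)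
  · exact ar_h1 hN a0 b0 c0 ma mb mc (by omega) e
  · exact ar_h2 hN a0 c0 (c := b) (by omega) hb (by linear_combination e)
  · exact ar_h2 hN a0 b0 (by omega) hc e
  · omega

/-- the form `y (-e² - 3 e y + 2 y Z)` -/
def fq1 (v : ℤ × ℤ × ℤ) : ℤ := v.2.1 * ((-1) * v.1 * v.1 + (-3) * v.1 * v.2.1 + 2 * v.2.2 * v.2.1 + 0 * v.2.2 * v.1)
/-- the form `e y (e - y)` -/
def fq2 (v : ℤ × ℤ × ℤ) : ℤ := v.2.1 * (1 * v.1 * v.1 + (-1) * v.1 * v.2.1 + 0 * v.2.2 * v.2.1 + 0 * v.2.2 * v.1)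

/-- the leaf test -/
def lfq (s : Bool) (V : List (ℤ × ℤ × ℤ)) : Bool :=
  (V.all (fun v => gq v % 18 == 0) && (frc V).1 % 27 != 0) ||
  (V.all (fun v => decide ((v = (0, -3, 6) ∨ v = -(0, -3, 6)) ∨ (v = (-4, 2, -2) ∨ v = -(-4, 2, -2)) ∨
    (fq1 v = 0 ∧ (s = true → fq2 v = 0 ∧ 2 * v.1 - 4 * v.2.1 + v.2.2 = 0)))) &&
    (V.filter fun v => v = (0, -3, 6) ∨ v = -(0, -3, 6)).length == (if s then 2 else 1) &&
    (!s || (V.filter fun v => v = (-4, 2, -2) ∨ v = -(-4, 2, -2)).length == 3))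

theorem lfq_false {s : Bool} {T : List ((ℤ × ℤ × ℤ) × ℤ)} {N : ℤ} (hN : 28 ≤ N) (hl : lfq s (T.map Prod.fst) = true)
    (h : if s then Eqs T (24 * N) 864 432 1296 1296 else Eqs T (12 * N) 216 108 324 324) : False := by
  obtain ⟨m, t, hm, h, ht⟩ : ∃ m t : ℤ, 0 < m ∧ Eqs T (m * N) (2 * t) t (3 * t) (3 * t) ∧
      (if s then m = 24 ∧ t = 432 else m = 12 ∧ t = 108) := by
    cases s
    exacts [⟨12, 108, by norm_num, h, by simp⟩, ⟨24, 432, by norm_num, h, by simp⟩]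
  have N0 : (N : ℚ) ≠ 0 := by exact_mod_cast (show N ≠ 0 by omega)
  simp only [lfq, Bool.or_eq_true, Bool.and_eq_true, List.all_eq_true, beq_iff_eq, bne_iff_ne, decide_eq_true_eq,
    ← sgd_len] at hl
  rcases hl with ⟨h1, h2⟩ | ⟨⟨h1, h2⟩, h3⟩
  · obtain ⟨a, b, -, e, k, -⟩ := frc_sound T fun t ht =>
      ⟨(h.b t ht).1, (h.b t ht).2.2, Int.dvd_of_emod_eq_zero (h1 _ (List.mem_map_of_mem ht))⟩
    have e' : ((m * N : ℤ) : ℚ) * (T.map fun t => (gq t.1 : ℚ) / t.2).sum = 0 := (h.e 1 1 0 (-1)).trans (by push_cast; ring)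
    rw [(mul_eq_zero.1 e').resolve_left (by exact_mod_cast (show m * N ≠ 0 by positivity)), zero_mul] at e
    have : a = 0 := by exact_mod_cast (show (a : ℚ) = 0 by linarith)
    omega
  have k1 := sgd_sum (fun v d => (fq1 v : ℚ) / d) (fun v d => by simp [fq1]; ring) T fun t ht =>
    (h1 _ (List.mem_map_of_mem ht)).imp_right (Or.imp_right fun c => by simp [c.1])
  have e1 : ((m * N : ℤ) : ℚ) * (T.map fun t => (fq1 t.1 : ℚ) / t.2).sum = t := (h.e (-1) (-3) 2 0).trans (by push_cast; ring)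
  rw [k1, List.sum_eq_zero (l := (T.filterMap (sgd (-4, 2, -2))).map _) (by simp [fq1])] at e1
  cases s
  · obtain ⟨rfl, rfl⟩ : m = 12 ∧ t = 108 := ht
    obtain ⟨p, hp⟩ := List.length_eq_one_iff.1 h2
    obtain ⟨p0, p1, -⟩ := sgd_mem h (hp ▸ List.mem_cons_self : p ∈ T.filterMap (sgd (0, -3, 6)))
    have : (p : ℚ) ≠ 0 := by exact_mod_cast p0
    simp [hp, fq1] at e1
    field_simp at e1
    have : p = 12 * N := by exact_mod_cast (show (p : ℚ) = 12 * N by linarith)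
    subst this
    nlinarith
  obtain ⟨rfl, rfl⟩ : m = 24 ∧ t = 432 := ht
  have k2 := sgd_sum (fun v d => (fq2 v : ℚ) / d) (fun v d => by simp [fq2]; ring) T fun t ht =>
    (h1 _ (List.mem_map_of_mem ht)).imp_right (Or.imp_right fun c => by simp [(c.2 rfl).1])
  have e2 : ((24 * N : ℤ) : ℚ) * (T.map fun t => (fq2 t.1 : ℚ) / t.2).sum = 432 := (h.e 1 (-1) 0 0).trans (by push_cast; ring)
  have k3 := sgd_sum (fun v d => (((2 * v.1 - 4 * v.2.1 + v.2.2) * d : ℤ) : ℚ)) (fun v d => by simp; ring) T fun t ht =>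
    (h1 _ (List.mem_map_of_mem ht)).imp_right (Or.imp_right fun c => by simp only [(c.2 rfl).2]; simp)
  rw [h.u] at k3
  rw [k2] at e2
  obtain ⟨p, q, hp⟩ := List.length_eq_two.1 h2
  obtain ⟨a, b, c, ha⟩ := List.length_eq_three.1 (by simpa using h3)
  have mp := fun x (hx : x ∈ [p, q]) => sgd_mem h (hp ▸ hx : x ∈ T.filterMap (sgd (0, -3, 6)))
  have ma := fun x (hx : x ∈ [a, b, c]) => sgd_mem h (ha ▸ hx : x ∈ T.filterMap (sgd (-4, 2, -2)))
  obtain ⟨p0, p1, -⟩ := mp p (by simp)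
  obtain ⟨q0, q1, -⟩ := mp q (by simp)
  obtain ⟨a0, a1, a2⟩ := ma a (by simp)
  obtain ⟨b0, b1, b2⟩ := ma b (by simp)
  obtain ⟨c0, c1, c2⟩ := ma c (by simp)
  simp only at a2 b2 c2
  have : (p : ℚ) ≠ 0 := by exact_mod_cast p0
  have : (q : ℚ) ≠ 0 := by exact_mod_cast q0
  have : (a : ℚ) ≠ 0 := by exact_mod_cast a0
  have : (b : ℚ) ≠ 0 := by exact_mod_cast b0
  have : (c : ℚ) ≠ 0 := by exact_mod_cast c0
  simp [hp, ha, fq1, fq2] at e1 e2 k3
  field_simp at e1 e2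
  refine ar_S4 hN p0 q0 (by omega) (by omega) (a := a) (b := b) (c := c) (by omega) (by omega) (by omega) (by omega) (by omega)
    (by omega) ?_ ?_ ?_
  · exact_mod_cast (show 6 * (N : ℚ) * (p + q) = p * q by linarith)
  · exact_mod_cast (show (p : ℚ) + q = a + b + c by linarith)
  · exact_mod_cast (show 8 * (N : ℚ) * (a * b + a * c + b * c) = 3 * (a * b * c) by linarith)

end CA.McL

theorem CA.realizeEqns_McL_B5 : True := by
  have := @CA.McL.gq.eq_1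
  have := @CA.McL.gq.eq_def
  have := @CA.McL.gq.congr_simp
  have := @CA.McL.fq1.eq_1
  have := @CA.McL.fq1.eq_def
  have := @CA.McL.fq1.congr_simp
  have := @CA.McL.sgd.eq_1
  have := @CA.McL.sgd.eq_def
  have := @CA.McL.sgd.congr_simp
  have := @CA.McL.lfq.eq_1
  have := @CA.McL.lfq.eq_def
  have := @CA.McL.lfq.congr_simp
  have := @CA.McL.fq2.eq_1
  have := @CA.McL.fq2.eq_def
  have := @CA.McL.fq2.congr_simp
  have := @CA.McL.frc.eq_1
  have := @CA.McL.frc.eq_2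
  have := @CA.McL.frc.eq_def
  have := @CA.McL.frc.congr_simp
  trivial
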