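/-
Codes of permutations of eight points; enumeration.
-/
import Cfsg.Agent.McL.Defs
import Cfsg.Agent.PM.G

set_option autoImplicit false
set_option maxRecDepth 100000

namespace CA.McL

open CA.TC Equiv

/-- digit of a code -/
def app (c i : ℕ) : ℕ := Nat.land (Nat.shiftRight c (Nat.mul 3 i)) 7

theorem app_eq (c i : ℕ) : app c i = c / 8 ^ i % 8 := by
  show (c >>> (3 * i)) &&& (2 ^ 3 - 1) = _
  rw [Nat.and_two_pow_sub_one_eq_mod, Nat.shiftRight_eq_div_pow, pow_mul]
  rfl

/-- number with given digits -/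
def dg (f : ℕ → ℕ) : ℕ :=
  f 0 + f 1 * 8 + f 2 * 64 + f 3 * 512 + f 4 * 4096 + f 5 * 32768 + f 6 * 262144 + f 7 * 2097152

theorem app_dg {f : ℕ → ℕ} (h : ∀ i < 8, f i < 8) {i : ℕ} (hi : i < 8) : app (dg f) i = f i := by
  have h0 := h 0 (by omega); have h1 := h 1 (by omega); have h2 := h 2 (by omega); have h3 := h 3 (by omega)
  have h4 := h 4 (by omega); have h5 := h 5 (by omega); have h6 := h 6 (by omega); have h7 := h 7 (by omega)
  rw [app_eq, dg]
  interval_cases i <;> norm_num <;> omega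

/-- values of a permutation -/
def toN (g : Perm (Fin 8)) (i : ℕ) : ℕ := if h : i < 8 then (g ⟨i, h⟩).val else 0

theorem toN_lt (g : Perm (Fin 8)) (i : ℕ) : toN g i < 8 := by
  unfold toN; split_ifs
  · exact Fin.is_lt _
  · omega

theorem toN_fin (g : Perm (Fin 8)) (i : Fin 8) : toN g i = (g i).val := dif_pos i.2

/-- the code of a permutation -/
def cd (g : Perm (Fin 8)) : ℕ := dg (toN g)

theorem app_cd (g : Perm (Fin 8)) (i : Fin 8) : app (cd g) i = (g i).val := by
  rw [cd, app_dg (fun i _ => toN_lt g i) i.2, toN_fin]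

theorem cd_inj {g h : Perm (Fin 8)} : g = h ↔ cd g = cd h :=
  ⟨fun e => e ▸ rfl, fun e => Equiv.ext fun i => Fin.ext (by rw [← app_cd, ← app_cd, e])⟩

/-- multiplication of codes -/
noncomputable def mulc (a b : ℕ) : ℕ := frc a fun a => frc b fun b => dg fun i => app a (app b i)

theorem dg_congr {f g : ℕ → ℕ} (h : ∀ i : Fin 8, f i = g i) : dg f = dg g := by
  have h0 : f 0 = g 0 := h 0
  have h1 : f 1 = g 1 := h 1
  have h2 : f 2 = g 2 := h 2
  have h3 : f 3 = g 3 := h 3
  have h4 : f 4 = g 4 := h 4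
  have h5 : f 5 = g 5 := h 5
  have h6 : f 6 = g 6 := h 6
  have h7 : f 7 = g 7 := h 7
  simp only [dg, h0, h1, h2, h3, h4, h5, h6, h7]

theorem cd_mul (g h : Perm (Fin 8)) : cd (g * h) = mulc (cd g) (cd h) := by
  rw [mulc, frc_eq, frc_eq, cd]
  exact dg_congr fun i => by rw [toN_fin, app_cd, app_cd]; rfl

theorem cd_one : cd 1 = 16434824 := by decide

/-- inverse of a code -/
noncomputable def invc (a : ℕ) : ℕ := frc a fun a =>
  0 + 1 * 8 ^ app a 1 + 2 * 8 ^ app a 2 + 3 * 8 ^ app a 3 + 4 * 8 ^ app a 4 + 5 * 8 ^ app a 5 + 6 * 8 ^ app a 6 +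
    7 * 8 ^ app a 7

theorem cd_inv (g : Perm (Fin 8)) : cd g⁻¹ = invc (cd g) := by
  have e : ∀ h : Perm (Fin 8), cd h = ∑ i : Fin 8, (h i).val * 8 ^ i.val := fun h => by
    rw [Fin.sum_univ_eight]
    simp only [← toN_fin]
    simp [cd, dg]
  rw [invc, frc_eq, e g⁻¹, ← Equiv.sum_comp g, Fin.sum_univ_eight]
  simp only [Perm.coe_inv, symm_apply_apply, ← app_cd]
  simp

/-- number of inversions -/
noncomputable def inv8 (a : ℕ) : ℕ := frc a fun a =>
  ((List.range 8).map fun j => ((List.range j).map fun i => if app a i < app a j then 0 else 1).sum).sum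

theorem mem_alt {g : Perm (Fin 8)} : g ∈ alternatingGroup (Fin 8) ↔ inv8 (cd g) % 2 = 0 := by
  have : g.sign = (-1) ^ inv8 (cd g) := by
    rw [Perm.sign_eq_prod_prod_Iio, inv8, frc_eq]
    have k : ∀ i j : Fin 8, (if g i < g j then (1 : ℤˣ) else -1) =
        (-1) ^ (if app (cd g) i < app (cd g) j then 0 else 1) := fun i j => by
      rw [app_cd, app_cd]
      by_cases h : g i < g j
      · rw [if_pos h, if_pos (show (g i).val < (g j).val from h)]; rfl
      · rw [if_neg h, if_neg (show ¬ (g i).val < (g j).val from h)]; rfl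
    simp only [k, Finset.prod_pow_eq_pow_sum]
    congr 1
  rw [Perm.mem_alternatingGroup, this, neg_one_pow_eq_one_iff_even (by decide), Nat.even_iff]

/-- enumeration of the codes -/
noncomputable def go (ok : ℕ → ℕ → Bool) (P : ℕ → Bool) (k : ℕ) : ℕ → ℕ → Bool :=
  Nat.rec (fun _ c => P c) (fun k ih m c => allLt 8 fun x => bor (PM.tb m x) (Bool.rec true
    (frc (Nat.lor m (Nat.shiftLeft 1 x)) fun m' => frc (Nat.add c (Nat.mul x (Nat.pow 8 k))) fun c' => ih m' c') (ok k x))) k

theorem go_spec {ok : ℕ → ℕ → Bool} {P : ℕ → Bool} (g : Perm (Fin 8)) (hok : ∀ i : Fin 8, ok i (g i) = true) :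
    ∀ k ≤ 8, ∀ m c, (∀ x, PM.tb m x = true → ∃ j : Fin 8, k ≤ j.val ∧ (g j).val = x) →
      c + ∑ i ∈ Finset.range k, toN g i * 8 ^ i = cd g → go ok P k m c = true → P (cd g) = true := by
  intro k
  induction k with
  | zero =>
    intro _ m c _ e h
    have e' : c = cd g := by simpa using e
    have h' : P c = true := h
    exact e' ▸ h'
  | succ k ih =>
    intro hk m c hm e h
    have h0 : allLt 8 (fun x => bor (PM.tb m x) (Bool.rec true
      (frc (Nat.lor m (Nat.shiftLeft 1 x)) fun m' => frc (Nat.add c (Nat.mul x (Nat.pow 8 k))) fun c' =>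
        go ok P k m' c') (ok k x))) = true := h
    have h1 := allLt_spec h0 (g ⟨k, hk⟩).val (Fin.is_lt _)
    rcases bor_iff.1 h1 with h2 | h2
    · obtain ⟨j, h3, h4⟩ := hm _ h2
      have := g.injective (Fin.ext h4)
      subst this
      simp at h3
    · rw [show ok k (g ⟨k, hk⟩).val = true from hok ⟨k, hk⟩, frc_eq, frc_eq] at h2
      refine ih (by omega) _ _ (fun x hx => ?_) ?_ h2
      · rw [PM.tb_eq] at hx
        have hx' : (m ||| (1 <<< (g ⟨k, hk⟩).val)).testBit x = true := hx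
        rw [Nat.testBit_or, Bool.or_eq_true, Nat.one_shiftLeft, Nat.testBit_two_pow] at hx'
        rcases hx' with hx' | hx'
        · obtain ⟨j, h3, h4⟩ := hm x (by rw [PM.tb_eq]; exact hx')
          exact ⟨j, by omega, h4⟩
        · exact ⟨⟨k, hk⟩, le_rfl, by simpa using hx'⟩
      · rw [← e, Finset.sum_range_succ, ← toN_fin g ⟨k, hk⟩]
        show c + toN g k * 8 ^ k + _ = _
        ring

theorem go_all {ok : ℕ → ℕ → Bool} {P : ℕ → Bool} (h : go ok P 8 0 0 = true) (g : Perm (Fin 8))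
    (hok : ∀ i : Fin 8, ok i (g i) = true) : P (cd g) = true :=
  go_spec g hok 8 le_rfl 0 0 (fun x hx => by rw [PM.tb_eq, Nat.zero_testBit] at hx; cases hx)
    (by simp [Finset.sum_range_succ, cd, dg]) h

/-- allowed values in `N2` -/
def ok2 (i x : ℕ) : Bool := Bool.rec (Nat.ble 3 x) (Nat.ble x 2) (Nat.ble i 2)

theorem all8 {P : ℕ → Prop} [DecidablePred P] (h : go (fun _ _ => true) (fun c => decide (P c)) 8 0 0 = true)
    (g : Perm (Fin 8)) : P (cd g) := of_decide_eq_true (go_all h g fun _ => rfl)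

theorem all2 {P : ℕ → Prop} [DecidablePred P] (h : go ok2 (fun c => decide (P c)) 8 0 0 = true) (g : N2) :
    P (cd g) := of_decide_eq_true (go_all h g.1 fun i => by
  have := g.2 i
  unfold ok2
  cases e : Nat.ble i 2
  · have : ¬ i.val ≤ 2 := fun h => by rw [Nat.ble_eq_true_of_le h] at e; cases e
    exact Nat.ble_eq_true_of_le (by omega)
  · have := Nat.le_of_ble_eq_true e
    exact Nat.ble_eq_true_of_le (by omega))

theorem cd2_inj {g h : N2} : g = h ↔ cd g = cd h := by rw [Subtype.ext_iff, cd_inj]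

theorem mem_N1 {g : N2} : g ∈ N1 ↔ inv8 (cd g) % 2 = 0 := mem_alt

theorem realizeEqns_McL_C0 : True := by
  have := @CA.McL.app.eq_1
  have := @CA.McL.app.eq_def
  have := @CA.McL.app.congr_simp
  have := @CA.McL.mulc.eq_1
  have := @CA.McL.mulc.eq_def
  have := @CA.McL.mulc.congr_simp
  have := @CA.McL.invc.eq_1
  have := @CA.McL.invc.eq_def
  have := @CA.McL.invc.congr_simp
  have := @CA.McL.cd.eq_1
  have := @CA.McL.cd.eq_def
  have := @CA.McL.cd.congr_simp
  have := @CA.McL.go.eq_1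
  have := @CA.McL.go.eq_def
  have := @CA.McL.go.congr_simp
  have := @CA.McL.toN.eq_1
  have := @CA.McL.toN.eq_def
  have := @CA.McL.toN.congr_simp
  have := @CA.McL.inv8.eq_1
  have := @CA.McL.inv8.eq_def
  have := @CA.McL.inv8.congr_simp
  have := @CA.McL.ok2.eq_1
  have := @CA.McL.ok2.eq_def
  have := @CA.McL.ok2.congr_simp
  have := @CA.McL.dg.eq_1
  have := @CA.McL.dg.eq_def
  have := @CA.McL.dg.congr_simp
  trivial

end CA.McL
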