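/-
The homomorphism from `A₈`.
-/
import Cfsg.Agent.McL.C1

set_option autoImplicit false
set_option maxRecDepth 100000

namespace CA.McL

open CA.TC CA.PM Equiv TC

noncomputable instance decA8 (g : Perm (Fin 8)) : Decidable (g ∈ alternatingGroup (Fin 8)) :=
  decidable_of_iff _ mem_alt.symm

noncomputable instance decN1 (g : N2) : Decidable (g ∈ N1) := decidable_of_iff _ mem_N1.symm

/-- adjacent transpositions -/
def sw (i : Fin 7) : Perm (Fin 8) := swap i.castSucc i.succ

theorem sw_sq (i : Fin 7) : sw i * sw i = 1 := swap_mul_self _ _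

theorem N2_desc (g : N2) : (g : Perm (Fin 8)) = 1 ∨ ∃ i : Fin 7, i ≠ 2 ∧ inv8 (cd (sw i * g)) < inv8 (cd g) := by
  have h := all2 (P := fun c => c = 16434824 ∨ inv8 (mulc 16434817 c) < inv8 c ∨ inv8 (mulc 16434768 c) < inv8 c ∨
    inv8 (mulc 16431240 c) < inv8 c ∨ inv8 (mulc 16406152 c) < inv8 c ∨ inv8 (mulc 16205448 c) < inv8 c ∨
    inv8 (mulc 14599816 c) < inv8 c) (by decide +kernel) g
  simp only [cd_mul, cd_inj (g := g), cd_one]
  rcases h with h | h | h | h | h | h | h
  · exact Or.inl h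
  · exact Or.inr ⟨0, by decide, by rwa [show cd (sw 0) = 16434817 by decide]⟩
  · exact Or.inr ⟨1, by decide, by rwa [show cd (sw 1) = 16434768 by decide]⟩
  · exact Or.inr ⟨3, by decide, by rwa [show cd (sw 3) = 16431240 by decide]⟩
  · exact Or.inr ⟨4, by decide, by rwa [show cd (sw 4) = 16406152 by decide]⟩
  · exact Or.inr ⟨5, by decide, by rwa [show cd (sw 5) = 16205448 by decide]⟩
  · exact Or.inr ⟨6, by decide, by rwa [show cd (sw 6) = 14599816 by decide]⟩

/-- induction over the generators of `N2` -/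
theorem N2_ind {P : Perm (Fin 8) → Prop} (h1 : P 1) (hs : ∀ i : Fin 7, i ≠ 2 → ∀ g, P g → P (sw i * g)) :
    ∀ g ∈ N2, P g := by
  intro g hg
  induction h : inv8 (cd g) using Nat.strong_induction_on generalizing g with
  | _ n ih =>
    rcases N2_desc ⟨g, hg⟩ with e | ⟨i, hi, e⟩
    · exact (show g = 1 from e) ▸ h1
    · have := hs i hi _ (ih _ (h ▸ e) (sw i * g) (N2.mul_mem ((show ∀ i : Fin 7, i ≠ 2 → sw i ∈ N2 by decide) i hi) hg) rfl)
      rwa [← mul_assoc, sw_sq, one_mul] at this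

theorem S8_ind {P : Perm (Fin 8) → Prop} (h1 : P 1) (hs : ∀ i : Fin 7, ∀ g, P g → P (sw i * g)) (g) : P g := by
  have hg : g ∈ Submonoid.closure (Set.range fun i : Fin 7 => swap i.castSucc i.succ) := by
    rw [Perm.mclosure_swap_castSucc_succ]; trivial
  induction hg using Submonoid.closure_induction_left with
  | one => exact h1
  | mul_left x hx y _ ih => obtain ⟨i, rfl⟩ := hx; exact hs i y ih

theorem step_sw {K : Subgroup (Perm (Fin 8))} {i : Fin 7} (h : sw 0 * sw i ∈ K) (g : Perm (Fin 8))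
    (hg : g ∈ K ∨ sw 0 * g ∈ K) : sw i * g ∈ K ∨ sw 0 * (sw i * g) ∈ K := by
  rcases hg with hg | hg
  · right; rw [← mul_assoc]; exact K.mul_mem h hg
  · left
    have := K.mul_mem (K.inv_mem h) hg
    rwa [mul_inv_rev, inv_eq_of_mul_eq_one_left (sw_sq i), mul_assoc, inv_mul_cancel_left] at this

theorem fin_sw {K : Subgroup (Perm (Fin 8))} (hK : K ≤ alternatingGroup (Fin 8)) {g : Perm (Fin 8)}
    (h : g ∈ alternatingGroup (Fin 8)) (hg : g ∈ K ∨ sw 0 * g ∈ K) : g ∈ K :=
  hg.resolve_right fun e => by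
    have := (alternatingGroup (Fin 8)).mul_mem (hK e) (inv_mem h)
    rw [mul_inv_cancel_right] at this
    revert this; decide +kernel

/-- `(4 5)(6 7)` -/
def uu : N1 := ⟨⟨swap 3 4 * swap 5 6, by decide⟩, by decide +kernel⟩
/-- `(1 4)(2 5)(3 6)(7 8)` -/
def vv : alternatingGroup (Fin 8) := ⟨swap 0 3 * swap 1 4 * swap 2 5 * swap 6 7, by decide +kernel⟩
/-- elements of `N1` -/
def A1 : N1 := ⟨a1, by decide +kernel⟩
/-- elements of `N1` -/
def A2 : N1 := ⟨a2, by decide +kernel⟩
/-- elements of `N1` -/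
def W1 : N1 := ⟨w1, by decide +kernel⟩
/-- elements of `N1` -/
def W2 : N1 := ⟨w2, by decide +kernel⟩

/-- the inclusion of `N1` in `A₈` -/
def inc : N1 →* alternatingGroup (Fin 8) :=
  (N2.subtype.comp N1.subtype).codRestrict _ fun x => x.2

theorem inc_val (x : N1) : (inc x : Perm (Fin 8)) = x.1.1 := rfl

/-- the letters -/
def L (g : ℕ) : N1 :=
  if g = 1 then ⟨⟨sw 0 * sw 3, by decide⟩, by decide +kernel⟩ else if g = 2 then ⟨⟨sw 0 * sw 4, by decide⟩, by decide +kernel⟩
  else if g = 3 then ⟨⟨sw 0 * sw 5, by decide⟩, by decide +kernel⟩ else if g = 4 then ⟨⟨sw 0 * sw 6, by decide⟩, by decide +kernel⟩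
  else if g = 5 then ⟨⟨sw 1 * sw 6, by decide⟩, by decide +kernel⟩ else 1

variable {X : Type*} [Group X]

/-- the letters in `X` -/
def la (f : N1 →* X) (v : X) (g : ℕ) : X := if g = 6 then v else f (L g)

theorem L_sq (g : ℕ) : L g * L g = 1 := by
  unfold L; split_ifs <;> decide

theorem tb62 {g : ℕ} (h : tb 62 g = true) : g ≠ 6 := by rintro rfl; revert h; decide +kernel

theorem wd_la (f : N1 →* X) (v : X) {w : List ℕ} (h : inS 62 w = true) : wd (la f v) w = f (wd L w) := by
  induction w with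
  | nil => simp
  | cons g w ih =>
    rw [inS_cons] at h
    rw [wd_cons, wd_cons, ih h.2, map_mul, la, if_neg (tb62 h.1)]

theorem sq_la (f : N1 →* X) {v : X} (hv : v * v = 1) (S : ℕ) : Sq (la f v) S := fun g _ => by
  unfold la; split_ifs
  · exact hv
  · rw [← map_mul, L_sq, map_one]

theorem N1_gen (x : N1) : ∃ w, inS 62 w = true ∧ wd L w = x := by
  let ι : N1 →* Perm (Fin 8) := N2.subtype.comp N1.subtype
  have hK : (gp L 62).map ι ≤ alternatingGroup (Fin 8) := by rintro _ ⟨y, -, rfl⟩; exact y.2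
  have m : ∀ (w : List ℕ) (p : Perm (Fin 8)), inS 62 w = true → (wd L w).1.1 = p → p ∈ (gp L 62).map ι :=
    fun w p h e => ⟨_, wd_mem_gp h, e⟩
  obtain ⟨y, hy, e⟩ := fin_sw hK x.2 (N2_ind (P := fun g => g ∈ (gp L 62).map ι ∨ sw 0 * g ∈ (gp L 62).map ι)
    (Or.inl (one_mem _)) (fun i hi => step_sw (by
      fin_cases i
      exacts [m [] _ rfl (by decide), m [4, 5] _ (by decide +kernel) (by decide), absurd rfl hi,
        m [1] _ (by decide +kernel) (by decide), m [2] _ (by decide +kernel) (by decide),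
        m [3] _ (by decide +kernel) (by decide), m [4] _ (by decide +kernel) (by decide)])) _ x.1.2)
  obtain rfl : y = x := Subtype.ext (Subtype.ext e)
  exact Sq.exists_wd (fun g _ => L_sq g) hy

theorem A8_gen : gp (la inc vv) 126 = ⊤ := by
  let ι := (alternatingGroup (Fin 8)).subtype
  have hK : (gp (la inc vv) 126).map ι ≤ alternatingGroup (Fin 8) := by rintro _ ⟨y, -, rfl⟩; exact y.2
  have m : ∀ (w : List ℕ) (p : Perm (Fin 8)), inS 126 w = true → (wd (la inc vv) w).1 = p →
      p ∈ (gp (la inc vv) 126).map ι := fun w p h e => ⟨_, wd_mem_gp h, e⟩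
  refine eq_top_iff.2 fun x _ => ?_
  obtain ⟨y, hy, e⟩ := fin_sw hK x.2 (S8_ind
    (P := fun g => g ∈ (gp (la inc vv) 126).map ι ∨ sw 0 * g ∈ (gp (la inc vv) 126).map ι)
    (Or.inl (one_mem _)) (fun i => step_sw (by
      fin_cases i
      exacts [m [] _ rfl (by decide), m [4, 5] _ (by decide +kernel) (by decide),
        m [6, 3, 5, 6, 3, 6, 5, 3, 6] _ (by decide +kernel) (by decide +kernel),
        m [1] _ (by decide +kernel) (by decide), m [2] _ (by decide +kernel) (by decide),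
        m [3] _ (by decide +kernel) (by decide), m [4] _ (by decide +kernel) (by decide)])) _)
  exact (show y = x from Subtype.ext e) ▸ hy

theorem run_perm {Y : Type*} [Group Y] (ι : Y →* Perm (Fin 8)) {b : ℕ → Y} {S : ℕ} (sq : Sq b S) {act : ℕ → ℕ → ℕ}
    (h : ∀ g, tb S g = true → ∀ p : Fin 8, act g p = (ι (b g) p).val) {w : List ℕ} (hw : inS S w = true) (p : Fin 8) :
    run act w p = (ι (wd b w)⁻¹ p).val := by
  induction w generalizing p with
  | nil => simp
  | cons g w ih =>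
    rw [inS_cons] at hw
    rw [run_cons, h g hw.1, ih hw.2, wd_cons, mul_inv_rev, inv_eq_of_mul_eq_one_left (sq g hw.1), map_mul]
    rfl

theorem rel_perm {Y : Type*} [Group Y] (ι : Y →* Perm (Fin 8)) (hι : Function.Injective ι) {b : ℕ → Y} {S : ℕ}
    (sq : Sq b S) {act : ℕ → ℕ → ℕ} (h : ∀ g, tb S g = true → ∀ p : Fin 8, act g p = (ι (b g) p).val) {B : List ℕ}
    (hB : ∀ p : Fin 8, p.val ∈ B) : Rel b act S B := fun w hw hf => by
  refine inv_eq_one.1 (hι ((map_one ι).symm ▸ Equiv.ext fun p => Fin.ext ?_))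
  rw [← run_perm ι sq h hw, fixB_iff.1 hf _ (hB p)]; rfl

theorem rel0 (f : N1 →* X) (v : X) {act : ℕ → ℕ → ℕ}
    (h : ∀ g < 16, tb 62 g = true → ∀ p : Fin 8, act g p = ((L g).1.1 p).val) {B : List ℕ}
    (hB : ∀ p : Fin 8, p.val ∈ B) : Rel (la f v) act 62 B := fun w hw hf => by
  rw [wd_la f v hw, rel_perm (N2.subtype.comp N1.subtype) (N2.subtype_injective.comp N1.subtype_injective)
    (fun g _ => L_sq g) (fun g hg => h g (lt16 (by decide) hg) hg) hB w hw hf, map_one]

theorem rel_tb {S T n : ℕ} {act : ℕ → ℕ → ℕ} (h : Tb S n act) (e : sub T S = true) {B : List ℕ}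
    (hB : ∀ p < n, p ∈ B) : Rel h.perm act T B := fun _ hw hf =>
  (h.perm_eq_one (inS_sub e hw)).2 fun p hp => fixB_iff.1 hf p (hB p hp)

/-- the basic relations -/
structure VR (f : N1 →* X) (v : X) : Prop where
  vv : v * v = 1
  va : v * f A1 * v⁻¹ = f A2
  vw : v * f W1 * v⁻¹ = f W2

variable {f : N1 →* X} {v : X}

theorem VR.inv (h : VR f v) : v⁻¹ = v := inv_eq_of_mul_eq_one_left h.vv

theorem wd_cj (h : VR f v) {w : List ℕ} (hw : inS 62 w = true) (r : List ℕ) :
    wd (la f v) (6 :: (w ++ 6 :: r)) = v * f (wd L w) * v⁻¹ * wd (la f v) r := by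
  rw [wd_cons, wd_append, wd_cons, wd_la f v hw, h.inv, show la f v 6 = v from rfl]; group

theorem VR.e1 (h : VR f v) : wd (la f v) [6, 4, 5, 6, 2, 1] = 1 := by
  rw [show [6, 4, 5, 6, 2, 1] = 6 :: ([4, 5] ++ 6 :: [2, 1]) from rfl, wd_cj h (by decide +kernel),
    wd_la f v (by decide +kernel), show wd L [4, 5] = A1 by decide, h.va, ← map_mul,
    show A2 * wd L [2, 1] = 1 by decide, map_one]

theorem VR.e2 (h : VR f v) : wd (la f v) [6, 1, 4, 6, 4] = 1 := by
  rw [show [6, 1, 4, 6, 4] = 6 :: ([1, 4] ++ 6 :: [4]) from rfl, wd_cj h (by decide +kernel),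
    wd_la f v (by decide +kernel), show wd L [1, 4] = W1 by decide, h.vw, ← map_mul,
    show W2 * wd L [4] = 1 by decide, map_one]

theorem VR.e3 (h : VR f v) {w w' : List ℕ} {x : N1} (hw : inS 62 w = true) (hw' : inS 62 w' = true)
    (e : wd L w = x) (e' : wd L w' = x⁻¹) (hc : Commute (f uu) (v * f x * v⁻¹)) :
    wd (la f v) ([1, 3] ++ 6 :: (w ++ 6 :: ([3, 1] ++ 6 :: (w' ++ 6 :: [])))) = 1 := by
  rw [wd_append, wd_cj h hw, wd_append, wd_cj h hw', wd_la f v (by decide +kernel), wd_la f v (by decide +kernel),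
    show wd L [1, 3] = uu by decide, show wd L [3, 1] = uu⁻¹ by decide, e, e', wd_nil, map_inv, map_inv, ← mul_assoc,
    hc.eq]
  group

theorem VR.bad (h : VR f v) (hi : Function.Injective f)
    (hz : ∀ z, z * z = 1 → Commute z (f A1) → Commute z (f A2) → z = 1) :
    ¬ Commute (f uu) (v * f (W1 * uu * W1⁻¹) * v⁻¹) := fun hc => by
  have T := Tb.of_chk (by decide) tbCB
  have r0 := rel0 f v (act := aB) (B := B10) (by decide +kernel) (by decide +kernel)
  have M : RM (la f v) 126 10 aB B10 := RM.step CB_ok T.mod CB_sep CB_val (sq_la f h.vv _)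
    (by simpa using r0) (by simpa using rel_tb T (T := 62) (B := B10) (by decide +kernel) (by decide +kernel))
    (by
      simp only [List.mem_cons, List.not_mem_nil, or_false, forall_eq_or_imp, forall_eq]
      exact ⟨h.e1, h.e2, h.e3 (w := [1, 4, 1, 3, 4, 1]) (w' := [1, 4, 3, 1, 4, 1]) (by decide +kernel)
        (by decide +kernel) (by decide) (by decide) hc⟩)
    (by
      simp only [List.mem_cons, List.not_mem_nil, or_false, forall_eq_or_imp, forall_eq]
      refine ⟨?_, ?_, ?_⟩ <;> exact (T.perm_eq_one (by decide +kernel)).2 (by decide +kernel)) r0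
  have z1 : wd (la f v) [2, 3, 6, 3, 5, 2, 3, 6, 3, 5, 6, 5, 3, 6, 3, 2, 5, 3, 6, 3] = 1 := hz _
    (by simpa only [wds_cons, wds_nil, mul_one] using M.eq (u := [_, _]) (v := []) (by decide +kernel))
    (by simpa only [wd_la f v (w := [4, 5]) (by decide +kernel), show wd L [4, 5] = A1 by decide] using
      M.comm (v := [4, 5]) (by decide +kernel))
    (by simpa only [wd_la f v (w := [1, 2]) (by decide +kernel), show wd L [1, 2] = A2 by decide] using
      M.comm (v := [1, 2]) (by decide +kernel))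
  have := M.eq (u := [[1, 4]]) (v := [[2, 1, 3, 2, 4, 3], [2, 3, 6, 3, 5, 2, 3, 6, 3, 5, 6, 5, 3, 6, 3, 2, 5, 3, 6, 3],
    [3, 4, 2, 3, 1, 2], [2, 3, 6, 3, 5, 2, 3, 6, 3, 5, 6, 5, 3, 6, 3, 2, 5, 3, 6, 3]]) (by decide +kernel)
  simp only [wds_cons, wds_nil, mul_one, one_mul, z1] at this
  rw [wd_la f v (by decide +kernel), wd_la f v (by decide +kernel), wd_la f v (by decide +kernel), ← map_mul] at this
  exact absurd (hi this) (by decide)

/-- the homomorphism from `A₈` -/
theorem VR.hom (h : VR f v) (hz : ∀ z, z * z = 1 → (∀ x, Commute z (f x)) → z = 1)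
    (hc : Commute (f uu) (v * f uu * v⁻¹)) :
    ∃ φ : alternatingGroup (Fin 8) →* X, (∀ x, φ (inc x) = f x) ∧ φ McL.vv = v := by
  have T := Tb.of_chk (by decide) tbCG
  have r0 := rel0 f v (act := aG) (B := B10) (by decide +kernel) (by decide +kernel)
  have e3 := h.e3 (w := [1, 3]) (w' := [3, 1]) (by decide +kernel) (by decide +kernel) (by decide) (by decide) hc
  have M : RM (la f v) 126 10 aG B10 := RM.step CG_ok T.mod CG_sep CG_val (sq_la f h.vv _)
    (by simpa using r0) (by simpa using rel_tb T (T := 62) (B := B10) (by decide +kernel) (by decide +kernel))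
    (by
      simp only [List.mem_cons, List.not_mem_nil, or_false, forall_eq_or_imp, forall_eq]
      exact ⟨h.e1, h.e2, e3⟩)
    (by
      simp only [List.mem_cons, List.not_mem_nil, or_false, forall_eq_or_imp, forall_eq]
      refine ⟨?_, ?_, ?_⟩ <;> exact (T.perm_eq_one (by decide +kernel)).2 (by decide +kernel)) r0
  have z1 : wd (la f v) [3, 5, 6, 3, 5, 6, 3, 5, 6, 3, 5, 6, 3, 5, 6, 3, 5, 6, 3, 5, 6] = 1 := hz _
    (by simpa only [wds_cons, wds_nil, mul_one] using M.eq (u := [_, _]) (v := []) (by decide +kernel))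
    (fun x => by
      obtain ⟨w, hw, rfl⟩ := N1_gen x
      rw [← wd_la f v hw]
      refine (comm_gp (S := 62) (fun g hg => ?_) (wd_mem_gp hw)).symm
      rw [← wd_one (la f v) g]
      refine M.comm (allS_spec (S := 62) (f := fun g => eqW aG 126 B10 [[g], _] [_, [g]]) (by decide)
        (by decide +kernel) hg))
  have T8 := Tb.of_chk (by decide) tbC8
  have r8 := rel0 f v (act := a8) (B := B8) (by decide +kernel) (by decide +kernel)
  have M8 : RM (la f v) 126 8 a8 B8 := RM.step C8_ok T8.mod C8_sep C8_val (sq_la f h.vv _)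
    (by simpa using r8) (by simpa using rel_tb T8 (T := 62) (B := B8) (by decide +kernel) (by decide +kernel))
    (by
      simp only [List.mem_cons, List.not_mem_nil, or_false, forall_eq_or_imp, forall_eq]
      exact ⟨h.e1, h.e2, e3, z1⟩)
    (by
      simp only [List.mem_cons, List.not_mem_nil, or_false, forall_eq_or_imp, forall_eq]
      refine ⟨?_, ?_, ?_, ?_⟩ <;> exact (T8.perm_eq_one (by decide +kernel)).2 (by decide +kernel)) r8
  have sq : Sq (la inc McL.vv) 126 := sq_la inc (by decide) _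
  have ha : ∀ g, tb 126 g = true → ∀ p : Fin 8, a8 g p = ((alternatingGroup (Fin 8)).subtype (la inc McL.vv g) p).val :=
    fun g hg => (show ∀ g < 16, tb 126 g = true → ∀ p : Fin 8, a8 g p = ((la inc McL.vv g).1 p).val by
      decide +kernel) g (lt16 (by decide) hg) hg
  have MA : BM (la inc McL.vv) 126 8 a8 B8 := ⟨⟨T8, sq, fun w hw e p hp => by
      rw [show p = (⟨p, hp⟩ : Fin 8).val from rfl, run_perm _ sq ha hw, e]; rfl⟩,
    rel_perm _ Subtype.val_injective sq ha (by decide +kernel), by decide +kernel⟩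
  obtain ⟨φ, hφ⟩ := MA.exists_hom A8_gen M8
  refine ⟨φ, fun x => ?_, by simpa [la] using hφ [6] (by decide +kernel)⟩
  obtain ⟨w, hw, rfl⟩ := N1_gen x
  rw [← wd_la inc McL.vv hw, hφ w (inS_sub (by decide +kernel) hw), wd_la f v hw]

theorem realizeEqns_McL_C2 : True := by
  have := @CA.McL.la.eq_1.{0}
  have := @CA.McL.la.eq_def.{0}
  have := @CA.McL.la.congr_simp.{0}
  have := @CA.McL.vv.eq_1
  have := @CA.McL.vv.eq_def
  have := @CA.McL.vv.congr_simp
  have := @CA.McL.A2.eq_1
  have := @CA.McL.A2.eq_def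
  have := @CA.McL.A2.congr_simp
  have := @CA.McL.sw.eq_1
  have := @CA.McL.sw.eq_def
  have := @CA.McL.sw.congr_simp
  have := @CA.McL.inc.eq_1
  have := @CA.McL.inc.eq_def
  have := @CA.McL.inc.congr_simp
  have := @CA.McL.W1.eq_1
  have := @CA.McL.W1.eq_def
  have := @CA.McL.W1.congr_simp
  have := @CA.McL.A1.eq_1
  have := @CA.McL.A1.eq_def
  have := @CA.McL.A1.congr_simp
  have := @CA.McL.L.eq_1
  have := @CA.McL.L.eq_def
  have := @CA.McL.L.congr_simp
  have := @CA.McL.W2.eq_1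
  have := @CA.McL.W2.eq_def
  have := @CA.McL.W2.congr_simp
  have := @CA.McL.uu.eq_1
  have := @CA.McL.uu.eq_def
  have := @CA.McL.uu.congr_simp
  trivial

end CA.McL
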