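/-
Abstract lemmas for the recognition of `A₈`.
-/
import Cfsg.Agent.McL.C2
import Cfsg.Agent.FG.Nil
import Cfsg.Agent.Fi.Dihedral
import Cfsg.Agent.Loc.Abs

set_option autoImplicit false

namespace CA.McL

open CA.FG CA.Fi Equiv Subgroup

variable {G : Type*} [Group G]

theorem syl_crit [Finite G] {p : ℕ} (hp : p.Prime) {P M : Subgroup G} (le : P ≤ M) (hP : IsPGrp p P)
    (h : ∀ x ∈ M, x ∈ 𝒩(P) → (∃ k, x ^ p ^ k = 1) → x ∈ P) : IsSylowOf p P M := by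
  obtain ⟨S, hS, hPS⟩ := sylow_superset hp hP le
  rwa [nilpotent_sub_norm hS.pGrp.nil hPS fun x hx => h x (hS.le hx.1) hx.2 ?_]
  obtain ⟨k, e⟩ := IsPGrp.isPGroup hS.pGrp hp ⟨x, hx.1⟩
  exact ⟨k, congrArg Subtype.val e⟩

/-- involutions swapping two involutions with product of odd order -/
theorem mid_inv {p q : G} (hp : p * p = 1) (hq : q * q = 1) (h : Odd (orderOf (p * q))) :
    ∃ m, m * p * m⁻¹ = q ∧ m * q * m⁻¹ = p := by
  obtain ⟨k, hk⟩ := h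
  have s := dih_sq hp hq (k + 1)
  have e : p * (p * q) ^ (k + 1) * p * (p * (p * q) ^ (k + 1))⁻¹ = q := by
    rw [inv_eq_self_of_sq s, mul_assoc, ← mul_assoc p p, hp, one_mul, mul_assoc, ← pow_add,
      show k + 1 + (k + 1) = 2 * k + 1 + 1 by ring, pow_succ, ← hk, pow_orderOf_eq_one, one_mul, ← mul_assoc, hp,
      one_mul]
  generalize p * (p * q) ^ (k + 1) = m at s e
  refine ⟨m, e, ?_⟩
  rw [← e, inv_eq_self_of_sq s]
  calc _ = m * m * p * (m * m) := by group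
    _ = p := by rw [s]; group

theorem mid [Finite G] {M : Subgroup G} {U : Set G} (hU : ∀ y ∈ U, ∀ g, g * y * g⁻¹ ∈ U) (h2 : ∀ y ∈ U, y * y = 1)
    (hF : ∀ y ∈ U, y ∈ M → ∀ y' ∈ U, y' ∈ M → y ≠ y' → y * y' ∈ U) (h3 : (U ∩ M).ncard = 3)
    (hC : ∀ y ∈ U, y ∈ M → ∀ g, g * y * g⁻¹ ∈ M → g ∈ M) {g : G} (hg : g ∉ M) :
    ∃ x ∈ M, g * x * g⁻¹ ∈ M ∧ orderOf x = 3 := by
  have cc : ∀ y ∈ U, y ∈ M → ∀ z, Commute y z → z ∈ M := fun y h1 h2 z e =>
    hC y h1 h2 z (by rwa [← e.eq, mul_inv_cancel_right])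
  have odd : ∀ p ∈ U, p ∈ M → ∀ q ∈ U, q ∉ M → Odd (orderOf (p * q)) := fun p p1 p2 q q1 q2 => by
    by_contra e
    obtain ⟨k, k1, k2⟩ := dih_exists_of_even (Nat.not_odd_iff_even.1 e)
    obtain ⟨c1, c2⟩ := dih_commute (h2 p p1) (h2 q q1) k1
    have zM := cc p p1 p2 _ c1
    have : p * (p * q) ^ k ∈ U := by
      rcases dih_isConj_or (h2 p p1) (h2 q q1) k with e | e <;> obtain ⟨c, e⟩ := isConj_iff.1 e <;> rw [← e]
      exacts [hU p p1 c, hU q q1 c]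
    have := hF p p1 p2 _ this (M.mul_mem p2 zM) (by simpa using k2)
    rw [← mul_assoc, h2 p p1, one_mul] at this
    exact q2 (cc _ this zM q c2.symm)
  obtain ⟨y, y1, y2⟩ : (U ∩ M).Nonempty := Set.nonempty_of_ncard_ne_zero (by omega)
  have q1 : g⁻¹ * y * g⁻¹⁻¹ ∈ U := hU y y1 _
  have q3 : g * (g⁻¹ * y * g⁻¹⁻¹) * g⁻¹ = y := by group
  have q2 : g⁻¹ * y * g⁻¹⁻¹ ∉ M := fun e => hg (hC _ q1 e g (q3.symm ▸ y2))
  generalize g⁻¹ * y * g⁻¹⁻¹ = q at q1 q2 q3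
  have sw : ∀ p ∈ U, p ∈ M → ∃ m, m * p * m⁻¹ = q ∧ m * q * m⁻¹ = p ∧ g * m ∈ M ∧ m * g⁻¹ ∈ M := fun p p1 p2 => by
    obtain ⟨m, m1, m2⟩ := mid_inv (h2 p p1) (h2 q q1) (odd p p1 p2 q q1 q2)
    refine ⟨m, m1, m2, hC p p1 p2 _ ?_, hC y y1 y2 _ ?_⟩
    · rwa [show g * m * p * (g * m)⁻¹ = g * (m * p * m⁻¹) * g⁻¹ by group, m1, q3]
    · rwa [← q3, show m * g⁻¹ * (g * q * g⁻¹) * (m * g⁻¹)⁻¹ = m * q * m⁻¹ by group, m2]
  have e := CA.Loc.card_eq_orbit (M ⊓ M.comap (MulAut.conj g).toMonoidHom) y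
  have e' : {z | ∃ c ∈ M ⊓ M.comap (MulAut.conj g).toMonoidHom, c * y * c⁻¹ = z} = U ∩ M := by
    ext z
    refine ⟨?_, fun ⟨z1, z2⟩ => ?_⟩
    · rintro ⟨c, hc, rfl⟩
      exact ⟨hU y y1 c, M.mul_mem (M.mul_mem hc.1 y2) (M.inv_mem hc.1)⟩
    · obtain ⟨m, m1, -, -, m4⟩ := sw y y1 y2
      obtain ⟨n, -, n2, n3, -⟩ := sw z z1 z2
      have k : n * m * y * (n * m)⁻¹ = z := by rw [← n2, ← m1]; group
      refine ⟨n * m, ⟨hC y y1 y2 _ (k ▸ z2), ?_⟩, k⟩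
      have := M.mul_mem n3 m4
      show g * (n * m) * g⁻¹ ∈ M
      rwa [show g * (n * m) * g⁻¹ = g * n * (m * g⁻¹) by group]
  rw [e', h3] at e
  have := Fact.mk Nat.prime_three
  obtain ⟨x, hx⟩ := exists_prime_orderOf_dvd_card' (G := ↥(M ⊓ M.comap (MulAut.conj g).toMonoidHom)) 3 ⟨_, e⟩
  exact ⟨x, x.2.1, x.2.2, by rwa [Subgroup.orderOf_coe]⟩

theorem fpf_cube [Finite G] {O : Subgroup G} [hO : O.Normal] {a : G} (a3 : a ^ 3 = 1)
    (hC : ∀ x ∈ O, Commute x a → x = 1) {x : G} (hx : x ∈ O) : (x * a) ^ 3 = 1 := by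
  let F : O → O := fun z => ⟨z.1⁻¹ * (a * z.1 * a⁻¹), O.mul_mem (O.inv_mem z.2) (hO.conj_mem _ z.2 a)⟩
  have hF : Function.Injective F := fun z w e => by
    have e' : z.1⁻¹ * (a * z.1 * a⁻¹) = w.1⁻¹ * (a * w.1 * a⁻¹) := congrArg Subtype.val e
    have := hC (w.1 * z.1⁻¹) (O.mul_mem w.2 (O.inv_mem z.2)) (by
      calc w.1 * z.1⁻¹ * a = w.1 * (z.1⁻¹ * (a * z.1 * a⁻¹)) * a * z.1⁻¹ := by group
        _ = _ := by rw [e']; group)
    exact Subtype.ext (mul_inv_eq_one.1 this).symm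
  obtain ⟨z, e⟩ := (Finite.injective_iff_surjective.1 hF) ⟨x, hx⟩
  have e' : z.1⁻¹ * (a * z.1 * a⁻¹) = x := congrArg Subtype.val e
  rw [← e', show z.1⁻¹ * (a * z.1 * a⁻¹) * a = z.1⁻¹ * a * z.1⁻¹⁻¹ by group, conj_pow, a3]; group

theorem comm_of_sq {a b : G} (ha : a * a = 1) (hb : b * b = 1) (h : a * b * (a * b) = 1) : Commute a b := by
  have := inv_eq_self_of_sq h
  rw [mul_inv_rev, inv_eq_self_of_sq ha, inv_eq_self_of_sq hb] at this
  exact this.symm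

theorem cj_sq {y : G} (h : y * y = 1) (g : G) : g * y * g⁻¹ * (g * y * g⁻¹) = 1 := by
  calc _ = g * (y * y) * g⁻¹ := by group
    _ = 1 := by rw [h]; group

theorem fpf_comm [Finite G] {O : Subgroup G} [hO : O.Normal] {a y v : G} (a3 : a ^ 3 = 1)
    (hC : ∀ x ∈ O, Commute x a → x = 1) (y2 : y * y = 1) (hv : y * a = v * a * v⁻¹) {x : G} (hx : x ∈ O) :
    Commute (x * y * x⁻¹) (a * y * a⁻¹) := by
  have b3 : (a * x⁻¹) ^ 3 = 1 := by
    have := fpf_cube a3 hC (hO.conj_mem _ (O.inv_mem hx) a)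
    rwa [inv_mul_cancel_right] at this
  have c3 : (x * y * x⁻¹ * (a * x⁻¹)) ^ 3 = 1 := by
    have := fpf_cube a3 hC (hO.conj_mem _ (O.mul_mem (O.mul_mem hx (hO.conj_mem _ (O.inv_mem hx) y))
      (hO.conj_mem _ (O.inv_mem hx) (y * a))) v⁻¹)
    rw [show x * y * x⁻¹ * (a * x⁻¹) = x * (y * x⁻¹ * y⁻¹) * (y * a * x⁻¹ * (y * a)⁻¹) * (y * a) by group]
    generalize x * (y * x⁻¹ * y⁻¹) * (y * a * x⁻¹ * (y * a)⁻¹) = o at this ⊢
    rw [hv, show o * (v * a * v⁻¹) = v * (v⁻¹ * o * v⁻¹⁻¹ * a) * v⁻¹ by group, conj_pow, this]; group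
  have e : a * y * a⁻¹ = a * x⁻¹ * (x * y * x⁻¹) * (a * x⁻¹)⁻¹ := by group
  have q2 := cj_sq y2 x
  rw [e]
  generalize x * y * x⁻¹ = q at *
  generalize a * x⁻¹ = b at *
  refine comm_of_sq q2 (cj_sq q2 b) ?_
  have k : q * (b * q * b⁻¹) = (b * (b * q * b⁻¹) * b⁻¹)⁻¹ := by
    refine eq_inv_of_mul_eq_one_left ?_
    calc _ = (q * b) ^ 3 * (b ^ 3)⁻¹ := by simp only [pow_succ]; group
      _ = 1 := by rw [c3, b3]; group
  rw [k, ← mul_inv_rev, cj_sq (cj_sq q2 b), inv_one]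

theorem fpf3 [Finite G] {O : Subgroup G} [hO : O.Normal] (ho : Odd (Nat.card O)) {a y : G} (a3 : a ^ 3 = 1)
    (hC : ∀ x ∈ O, Commute x a → x = 1) (y2 : y * y = 1) (hy : a * y * a⁻¹ * (a⁻¹ * y * a) = y) {x : G}
    (hx : x ∈ O) : Commute x y := by
  have a3' : a * a = a⁻¹ := eq_inv_of_mul_eq_one_left (by rw [← a3, pow_three'])
  have s2 := cj_sq y2 a
  have s3 := cj_sq y2 a⁻¹
  rw [inv_inv] at s3
  have h1 := fpf_comm (v := a * y * a⁻¹) a3 hC y2 (by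
    rw [inv_eq_self_of_sq s2]
    calc y * a = a * y * a⁻¹ * (a⁻¹ * y * a) * a := by rw [hy]
      _ = a * y * a⁻¹ * (a⁻¹ * y * (a * a)) := by group
      _ = a * y * a⁻¹ * (a * a * y * a⁻¹) := by rw [a3']
      _ = _ := by group) hx
  have h2 := fpf_comm (a := a⁻¹) (v := a⁻¹ * y * a) (by rw [inv_pow, a3, inv_one])
    (fun x h e => hC x h (by simpa using e.inv_right)) y2 (by
    rw [inv_eq_self_of_sq s3]
    have : a⁻¹ * y * a * (a * y * a⁻¹) = y := by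
      rw [← (comm_of_sq s2 s3 (by rw [hy, y2])).eq, hy]
    calc y * a⁻¹ = a⁻¹ * y * a * (a * y * a⁻¹) * a⁻¹ := by rw [this]
      _ = a⁻¹ * y * a * (a * y * (a * a)⁻¹) := by group
      _ = a⁻¹ * y * a * ((a * a)⁻¹ * y * a) := by rw [a3', inv_inv]
      _ = _ := by group) hx
  rw [inv_inv] at h2
  have h3 := h1.mul_right h2
  rw [hy] at h3
  have m : x * y * x⁻¹ * y ∈ O := by
    have := O.mul_mem hx (hO.conj_mem _ (O.inv_mem hx) y)
    rwa [inv_eq_self_of_sq y2, ← mul_assoc, ← mul_assoc] at this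
  have : x * y * x⁻¹ * y = 1 := by
    have k : (x * y * x⁻¹ * y) ^ 2 = 1 := by rw [h3.mul_pow, sq, sq, cj_sq y2, y2, one_mul]
    rw [← orderOf_eq_one_iff]
    exact Nat.eq_one_of_dvd_coprimes ((Nat.coprime_two_left.2 ho)) (orderOf_dvd_of_pow_eq_one k)
      (Subgroup.orderOf_dvd_natCard O m)
  have k := eq_inv_of_mul_eq_one_left this
  rw [inv_eq_self_of_sq y2] at k
  exact mul_inv_eq_iff_eq_mul.1 k

/-! ### conjugacy in `A₈` -/

theorem ct_prime {g : Perm (Fin 8)} {p : ℕ} (hp : p.Prime) (h : g ^ p = 1) (h1 : g ≠ 1) :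
    ∃ n, g.cycleType = Multiset.replicate (n + 1) p ∧ g.support.card = (n + 1) * p := by
  have := Fact.mk hp
  have o := orderOf_eq_prime h h1
  obtain ⟨n, e⟩ := Perm.cycleType_prime_order (σ := g) (o ▸ hp)
  rw [o] at e
  exact ⟨n, e, by rw [← Perm.sum_cycleType, e, Multiset.sum_replicate, smul_eq_mul]⟩

theorem conj_supp {g k : Perm (Fin 8)} {p : ℕ} (hp : p.Prime) (h : g ^ p = 1) (h1 : g ≠ 1) (h' : k ^ p = 1)
    (h1' : k ≠ 1) (e : g.support.card = k.support.card) : IsConj g k := by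
  obtain ⟨n, a, b⟩ := ct_prime hp h h1
  obtain ⟨m, c, d⟩ := ct_prime hp h' h1'
  rw [b, d] at e
  rw [Perm.isConj_iff_cycleType_eq, a, c, Nat.eq_of_mul_eq_mul_right hp.pos e]

theorem card_supp_le (g : Perm (Fin 8)) : g.support.card ≤ 8 := g.support.card_le_univ

theorem conj3 {g : alternatingGroup (Fin 8)} (h : orderOf g = 3) : IsConj (inc A1) g ∨ IsConj (inc (A1 * A2)) g := by
  have h3 : g.1 ^ 3 = 1 := by rw [← h]; exact congrArg Subtype.val (pow_orderOf_eq_one g)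
  have h1 : g.1 ≠ 1 := fun e => by rw [show g = 1 from Subtype.ext e, orderOf_one] at h; cases h
  obtain ⟨n, -, b⟩ := ct_prime Nat.prime_three h3 h1
  have := card_supp_le g
  obtain rfl | rfl : n = 0 ∨ n = 1 := by omega
  · exact Or.inl (alternatingGroup.isConj_of (conj_supp Nat.prime_three (by decide) (by decide) h3 h1
      (by rw [b]; decide)) (by decide))
  · exact Or.inr (alternatingGroup.isConj_of (conj_supp Nat.prime_three (by decide) (by decide) h3 h1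
      (by rw [b]; decide)) (by decide))

/-- having a fixed point -/
def FP (g : Perm (Fin 8)) : Prop := ∃ i, g i = i

instance decFP (g : Perm (Fin 8)) : Decidable (FP g) := inferInstanceAs (Decidable (∃ i, g i = i))

theorem conj2 {g : alternatingGroup (Fin 8)} (h : g * g = 1) (h1 : g ≠ 1) :
    (FP g ∧ IsConj (inc uu) g) ∨ (¬ FP g ∧ IsConj vv g) := by
  have h2 : g.1 ^ 2 = 1 := by rw [sq]; exact congrArg Subtype.val h
  have h1' : g.1 ≠ 1 := fun e => h1 (Subtype.ext e)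
  obtain ⟨n, a, b⟩ := ct_prime Nat.prime_two h2 h1'
  have := card_supp_le g
  have s := Perm.sign_of_cycleType g.1
  rw [Perm.mem_alternatingGroup.1 g.2, a, Multiset.sum_replicate, Multiset.card_replicate, eq_comm,
    neg_one_pow_eq_one_iff_even (by decide), Nat.even_iff, smul_eq_mul] at s
  have fp : FP g ↔ g.1.support.card ≠ 8 := by
    have := Finset.card_eq_iff_eq_univ g.1.support
    rw [Fintype.card_fin, Finset.eq_univ_iff_forall] at this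
    rw [FP, ne_eq, this]
    simp
  obtain rfl | rfl : n = 1 ∨ n = 3 := by omega
  · exact Or.inl ⟨fp.2 (by omega), alternatingGroup.isConj_of (conj_supp Nat.prime_two (by decide) (by decide) h2 h1'
      (by rw [b]; decide)) (by decide)⟩
  · refine Or.inr ⟨fun e => fp.1 e (by omega), ?_⟩
    obtain ⟨c, e⟩ := isConj_iff.1 (conj_supp (g := vv.1) Nat.prime_two (by decide) (by decide) h2 h1'
      (by rw [b]; decide))
    by_cases hc : c ∈ alternatingGroup (Fin 8)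
    · exact isConj_iff.2 ⟨⟨c, hc⟩, Subtype.ext e⟩
    · refine isConj_iff.2 ⟨⟨c * swap 6 7, ?_⟩, Subtype.ext ?_⟩
      · rw [Perm.mem_alternatingGroup] at hc ⊢
        rw [map_mul, Perm.sign_swap (by decide), Int.units_ne_iff_eq_neg.1 hc]; rfl
      · show c * swap 6 7 * vv.1 * (c * swap 6 7)⁻¹ = g.1
        rw [← e, show c * swap 6 7 * vv.1 * (c * swap 6 7)⁻¹ = c * (swap 6 7 * vv.1 * (swap 6 7)⁻¹) * c⁻¹ by group,
          show swap 6 7 * vv.1 * (swap 6 7)⁻¹ = vv.1 by decide]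

theorem realizeEqns_McL_C3 : True := by
  have := @CA.McL.FP.eq_1
  have := @CA.McL.FP.eq_def
  have := @CA.McL.FP.congr_simp
  trivial

end CA.McL
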