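/-
Finite facts about `N1`.
-/
import Cfsg.Agent.McL.C3

set_option autoImplicit false
set_option maxRecDepth 100000

namespace CA.McL

open CA.FG CA.Fi CA.TC Equiv Subgroup

/-- powers of codes -/
noncomputable def powc (c k : ℕ) : ℕ := Nat.rec 16434824 (fun _ r => mulc r c) k

theorem cd_pow (g : Perm (Fin 8)) (k : ℕ) : cd (g ^ k) = powc (cd g) k := by
  induction k with
  | zero => exact cd_one
  | succ k ih => rw [pow_succ, cd_mul, ih]; rfl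

/-- code of an element of `N1` -/
def cd1 (n : N1) : ℕ := cd n.1.1

theorem cd1_inj {g h : N1} : g = h ↔ cd1 g = cd1 h := by rw [Subtype.ext_iff, cd2_inj]; rfl
theorem cd1_mul (g h : N1) : cd1 (g * h) = mulc (cd1 g) (cd1 h) := cd_mul _ _
theorem cd1_inv (g : N1) : cd1 g⁻¹ = invc (cd1 g) := cd_inv _
theorem cd1_pow (g : N1) (k : ℕ) : cd1 (g ^ k) = powc (cd1 g) k := cd_pow _ _
theorem cd1_one : cd1 1 = 16434824 := cd_one

theorem all1 {P : ℕ → Prop} [DecidablePred P]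
    (h : go ok2 (fun c => decide (inv8 c % 2 = 0 → P c)) 8 0 0 = true) (n : N1) : ∀ c, cd1 n = c → P c := by
  rintro _ rfl
  exact all2 (P := fun c => inv8 c % 2 = 0 → P c) h n.1 (mem_N1.1 n.2)

/-- `(4 7)(5 6)` -/
def u2 : N1 := A2 * uu * A2⁻¹
/-- `(1 2)(4 5)` -/
def i0 : N1 := W1 * W2

theorem cA1 : cd1 A1 = 16434705 := by decide
theorem cA2 : cd1 A2 = 16373896 := by decide
theorem cW1 : cd1 W1 = 14596232 := by decide
theorem cW2 : cd1 W2 = 14599809 := by decide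
theorem cuu : cd1 uu = 16201864 := by decide
theorem cu2 : cd1 u2 = 15621256 := by decide
theorem ci0 : cd1 i0 = 16431233 := by decide

theorem fD (n : N1) : Commute n A1 → Commute n A2 → n ^ 3 = 1 ∧ (n = 1 ∨ n = A1 ∨ n * n = A1 ∨ n = A2 ∨ n * n = A2 ∨
    n = A1 * A2 ∨ n * n = A1 * A2 ∨ n = A1 * A2⁻¹ ∨ n * n = A1 * A2⁻¹) := by
  simp only [commute_iff_eq, cd1_inj, cd1_mul, cd1_inv, cd1_pow, cd1_one, cA1, cA2]
  generalize hc : cd1 n = c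
  revert c
  exact all1 (by decide +kernel) n

theorem fU (n : N1) : Commute n uu → Commute n u2 →
    Commute n A1 ∧ n ^ 6 = 1 ∧ (n ^ 3 = 1 → n = 1 ∨ n = A1 ∨ n = A1 * A1) := by
  simp only [commute_iff_eq, cd1_inj, cd1_mul, cd1_inv, cd1_pow, cd1_one, cA1, cuu, cu2]
  generalize hc : cd1 n = c
  revert c
  exact all1 (by decide +kernel) n

theorem fK (n : N1) : Commute n A1 → ((n ^ 10) ^ 3 = 1 → n ^ 10 = 1) →
    ((n * (A2 * n * A2⁻¹) * n * (A2 * n * A2⁻¹)⁻¹) ^ 3 = 1 → n * (A2 * n * A2⁻¹) * n * (A2 * n * A2⁻¹)⁻¹ = 1) →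
    ((n * (A2 * n * A2⁻¹) * n⁻¹ * (A2 * (A2 * n * A2⁻¹) * A2⁻¹)⁻¹) ^ 3 = 1 →
      n * (A2 * n * A2⁻¹) * n⁻¹ * (A2 * (A2 * n * A2⁻¹) * A2⁻¹)⁻¹ = 1) →
    n = 1 ∨ n = uu ∨ A2 * n * A2⁻¹ = uu ∨ A2 * (A2 * n * A2⁻¹) * A2⁻¹ = uu ∨ n = W1 * uu * W1⁻¹ ∨
      A2 * n * A2⁻¹ = W1 * uu * W1⁻¹ ∨ A2 * (A2 * n * A2⁻¹) * A2⁻¹ = W1 * uu * W1⁻¹ := by
  simp only [commute_iff_eq, cd1_inj, cd1_mul, cd1_inv, cd1_pow, cd1_one, cA1, cA2, cuu, cW1]
  generalize hc : cd1 n = c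
  revert c
  exact all1 (by decide +kernel) n

/-- a Sylow 2-subgroup of `N1` -/
def T0 : Subgroup N1 where
  carrier := {n | n * uu = uu * n ∧ n.1.1 2 = 2}
  one_mem' := ⟨by simp, rfl⟩
  mul_mem' := fun {a b} ha hb => ⟨Commute.mul_left ha.1 hb.1, by
    show a.1.1 (b.1.1 2) = 2
    rw [hb.2, ha.2]⟩
  inv_mem' := fun {a} ha => ⟨Commute.inv_left ha.1, by
    show a.1.1⁻¹ 2 = 2
    rw [Perm.inv_eq_iff_eq, ha.2]⟩

theorem mem_T0 {n : N1} : n ∈ T0 ↔ mulc (cd1 n) 16201864 = mulc 16201864 (cd1 n) ∧ app (cd1 n) 2 = 2 := by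
  show n * uu = uu * n ∧ n.1.1 2 = 2 ↔ _
  rw [cd1_inj, cd1_mul, cd1_mul, cuu, Fin.ext_iff, ← app_cd]; rfl

theorem fT (n : N1) : n ∈ T0 →
    n ^ 4 = 1 ∧ (n * n = 1 → n = 1 ∨ n = uu ∨ n = u2 ∨ n = uu * u2 ∨ n = i0 ∨ n = uu * i0) := by
  simp only [mem_T0, cd1_inj, cd1_mul, cd1_inv, cd1_pow, cd1_one, cuu, cu2, ci0]
  generalize hc : cd1 n = c
  revert c
  exact all1 (by decide +kernel) n

theorem fN (n : N1) : n * uu * n⁻¹ ∈ T0 → n * u2 * n⁻¹ ∈ T0 → n * i0 * n⁻¹ ∈ T0 → n ∈ T0 := by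
  simp only [mem_T0, cd1_inj, cd1_mul, cd1_inv, cd1_pow, cd1_one, cuu, cu2, ci0]
  generalize hc : cd1 n = c
  revert c
  exact all1 (by decide +kernel) n

theorem uu_T0 : uu ∈ T0 := ⟨rfl, by decide⟩
theorem u2_T0 : u2 ∈ T0 := ⟨by decide, by decide⟩
theorem i0_T0 : i0 ∈ T0 := ⟨by decide, by decide⟩

theorem pT0 : IsPGrp 2 T0 := pGrp_of_isPGroup Nat.prime_two fun n => ⟨2, Subtype.ext (fT n n.2).1⟩

theorem fN' {n : N1} (h : n ∈ 𝒩(T0)) : n ∈ T0 :=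
  fN n ((mem_normalizer_iff.1 h _).1 uu_T0) ((mem_normalizer_iff.1 h _).1 u2_T0) ((mem_normalizer_iff.1 h _).1 i0_T0)

theorem pGrp_zp {G : Type*} [Group G] [Finite G] {p : ℕ} (hp : p.Prime) {x : G} (h : x ^ p = 1) :
    IsPGrp p (zpowers x) := pGrp_of_isPGroup hp fun y => ⟨1, Subtype.ext (by
  obtain ⟨_, k, rfl⟩ := y
  show (x ^ k) ^ p ^ 1 = 1
  rw [pow_one, ← zpow_natCast, ← zpow_mul, mul_comm, zpow_mul, zpow_natCast, h, one_zpow])⟩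

theorem conj_N1 {n : N1} (h : n * n = 1) (h1 : n ≠ 1) : IsConj W1 n ∨ IsConj i0 n := by
  obtain ⟨x, -, e⟩ := sylow_Jsub Nat.prime_two (syl_crit Nat.prime_two (M := ⊤) le_top pT0 fun x _ hx _ => fN' hx)
    (pGrp_zp Nat.prime_two (by rw [sq, h])) le_top
  have k : x * n * x⁻¹ ∈ T0 := e ⟨n, mem_zpowers n, rfl⟩
  have c : IsConj (x * n * x⁻¹) n := (isConj_iff.2 ⟨x, rfl⟩).symm
  have c1 : IsConj W1 uu := isConj_iff.2 ⟨⟨⟨swap 5 7 * swap 7 6, by decide⟩, by decide +kernel⟩, by decide⟩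
  have c2 : IsConj uu u2 := isConj_iff.2 ⟨A2, rfl⟩
  have c3 : IsConj u2 (uu * u2) := isConj_iff.2 ⟨A2, by decide⟩
  have c4 : IsConj i0 (uu * i0) := isConj_iff.2 ⟨u2, by decide⟩
  rcases (fT _ k).2 (cj_sq h x) with e | e | e | e | e | e <;> rw [e] at c
  · exact absurd (isConj_one_right.1 c) h1
  exacts [Or.inl (c1.trans c), Or.inl (c1.trans (c2.trans c)), Or.inl (c1.trans (c2.trans (c3.trans c))), Or.inr c,
    Or.inr (c4.trans c)]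

theorem realizeEqns_McL_C4 : True := by
  have := @CA.McL.T0.eq_1
  have := @CA.McL.T0.eq_def
  have := @CA.McL.T0.congr_simp
  have := @CA.McL.u2.eq_1
  have := @CA.McL.u2.eq_def
  have := @CA.McL.u2.congr_simp
  have := @CA.McL.powc.eq_1
  have := @CA.McL.powc.eq_def
  have := @CA.McL.powc.congr_simp
  have := @CA.McL.cd1.eq_1
  have := @CA.McL.cd1.eq_def
  have := @CA.McL.cd1.congr_simp
  have := @CA.McL.i0.eq_1
  have := @CA.McL.i0.eq_def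
  have := @CA.McL.i0.congr_simp
  trivial

end CA.McL
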