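/-
The centralizer of the four-group `U1`.
-/
import Cfsg.Agent.McL.C4
import Cfsg.Agent.BG.I01

set_option autoImplicit false
set_option maxHeartbeats 200000

namespace CA.McL

open CA.FG CA.Fi Equiv Subgroup

variable {C X : Type*} [Group C] [Group X] {π : C →* X} {t : C} {f : N1 →* X} {v : X}

theorem mem_zp3 {x g : X} (h : g ^ 3 = 1) (hx : x ∈ zpowers g) : x = 1 ∨ x = g ∨ x = g * g := by
  obtain ⟨k, rfl⟩ := hx
  show g ^ k = 1 ∨ g ^ k = g ∨ g ^ k = g * g
  rw [zpow_eq_zpow_emod' k h]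
  have h1 := Int.emod_nonneg k (show (3 : ℤ) ≠ 0 by decide)
  have h2 := Int.emod_lt_of_pos k (show (0 : ℤ) < 3 by decide)
  rw [Nat.cast_ofNat]
  generalize k % 3 = j at *
  interval_cases j
  exacts [Or.inl (zpow_zero _), Or.inr (Or.inl (zpow_one _)), Or.inr (Or.inr (zpow_two _))]

theorem pow_of_pow {x : X} {p k a m : ℕ} (h : x ^ p ^ k = 1) (h' : x ^ (a * m) = 1) (hc : p.Coprime m) :
    x ^ a = 1 := orderOf_dvd_iff_pow_eq_one.1 (Nat.Coprime.dvd_of_dvd_mul_right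
  (Nat.Coprime.coprime_dvd_left (orderOf_dvd_of_pow_eq_one h) (Nat.Coprime.pow_left k hc))
  (orderOf_dvd_of_pow_eq_one h'))

instance decComm (x y : N1) : Decidable (Commute x y) := inferInstanceAs (Decidable (x * y = y * x))

theorem cj_comm {x y : X} (h : Commute x y) (g : X) : Commute (g * x * g⁻¹) (g * y * g⁻¹) := h.map (MulAut.conj g)

theorem comm_cj {x y g : X} (h : Commute (g⁻¹ * x * g) y) : Commute x (g * y * g⁻¹) := by
  have := cj_comm h g
  rwa [show g * (g⁻¹ * x * g) * g⁻¹ = x by group] at this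

theorem Lf.cj (hs : Function.Surjective π) {y : X} (h : Lf π y) (g : X) : Lf π (g * y * g⁻¹) := fun c e => by
  obtain ⟨d, rfl⟩ := hs g
  have := cj_sq (h (d⁻¹ * c * d) (by rw [map_mul, map_mul, e, map_inv]; group)) d
  rwa [show d * (d⁻¹ * c * d) * d⁻¹ = c by group] at this

theorem Lf.conj (hs : Function.Surjective π) {x y : X} (e : IsConj x y) (h : Lf π x) : Lf π y := by
  obtain ⟨g, rfl⟩ := isConj_iff.1 e
  exact h.cj hs g

/-- the centralizer of `U1` -/
def YY (f : N1 →* X) : Subgroup X := 𝒞[f uu] ⊓ 𝒞[f u2]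

/-- the centralizer of `D` -/
def DD (f : N1 →* X) : Subgroup X := 𝒞[f A1] ⊓ 𝒞[f A2]

theorem mem_YY {x : X} : x ∈ YY f ↔ Commute x (f uu) ∧ Commute x (f u2) := by
  simp only [YY, mem_inf, mem_centralizer_singleton_iff, commute_iff_eq]

theorem mem_DD {x : X} : x ∈ DD f ↔ Commute x (f A1) ∧ Commute x (f A2) := by
  simp only [DD, mem_inf, mem_centralizer_singleton_iff, commute_iff_eq]

theorem cj_YY {g y : X} (h1 : g⁻¹ * f uu * g ∈ closure {f uu, f u2}) (h2 : g⁻¹ * f u2 * g ∈ closure {f uu, f u2})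
    (hy : y ∈ YY f) : g * y * g⁻¹ ∈ YY f := by
  have k : ∀ x ∈ closure {f uu, f u2}, Commute x y := fun x hx => mem_centralizer_singleton_iff.1
    ((closure_le 𝒞[y]).2 (by
      rintro _ (rfl | rfl)
      exacts [mem_centralizer_singleton_iff.2 (mem_YY.1 hy).1.symm,
        mem_centralizer_singleton_iff.2 (mem_YY.1 hy).2.symm]) hx)
  exact mem_YY.2 ⟨(comm_cj (k _ h1)).symm, (comm_cj (k _ h2)).symm⟩

theorem mem_P {x : N1} (h : x = 1 ∨ x = uu ∨ x = u2 ∨ x = uu * u2) : f x ∈ closure {f uu, f u2} := by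
  have h1 : f uu ∈ closure {f uu, f u2} := subset_closure (Or.inl rfl)
  have h2 : f u2 ∈ closure {f uu, f u2} := subset_closure (Or.inr rfl)
  rcases h with rfl | rfl | rfl | rfl
  exacts [by rw [map_one]; exact one_mem _, h1, h2, by rw [map_mul]; exact mul_mem h1 h2]

theorem fcj (f : N1 →* X) (g x : N1) : f g * f x * (f g)⁻¹ = f (g * x * g⁻¹) := by simp

theorem fcj' (f : N1 →* X) (g x : N1) : (f g)⁻¹ * f x * f g = f (g⁻¹ * x * g) := by simp

namespace XH

variable (h : XH π t N1 f v)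
include h

theorem vr : VR f v := ⟨h.vv, h.va A1 A2 rfl rfl, h.vw W1 W2 rfl rfl⟩

theorem va' : v * f A2 * v⁻¹ = f A1 := by
  rw [← h.vr.va, h.vr.inv]
  calc _ = v * v * f A1 * (v * v) := by group
    _ = _ := by rw [h.vv]; group

theorem nA {g : X} : g ∈ 𝒩(zpowers (f A1)) ↔ g ∈ f.range := by rw [h.rng A1 rfl]

theorem comm {x y : N1} : Commute (f x) (f y) ↔ Commute x y :=
  ⟨fun e => h.inj (by rw [map_mul, map_mul, e.eq]), fun e => e.map f⟩

theorem cA {g : X} (e : Commute g (f A1)) : g ∈ f.range :=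
  h.nA.1 (centralizer_le_normalizer _ (by
    rw [mem_centralizer_iff]
    rintro _ ⟨k, rfl⟩
    exact (e.zpow_right k).symm))

theorem nLf {n : N1} (h2 : n * n = 1) (h1 : n ≠ 1) : ¬ Lf π (f n) := fun e => by
  rcases conj_N1 h2 h1 with c | c
  exacts [h.nw W1 rfl (e.conj h.sur (f.map_isConj c).symm), h.ni i0 rfl (e.conj h.sur (f.map_isConj c).symm)]

theorem exD {x : X} (hx : x ∈ DD f) : ∃ n, f n = x ∧ Commute n A1 ∧ Commute n A2 := by
  obtain ⟨n, rfl⟩ := h.cA (mem_DD.1 hx).1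
  exact ⟨n, rfl, h.comm.1 (mem_DD.1 hx).1, h.comm.1 (mem_DD.1 hx).2⟩

theorem D3 {x : X} (hx : x ∈ DD f) : x ^ 3 = 1 := by
  obtain ⟨n, rfl, h1, h2⟩ := h.exD hx
  rw [← map_pow, (fD n h1 h2).1, map_one]

theorem hz (z : X) (h2 : z * z = 1) (c1 : Commute z (f A1)) (c2 : Commute z (f A2)) : z = 1 := by
  have := h.D3 (mem_DD.2 ⟨c1, c2⟩)
  rwa [pow_three', h2, one_mul] at this

theorem eqD : closure {f A1, f A2} = DD f := by
  have c : Commute (f A1) (f A2) := h.comm.2 (by decide)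
  refine le_antisymm ((closure_le _).2 ?_) fun x hx => ?_
  · rintro _ (rfl | rfl)
    exacts [mem_DD.2 ⟨rfl, c⟩, mem_DD.2 ⟨c.symm, rfl⟩]
  · have h1 : f A1 ∈ closure {f A1, f A2} := subset_closure (Or.inl rfl)
    have h2 : f A2 ∈ closure {f A1, f A2} := subset_closure (Or.inr rfl)
    have h3 := h.D3 hx
    obtain ⟨n, rfl, c1, c2⟩ := h.exD hx
    have k : f (n * n) ∈ closure {f A1, f A2} → f n ∈ closure {f A1, f A2} := fun e => by
      rw [pow_three'] at h3
      rw [map_mul, eq_inv_of_mul_eq_one_left h3] at e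
      exact (inv_mem_iff).1 e
    have h4 := mul_mem h1 h2
    have h5 := mul_mem h1 (inv_mem h2)
    rw [← map_mul] at h4
    rw [← map_inv, ← map_mul] at h5
    rcases (fD n c1 c2).2 with e | e | e | e | e | e | e | e | e
    exacts [by rw [e, map_one]; exact one_mem _, by rwa [e], k (by rwa [e]), by rwa [e], k (by rwa [e]), by rwa [e],
      k (by rwa [e]), by rwa [e], k (by rwa [e])]

theorem cb' {g : X} (e : Commute g (f (A1 * A2))) : g ∈ 𝒩(DD f) := by
  rw [← h.eqD]; exact h.cb A1 A2 rfl rfl g (by rwa [← map_mul])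

variable [Finite X]

theorem step1 : ∃ R ≤ YY f, (∀ r ∈ R, f A1 * r * (f A1)⁻¹ ∈ R) ∧ (∀ r ∈ R, r ^ 3 = 1 → r = 1) ∧
    ∀ S, f.range ≤ S → (∀ r ∈ R, Commute r (f A2) → r ∈ S) → YY f ≤ S := by
  have a3 : f A1 ^ 3 = 1 := by rw [← map_pow, show A1 ^ 3 = 1 by decide, map_one]
  have aY : f A1 ∈ YY f := mem_YY.2 ⟨h.comm.2 (by decide), h.comm.2 (by decide)⟩
  have k : ∀ x ∈ YY f, x ∈ 𝒩(zpowers (f A1)) → ∃ n, f n = x ∧ Commute n uu ∧ Commute n u2 := fun x h1 h2 => by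
    obtain ⟨n, rfl⟩ := h.nA.1 h2
    exact ⟨n, rfl, h.comm.1 (mem_YY.1 h1).1, h.comm.1 (mem_YY.1 h1).2⟩
  have sy : IsSylowOf 3 (zpowers (f A1)) (YY f) := syl_crit Nat.prime_three (zpowers_le.2 aY)
    (pGrp_zp Nat.prime_three a3) fun x h1 h2 ⟨j, h3⟩ => by
      obtain ⟨n, rfl, c1, c2⟩ := k x h1 h2
      obtain ⟨-, e1, e2⟩ := fU n c1 c2
      have := pow_of_pow (a := 3) (m := 2) h3 (by rw [← map_pow, e1, map_one]) (by decide)
      rcases e2 (h.inj (by rw [map_pow, this, map_one])) with rfl | rfl | rfl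
      exacts [by rw [map_one]; exact one_mem _, mem_zpowers _,
        by rw [map_mul]; exact mul_mem (mem_zpowers _) (mem_zpowers _)]
  have sd := BG.Burnside_normal_complement Nat.prime_three sy fun x hx => by
    obtain ⟨n, rfl, c1, c2⟩ := k x hx.1 hx.2
    rw [mem_centralizer_iff]
    rintro _ ⟨j, rfl⟩
    exact ((h.comm.2 (fU n c1 c2).1).zpow_right j).symm
  have nY : DD f ≤ 𝒩(YY f) := by
    rw [← h.eqD, closure_le]
    rintro _ (rfl | rfl)
    · exact le_normalizer aY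
    · exact mem_norm_of_forall fun y hy => cj_YY (by rw [fcj']; exact mem_P (by decide))
        (by rw [fcj']; exact mem_P (by decide)) hy
  have nR := norm_pcore {3}ᶜ nY
  have pR := pcore_piGrp {3}ᶜ (YY f)
  have pD : IsPGrp 3 (DD f) := pGrp_of_isPGroup Nat.prime_three fun x => ⟨1, Subtype.ext (h.D3 x.2)⟩
  have aD : f A1 ∈ DD f := h.eqD.le (subset_closure (Or.inl rfl))
  have bD : f A2 ∈ DD f := h.eqD.le (subset_closure (Or.inr rfl))
  refine ⟨_, sd.left_le, fun r hr => (mem_normalizer_iff.1 (nR aD) r).1 hr, fun r hr e => ?_, fun S h1 h2 => ?_⟩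
  · by_contra e'
    have := Fact.mk Nat.prime_three
    exact pR.piElt hr 3 Nat.prime_three (orderOf_eq_prime e e').symm.dvd rfl
  rw [← sd.sup_eq]
  refine sup_le (BG.coprime_abelian_gen_cent1_le (A := DD f) ?_ ?_ nR (pD.coprime pR).symm ?_)
    (zpowers_le.2 (h1 ⟨_, rfl⟩))
  · refine ⟨⟨fun x y => Subtype.ext ?_⟩⟩
    have : closure {f A1, f A2} ≤ 𝒞[x.1] := (closure_le _).2 (by
      rintro _ (rfl | rfl)
      exacts [mem_centralizer_singleton_iff.2 (mem_DD.1 x.2).1.symm,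
        mem_centralizer_singleton_iff.2 (mem_DD.1 x.2).2.symm])
    exact (mem_centralizer_singleton_iff.1 (this (h.eqD.ge y.2))).symm
  · intro e
    obtain ⟨g, hg⟩ := IsCyclic.exists_generator (α := DD f)
    have k : ∀ n (hn : f n ∈ DD f), n ≠ 1 → f n = g ∨ f n = g * g := fun n hn e => by
      rcases mem_zp3 (Subtype.ext (h.D3 g.2)) (hg ⟨_, hn⟩) with e' | e' | e'
      exacts [absurd (h.inj ((congrArg Subtype.val e').trans (map_one f).symm)) e, Or.inl (congrArg Subtype.val e'),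
        Or.inr (congrArg Subtype.val e')]
    rcases k A1 aD (by decide) with e1 | e1 <;> rcases k A2 bD (by decide) with e2 | e2 <;>
      rcases k (A1 * A2) (by rw [map_mul]; exact mul_mem aD bD) (by decide) with e3 | e3 <;>
      first
      | exact absurd (h.inj (e1.trans e2.symm)) (by decide)
      | exact absurd (h.inj (e1.trans e3.symm)) (by decide)
      | exact absurd (h.inj (e2.trans e3.symm)) (by decide)
  · intro d hd d1 r hr
    have kb : r ∈ 𝒩(DD f) → r ∈ S := fun e => h1 (h.cA (by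
      have m1 : r * f A1 * r⁻¹ * (f A1)⁻¹ ∈ DD f := mul_mem ((mem_normalizer_iff.1 e _).1 aD) (inv_mem aD)
      have m2 := mul_mem hr.1 ((mem_normalizer_iff.1 (nR aD) _).1 (inv_mem hr.1))
      have : r * f A1 * r⁻¹ * (f A1)⁻¹ ∈ DD f ⊓ pPrimeCoreOf 3 (YY f) := mem_inf.2 ⟨m1, by
        rw [show r * f A1 * r⁻¹ * (f A1)⁻¹ = (r * (f A1 * r⁻¹ * (f A1)⁻¹)⁻¹⁻¹) by group, inv_inv]; exact m2⟩
      rw [pD.inf_eq_bot pR, mem_bot, mul_inv_eq_one, mul_inv_eq_iff_eq_mul] at this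
      exact this))
    have kb' : Commute r (f (A1 * A2⁻¹)) → r ∈ S := fun e => kb (by
      have w : f W1 ∈ 𝒩(DD f) := mem_norm_of_forall fun y hy => by
        obtain ⟨n, rfl, c1, c2⟩ := h.exD hy
        rw [fcj]
        have e1 := cj_comm c1 W1
        have e2 := cj_comm c2.inv_right W1
        rw [show W1 * A1 * W1⁻¹ = A1 by decide] at e1
        rw [show W1 * A2⁻¹ * W1⁻¹ = A2 by decide] at e2
        exact mem_DD.2 ⟨h.comm.2 e1, h.comm.2 e2⟩
      have := cj_comm e (f W1)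
      rw [fcj, show W1 * (A1 * A2⁻¹) * W1⁻¹ = A1 * A2 by decide] at this
      have := mul_mem (mul_mem (inv_mem w) (h.cb' this)) w
      rwa [show (f W1)⁻¹ * (f W1 * r * (f W1)⁻¹) * f W1 = r by group] at this)
    obtain ⟨n, rfl, c1, c2⟩ := h.exD hd
    have c : Commute r (f n) := mem_centralizer_singleton_iff.1 hr.2
    have c' : Commute r (f (n * n)) := by rw [map_mul]; exact c.mul_right c
    rcases (fD n c1 c2).2 with e | e | e | e | e | e | e | e | e
    exacts [absurd (by rw [e, map_one]) d1, h1 (h.cA (by rwa [← e])), h1 (h.cA (by rwa [← e])),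
      h2 r hr.1 (by rwa [← e]), h2 r hr.1 (by rwa [← e]), kb (h.cb' (by rwa [← e])), kb (h.cb' (by rwa [← e])),
      kb' (by rwa [← e]), kb' (by rwa [← e])]

theorem tri : YY f ≤ f.range ∨ (Commute (f uu) (v * f uu * v⁻¹) ∧ ∀ S, f.range ≤ S → v ∈ S → YY f ≤ S) := by
  obtain ⟨R, le, nR, h3, hS⟩ := h.step1
  have k : ∀ r, Commute r (f A2) → ∃ n, Commute n A1 ∧ r = v * f n * v⁻¹ := fun r e => by
    have := cj_comm e v
    rw [h.va'] at this
    obtain ⟨n, e'⟩ := h.cA this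
    refine ⟨n, h.comm.1 (by rwa [e']), ?_⟩
    rw [e', h.vr.inv]
    calc r = v * v * r * (v * v) := by rw [h.vv]; group
      _ = _ := by group
  by_cases e : ∀ r ∈ R, Commute r (f A2) → r = 1
  · exact Or.inl (hS _ le_rfl fun r hr c => by rw [e r hr c]; exact one_mem _)
  refine Or.inr ⟨?_, fun S h1 h2 => hS S h1 fun r _ c => ?_⟩
  swap
  · obtain ⟨n, -, rfl⟩ := k r c
    exact mul_mem (mul_mem h2 (h1 ⟨n, rfl⟩)) (inv_mem h2)
  push_neg at e
  obtain ⟨r, hr, c', r1⟩ := e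
  obtain ⟨n, c, rfl⟩ := k r c'
  let K : Subgroup N1 := R.comap ((MulAut.conj v).toMonoidHom.comp f)
  have mK : ∀ {m}, m ∈ K ↔ v * f m * v⁻¹ ∈ R := Iff.rfl
  have k1 : ∀ m ∈ K, A2 * m * A2⁻¹ ∈ K := fun m hm => by
    have := nR _ (mK.1 hm)
    rw [← h.va'] at this
    rw [mK, ← fcj]
    convert this using 1; group
  have k3 : ∀ m ∈ K, m ^ 3 = 1 → m = 1 := fun m hm e => h.inj (by
    have := h3 _ (mK.1 hm) (by rw [conj_pow, ← map_pow, e, map_one]; group)
    rwa [map_one, ← conj_eq_one_iff (a := v)])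
  have n0 : n ∈ K := hr
  have n1 := k1 _ n0
  have n2 := k1 _ n1
  have cu : ∀ m ∈ K, Commute (f uu) (v * f m * v⁻¹) := fun m hm => (mem_YY.1 (le (mK.1 hm))).1.symm
  have nb := h.vr.bad h.inj h.hz
  rcases fK n c (k3 _ (pow_mem n0 _)) (k3 _ (mul_mem (mul_mem (mul_mem n0 n1) n0) (inv_mem n1)))
    (k3 _ (mul_mem (mul_mem (mul_mem n0 n1) (inv_mem n0)) (inv_mem n2))) with e | e | e | e | e | e | e
  exacts [absurd (by rw [e, map_one]; group) r1, cu _ (by rwa [← e]), cu _ (by rwa [← e]), cu _ (by rwa [← e]),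
    absurd (cu _ (by rwa [← e])) nb, absurd (cu _ (by rwa [← e])) nb, absurd (cu _ (by rwa [← e])) nb]

end XH

theorem realizeEqns_McL_C5 : True := by
  have := @CA.McL.YY.eq_1.{0}
  have := @CA.McL.YY.eq_def.{0}
  have := @CA.McL.YY.congr_simp.{0}
  have := @CA.McL.DD.eq_1.{0}
  have := @CA.McL.DD.eq_def.{0}
  have := @CA.McL.DD.congr_simp.{0}
  trivial

end CA.McL
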