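/-
The case in which `U1` has a small centralizer is impossible.
-/
import Cfsg.Agent.McL.C5

set_option autoImplicit false
set_option maxHeartbeats 200000

namespace CA.McL

open CA.FG CA.Fi Equiv Subgroup

variable {C X : Type*} [Group C] [Group X] {π : C →* X} {t : C} {f : N1 →* X} {v : X}

set_option synthInstance.maxSize 2000 in
theorem fourg0 : ∀ a ∈ [16434824, 16201864, 15621256, 15854216, 16431233, 16205441], ∀ b ∈ [16434824, 16201864, 15621256, 15854216, 16431233, 16205441],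
    a ≠ 16434824 → b ≠ 16434824 → a ≠ b → mulc a b = mulc b a → (a ∈ [16434824, 16201864, 15621256, 15854216] ∧ b ∈ [16434824, 16201864, 15621256, 15854216]) ∨
      (a ∈ [16434824, 16201864, 16431233, 16205441] ∧ b ∈ [16434824, 16201864, 16431233, 16205441] ∧ ∀ m ∈ [16434824, 16201864, 16431233, 16205441], m ∈ [16434824, a, b, mulc a b]) := by
  decide +kernel

theorem mem_cd1 {a : N1} {L : List N1} : a ∈ L ↔ cd1 a ∈ L.map cd1 :=
  (List.mem_map_of_injective fun _ _ => cd1_inj.2).symm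

theorem fourg : ∀ a ∈ [1, uu, u2, uu * u2, i0, uu * i0], ∀ b ∈ [1, uu, u2, uu * u2, i0, uu * i0],
    a ≠ 1 → b ≠ 1 → a ≠ b → a * b = b * a → (a ∈ [1, uu, u2, uu * u2] ∧ b ∈ [1, uu, u2, uu * u2]) ∨
      (a ∈ [1, uu, i0, uu * i0] ∧ b ∈ [1, uu, i0, uu * i0] ∧ ∀ m ∈ [1, uu, i0, uu * i0], m ∈ [1, a, b, a * b]) := by
  intro a ha b hb h1 h2 h3 h4
  have e1 : cd1 (uu * u2) = 15854216 := by decide
  have e2 : cd1 (uu * i0) = 16205441 := by decide
  have k1 : [1, uu, u2, uu * u2, i0, uu * i0].map cd1 = [16434824, 16201864, 15621256, 15854216, 16431233, 16205441] := by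
    simp only [List.map, e1, e2, cd1_one, cuu, cu2, ci0]
  have k2 : [1, uu, u2, uu * u2].map cd1 = [16434824, 16201864, 15621256, 15854216] := by
    simp only [List.map, e1, e2, cd1_one, cuu, cu2, ci0]
  have k3 : [1, uu, i0, uu * i0].map cd1 = [16434824, 16201864, 16431233, 16205441] := by
    simp only [List.map, e1, e2, cd1_one, cuu, cu2, ci0]
  rw [mem_cd1, k1] at ha hb
  rw [ne_eq, cd1_inj, cd1_one] at h1 h2
  rw [ne_eq, cd1_inj] at h3
  rw [cd1_inj, cd1_mul, cd1_mul] at h4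
  refine (fourg0 _ ha _ hb h1 h2 h3 h4).imp (fun e => by rwa [mem_cd1, mem_cd1 (a := b), k2]) fun e => ?_
  refine ⟨by rw [mem_cd1, k3]; exact e.1, by rw [mem_cd1, k3]; exact e.2.1, fun m hm => ?_⟩
  rw [mem_cd1, k3] at hm
  have := e.2.2 _ hm
  rwa [← cd1_mul, ← cd1_one, show [cd1 1, cd1 a, cd1 b, cd1 (a * b)] = [1, a, b, a * b].map cd1 from rfl, ← mem_cd1] at this

theorem norm_zp [Finite X] {g a : X} (e : g * a * g⁻¹ ∈ zpowers a) : g ∈ 𝒩(zpowers a) :=
  mem_norm_of_forall (by rintro _ ⟨k, rfl⟩; rw [← conj_zpow]; exact zpow_mem e k)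

namespace XH

variable (h : XH π t N1 f v)
include h

theorem v1 : v ≠ 1 := fun e => by
  have := h.vr.va
  rw [e, one_mul, inv_one, mul_one] at this
  exact absurd (h.inj this) (by decide)

theorem fsq {n : N1} (e : f n * f n = 1) : n * n = 1 := h.inj (by rw [map_mul, e, map_one])

variable [Finite X]

theorem nP (hY : YY f ≤ f.range) {g : X} (h1 : g⁻¹ * f uu * g ∈ closure {f uu, f u2})
    (h2 : g⁻¹ * f u2 * g ∈ closure {f uu, f u2}) : g ∈ f.range := by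
  have m := cj_YY h1 h2 (mem_YY.2 ⟨h.comm.2 (show Commute A1 uu by decide), h.comm.2 (by decide)⟩)
  obtain ⟨n, e⟩ := hY m
  refine h.nA.1 (norm_zp ?_)
  rw [← e] at m ⊢
  rcases (fU n (h.comm.1 (mem_YY.1 m).1) (h.comm.1 (mem_YY.1 m).2)).2.2 (h.inj (by
    rw [map_pow, e, conj_pow, ← map_pow, show A1 ^ 3 = 1 by decide, map_one]; group)) with rfl | rfl | rfl
  exacts [by rw [map_one]; exact one_mem _, mem_zpowers _,
    by rw [map_mul]; exact mul_mem (mem_zpowers _) (mem_zpowers _)]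

theorem vV : ∃ w, w * w = 1 ∧ w ≠ 1 ∧ Lf π w ∧
    ∀ n ∈ [1, uu, i0, uu * i0], ∃ m ∈ [1, uu, i0, uu * i0], w⁻¹ * f n * w = f m := by
  let c : N1 := ⟨⟨swap 5 6 * swap 6 7, by decide⟩, by decide +kernel⟩
  have k : ∀ n m, v * f (c * n * c⁻¹) * v⁻¹ = f (c * m * c⁻¹) →
      ((f c)⁻¹ * v * (f c)⁻¹⁻¹)⁻¹ * f n * ((f c)⁻¹ * v * (f c)⁻¹⁻¹) = f m := fun n m e => by
    rw [← fcj, ← fcj, h.vr.inv] at e
    rw [inv_eq_self_of_sq (cj_sq h.vv _)]
    calc _ = (f c)⁻¹ * (v * (f c * f n * (f c)⁻¹) * v) * f c := by group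
      _ = _ := by rw [e]; group
  have e1 := h.vr.vw
  have e2 : v * f W2 * v⁻¹ = f W1 := by
    rw [← e1, h.vr.inv]
    calc _ = v * v * f W1 * (v * v) := by group
      _ = _ := by rw [h.vv]; group
  refine ⟨(f c)⁻¹ * v * (f c)⁻¹⁻¹, cj_sq h.vv _, fun e => h.v1 (conj_eq_one_iff.1 e), h.pv.cj h.sur _, ?_⟩
  simp only [List.mem_cons, List.not_mem_nil, or_false, forall_eq_or_imp, forall_eq]
  refine ⟨⟨1, Or.inl rfl, by rw [map_one, mul_one, inv_mul_cancel]⟩, ⟨uu * i0, by simp, k _ _ ?_⟩, ⟨i0, by simp, k _ _ ?_⟩, ⟨uu, by simp, k _ _ ?_⟩⟩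
  · rwa [show c * uu * c⁻¹ = W1 by decide, show c * (uu * i0) * c⁻¹ = W2 by decide]
  · rw [show c * i0 * c⁻¹ = W1 * W2 by decide]
    calc _ = v * f W1 * v⁻¹ * (v * f W2 * v⁻¹) := by rw [map_mul]; group
      _ = _ := by rw [e1, e2, ← map_mul, show W2 * W1 = W1 * W2 by decide]
  · rwa [show c * uu * c⁻¹ = W1 by decide, show c * (uu * i0) * c⁻¹ = W2 by decide]

theorem caseI (hY : YY f ≤ f.range) : False := by
  have sy : IsSylowOf 2 (T0.map f) ⊤ := syl_crit Nat.prime_two le_top (pT0.map f) fun x _ hx _ => by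
    have k : ∀ n ∈ T0, n * n = 1 → n ≠ 1 →
        ∃ m ∈ [1, uu, u2, uu * u2, i0, uu * i0], m ≠ 1 ∧ x⁻¹ * f n * x = f m := fun n hn n2 n1 => by
      obtain ⟨m, hm, e⟩ := (mem_normalizer_iff.1 (inv_mem hx) _).1 ⟨n, hn, rfl⟩
      refine ⟨m, by simpa using (fT m hm).2 (h.fsq (by rw [e]; exact cj_sq (by rw [← map_mul, n2, map_one]) _)),
        fun e' => n1 (h.inj ?_), by rw [e, inv_inv]⟩
      rwa [e', map_one, eq_comm, conj_eq_one_iff, ← map_one f] at e
    obtain ⟨a, ha, a1, ea⟩ := k uu uu_T0 (by decide) (by decide)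
    obtain ⟨b, hb, b1, eb⟩ := k u2 u2_T0 (by decide) (by decide)
    rcases fourg a ha b hb a1 b1 (fun e => by
      rw [e, ← eb, mul_left_inj, mul_right_inj] at ea
      exact absurd (h.inj ea) (by decide)) (h.comm.1 (by
        have := cj_comm (h.comm.2 (show Commute uu u2 by decide)) x⁻¹
        rwa [inv_inv, ea, eb] at this)) with ⟨e1, e2⟩ | ⟨e1, e2, e3⟩
    · obtain ⟨n, rfl⟩ := h.nP hY (g := x) (by rw [ea]; exact mem_P (by simpa using e1))
        (by rw [eb]; exact mem_P (by simpa using e2))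
      have k' : ∀ m ∈ T0, n * m * n⁻¹ ∈ T0 := fun m hm => by
        obtain ⟨m', hm', e⟩ := (mem_normalizer_iff.1 hx _).1 ⟨m, hm, rfl⟩
        rwa [← h.inj (e.trans (fcj f n m))]
      exact ⟨n, fN n (k' _ uu_T0) (k' _ u2_T0) (k' _ i0_T0), rfl⟩
    · obtain ⟨w, w2, w1, w3, w4⟩ := h.vV
      have k' : ∀ n y, n ∈ [1, uu, i0, uu * i0] → x⁻¹ * y * x = f n →
          (x * w * x⁻¹)⁻¹ * y * (x * w * x⁻¹) ∈ closure {f uu, f u2} := fun n y hn e => by
        obtain ⟨m, hm, e'⟩ := w4 n hn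
        rw [show (x * w * x⁻¹)⁻¹ * y * (x * w * x⁻¹) = x * (w⁻¹ * (x⁻¹ * y * x) * w) * x⁻¹ by group, e, e']
        have m1 : f uu ∈ closure {f uu, f u2} := subset_closure (Or.inl rfl)
        have m2 : f u2 ∈ closure {f uu, f u2} := subset_closure (Or.inr rfl)
        have := e3 m hm
        simp only [List.mem_cons, List.not_mem_nil, or_false] at this
        rcases this with rfl | rfl | rfl | rfl
        · simp
        · rwa [← ea, show x * (x⁻¹ * f uu * x) * x⁻¹ = f uu by group]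
        · rwa [← eb, show x * (x⁻¹ * f u2 * x) * x⁻¹ = f u2 by group]
        · rw [map_mul, ← ea, ← eb, show x * (x⁻¹ * f uu * x * (x⁻¹ * f u2 * x)) * x⁻¹ = f uu * f u2 by group]
          exact mul_mem m1 m2
      obtain ⟨n, e⟩ := h.nP hY (k' a _ e1 ea) (k' b _ e2 eb)
      exact absurd (by rw [e]; exact w3.cj h.sur x) (h.nLf (n := n) (h.fsq (by rw [e]; exact cj_sq w2 x))
        fun e' => w1 (by rwa [e', map_one, eq_comm, conj_eq_one_iff] at e))
  obtain ⟨x, -, e⟩ := sylow_Jsub Nat.prime_two sy (pGrp_zp Nat.prime_two (x := v) (by rw [sq, h.vv])) le_top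
  obtain ⟨n, -, e⟩ := e ⟨v, mem_zpowers v, rfl⟩
  have e : f n = x * v * x⁻¹ := e
  exact h.nLf (n := n) (h.fsq (by rw [e]; exact cj_sq h.vv x))
    (fun e' => h.v1 (by rwa [e', map_one, eq_comm, conj_eq_one_iff] at e)) (by rw [e]; exact h.pv.cj h.sur x)

theorem exφ : ∃ φ : alternatingGroup (Fin 8) →* X, Function.Injective φ ∧ (∀ x, φ (inc x) = f x) ∧ φ McL.vv = v ∧
    YY f ≤ φ.range := by
  obtain ⟨c, hS⟩ := h.tri.resolve_left h.caseI
  obtain ⟨φ, h1, h2⟩ := h.vr.hom (fun z z2 e => h.hz z z2 (e _) (e _)) c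
  refine ⟨φ, ?_, h1, h2, hS _ (by rintro _ ⟨x, rfl⟩; exact ⟨_, h1 x⟩) ⟨_, h2⟩⟩
  have := alternatingGroup.isSimpleGroup (α := Fin 8) (by simp)
  rw [← MonoidHom.ker_eq_bot_iff]
  refine (φ.normal_ker.eq_bot_or_eq_top).resolve_right fun e => h.v1 ?_
  rw [← h2, ← MonoidHom.mem_ker, e]; trivial

end XH

theorem realizeEqns_McL_C6 : True := by

  trivial

end CA.McL
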