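/-
Finite facts about `A₈`.
-/
import Cfsg.Agent.McL.C6

set_option autoImplicit false
set_option maxRecDepth 100000
set_option synthInstance.maxSize 2000
set_option maxHeartbeats 400000

namespace CA.McL

open CA.FG CA.Fi CA.TC Equiv Subgroup

local notation "A8" => alternatingGroup (Fin 8)

/-- code of an element of `A₈` -/
def cdA (n : A8) : ℕ := cd n.1

theorem cdA_inj {g h : A8} : g = h ↔ cdA g = cdA h := by rw [Subtype.ext_iff, cd_inj]; rfl
theorem cdA_mul (g h : A8) : cdA (g * h) = mulc (cdA g) (cdA h) := cd_mul _ _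
theorem cdA_one : cdA 1 = 16434824 := cd_one

theorem FP_cd {g : A8} : FP g.1 ↔ ∃ i < 8, app (cdA g) i = i :=
  ⟨fun ⟨i, e⟩ => ⟨i, i.2, by rw [cdA, app_cd, e]⟩, fun ⟨i, hi, e⟩ => ⟨⟨i, hi⟩, Fin.ext (by
    rw [← app_cd]; exact e)⟩⟩

/-- allowed values in the centralizer of `uu` -/
def ok4 (i x : ℕ) : Bool := (Nat.ble 3 i && Nat.ble i 6) == (Nat.ble 3 x && Nat.ble x 6)

theorem all4 {P : ℕ → Prop} [DecidablePred P]
    (h : go ok4 (fun c => decide (mulc c 16201864 = mulc 16201864 c → inv8 c % 2 = 0 → P c)) 8 0 0 = true) (g : A8)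
    (hc : Commute g (inc uu)) : ∀ c, cdA g = c → P c := by
  rintro _ rfl
  have e : g.1 * uu.1.1 = uu.1.1 * g.1 := congrArg Subtype.val hc.eq
  refine of_decide_eq_true (go_all h g.1 fun i => ?_) ?_ (mem_alt.1 g.2)
  · refine (show ∀ i x : Fin 8, (uu.1.1 x = x ↔ uu.1.1 i = i) → ok4 i x = true by decide) i _ ?_
    rw [← Perm.mul_apply, ← e, Perm.mul_apply, g.1.injective.eq_iff]
  · rwa [cd_inj, cd_mul, cd_mul, show cd uu.1.1 = 16201864 from cuu] at e

/-- `(1 2)(3 8)` -/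
def y1 : A8 := vv * inc uu * vv⁻¹
/-- `(1 8)(2 3)` -/
def y2 : A8 := vv * inc u2 * vv⁻¹
/-- `(1 4)(2 5)` -/
def z1 : A8 := ⟨swap 0 3 * swap 1 4, by decide +kernel⟩
/-- `(1 4)(3 6)` -/
def z2 : A8 := ⟨swap 0 3 * swap 2 5, by decide +kernel⟩

theorem auu : cdA (inc uu) = 16201864 := cuu
theorem au2 : cdA (inc u2) = 15621256 := cu2
theorem avv : cdA vv = 14487907 := by decide
theorem ay1 : cdA y1 = 5949377 := by decide
theorem ay2 : cdA y2 = 1754711 := by decide
theorem az1 : cdA z1 = 16421027 := by decide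
theorem az2 : cdA z2 = 16335179 := by decide

theorem fA (g : A8) (hc : Commute g (inc uu)) : g * g = 1 → g ≠ 1 → g * inc uu ≠ 1 → FP g.1 → FP (g * inc uu).1 →
    g = inc u2 ∨ g = inc uu * inc u2 ∨ ∃ w ∈ [y1, y2, y1 * y2], g * w = w * g ∧ FP (g * w).1 ∧
      FP (g * w * inc uu).1 ∧ g * w ≠ 1 ∧ g * w * inc uu ≠ 1 := by
  simp only [List.mem_cons, List.not_mem_nil, or_false, exists_eq_or_imp, exists_eq_left]
  simp only [ne_eq, cdA_inj, cdA_mul, cdA_one, FP_cd, auu, au2, ay1, ay2]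
  generalize hc' : cdA g = c
  revert c
  exact all4 (by decide +kernel) g hc

theorem fB (g : A8) (hc : Commute g (inc uu)) : g * inc u2 = inc u2 * g → g * g = 1 → FP g.1 → FP (g * inc uu).1 →
    g = 1 ∨ g = inc uu ∨ g = inc u2 ∨ g = inc uu * inc u2 := by
  simp only [cdA_inj, cdA_mul, cdA_one, FP_cd, auu, au2]
  generalize hc' : cdA g = c
  revert c
  exact all4 (by decide +kernel) g hc

theorem fC (n : N1) : Commute n A1 → Commute n uu → n * n = 1 ∨ n * n = A1 ∨ n * n * (n * n) = A1 := by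
  simp only [commute_iff_eq, cd1_inj, cd1_mul, cd1_one, cA1, cuu]
  generalize hc : cd1 n = c
  revert c
  exact all1 (by decide +kernel) n

theorem f5 (n : N1) : Commute n (A1 * A2) → n ^ 5 = 1 → n = 1 := by
  simp only [commute_iff_eq, cd1_inj, cd1_mul, cd1_pow, cd1_one, cA1, cA2]
  generalize hc : cd1 n = c
  revert c
  exact all1 (by decide +kernel) n

theorem fS (g : A8) (hc : Commute g vv) : g * g = 1 → g ≠ 1 → g * vv ≠ 1 → FP g.1 → FP (g * vv).1 →
    g = z1 ∨ g = z2 ∨ g = z1 * z2 ∨ g = z1 * vv ∨ g = z2 * vv ∨ g = z1 * z2 * vv := by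
  have e : g.1 * vv.1 = vv.1 * g.1 := congrArg Subtype.val hc.eq
  have k : ∀ i : Fin 8, app (cd g.1) (vv.1 i) = app 14487907 (app (cd g.1) i) := fun i => by
    rw [app_cd, app_cd, ← avv, cdA, app_cd, ← Perm.mul_apply, e]; rfl
  simp only [ne_eq, cdA_inj, cdA_mul, cdA_one, FP_cd, avv, az1, az2]
  exact all8 (P := fun c => app c 7 = app 14487907 (app c 6) → app c 5 = app 14487907 (app c 2) →
    app c 4 = app 14487907 (app c 1) → inv8 c % 2 = 0 → mulc c c = 16434824 → ¬ c = 16434824 →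
    ¬ mulc c 14487907 = 16434824 → (∃ i < 8, app c i = i) → (∃ i < 8, app (mulc c 14487907) i = i) →
    c = 16421027 ∨ c = 16335179 ∨ c = mulc 16421027 16335179 ∨ c = mulc 16421027 14487907 ∨
    c = mulc 16335179 14487907 ∨ c = mulc (mulc 16421027 16335179) 14487907) (by decide +kernel) g.1
    (k 6) (k 2) (k 1) (mem_alt.1 g.2)

theorem realizeEqns_McL_C7 : True := by
  have := @CA.McL.y2.eq_1
  have := @CA.McL.y2.eq_def
  have := @CA.McL.y2.congr_simp
  have := @CA.McL.z2.eq_1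
  have := @CA.McL.z2.eq_def
  have := @CA.McL.z2.congr_simp
  have := @CA.McL.cdA.eq_1
  have := @CA.McL.cdA.eq_def
  have := @CA.McL.cdA.congr_simp
  have := @CA.McL.y1.eq_1
  have := @CA.McL.y1.eq_def
  have := @CA.McL.y1.congr_simp
  have := @CA.McL.ok4.eq_1
  have := @CA.McL.ok4.eq_def
  have := @CA.McL.ok4.congr_simp
  have := @CA.McL.z1.eq_1
  have := @CA.McL.z1.eq_def
  have := @CA.McL.z1.congr_simp
  trivial

end CA.McL
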