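/-
Recognition of `A₈`.
-/
import Cfsg.Agent.McL.C7
import Cfsg.Agent.Blk.ZCor

set_option autoImplicit false
set_option maxHeartbeats 400000
set_option maxRecDepth 10000

namespace CA.McL

open CA.FG CA.Fi Equiv Subgroup Cfsg

local notation "A8" => alternatingGroup (Fin 8)

variable {C X : Type*} [Group C] [Group X] {π : C →* X} {t : C} {f : N1 →* X} {v : X}

theorem mem_zp2 {x z : X} (h : z * z = 1) (hx : x ∈ zpowers z) : x = 1 ∨ x = z := by
  obtain ⟨k, rfl⟩ := hx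
  show z ^ k = 1 ∨ z ^ k = z
  rw [zpow_eq_zpow_emod' k (show z ^ 2 = 1 by rw [sq, h]), Nat.cast_ofNat]
  rcases Int.emod_two_eq_zero_or_one k with e | e <;> rw [e]
  exacts [Or.inl (zpow_zero _), Or.inr (zpow_one _)]

theorem odd_sq {O : Subgroup X} (ho : Odd (Nat.card O)) {x : X} (hx : x ∈ O) (h : x * x = 1) : x = 1 := by
  rw [← orderOf_eq_one_iff]
  exact Nat.eq_one_of_dvd_coprimes (Nat.coprime_two_left.2 ho) (orderOf_dvd_of_pow_eq_one (by rw [sq, h]))
    (Subgroup.orderOf_dvd_natCard O hx)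

/-- an element in its centralizer -/
def zc (z : X) : (𝒞[z] : Subgroup X) := ⟨z, mem_centralizer_singleton_iff.2 rfl⟩

theorem cz {z : X} (x : (𝒞[z] : Subgroup X)) : Commute x.1 z := mem_centralizer_singleton_iff.1 x.2

instance nzc (z : X) : (zpowers (zc z)).Normal := ⟨by
  rintro _ ⟨k, rfl⟩ g
  have : Commute g (zc z) := Subtype.ext (cz g).eq
  show g * zc z ^ k * g⁻¹ ∈ _
  rw [(this.zpow_right k).eq, mul_inv_cancel_right]
  exact zpow_mem (mem_zpowers _) k⟩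

/-- the quotient of the centralizer -/
abbrev qz (z : X) : (𝒞[z] : Subgroup X) →* (𝒞[z] : Subgroup X) ⧸ zpowers (zc z) := QuotientGroup.mk' _

theorem qz_eq {z : X} (h : z * z = 1) {x y : (𝒞[z] : Subgroup X)} : qz z x = qz z y ↔ y.1 = x.1 ∨ y.1 = x.1 * z := by
  rw [QuotientGroup.mk'_apply, QuotientGroup.mk'_apply, QuotientGroup.eq]
  constructor
  · intro e
    rcases mem_zp2 (Subtype.ext h) e with e | e
    · exact Or.inl (congrArg Subtype.val (inv_mul_eq_one.1 e)).symm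
    · exact Or.inr (congrArg Subtype.val (inv_mul_eq_iff_eq_mul.1 e))
  · rintro (e | e)
    · rw [show y = x from Subtype.ext e, inv_mul_cancel]; exact one_mem _
    · rw [show y = x * zc z from Subtype.ext e, inv_mul_cancel_left]; exact mem_zpowers _

theorem qz_one {z : X} (h : z * z = 1) {x : (𝒞[z] : Subgroup X)} : qz z x = 1 ↔ x.1 = 1 ∨ x.1 = z := by
  rw [← map_one (qz z), eq_comm, qz_eq h]; simp

theorem cj_mem {H : Subgroup X} {a g x : X} (hC : ∀ z, Commute z a → z ∈ H) (h1 : ∃ c ∈ H, c * a * c⁻¹ = x)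
    (h2 : ∃ c ∈ H, c * a * c⁻¹ = g * x * g⁻¹) : g ∈ H := by
  obtain ⟨c, hc, rfl⟩ := h1
  obtain ⟨d, hd, e⟩ := h2
  have := mul_mem (mul_mem hd (hC (d⁻¹ * g * c) (by
    calc d⁻¹ * g * c * a = d⁻¹ * (g * (c * a * c⁻¹) * g⁻¹) * (g * c) := by group
      _ = _ := by rw [← e]; group))) (inv_mem hc)
  rwa [show d * (d⁻¹ * g * c) * c⁻¹ = g by group] at this

theorem rng_cj (φ : A8 →* X) {a b : A8} (h : IsConj a b) : ∃ c ∈ φ.range, c * φ a * c⁻¹ = φ b := by
  obtain ⟨c, rfl⟩ := isConj_iff.1 h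
  exact ⟨φ c, ⟨c, rfl⟩, by simp⟩

/-- the embedding of `A₈` -/
structure XA (π : C →* X) (t : C) (f : N1 →* X) (v : X) (φ : A8 →* X) : Prop extends XH π t N1 f v where
  pi : Function.Injective φ
  pf : ∀ x, φ (inc x) = f x
  pv' : φ McL.vv = v
  pY : YY f ≤ φ.range

namespace XA

variable {φ : A8 →* X} (h : XA π t f v φ)
include h

theorem fH (x : N1) : f x ∈ φ.range := ⟨_, h.pf x⟩

theorem fH' : f.range ≤ φ.range := by rintro _ ⟨x, rfl⟩; exact h.fH x

theorem vH : v ∈ φ.range := ⟨_, h.pv'⟩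

theorem comm {x y : A8} : Commute (φ x) (φ y) ↔ Commute x y :=
  ⟨fun e => h.pi (by rw [map_mul, map_mul, e.eq]), fun e => e.map φ⟩

theorem psq {x : A8} (e : φ x * φ x = 1) : x * x = 1 := h.pi (by rw [map_mul, e, map_one])

theorem nu : ¬ Lf π (f uu) := h.nLf (by decide) (by decide)

theorem L1 : Lf π 1 := fun c e => by
  have t2 : t * t = 1 := by rw [← pow_two, ← h.ot, pow_orderOf_eq_one]
  rcases mem_zp2 t2 (h.ker.le (MonoidHom.mem_ker.2 e)) with rfl | rfl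
  exacts [one_mul _, t2]

theorem lf {g : A8} (h2 : g * g = 1) (h1 : g ≠ 1) : ¬ Lf π (φ g) ↔ FP g.1 := by
  rcases conj2 h2 h1 with ⟨a, b⟩ | ⟨a, b⟩
  · exact iff_of_true (fun e => h.nu (h.pf _ ▸ e.conj h.sur (φ.map_isConj b).symm)) a
  · exact iff_of_false (not_not.2 (Lf.conj h.sur (φ.map_isConj b) (h.pv'.symm ▸ h.pv))) a

theorem fp {g : A8} (h2 : φ g * φ g = 1) (e : ¬ Lf π (φ g)) : g ≠ 1 ∧ FP g.1 := by
  have : g ≠ 1 := by rintro rfl; exact e (by rw [map_one]; exact h.L1)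
  exact ⟨this, (h.lf (h.psq h2) this).1 e⟩

theorem nab : ¬ IsConj (f A1) (f (A1 * A2)) := fun e => by
  obtain ⟨g, e⟩ := isConj_iff.1 e
  let c : N1 := ⟨⟨swap 3 4 * swap 4 5 * swap 5 6 * swap 6 7, by decide⟩, by decide +kernel⟩
  have c1 : Commute (g * f c * g⁻¹) (f (A1 * A2)) := by
    rw [← e]; exact cj_comm (h.toXH.comm.2 (by decide)) g
  have c5 : (g * f c * g⁻¹) ^ 5 = 1 := by rw [conj_pow, ← map_pow, show c ^ 5 = 1 by decide, map_one]; group
  have c0 : g * f c * g⁻¹ ≠ 1 := fun e => absurd (h.inj ((conj_eq_one_iff.1 e).trans (map_one f).symm)) (by decide)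
  generalize g * f c * g⁻¹ = y at c1 c5 c0
  have k : ∀ x, Commute x (f (A1 * A2)) → x ^ 5 = 1 → x ∈ f.range → x = 1 := by
    rintro _ e1 e2 ⟨n, rfl⟩
    rw [f5 n (h.toXH.comm.1 e1) (h.inj (by rw [map_pow, e2, map_one])), map_one]
  have nD := fun x (e : Commute x (f (A1 * A2))) => h.nD A1 A2 rfl rfl x (h.cb A1 A2 rfl rfl x (by rwa [← map_mul]))
  rcases nD y c1 with e1 | e1
  · exact c0 (k y c1 c5 e1)
  rcases nD (y * y) (c1.mul_left c1) with e2 | e2
  · have := k _ (c1.mul_left c1) (by rw [← sq, ← pow_mul, mul_comm, pow_mul, c5, one_pow]) e2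
    rw [show 5 = 2 * 2 + 1 from rfl, pow_succ, pow_mul, sq y, this, one_pow, one_mul] at c5
    exact c0 c5
  · have := mul_mem e2 (inv_mem e1)
    rw [show y * y * v * (y * v)⁻¹ = y by group] at this
    exact c0 (k y c1 c5 this)

theorem s3 {x g : X} (hx : x ∈ φ.range) (hg : g * x * g⁻¹ ∈ φ.range) (o : orderOf x = 3) : g ∈ φ.range := by
  obtain ⟨a, rfl⟩ := hx
  obtain ⟨b, e⟩ := hg
  have c : IsConj (φ a) (φ b) := isConj_iff.2 ⟨g, e.symm⟩
  have ob : orderOf b = 3 := by rw [← orderOf_injective φ h.pi, ← orderOf_eq_of_isConj c, o]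
  rw [orderOf_injective φ h.pi] at o
  rcases conj3 o with e1 | e1 <;> rcases conj3 ob with e2 | e2
  · exact cj_mem (fun z e => h.fH' (h.cA (by rwa [← h.pf]))) (rng_cj φ e1) (e ▸ rng_cj φ e2)
  · exact absurd (by rw [← h.pf, ← h.pf]; exact ((φ.map_isConj e1).trans c).trans (φ.map_isConj e2).symm) h.nab
  · exact absurd (by rw [← h.pf, ← h.pf]; exact ((φ.map_isConj e2).trans c.symm).trans (φ.map_isConj e1).symm) h.nab
  · refine cj_mem (fun z e => ?_) (rng_cj φ e1) (e ▸ rng_cj φ e2)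
    rcases h.nD A1 A2 rfl rfl z (h.cb A1 A2 rfl rfl z (by rwa [← map_mul, ← h.pf])) with e | e
    exacts [h.fH' e, (mul_mem_cancel_right h.vH).1 (h.fH' e)]

theorem nU {g : X} (h1 : g⁻¹ * f uu * g ∈ closure {f uu, f u2}) (h2 : g⁻¹ * f u2 * g ∈ closure {f uu, f u2}) :
    g ∈ φ.range := by
  have := Fact.mk Nat.prime_three
  exact h.s3 (h.fH A1) (h.pY (cj_YY h1 h2 (mem_YY.2 ⟨h.toXH.comm.2 (by decide), h.toXH.comm.2 (by decide)⟩)))
    (by rw [orderOf_injective f h.inj]; exact orderOf_eq_prime (by decide) (by decide))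

theorem nU' {g : X} (h1 : Commute g (f uu)) (h2 : g * f u2 * g⁻¹ = f u2 ∨ g * f u2 * g⁻¹ = f u2 * f uu) :
    g ∈ φ.range := by
  have m1 : f uu ∈ closure {f uu, f u2} := subset_closure (Or.inl rfl)
  have m2 : f u2 ∈ closure {f uu, f u2} := subset_closure (Or.inr rfl)
  refine (inv_mem_iff).1 (h.nU ?_ ?_) <;> rw [inv_inv]
  · rwa [h1.eq, mul_inv_cancel_right]
  · rcases h2 with e | e <;> rw [e]
    exacts [m2, mul_mem m2 m1]

theorem iso {g : X} (hg : Commute g (f uu))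
    (e : f u2 * (g * f u2 * g⁻¹) = g * f u2 * g⁻¹ * f u2 ∨ f u2 * (g * f u2 * g⁻¹) = g * f u2 * g⁻¹ * f u2 * f uu) :
    g * f u2 * g⁻¹ = f u2 ∨ g * f u2 * g⁻¹ = f uu * f u2 := by
  have s1 : f uu * f uu = 1 := by rw [← map_mul, show uu * uu = 1 by decide, map_one]
  have s2 : f u2 * f u2 = 1 := by rw [← map_mul, show u2 * u2 = 1 by decide, map_one]
  have c12 : Commute (f u2) (f uu) := h.toXH.comm.2 (by decide)
  have gu : g * f uu * g⁻¹ = f uu := by rw [hg.eq, mul_inv_cancel_right]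
  have yu : Commute (g * f u2 * g⁻¹) (f uu) := by rw [← gu]; nth_rewrite 1 [gu]; exact gu ▸ cj_comm c12 g
  have y2' := cj_sq s2 g
  obtain ⟨η, hη⟩ := h.nU' yu (by
    rw [inv_eq_self_of_sq y2', mul_assoc]
    rcases e with e | e <;> rw [e]
    · left; rw [← mul_assoc, y2', one_mul]
    · right; rw [← mul_assoc, ← mul_assoc, y2', one_mul])
  have e2 : φ (η * inc uu) = g * f (u2 * uu) * g⁻¹ := by
    rw [map_mul, map_mul, hη, h.pf]; nth_rewrite 1 [← gu]; group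
  have n1 : ¬ Lf π (φ η) := fun e => h.nLf (n := u2) (by decide) (by decide)
    (e.conj h.sur (isConj_iff.2 ⟨g, hη.symm⟩).symm)
  have n2 : ¬ Lf π (φ (η * inc uu)) := fun e => h.nLf (n := u2 * uu) (by decide) (by decide)
    (e.conj h.sur (isConj_iff.2 ⟨g, e2.symm⟩).symm)
  have p1 := h.fp (by rw [hη, y2']) n1
  have p2 := h.fp (by rw [e2]; exact cj_sq (by rw [← map_mul, show u2 * uu * (u2 * uu) = 1 by decide, map_one]) g) n2
  have cη : Commute η (inc uu) := h.comm.1 (by rwa [hη, h.pf])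
  have η2 : η * η = 1 := h.psq (by rw [hη, y2'])
  rcases fA η cη η2 p1.1 p2.1 p1.2 p2.2 with e | e | ⟨w, hw, c, q1, q2, q3, q4⟩
  · left; rw [← hη, e, h.pf]
  · right; rw [← hη, e, map_mul, h.pf, h.pf]
  exfalso
  obtain ⟨w1, w2, w3, w4⟩ : w * w = 1 ∧ Commute w (inc uu) ∧ w ≠ 1 ∧ w ≠ inc uu := by
    simp only [List.mem_cons, List.not_mem_nil, or_false] at hw
    rcases hw with rfl | rfl | rfl <;>
      simp only [commute_iff_eq, ne_eq, cdA_inj, cdA_mul, cdA_one, auu, ay1, ay2] <;> decide +kernel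
  have c : Commute η w := c
  have a2 : η * w * (η * w) = 1 := by rw [← sq, c.mul_pow, sq, sq, η2, w1, one_mul]
  have au : Commute (η * w) (inc uu) := cη.mul_left w2
  have b2 : η * w * inc uu * (η * w * inc uu) = 1 := by
    rw [← sq, au.mul_pow, sq, sq, a2, one_mul]; decide
  have k1 : Commute (g⁻¹ * φ (η * w) * g⁻¹⁻¹) (f uu) := by
    have := cj_comm (h.comm.2 au) g⁻¹
    rwa [h.pf, hg.inv_left.eq, mul_inv_cancel_right] at this
  have k2 : Commute (g⁻¹ * φ (η * w) * g⁻¹⁻¹) (f u2) := by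
    have := cj_comm (h.comm.2 ((Commute.refl η).mul_left c.symm)) g⁻¹
    rwa [hη, show g⁻¹ * (g * f u2 * g⁻¹) * g⁻¹⁻¹ = f u2 by group] at this
  obtain ⟨ζ, hζ⟩ := h.pY (mem_YY.2 ⟨k1, k2⟩)
  have e3 : φ (ζ * inc uu) = g⁻¹ * φ (η * w * inc uu) * g⁻¹⁻¹ := by
    rw [map_mul, map_mul _ (η * w), hζ, h.pf, mul_assoc, hg.inv_left.inv_left.eq]; group
  have r1 := h.fp (g := ζ) (by rw [hζ]; exact cj_sq (by rw [← map_mul, a2, map_one]) _) fun e =>
    (h.lf a2 q3).2 q1 (e.conj h.sur (isConj_iff.2 ⟨_, hζ.symm⟩).symm)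
  have r2 := h.fp (g := ζ * inc uu) (by rw [e3]; exact cj_sq (by rw [← map_mul, b2, map_one]) _) fun e =>
    (h.lf b2 q4).2 q2 (e.conj h.sur (isConj_iff.2 ⟨_, e3.symm⟩).symm)
  have k : φ (η * w) = g * φ ζ * g⁻¹ := by rw [hζ]; group
  rcases fB ζ (h.comm.1 (by rwa [hζ, h.pf])) (h.comm.1 (by rwa [hζ, h.pf])).eq
    (h.psq (by rw [hζ]; exact cj_sq (by rw [← map_mul, a2, map_one]) _)) r1.2 r2.2 with e | e | e | e
  · exact r1.1 e
  · exact r2.1 (by rw [e]; decide)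
  · rw [e, h.pf, ← hη] at k
    exact w3 (mul_eq_left.1 (h.pi k))
  · rw [e, show inc uu * inc u2 = inc (u2 * uu) by decide, h.pf, ← e2] at k
    exact w4 (mul_left_cancel (h.pi k))

variable [Finite X]

theorem cO {a y : A8} (ha : Commute (φ a) (f uu)) (hy : Commute (φ y) (f uu)) (ea : a = inc A1) (y2 : y * y = 1)
    (e : a * y * a⁻¹ * (a⁻¹ * y * a) = y) (n1 : y ≠ 1) (n2 : y ≠ inc uu) (f1 : FP y.1) (f2 : ¬ FP (y * inc uu).1)
    {k : (𝒞[f uu] : Subgroup X)} (hk : qz (f uu) k ∈ pPrimeCore 2 _) : Commute k.1 (φ y) := by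
  have s1 : f uu * f uu = 1 := by rw [← map_mul, show uu * uu = 1 by decide, map_one]
  let a' : (𝒞[f uu] : Subgroup X) := ⟨φ a, mem_centralizer_singleton_iff.2 ha⟩
  let y' : (𝒞[f uu] : Subgroup X) := ⟨φ y, mem_centralizer_singleton_iff.2 hy⟩
  have ho := Blk.odd_card_oddCore ((𝒞[f uu] : Subgroup X) ⧸ zpowers (zc (f uu)))
  have a3 : a' ^ 3 = 1 := Subtype.ext (by
    show φ a ^ 3 = 1
    rw [← map_pow, ea, show inc A1 ^ 3 = 1 by decide, map_one])
  have y2' : y' * y' = 1 := Subtype.ext (by show φ y * φ y = 1; rw [← map_mul, y2, map_one])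
  have e' : a' * y' * a'⁻¹ * (a'⁻¹ * y' * a') = y' := Subtype.ext (by
    show φ a * φ y * (φ a)⁻¹ * ((φ a)⁻¹ * φ y * φ a) = φ y
    simp only [← map_inv, ← map_mul, e])
  have aO : qz _ a' ∉ pPrimeCore 2 _ := fun m => by
    have N : (pPrimeCore 2 ((𝒞[f uu] : Subgroup X) ⧸ zpowers (zc (f uu)))).Normal := inferInstance
    have k1 := mul_mem (N.conj_mem _ m (qz _ (a' * y' * a'⁻¹))⁻¹) (inv_mem m)
    have k2 : (qz _ (a' * y' * a'⁻¹))⁻¹ * qz _ a' * (qz _ (a' * y' * a'⁻¹))⁻¹⁻¹ * (qz _ a')⁻¹ = qz _ y' := by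
      simp only [← map_inv, ← map_mul]
      congr 1
      rw [inv_inv, inv_eq_self_of_sq (cj_sq y2' a')]
      have : a'⁻¹ = a' * a' := inv_eq_of_mul_eq_one_left (by rw [← a3, pow_three'])
      calc _ = a' * y' * a'⁻¹ * (a' * a' * y' * (a' * a')⁻¹) := by group
        _ = y' := by rw [← this, inv_inv, e']
    rw [k2] at k1
    rcases (qz_one s1).1 (odd_sq ho k1 (by rw [← map_mul, y2', map_one])) with e | e
    exacts [n1 (h.pi (e.trans (map_one φ).symm)), n2 (h.pi (e.trans (h.pf _).symm))]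
  have := fpf3 ho (a := qz _ a') (y := qz _ y') (by rw [← map_pow, a3, map_one]) (fun x hx c => by
    obtain ⟨x, rfl⟩ := QuotientGroup.mk'_surjective _ x
    have c' : Commute x.1 (f A1) := by
      rw [← h.pf A1, ← ea]
      have c := c.eq
      rw [← map_mul, ← map_mul, qz_eq s1] at c
      refine (c.resolve_right fun c => ?_).symm
      have c : φ a * x.1 = x.1 * φ a * f uu := c
      have : (x.1⁻¹ * φ a * x.1⁻¹⁻¹) ^ 3 = 1 := by rw [conj_pow, show φ a ^ 3 = 1 from congrArg Subtype.val a3]; group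
      rw [inv_inv, mul_assoc, c, mul_assoc, inv_mul_cancel_left, ← h.pf, ← map_mul, ← map_pow, ← map_one φ, ea] at this
      exact absurd (h.pi this) (by decide)
    obtain ⟨n, e⟩ := h.cA c'
    have k : ∀ m, f m = φ a → ∀ z : (𝒞[f uu] : Subgroup X), z.1 = f m → qz _ z ∉ pPrimeCore 2 _ := fun m e1 z e2 => by
      rwa [show z = a' from Subtype.ext (e2.trans e1)]
    rcases fC n (h.toXH.comm.1 (by rwa [e])) (h.toXH.comm.1 (by rw [e]; exact cz x)) with e1 | e1 | e1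
    · refine odd_sq ho hx ?_
      rw [← map_mul, show x * x = 1 from Subtype.ext (by show x.1 * x.1 = 1; rw [← e, ← map_mul, e1, map_one]), map_one]
    · exact absurd (by rw [map_mul]; exact mul_mem hx hx)
        (k _ (by rw [ea, h.pf]) (x * x) (by show x.1 * x.1 = _; rw [← e, ← map_mul, e1]))
    · exact absurd (by rw [map_mul, map_mul]; exact mul_mem (mul_mem hx hx) (mul_mem hx hx))
        (k _ (by rw [ea, h.pf]) (x * x * (x * x)) (by
          show x.1 * x.1 * (x.1 * x.1) = _; rw [← e, ← map_mul, ← map_mul, e1])))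
    (by rw [← map_mul, y2', map_one]) (by simp only [← map_inv, ← map_mul, e']) hk
  have c := this.eq
  rw [← map_mul, ← map_mul, qz_eq s1] at c
  refine (c.resolve_right fun c => ?_).symm
  have c : φ y * k.1 = k.1 * φ y * f uu := c
  have yu : Commute y (inc uu) := h.comm.1 (by rwa [h.pf])
  refine (h.lf y2 n1).2 f1 (Lf.conj h.sur (x := φ (y * inc uu)) (isConj_iff.2 ⟨k.1, ?_⟩) ?_)
  · rw [map_mul, h.pf, ← mul_assoc, ← c, mul_inv_cancel_right]
  · refine not_not.1 fun e => f2 ((h.lf ?_ fun e => n2 ?_).1 e)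
    · rw [← sq, yu.mul_pow, sq, sq, y2, one_mul]; decide
    · rw [eq_inv_of_mul_eq_one_left e]; decide

theorem cU {g : X} (hg : Commute g (f uu)) : g ∈ φ.range := by
  have s1 : f uu * f uu = 1 := by rw [← map_mul, show uu * uu = 1 by decide, map_one]
  have c12 : Commute (f u2) (f uu) := h.toXH.comm.2 (by decide)
  let u' : (𝒞[f uu] : Subgroup X) := ⟨f u2, mem_centralizer_singleton_iff.2 c12⟩
  have := Fact.mk Nat.prime_two
  obtain ⟨k, hk, e⟩ := Blk.Zstar_conj (t := qz _ u') (orderOf_eq_prime (by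
      rw [← map_pow, show u' ^ 2 = 1 from Subtype.ext (by
        show f u2 ^ 2 = 1; rw [← map_pow, show u2 ^ 2 = 1 by decide, map_one]), map_one]) fun e => by
      rcases (qz_one s1).1 e with e | e
      exacts [absurd (h.inj (e.trans (map_one f).symm)) (by decide), absurd (h.inj e) (by decide)])
    (fun x c => by
      obtain ⟨x, rfl⟩ := QuotientGroup.mk'_surjective _ x
      have c := c.eq.symm
      simp only [← map_inv, ← map_mul] at c ⊢
      rw [eq_comm, qz_eq s1]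
      exact (h.iso (cz x) ((qz_eq s1).1 c)).imp_right fun e => e.trans c12.eq.symm)
    (qz _ ⟨g, mem_centralizer_singleton_iff.2 hg⟩)
  obtain ⟨k, rfl⟩ := QuotientGroup.mk'_surjective _ k
  have ca : Commute (φ (inc A1)) (f uu) := by rw [h.pf]; exact h.toXH.comm.2 (by decide)
  have k1 := h.cO (y := y1) ca (by rw [← h.pf]; exact h.comm.2 (show _ * _ = _ * _ by decide)) rfl (by decide)
    (by decide) (by decide) (by decide) (by decide) (by decide) hk
  have k2 := h.cO (y := y2) ca (by rw [← h.pf]; exact h.comm.2 (show _ * _ = _ * _ by decide)) rfl (by decide)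
    (by decide) (by decide) (by decide) (by decide) (by decide) hk
  rw [y1, map_mul, map_mul, map_inv, h.pv', h.pf] at k1
  rw [y2, map_mul, map_mul, map_inv, h.pv', h.pf] at k2
  have kH : k.1 ∈ φ.range := by
    have e1 := cj_comm k1 v⁻¹
    have e2 := cj_comm k2 v⁻¹
    rw [show v⁻¹ * (v * f uu * v⁻¹) * v⁻¹⁻¹ = f uu by group] at e1
    rw [show v⁻¹ * (v * f u2 * v⁻¹) * v⁻¹⁻¹ = f u2 by group] at e2
    have := mul_mem (mul_mem h.vH (h.pY (mem_YY.2 ⟨e1, e2⟩))) (inv_mem h.vH)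
    rwa [show v * (v⁻¹ * k.1 * v⁻¹⁻¹) * v⁻¹ = k.1 by group] at this
  have e' : qz _ u' = qz _ (k⁻¹ * ⟨g, mem_centralizer_singleton_iff.2 hg⟩ * u' *
      (k⁻¹ * ⟨g, mem_centralizer_singleton_iff.2 hg⟩)⁻¹) := by
    simp only [map_mul, map_inv]
    calc _ = (qz _ k)⁻¹ * (qz _ k * qz _ u' * (qz _ k)⁻¹) * qz _ k := by group
      _ = _ := by rw [← e]; group
  exact (mul_mem_cancel_left (inv_mem kH)).1 (h.nU' ((cz k).inv_left.mul_left hg) ((qz_eq s1).1 e'))

theorem hU {y g : X} (hy : y ∈ φ.range) (y2 : y * y = 1) (n : ¬ Lf π y) (hg : g * y * g⁻¹ ∈ φ.range) :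
    g ∈ φ.range := by
  have k : ∀ a, φ a * φ a = 1 → ¬ Lf π (φ a) → ∃ c ∈ φ.range, c * f uu * c⁻¹ = φ a := fun a a2 n => by
    rw [← h.pf]
    exact rng_cj φ ((conj2 (h.psq a2) (h.fp a2 n).1).resolve_right fun e => e.1 (h.fp a2 n).2).2
  obtain ⟨a, rfl⟩ := hy
  obtain ⟨b, e⟩ := hg
  exact cj_mem (fun z => h.cU) (k a y2 n) (e ▸ k b (by rw [e]; exact cj_sq y2 g) fun e' =>
    n (e'.conj h.sur (isConj_iff.2 ⟨g, e.symm⟩).symm))

theorem cV {g : X} (hg : Commute g v) : g ∈ φ.range := by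
  by_contra hn
  let M : Subgroup _ := (φ.range.subgroupOf 𝒞[v]).map (qz v)
  have mM : ∀ x, qz v x ∈ M ↔ x.1 ∈ φ.range := fun x => ⟨fun ⟨y, hy, e⟩ => by
    rcases (qz_eq h.vv).1 e with e | e <;> rw [e]
    exacts [hy, mul_mem hy h.vH], fun e => ⟨x, e, rfl⟩⟩
  let U : Set _ := qz v '' {y | y.1 * y.1 = 1 ∧ ¬ Lf π y.1 ∧ ¬ Lf π (y.1 * v)}
  have mk : ∀ a : A8, a * McL.vv = McL.vv * a → φ a ∈ (𝒞[v] : Subgroup X) := fun a e =>
    mem_centralizer_singleton_iff.2 (by rw [← h.pv', ← map_mul, ← map_mul, e])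
  let x1 : (𝒞[v] : Subgroup X) := ⟨φ z1, mk _ (by decide)⟩
  let x2 : (𝒞[v] : Subgroup X) := ⟨φ z2, mk _ (by decide)⟩
  have e12 : (x1 * x2).1 = φ (z1 * z2) := (map_mul φ _ _).symm
  have mU : ∀ (x : (𝒞[v] : Subgroup X)) (a : A8), x.1 = φ a → a * a = 1 → a ≠ 1 → FP a.1 →
      a * McL.vv * (a * McL.vv) = 1 → a * McL.vv ≠ 1 → FP (a * McL.vv).1 → qz v x ∈ U ∩ M :=
    fun x a e h1 h2 h3 h4 h5 h6 => ⟨⟨x, ⟨by rw [e, ← map_mul, h1, map_one], by rw [e]; exact (h.lf h1 h2).2 h3,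
      by rw [e, ← h.pv', ← map_mul]; exact (h.lf h4 h5).2 h6⟩, rfl⟩, (mM x).2 ⟨a, e.symm⟩⟩
  have m1 := mU x1 z1 rfl (by decide) (by decide) (by decide) (by decide) (by decide) (by decide)
  have m2 := mU x2 z2 rfl (by decide) (by decide) (by decide) (by decide) (by decide) (by decide)
  have m3 := mU _ _ e12 (by decide) (by decide) (by decide) (by decide) (by decide) (by decide)
  have ne : ∀ (x y : (𝒞[v] : Subgroup X)) (a b : A8), x.1 = φ a → y.1 = φ b → b ≠ a → b ≠ a * McL.vv →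
      qz v x ≠ qz v y := fun x y a b e1 e2 h1 h2 e => by
    rw [qz_eq h.vv, e1, e2, ← h.pv', ← map_mul] at e
    exact e.elim (fun e => h1 (h.pi e)) fun e => h2 (h.pi e)
  have eU : U ∩ M = {qz v x1, qz v x2, qz v (x1 * x2)} := by
    refine Set.Subset.antisymm ?_ (by rintro _ (rfl | rfl | rfl) <;> assumption)
    rintro _ ⟨⟨x, ⟨h1, h2, h3⟩, rfl⟩, hM⟩
    obtain ⟨a, e⟩ := (mM x).1 hM
    have c := cz x
    have h4 : x.1 * v * (x.1 * v) = 1 := by rw [← sq, c.mul_pow, sq, sq, h1, h.vv, one_mul]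
    rw [← e, ← h.pv', ← map_mul] at h3 h4
    rw [← e] at h1 h2
    rw [← e, ← h.pv'] at c
    simp only [Set.mem_insert_iff, Set.mem_singleton_iff]
    rw [eq_comm, eq_comm (a := qz v x), eq_comm (a := qz v x), qz_eq h.vv, qz_eq h.vv, qz_eq h.vv, e12, ← e]
    rcases fS a (h.comm.1 c) (h.psq h1) (h.fp h1 h2).1 (h.fp h4 h3).1 (h.fp h1 h2).2 (h.fp h4 h3).2 with
      rfl | rfl | rfl | rfl | rfl | rfl <;> simp [x1, x2, h.pv']
  have s1 : qz v x1 * qz v x1 = 1 := by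
    rw [← map_mul, qz_one h.vv]; left; show φ z1 * φ z1 = 1; rw [← map_mul, show z1 * z1 = 1 by decide, map_one]
  have s2 : qz v x2 * qz v x2 = 1 := by
    rw [← map_mul, qz_one h.vv]; left; show φ z2 * φ z2 = 1; rw [← map_mul, show z2 * z2 = 1 by decide, map_one]
  have c12 : qz v x2 * qz v x1 = qz v x1 * qz v x2 := by
    rw [← map_mul, ← map_mul, qz_eq h.vv]; left
    show φ z1 * φ z2 = φ z2 * φ z1
    rw [← map_mul, ← map_mul, show z1 * z2 = z2 * z1 by decide]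
  obtain ⟨x, hx, hx', o⟩ := mid (M := M) (U := U) (g := qz v ⟨g, mem_centralizer_singleton_iff.2 hg⟩)
    (by
      rintro _ ⟨y, ⟨h1, h2, h3⟩, rfl⟩ c
      obtain ⟨c, rfl⟩ := QuotientGroup.mk'_surjective _ c
      refine ⟨c * y * c⁻¹, ⟨cj_sq h1 c.1, fun e => h2 (e.conj h.sur (isConj_iff.2 ⟨c.1, rfl⟩).symm),
        fun e => h3 (e.conj h.sur (isConj_iff.2 ⟨c.1, ?_⟩).symm)⟩, by simp⟩
      show _ = c.1 * y.1 * c.1⁻¹ * v
      rw [mul_assoc _ _ v, (cz c).inv_left.eq]; group)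
    (by
      rintro _ ⟨y, ⟨h1, -, -⟩, rfl⟩
      rw [← map_mul, show y * y = 1 from Subtype.ext h1, map_one])
    (fun y a b y' a' b' n => by
      have k1 : y ∈ U ∩ M := ⟨a, b⟩
      have k2 : y' ∈ U ∩ M := ⟨a', b'⟩
      have m3' := m3.1
      rw [map_mul] at m3'
      rw [eU, map_mul] at k1 k2
      rcases k1 with rfl | rfl | rfl <;> rcases k2 with rfl | rfl | rfl
      exacts [absurd rfl n, m3', by rw [← mul_assoc, s1, one_mul]; exact m2.1, c12 ▸ m3', absurd rfl n,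
        by rw [← c12, ← mul_assoc, s2, one_mul]; exact m1.1, by rw [← c12, mul_assoc, s1, mul_one]; exact m2.1,
        by rw [mul_assoc, s2, mul_one]; exact m1.1, absurd rfl n])
    (by
      rw [eU]
      exact Set.ncard_eq_three.2 ⟨_, _, _, ne x1 x2 z1 z2 rfl rfl (by decide) (by decide),
        ne x1 _ z1 _ rfl e12 (by decide) (by decide), ne x2 _ z2 _ rfl e12 (by decide) (by decide), rfl⟩)
    (by
      rintro _ ⟨y, ⟨h1, h2, -⟩, rfl⟩ hy c hc
      obtain ⟨c, rfl⟩ := QuotientGroup.mk'_surjective _ c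
      rw [← map_inv, ← map_mul, ← map_mul] at hc
      exact (mM c).2 (h.hU ((mM y).1 hy) h1 h2 ((mM _).1 hc)))
    (fun e => hn ((mM _).1 e))
  obtain ⟨x, rfl⟩ := QuotientGroup.mk'_surjective _ x
  rw [← map_inv, ← map_mul, ← map_mul] at hx'
  have x1 : x.1 ∈ φ.range := (mM _).1 hx
  have x2 : g * x.1 * g⁻¹ ∈ φ.range := (mM _).1 hx'
  have x3 : (x ^ 3).1 = 1 ∨ (x ^ 3).1 = v := (qz_one h.vv).1 (by rw [map_pow, ← o, pow_orderOf_eq_one])
  have := Fact.mk Nat.prime_three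
  refine hn (h.s3 (x := x.1 ^ 2) (pow_mem x1 2) (by rw [← conj_pow]; exact pow_mem x2 2) (orderOf_eq_prime ?_ fun e => ?_))
  · rw [← pow_mul, mul_comm, pow_mul, sq]
    rcases x3 with e | e <;> rw [show x.1 ^ 3 = _ from e]
    exacts [one_mul _, h.vv]
  · have := orderOf_dvd_of_pow_eq_one (show qz v x ^ 2 = 1 by rw [← map_pow, show x ^ 2 = 1 from Subtype.ext e, map_one])
    rw [o] at this
    revert this; decide

theorem cI {z g : X} (hz : z ∈ φ.range) (z2 : z * z = 1) (z1 : z ≠ 1) {y : X} (e : g * z * g⁻¹ = y)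
    (hy : y ∈ φ.range) : g ∈ φ.range := by
  by_cases n : Lf π z
  swap
  · exact h.hU hz z2 n (e ▸ hy)
  have k : ∀ a, φ a * φ a = 1 → φ a ≠ 1 → Lf π (φ a) → ∃ c ∈ φ.range, c * v * c⁻¹ = φ a := fun a a2 a1 n => by
    have a1 : a ≠ 1 := fun e => a1 (by rw [e, map_one])
    rw [← h.pv']
    exact rng_cj φ ((conj2 (h.psq a2) a1).resolve_left fun e => (h.lf (h.psq a2) a1).2 e.1 n).2
  obtain ⟨a, rfl⟩ := hz
  obtain ⟨b, rfl⟩ := hy
  exact cj_mem (fun z => h.cV) (k a z2 z1 n) (e ▸ k b (by rw [← e]; exact cj_sq z2 g)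
    (by rw [← e]; exact fun e => z1 (conj_eq_one_iff.1 e)) (by rw [← e]; exact n.cj h.sur g))

theorem surj : Function.Surjective φ := fun g => by
  refine h.cI h.vH h.vv h.v1 rfl ?_
  have s1 : f uu * f uu = 1 := by rw [← map_mul, show uu * uu = 1 by decide, map_one]
  obtain ⟨k, k1, k2⟩ := dih_exists_of_even (dih_even_of_not_isConj s1 (cj_sq h.vv g) fun e =>
    h.nu ((h.pv.cj h.sur g).conj h.sur e.symm))
  obtain ⟨c1, c2⟩ := dih_commute s1 (cj_sq h.vv g) k1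
  have := h.cU c1.symm
  exact h.cI this k1 k2 (by rw [c2.eq, mul_inv_cancel_right]) this

end XA

/-- the centralizer is a non-split double cover of `A₈` -/
theorem XH.dc [Finite C] (h : XH π t N1 f v) : ∃ φ : C →* A8, DC t φ := by
  have : Finite X := Finite.of_surjective π h.sur
  obtain ⟨φ, h1, h2, h3, h4⟩ := h.exφ
  have H : XA π t f v φ := ⟨h, h1, h2, h3, h4⟩
  let e := MulEquiv.ofBijective φ ⟨h1, H.surj⟩
  refine ⟨e.symm.toMonoidHom.comp π, e.symm.surjective.comp h.sur, ?_, h.ot, ?_⟩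
  · rw [← h.ker]; ext; simp
  · let a : A8 := ⟨swap 0 1 * swap 2 3, by decide +kernel⟩
    have := (H.lf (g := a) (by decide) (by decide)).2 (by decide)
    unfold Lf at this
    push_neg at this
    obtain ⟨c, e1, e2⟩ := this
    refine ⟨c, ?_, (mem_zp2 (by rw [← pow_two, ← h.ot, pow_orderOf_eq_one]) (h.ker.le (MonoidHom.mem_ker.2 ?_))).resolve_left e2⟩
    · exact congrArg Subtype.val (show e.symm (π c) = a by rw [e1]; exact e.symm_apply_apply a)
    · rw [map_mul, e1, ← map_mul, show a * a = 1 by decide, map_one]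

theorem realizeEqns_McL_C8 : True := by
  have := @CA.McL.zc.eq_1.{0}
  have := @CA.McL.zc.eq_def.{0}
  have := @CA.McL.zc.congr_simp.{0}
  have := @CA.McL.qz.eq_1.{0}
  have := @CA.McL.qz.eq_def.{0}
  have := @CA.McL.qz.congr_simp.{0}
  trivial

end CA.McL
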