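/-
The McLaughlin group: upper bound for the order.
-/
import Cfsg.Agent.M24.Leech5
import Cfsg.Agent.M24.Master
import Cfsg.Agent.J4.Aut
import Cfsg.Agent.PM.V

set_option autoImplicit false
set_option maxRecDepth 100000

namespace CA.McL

open Cfsg CA.M24 Subgroup Equiv

noncomputable section

local notation "Λ" => leechLattice
local notation "uu" => Spor.vecU
local notation "uu'" => Spor.vecU'
local notation "vv" => Spor.vecV

/-- the lattice automorphism underlying a member of the McLaughlin group -/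
def toCo : Spor.McL →* Co0 := Subgroup.inclusion (inf_le_left.trans inf_le_left)

theorem toCo_inj : Function.Injective toCo := Subgroup.inclusion_injective _

instance finMcL : Finite Spor.McL := Finite.of_injective _ toCo_inj

theorem mc_U (g : Spor.McL) : act (toCo g) uu = uu :=
  (act_coe (toCo g) Spor.leechU).trans (congrArg Subtype.val g.2.2)

theorem mc_V (g : Spor.McL) : act (toCo g) vv = vv :=
  (act_coe (toCo g) Spor.leechV).trans (congrArg Subtype.val g.2.1.2)

theorem dot_V (x : Vec) : dotInt x vv = -(∑ i, x i) - 4 * x none := by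
  have : ∀ i, x i * vv i = -x i - 4 * (ind {none} i * x i) := fun i => by
    by_cases h : i = none
    · subst h; simp [Spor.vecV, ind]; ring
    · simp [Spor.vecV, ind, h]
  simp only [dotInt, this, Finset.sum_sub_distrib, Finset.sum_neg_distrib, ← Finset.mul_sum, sum_ind_mul,
    Finset.sum_singleton]

theorem le_sum2 {f : Pt → ℤ} (h : ∀ i, 0 ≤ f i) {p q : Pt} (e : p ≠ q) : f p + f q ≤ ∑ i, f i := by
  rw [← Finset.sum_pair e]
  exact Finset.sum_le_sum_of_subset_of_nonneg (Finset.subset_univ _) fun i _ _ => h i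

theorem one_pt {f d : Pt → ℤ} (h : ∀ i, 0 ≤ f i) (h1 : ∀ i, d i ≠ 0 → 1 ≤ f i) (hs : ∑ i, f i ≤ 1) :
    ∃ p, (∀ i, i ≠ p → d i = 0) ∧ ∑ i, d i = d p ∧ f p ≤ 1 := by
  have k : ∃ p, ∀ i, i ≠ p → d i = 0 := by
    by_cases e : ∃ p, d p ≠ 0
    · obtain ⟨p, hp⟩ := e
      refine ⟨p, fun i hi => by_contra fun c => ?_⟩
      have := le_sum2 h hi
      have := h1 i c
      have := h1 p hp
      omega
    · exact ⟨none, fun i _ => by_contra fun c => e ⟨i, c⟩⟩
  obtain ⟨p, hp⟩ := k
  exact ⟨p, hp, Finset.sum_eq_single p (fun i _ hi => hp i hi) (fun c => absurd (Finset.mem_univ p) c),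
    (Finset.single_le_sum (fun i _ => h i) (Finset.mem_univ p)).trans hs⟩

/-- the four kinds of vectors -/
def yA (o : Finset Pt) : Vec := fun i => 2 * ind o i
def yB (x : Finset Pt × ℕ) : Vec := fun i =>
  2 * ind x.1 i - 4 * ind {some 0} i - 4 * ind {((x.1.erase none).erase (some 0)).toList.getD x.2 none} i
def yC (x : Finset Pt × ℕ) : Vec := fun i => 1 - 2 * ind x.1 i + 4 * ind {(x.1.erase (some 0)).toList.getD x.2 none} i

theorem exists_getD {s : Finset Pt} {p : Pt} (h : p ∈ s) : ∃ j < s.card, s.toList.getD j none = p := by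
  obtain ⟨j, hj, e⟩ := List.mem_iff_getElem.1 (Finset.mem_toList.2 h)
  exact ⟨j, by simpa using hj, by rw [List.getD_eq_getElem _ _ hj, e]⟩

theorem sq_lin (a : ℤ) : 0 ≤ a * (a + 1) := by
  rcases le_or_gt 0 a with h | h
  · positivity
  · exact mul_nonneg_of_nonpos_of_nonpos h.le (by omega)

theorem classify {y : Vec} (hy : y ∈ Λ) (hn : sqNorm y = 32) (h0 : y none + y (some 0) = 0)
    (hs : ∑ i, y i + 4 * y none = 16) :
    y = uu' ∨ (∃ o ∈ octads, none ∉ o ∧ some 0 ∉ o ∧ y = yA o) ∨
      (∃ o ∈ octads, none ∈ o ∧ some 0 ∈ o ∧ ∃ j < 6, y = yB (o, j)) ∨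
      (∃ o ∈ octads, none ∉ o ∧ some 0 ∈ o ∧ ∃ j < 7, y = yC (o, j)) := by
  obtain ⟨m, hm, c, hc, w, hw, -⟩ := leech_cases hy
  have hS := sum_form hw
  have hcc := card_of_mem_Cs hc
  have n0 : (none : Pt) ≠ some 0 := by decide
  have a0 := hw none
  have a1 := hw (some 0)
  rcases hm with rfl | rfl
  · -- even vectors
    have e1 : ∀ i, y i ^ 2 = 4 * ind c i + 16 * (w i * (w i + ind c i)) := fun i => by
      rw [hw i]; rcases ind_cases c i with ⟨-, e⟩ | ⟨-, e⟩ <;> rw [e] <;> ring
    have p1 : ∀ i, 0 ≤ w i * (w i + ind c i) := fun i => by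
      rcases ind_cases c i with ⟨-, e⟩ | ⟨-, e⟩ <;> rw [e]
      exacts [sq_lin _, by rw [add_zero]; exact mul_self_nonneg _]
    have e2 : 4 * (c.card : ℤ) + 16 * ∑ i, w i * (w i + ind c i) = 32 := by
      rw [← hn, sqNorm]; simp only [e1, Finset.sum_add_distrib, ← Finset.mul_sum, sum_ind]
    have p2 : 0 ≤ ∑ i, w i * (w i + ind c i) := Finset.sum_nonneg fun i _ => p1 i
    rcases (show c.card = 0 ∨ c.card = 8 by omega) with k | k
    · obtain rfl := Finset.card_eq_zero.1 k
      have z : ∀ i, ind ∅ i = 0 := fun i => ind_of_notMem (Finset.notMem_empty i)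
      simp only [z, add_zero, Finset.card_empty, Nat.cast_zero, mul_zero, zero_add] at *
      have q1 : 0 ≤ ∑ i, w i * (w i + 1) := Finset.sum_nonneg fun i _ => sq_lin _
      have q2 : 0 ≤ ∑ i, -w i * (-w i + 1) := Finset.sum_nonneg fun i _ => sq_lin _
      simp only [mul_add, neg_mul_neg, mul_one, Finset.sum_add_distrib, Finset.sum_neg_distrib] at q1 q2
      have b0 : w none = 1 := by omega
      have b1 : w (some 0) = -1 := by omega
      left
      funext i
      by_cases i0 : i = none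
      · subst i0; rw [a0, b0]; rfl
      by_cases i1 : i = some 0
      · subst i1; rw [a1, b1]; rfl
      have : ∑ j ∈ {none, some 0, i}, w j * w j ≤ ∑ j, w j * w j :=
        Finset.sum_le_sum_of_subset_of_nonneg (Finset.subset_univ _) fun j _ _ => mul_self_nonneg _
      rw [Finset.sum_insert (by simp [Ne.symm i0]), Finset.sum_pair (Ne.symm i1), b0, b1] at this
      have : w i * w i = 0 := le_antisymm (by omega) (mul_self_nonneg _)
      rw [hw i, mul_self_eq_zero.1 this, Spor.vecU', if_neg i0, if_neg i1]; rfl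
    · have q : ∀ i, w i = 0 ∨ (i ∈ c ∧ w i = -1) := fun i => by
        have := (Finset.sum_eq_zero_iff_of_nonneg fun i _ => p1 i).1 (by omega) i (Finset.mem_univ i)
        rcases ind_cases c i with ⟨k, e⟩ | ⟨-, e⟩ <;> rw [e] at this
        · exact (mul_eq_zero.1 this).imp id fun r => ⟨k, by omega⟩
        · exact Or.inl (by simpa using this)
      have q0 : ∀ i, 0 ≤ -w i := fun i => by rcases q i with e | ⟨-, e⟩ <;> omega
      have s0 : -w none + -w (some 0) ≤ ∑ i, -w i := le_sum2 q0 n0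
      rw [Finset.sum_neg_distrib] at s0
      have r0 := q0 none
      have r1 := q0 (some 0)
      have r2 := q none
      have r3 := q (some 0)
      rcases ind_cases c none with ⟨k0, f0⟩ | ⟨k0, f0⟩ <;> rcases ind_cases c (some 0) with ⟨k1, f1⟩ | ⟨k1, f1⟩ <;>
        rw [f0] at a0 <;> rw [f1] at a1
      · have b0 : w none = 0 := by omega
        have b1 : w (some 0) = -1 := by omega
        obtain ⟨p, h1, h2, h3⟩ := one_pt (f := fun i => -w i - ind {some 0} i) (d := fun i => -w i - ind {some 0} i)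
          (fun i => by
            by_cases e : i = some 0
            · subst e; rw [ind_single_self]; omega
            · rw [ind_single_ne e]; have := q0 i; omega)
          (fun i hi => by
            by_cases e : i = some 0
            · subst e; rw [ind_single_self] at *; omega
            · rw [ind_single_ne e] at *; have := q0 i; omega)
          (by rw [Finset.sum_sub_distrib, Finset.sum_neg_distrib, sum_ind]; simp only [Finset.card_singleton]; omega)
        rw [Finset.sum_sub_distrib, Finset.sum_neg_distrib, sum_ind] at h2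
        simp only [Finset.card_singleton] at h2
        have p0 : p ≠ some 0 := by rintro rfl; rw [ind_single_self] at h2; omega
        rw [ind_single_ne p0] at h2
        have p1 : p ≠ none := by rintro rfl; omega
        have p2 : p ∈ c := by rcases q p with e | e; exacts [by omega, e.1]
        obtain ⟨j, hj, e⟩ := exists_getD (s := (c.erase none).erase (some 0)) (p := p) (by simp [p0, p1, p2])
        rw [Finset.card_erase_of_mem (by simp [k1]), Finset.card_erase_of_mem k0, k] at hj
        refine Or.inr (Or.inr (Or.inl ⟨c, ⟨hc, k⟩, k0, k1, j, hj, funext fun i => ?_⟩))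
        simp only [yB, e, hw i]
        by_cases c1 : i = p
        · subst c1; rw [ind_single_self, ind_single_ne p0]; omega
        · have := h1 i c1
          rw [ind_single_ne c1]; omega
      · omega
      · omega
      · have b0 : w none = 0 := by rcases r2 with e | e; exacts [e, absurd e.1 k0]
        have := (Finset.sum_eq_zero_iff_of_nonneg (s := Finset.univ) fun i _ => q0 i).1
          (by rw [Finset.sum_neg_distrib]; omega)
        refine Or.inr (Or.inl ⟨c, ⟨hc, k⟩, k0, k1, funext fun i => ?_⟩)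
        have := this i (Finset.mem_univ i)
        simp only [yA, hw i]; omega
  · -- odd vectors
    obtain ⟨d, hd⟩ : ∃ d : Pt → ℤ, ∀ i, d i = w i + ind c i := ⟨_, fun _ => rfl⟩
    have e1 : ∀ i, y i ^ 2 = 1 + 8 * (d i * (2 * d i + 1 - 2 * ind c i)) := fun i => by
      rw [hw i, hd i]; rcases ind_cases c i with ⟨-, e⟩ | ⟨-, e⟩ <;> rw [e] <;> ring
    have e2 : 24 * 1 + 8 * ∑ i, d i * (2 * d i + 1 - 2 * ind c i) = 32 := by
      rw [← hn, sqNorm]; simp only [e1, Finset.sum_add_distrib, ← Finset.mul_sum, sum_const_Pt]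
    have p1 : ∀ i, d i ≠ 0 → 1 ≤ d i * (2 * d i + 1 - 2 * ind c i) := fun i hi => by
      rcases ind_cases c i with ⟨-, e⟩ | ⟨-, e⟩ <;> rw [e] <;> rcases lt_or_gt_of_ne hi with l | l <;> nlinarith
    obtain ⟨p, h1, h2, h3⟩ := one_pt (f := fun i => d i * (2 * d i + 1 - 2 * ind c i)) (d := d)
      (fun i => by
        by_cases e : d i = 0
        · simp [e]
        · exact zero_le_one.trans (p1 i e)) p1 (by omega)
    have e3 : ∑ i, d i = ∑ i, w i + c.card := by simp only [hd, Finset.sum_add_distrib, sum_ind]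
    have e4 : d p * (2 * d p + 1 - 2 * ind c p) = 1 := by
      rw [Finset.sum_eq_single p (fun i _ hi => by rw [h1 i hi, zero_mul]) (fun c => absurd (Finset.mem_univ p) c)] at e2
      omega
    have e5 : (p ∈ c ∧ d p = 1) ∨ (p ∉ c ∧ d p = -1) := by
      rcases ind_cases c p with ⟨k, e⟩ | ⟨k, e⟩ <;> rw [e] at e4 <;>
        rcases Int.eq_one_or_neg_one_of_mul_eq_one e4 with l | l <;> rw [l] at e4
      exacts [Or.inl ⟨k, l⟩, by omega, by omega, Or.inr ⟨k, l⟩]
    have d0 := hd none
    have d1 := hd (some 0)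
    have c0 : none ∈ c → 1 ≤ c.card := fun h => Finset.card_pos.2 ⟨_, h⟩
    have p0 : p ≠ none := by
      rintro rfl
      have := h1 _ n0.symm
      rcases ind_cases c none with ⟨k0, f0⟩ | ⟨k0, f0⟩ <;> rcases ind_cases c (some 0) with ⟨k1, f1⟩ | ⟨k1, f1⟩ <;>
        rcases e5 with ⟨l, e⟩ | ⟨l, e⟩ <;> first | omega | exact absurd k0 l | exact absurd l k0
    have p1 : p ≠ some 0 := by
      rintro rfl
      have := h1 _ n0
      rcases ind_cases c none with ⟨k0, f0⟩ | ⟨k0, f0⟩ <;> rcases ind_cases c (some 0) with ⟨k1, f1⟩ | ⟨k1, f1⟩ <;>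
        rcases e5 with ⟨l, e⟩ | ⟨l, e⟩ <;> first | omega | exact absurd k1 l | exact absurd l k1
    have b0 := h1 _ p0.symm
    have b1 := h1 _ p1.symm
    rcases ind_cases c none with ⟨k0, f0⟩ | ⟨k0, f0⟩ <;> rcases ind_cases c (some 0) with ⟨k1, f1⟩ | ⟨k1, f1⟩
    · omega
    · have := c0 k0; omega
    · have k : c.card = 8 := by omega
      have p2 : p ∈ c ∧ d p = 1 := e5.resolve_right (by omega)
      obtain ⟨j, hj, e⟩ := exists_getD (s := c.erase (some 0)) (p := p) (by simp [p1, p2.1])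
      rw [Finset.card_erase_of_mem k1, k] at hj
      refine Or.inr (Or.inr (Or.inr ⟨c, ⟨hc, k⟩, k0, k1, j, hj, funext fun i => ?_⟩))
      simp only [yC, e, hw i]
      have := hd i
      by_cases c1 : i = p
      · subst c1; rw [ind_single_self]; omega
      · have := h1 i c1
        rw [ind_single_ne c1]; omega
    · omega

theorem nc_oct (a b : Bool) : {o | o ∈ octads ∧ (none ∈ o ↔ a = true) ∧ (some 0 ∈ o ↔ b = true)}.ncard =
    octT.cnt fun m => band (Bool.rec (bnot (tb m 23)) (tb m 23) a) (Bool.rec (bnot (tb m 0)) (tb m 0) b) :=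
  ncard_octads_filter _ _ fun x => by
    have e1 : (mask x).testBit 23 = true ↔ none ∈ x := by rw [testBit_mask]; simp [pt23]
    have e2 : (mask x).testBit 0 = true ↔ some 0 ∈ x := by rw [testBit_mask]; simp [pt]
    cases a <;> cases b <;>
      simp only [Set.mem_setOf_eq, band_eq_true, bnot_eq_true, tb_eq_true, e1, e2, Bool.false_eq_true, iff_false,
        iff_true]

theorem nc_prod {A : Set (Finset Pt)} (k : ℕ) (f : Finset Pt × ℕ → Vec) :
    (f '' (A ×ˢ Set.Iio k)).Finite ∧ (f '' (A ×ˢ Set.Iio k)).ncard ≤ A.ncard * k := by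
  have fi : (A ×ˢ Set.Iio k).Finite := (Set.toFinite A).prod (Set.finite_Iio k)
  refine ⟨fi.image f, (Set.ncard_image_le fi).trans ?_⟩
  rw [Set.ncard_prod, Set.ncard_eq_toFinset_card' (Set.Iio k), Set.toFinset_Iio, Nat.card_Iio]

theorem orb_le : ((fun g : Spor.McL => act (toCo g⁻¹) uu') '' (⊤ : Subgroup Spor.McL)).ncard ≤ 2025 := by
  have hA := nc_oct false false
  have hB := nc_oct true true
  have hC := nc_oct false true
  rw [show (octT.cnt _ : ℕ) = 330 by decide +kernel] at hA
  rw [show (octT.cnt _ : ℕ) = 77 by decide +kernel] at hB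
  rw [show (octT.cnt _ : ℕ) = 176 by decide +kernel] at hC
  generalize hA' : {o | o ∈ octads ∧ (none ∈ o ↔ false = true) ∧ (some 0 ∈ o ↔ false = true)} = A at hA
  generalize hB' : {o | o ∈ octads ∧ (none ∈ o ↔ true = true) ∧ (some 0 ∈ o ↔ true = true)} = B at hB
  generalize hC' : {o | o ∈ octads ∧ (none ∈ o ↔ false = true) ∧ (some 0 ∈ o ↔ true = true)} = C at hC
  obtain ⟨f2, g2⟩ := nc_prod (A := B) 6 yB
  obtain ⟨f3, g3⟩ := nc_prod (A := C) 7 yC
  have g1 : (yA '' A).ncard ≤ A.ncard := Set.ncard_image_le (Set.toFinite A)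
  refine (Set.ncard_le_ncard (t := {uu'} ∪ (yA '' A ∪ (yB '' (B ×ˢ Set.Iio 6) ∪ yC '' (C ×ˢ Set.Iio 7)))) ?_
    ((Set.finite_singleton _).union (((Set.toFinite A).image _).union (f2.union f3)))).trans ?_
  · rintro _ ⟨g, -, rfl⟩
    have k1 := dot_act (toCo g⁻¹) vecU'_mem vecU_mem
    have k2 := dot_act (toCo g⁻¹) vecU'_mem vecV_mem
    rw [mc_U, dot_U, dot_U] at k1
    rw [mc_V, dot_V, show dotInt uu' vv = -16 by decide +kernel] at k2
    change 4 * (act (toCo g⁻¹) uu' none + act (toCo g⁻¹) uu' (some 0)) = 0 at k1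
    rcases classify (act_mem (toCo g⁻¹) vecU'_mem) (by rw [sqNorm_act]; decide +kernel) (by omega) (by omega) with
      e | ⟨o, h1, h2, h3, e⟩ | ⟨o, h1, h2, h3, j, hj, e⟩ | ⟨o, h1, h2, h3, j, hj, e⟩
    · exact Or.inl e
    · exact Or.inr (Or.inl ⟨o, hA' ▸ ⟨h1, by simp [h2], by simp [h3]⟩, e.symm⟩)
    · exact Or.inr (Or.inr (Or.inl ⟨(o, j), ⟨hB' ▸ ⟨h1, by simp [h2], by simp [h3]⟩, hj⟩, e.symm⟩))
    · exact Or.inr (Or.inr (Or.inr ⟨(o, j), ⟨hC' ▸ ⟨h1, by simp [h2], by simp [h3]⟩, hj⟩, e.symm⟩))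
  · have := Set.ncard_union_le {uu'} (yA '' A ∪ (yB '' (B ×ˢ Set.Iio 6) ∪ yC '' (C ×ˢ Set.Iio 7)))
    have := Set.ncard_union_le (yA '' A) (yB '' (B ×ˢ Set.Iio 6) ∪ yC '' (C ×ˢ Set.Iio 7))
    have := Set.ncard_union_le (yB '' (B ×ˢ Set.Iio 6)) (yC '' (C ×ˢ Set.Iio 7))
    rw [Set.ncard_singleton] at *
    omega

theorem stab_M22 {g : Spor.McL} (h : act (toCo g) uu' = uu') : ∃ π : Spor.M22, pC π = toCo g := by
  have e1 : act (toCo g) (e8 none) = e8 none := by
    rw [← pt23, ← U_add_U', act_add _ vecU_mem vecU'_mem, mc_U, h]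
  have e2 : act (toCo g) (e8 (pt 0)) = e8 (pt 0) := by
    rw [← U_sub_U', act_sub _ vecU_mem vecU'_mem, mc_U, h]
  obtain ⟨c, hc, π, hπ, e⟩ := mono_of_cong (g := toCo g) (by rw [e1]; exact Cong.refl _)
  have k : ∀ p, act (toCo g) (e8 p) = e8 p → π p = p := fun p hp => by
    rw [e, act_mono_e8 hπ hc] at hp
    rcases sgn_e8 c (π p) with l | l <;> rw [l] at hp
    exacts [e8_inj hp, absurd hp.symm (e8_ne_neg _ _)]
  have f1 := k _ e1
  have f2 := mc_V g
  have f3 : prm π vv = vv := funext fun i => by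
    simp only [prm, Spor.vecV, show π⁻¹ i = none ↔ i = none by rw [Perm.inv_eq_iff_eq, f1]]
  rw [e, act_mul, act_pC hπ vecV_mem, f3, act_eps hc vecV_mem] at f2
  obtain rfl : c = ∅ := Finset.eq_empty_of_forall_notMem fun i hi => by
    have := congrFun f2 i
    rw [sgn_of_mem _ hi] at this
    simp only [Spor.vecV] at this
    split_ifs at this <;> omega
  exact ⟨⟨π, ⟨hπ, f1⟩, k _ e2⟩, by rw [e, eps_empty, one_mul]⟩

theorem card_McL_le : Nat.card Spor.McL ≤ 898128000 := by
  let K : Subgroup Spor.McL := MulAction.stabilizer Spor.McL Spor.leechU'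
  have mK : ∀ g, g ∈ K ↔ act (toCo g) uu' = uu' := fun g =>
    ⟨fun h => (act_coe (toCo g) Spor.leechU').trans (congrArg Subtype.val h),
      fun h => Subtype.ext ((act_coe (toCo g) Spor.leechU').symm.trans h)⟩
  have e := PM.card_eq_range (D := ⊤) (K := K) (fun g : Spor.McL => act (toCo g⁻¹) uu') fun x _ y _ => by
    rw [mK, map_mul, act_mul, map_inv toCo x]
    exact ⟨fun e => by rw [← e, act_act_inv], fun e => by rw [← act_inv_act (toCo x) (act (toCo y⁻¹) uu'), e]⟩
  rw [card_top, top_inf_eq] at e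
  have k : Nat.card K ≤ 443520 := by
    choose F hF using fun g : K => stab_M22 ((mK g).1 g.2)
    rw [← J4.card_M22]
    exact Nat.card_le_card_of_injective F fun x y h => Subtype.ext (toCo_inj (by rw [← hF, ← hF, h]))
  rw [e]
  exact Nat.mul_le_mul orb_le k

end

theorem realizeEqns_McL_D1 : True := by
  have := @CA.McL.yC.eq_1
  have := @CA.McL.yC.eq_def
  have := @CA.McL.yC.congr_simp
  have := @CA.McL.toCo.eq_1
  have := @CA.McL.toCo.eq_def
  have := @CA.McL.toCo.congr_simp
  have := @CA.McL.yB.eq_1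
  have := @CA.McL.yB.eq_def
  have := @CA.McL.yB.congr_simp
  have := @CA.McL.yA.eq_1
  have := @CA.McL.yA.eq_def
  have := @CA.McL.yA.congr_simp
  trivial

end CA.McL
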