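/-
The McLaughlin group on 275 vectors: the based model and the order.
-/
import Cfsg.Agent.McL.D0
import Cfsg.Agent.McL.D1

set_option autoImplicit false
set_option maxRecDepth 100000

namespace CA.PM

open CA.TC Subgroup

variable {X : Type*} [Group X] {a : ℕ → X} {S n : ℕ} {act : ℕ → ℕ → ℕ}

theorem Mod.lev (M : Mod a S n act) {b : ℕ} (hb : b < n) {L : List ℕ} {N : ℕ} {W : ℕ → List ℕ} {kt : ℕ → ℕ}
    (h : ∀ i < N, lvChk act S L b W kt i = true) {D : Subgroup X}
    (hD : D ≤ gp a S ∧ ∀ w, inS S w = true → fixB act L w = true → wd a w ∈ D) :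
    N * Nat.card (D ⊓ M.st hb : Subgroup X) ≤ Nat.card D ∧ (D ⊓ M.st hb ≤ gp a S ∧
      ∀ w, inS S w = true → fixB act (b :: L) w = true → wd a w ∈ D ⊓ M.st hb) := by
  have k : ∀ i < N, (inS S (W i) = true ∧ fixB act L (W i) = true) ∧ run act (W i) b = kt i ∧ kt i < kt (i + 1) :=
    fun i hi => by
      have := h i hi
      unfold lvChk at this
      rwa [band_iff, band_iff, frc_eq, band_iff, beq_iff, blt_iff] at this
  refine ⟨?_, inf_le_left.trans hD.1, fun w hw e => ?_⟩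
  · rw [M.card_eq hb hD.1]
    refine Nat.mul_le_mul_right _ (le_ncard ((Set.finite_Iio n).subset ?_) kt
      (fun i hi => ⟨_, hD.2 _ (k i hi).1.1 (k i hi).1.2, (M.img_wd (k i hi).1.1 hb).trans (k i hi).2.1⟩)
      (inj_of_lt fun i hi => (k i (by omega)).2.2))
    rintro _ ⟨x, -, rfl⟩; exact M.img_lt x hb
  · rw [fixB_iff] at e
    exact ⟨hD.2 w hw (fixB_iff.2 fun c hc => e c (List.mem_cons_of_mem _ hc)), wd_mem_gp hw,
      (M.img_wd hw hb).trans (e b List.mem_cons_self)⟩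

theorem FA.ext {I : X → ℕ → ℕ} {B : List ℕ} (A : FA I n B) {x y : X} (h : ∀ p ∈ B, I x p = I y p) : x = y :=
  mul_inv_eq_one.1 (A.base _ fun b hb => by rw [A.mul _ _ _ (A.ltB b hb), h b hb, A.inv _ (A.ltB b hb)])

end CA.PM

namespace CA.McL

open Cfsg Subgroup

noncomputable section

local notation "Λ" => leechLattice

section
open CA.M24

theorem vN_uN : vN uN = Spor.vecU := by decide +kernel
theorem vN_wN : vN wN = Spor.vecV := by decide +kernel

theorem go_eq {l : Word} {P Q : ℕ} (hl : wordOk l = true) (h : wordGo l (Nat.beq P) Q = true) (hQ : vN Q ∈ Λ) :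
    M24.act (wordC l) (vN Q) = vN P := by
  obtain ⟨P', e, k⟩ := wordGo_spec hl h hQ
  rw [e, Nat.eq_of_beq_eq_true k]

theorem okL_spec {l : Word} (h : okL l = true) : wordOk l = true ∧ M24.act (wordC l) Spor.vecU = Spor.vecU ∧
    M24.act (wordC l) Spor.vecV = Spor.vecV ∧ wordC l * wordC l = 1 := by
  rw [okL, band_eq_true, band_eq_true, band_eq_true, allR_eq_true] at h
  obtain ⟨h1, ⟨h2, h3⟩, h4⟩ := h
  refine ⟨h1, vN_uN ▸ go_eq h1 h2 (vN_uN ▸ vecU_mem), vN_wN ▸ go_eq h1 h3 (vN_wN ▸ vecV_mem), eq_one_of_e8 fun p => ?_⟩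
  obtain ⟨P, e, k⟩ := wordGo_spec h1 (h4 _ (idx_lt p)) (vN_e8N _ ▸ e8_mem _)
  have := go_eq h1 k (e ▸ act_mem _ (vN_e8N _ ▸ e8_mem _))
  rw [act_mul, ← vN_e8N, e, this]

/-- the element given by a word -/
def mkL (l : Word) (h : okL l = true) : Spor.McL :=
  ⟨(wordC l).1, ⟨(wordC l).2, Subtype.ext ((act_coe (wordC l) Spor.leechV).symm.trans (okL_spec h).2.2.1)⟩,
    Subtype.ext ((act_coe (wordC l) Spor.leechU).symm.trans (okL_spec h).2.1)⟩

theorem toCo_mkL (l : Word) (h : okL l = true) : toCo (mkL l h) = wordC l := rfl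

theorem kyN_eq {P Q : ℕ} (h : vN P = vN Q) : kyN P = kyN Q := by
  have : ∀ p, vecN P (idx p) = vecN Q (idx p) := fun p => congrFun h p
  simp only [kyN, maskB_eq, this]

end

open CA.TC hiding wd wd_nil wd_cons wd_append
open CA.PM

theorem LW_all (g : ℕ) : okL (nth [] LW g) = true := by
  rcases nth_mem [] LW g with e | e
  exacts [by rw [e]; exact allL_spec LW_ok _ List.mem_cons_self, allL_spec LW_ok _ e]

/-- the basic letters -/
def a0 (g : ℕ) : Spor.McL := mkL _ (LW_all g)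

theorem pt_spec {p : ℕ} (hp : p < 275) : M24.vN (vt p) ∈ Λ ∧ kyN (vt p) = kt p ∧ kt p < kt (p + 1) ∧
    ∀ g, tb S0 g = true → M24.wordGo (nth [] LW g) (Nat.beq (vt p)) (vt (act0 g p)) = true := by
  have h := pt_ok p hp
  unfold ptChk at h
  rw [frc_eq, band_iff, band_iff, band_iff, beq_iff, blt_iff] at h
  exact ⟨M24.mem_of_lchk h.1.1, h.1.2.1, h.1.2.2, fun g hg => by
    have := allS_spec (by decide) h.2 hg
    rwa [frc_eq] at this⟩

theorem mod0 : Mod a0 S0 275 act0 := by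
  have T : Tb S0 275 act0 := Tb.of_chk (by decide) tb0
  refine Mod.of_rel T (fun g _ => toCo_inj (by rw [map_mul, map_one]; exact (okL_spec (LW_all g)).2.2.2))
    (fun x p q => M24.act (toCo x) (M24.vN (vt q)) = M24.vN (vt p)) (fun p _ => by rw [map_one, M24.act_one])
    (fun x g p q hg hp e => ?_) fun p hp q hq e => ?_
  · rw [map_mul, M24.act_mul, e]
    exact go_eq (okL_spec (LW_all g)).1 ((pt_spec hp).2.2.2 g hg) (pt_spec (T.lt g hg p hp)).1
  · rw [map_one, M24.act_one] at e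
    refine inj_of_lt (N := 275) (k := kt) (fun i hi => (pt_spec (by omega)).2.2.1) q hq p hp ?_
    rw [← (pt_spec hp).2.1, ← (pt_spec hq).2.1, kyN_eq e]

theorem chain0 : 898128000 ≤ Nat.card (gp a0 S0) ∧ Rel a0 act0 S0 B := by
  obtain ⟨c0, h0⟩ := mod0.lev (b := 0) (by decide) lv0_ok (D := gp a0 S0) ⟨le_rfl, fun w hw _ => wd_mem_gp hw⟩
  obtain ⟨c1, h1⟩ := mod0.lev (b := 1) (by decide) lv1_ok h0
  obtain ⟨c2, h2⟩ := mod0.lev (b := 2) (by decide) lv2_ok h1
  obtain ⟨c3, h3⟩ := mod0.lev (b := 3) (by decide) lv3_ok h2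
  obtain ⟨c4, h4⟩ := mod0.lev (b := 4) (by decide) lv4_ok h3
  have u := (card_le_card_group (gp a0 S0)).trans card_McL_le
  generalize gp a0 S0 ⊓ _ ⊓ _ ⊓ _ ⊓ _ ⊓ _ = D at c4 h4
  have p : 0 < Nat.card D := Nat.card_pos
  refine ⟨by omega, fun w hw e => ?_⟩
  have := h4.2 w hw e
  rwa [card_eq_one.1 (show Nat.card D = 1 by omega), mem_bot] at this

theorem card_McL : Nat.card Spor.McL = 898128000 :=
  le_antisymm card_McL_le (chain0.1.trans (card_le_card_group _))

theorem gp0 : gp a0 S0 = ⊤ := eq_top_of_le_card _ (card_McL ▸ chain0.1)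

theorem ltB : ∀ b ∈ B, b < 275 := by decide

theorem bm0 : BM a0 S0 275 act0 B := ⟨mod0, chain0.2, ltB⟩

/-- the action on the 275 points -/
def II : Spor.McL → ℕ → ℕ := img a0 S0 act0

theorem fa : FA II 275 B := (bm0.fa gp0).1

/-- the letters -/
def mb (g : ℕ) : Spor.McL := wd a0 (actW g)

theorem atb : AT II mb ALL 275 act := fa.derive (bm0.fa gp0).2 (by decide) act_1 act_2

theorem bm : BM mb ALL 275 act B := fa.bm atb

theorem gp5 : gp mb S5 = ⊤ := by
  rw [eq_top_iff, ← gp0]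
  refine gp_le fun g hg => ?_
  have := allS_spec (by decide) uW_ok hg
  rw [band_iff] at this
  rw [fa.ext (x := a0 g) (y := wd mb (uW g)) fun p hp => by
    rw [fa.run atb (inS_sub (by decide +kernel) this.1) (ltB p hp), ← beq_iff.1 (allL_spec this.2 p hp)]
    exact (bm0.fa gp0).2.eq g hg p (ltB p hp)]
  exact wd_mem_gp this.1

end

theorem realizeEqns_McL_D2 : True := by
  have := @CA.McL.mkL.eq_1
  have := @CA.McL.mkL.eq_def
  have := @CA.McL.mkL.congr_simp
  have := @CA.McL.a0.eq_1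
  have := @CA.McL.a0.eq_def
  have := @CA.McL.a0.congr_simp
  have := @CA.McL.II.eq_1
  have := @CA.McL.II.eq_def
  have := @CA.McL.II.congr_simp
  have := @CA.McL.mb.eq_1
  have := @CA.McL.mb.eq_def
  have := @CA.McL.mb.congr_simp
  trivial

end CA.McL
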