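/-
Coset enumeration: checks.
-/
import Cfsg.Agent.McL.D4
set_option autoImplicit false
set_option maxRecDepth 100000
namespace CA.McL
open CA.TC CA.PM
theorem C5_b_0 : rng (C5.chkB C5p) (nat_lit 0) (nat_lit 40) (nat_lit 0) = true := by decide +kernel
theorem C5_b_1 : rng (C5.chkB C5p) (nat_lit 40) (nat_lit 80) (nat_lit 0) = true := by decide +kernel
theorem C5_b_2 : rng (C5.chkB C5p) (nat_lit 80) (nat_lit 120) (nat_lit 0) = true := by decide +kernel
theorem C5_b_3 : rng (C5.chkB C5p) (nat_lit 120) (nat_lit 160) (nat_lit 0) = true := by decide +kernel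
theorem C5_b_4 : rng (C5.chkB C5p) (nat_lit 160) (nat_lit 200) (nat_lit 0) = true := by decide +kernel
theorem C5_b_5 : rng (C5.chkB C5p) (nat_lit 200) (nat_lit 240) (nat_lit 0) = true := by decide +kernel
theorem C5_b_6 : rng (C5.chkB C5p) (nat_lit 240) (nat_lit 280) (nat_lit 0) = true := by decide +kernel
theorem C5_b_7 : rng (C5.chkB C5p) (nat_lit 280) (nat_lit 320) (nat_lit 0) = true := by decide +kernel
theorem C5_b_8 : rng (C5.chkB C5p) (nat_lit 320) (nat_lit 360) (nat_lit 0) = true := by decide +kernel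
theorem C5_b_9 : rng (C5.chkB C5p) (nat_lit 360) (nat_lit 400) (nat_lit 0) = true := by decide +kernel
theorem C5_b_10 : rng (C5.chkB C5p) (nat_lit 400) (nat_lit 440) (nat_lit 0) = true := by decide +kernel
theorem C5_b_11 : rng (C5.chkB C5p) (nat_lit 440) (nat_lit 480) (nat_lit 0) = true := by decide +kernel
theorem C5_b_12 : rng (C5.chkB C5p) (nat_lit 480) (nat_lit 520) (nat_lit 0) = true := by decide +kernel
theorem C5_b_13 : rng (C5.chkB C5p) (nat_lit 520) (nat_lit 560) (nat_lit 0) = true := by decide +kernel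
theorem C5_b_14 : rng (C5.chkB C5p) (nat_lit 560) (nat_lit 600) (nat_lit 0) = true := by decide +kernel
end CA.McL
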