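/-
Coset enumeration: checks.
-/
import Cfsg.Agent.McL.D4
set_option autoImplicit false
set_option maxRecDepth 100000
namespace CA.McL
open CA.TC CA.PM
theorem C5_b_15 : rng (C5.chkB C5p) (nat_lit 600) (nat_lit 640) (nat_lit 0) = true := by decide +kernel
theorem C5_b_16 : rng (C5.chkB C5p) (nat_lit 640) (nat_lit 680) (nat_lit 0) = true := by decide +kernel
theorem C5_b_17 : rng (C5.chkB C5p) (nat_lit 680) (nat_lit 720) (nat_lit 0) = true := by decide +kernel
theorem C5_b_18 : rng (C5.chkB C5p) (nat_lit 720) (nat_lit 760) (nat_lit 0) = true := by decide +kernel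
theorem C5_b_19 : rng (C5.chkB C5p) (nat_lit 760) (nat_lit 800) (nat_lit 0) = true := by decide +kernel
theorem C5_b_20 : rng (C5.chkB C5p) (nat_lit 800) (nat_lit 840) (nat_lit 0) = true := by decide +kernel
theorem C5_b_21 : rng (C5.chkB C5p) (nat_lit 840) (nat_lit 880) (nat_lit 0) = true := by decide +kernel
theorem C5_b_22 : rng (C5.chkB C5p) (nat_lit 880) (nat_lit 920) (nat_lit 0) = true := by decide +kernel
theorem C5_b_23 : rng (C5.chkB C5p) (nat_lit 920) (nat_lit 960) (nat_lit 0) = true := by decide +kernel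
theorem C5_b_24 : rng (C5.chkB C5p) (nat_lit 960) (nat_lit 1000) (nat_lit 0) = true := by decide +kernel
theorem C5_b_25 : rng (C5.chkB C5p) (nat_lit 1000) (nat_lit 1040) (nat_lit 0) = true := by decide +kernel
theorem C5_b_26 : rng (C5.chkB C5p) (nat_lit 1040) (nat_lit 1080) (nat_lit 0) = true := by decide +kernel
theorem C5_b_27 : rng (C5.chkB C5p) (nat_lit 1080) (nat_lit 1120) (nat_lit 0) = true := by decide +kernel
theorem C5_b_28 : rng (C5.chkB C5p) (nat_lit 1120) (nat_lit 1160) (nat_lit 0) = true := by decide +kernel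
theorem C5_b_29 : rng (C5.chkB C5p) (nat_lit 1160) (nat_lit 1200) (nat_lit 0) = true := by decide +kernel
end CA.McL
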