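/-
Coset enumeration: checks.
-/
import Cfsg.Agent.McL.D4
set_option autoImplicit false
set_option maxRecDepth 100000
namespace CA.McL
open CA.TC CA.PM
theorem C5_b_30 : rng (C5.chkB C5p) (nat_lit 1200) (nat_lit 1240) (nat_lit 0) = true := by decide +kernel
theorem C5_b_31 : rng (C5.chkB C5p) (nat_lit 1240) (nat_lit 1280) (nat_lit 0) = true := by decide +kernel
theorem C5_b_32 : rng (C5.chkB C5p) (nat_lit 1280) (nat_lit 1320) (nat_lit 0) = true := by decide +kernel
theorem C5_b_33 : rng (C5.chkB C5p) (nat_lit 1320) (nat_lit 1360) (nat_lit 0) = true := by decide +kernel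
theorem C5_b_34 : rng (C5.chkB C5p) (nat_lit 1360) (nat_lit 1400) (nat_lit 0) = true := by decide +kernel
theorem C5_b_35 : rng (C5.chkB C5p) (nat_lit 1400) (nat_lit 1440) (nat_lit 0) = true := by decide +kernel
theorem C5_b_36 : rng (C5.chkB C5p) (nat_lit 1440) (nat_lit 1480) (nat_lit 0) = true := by decide +kernel
theorem C5_b_37 : rng (C5.chkB C5p) (nat_lit 1480) (nat_lit 1520) (nat_lit 0) = true := by decide +kernel
theorem C5_b_38 : rng (C5.chkB C5p) (nat_lit 1520) (nat_lit 1560) (nat_lit 0) = true := by decide +kernel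
theorem C5_b_39 : rng (C5.chkB C5p) (nat_lit 1560) (nat_lit 1600) (nat_lit 0) = true := by decide +kernel
theorem C5_b_40 : rng (C5.chkB C5p) (nat_lit 1600) (nat_lit 1640) (nat_lit 0) = true := by decide +kernel
theorem C5_b_41 : rng (C5.chkB C5p) (nat_lit 1640) (nat_lit 1680) (nat_lit 0) = true := by decide +kernel
theorem C5_b_42 : rng (C5.chkB C5p) (nat_lit 1680) (nat_lit 1720) (nat_lit 0) = true := by decide +kernel
theorem C5_b_43 : rng (C5.chkB C5p) (nat_lit 1720) (nat_lit 1757) (nat_lit 0) = true := by decide +kernel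
end CA.McL
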