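/-
The centralizer of an involution in the model as a double cover of the alternating group.
-/
import Cfsg.Agent.McL.D2
import Cfsg.Agent.McL.D3b
import Cfsg.Agent.McL.D3c
import Cfsg.Agent.McL.Defs

set_option autoImplicit false
set_option maxRecDepth 100000

namespace CA.PM

open CA.TC hiding wd wd_nil wd_cons wd_append
open CA.Fi Subgroup

variable {X Y : Type*} [Group X] [Group Y] {a : ℕ → X} {b : ℕ → Y} {S SA n : ℕ} {act : ℕ → ℕ → ℕ} {B : List ℕ}

theorem anyL_app {α : Type} {f : α → Bool} {l : List α} (m : List α) (h : anyL l f = true) : anyL (l ++ m) f = true := by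
  induction l with
  | nil => cases h
  | cons x l ih => exact bor_iff.2 ((bor_iff.1 h).imp id ih)

theorem BM.mono (M : BM a S n act B) {T : ℕ} (e : sub T S = true) : BM a T n act B :=
  ⟨M.toMod.mono e, M.rel.mono e, M.ltB⟩

theorem RM.step' {C : Cert} {B' : List ℕ} (h : C.OK) (M : BM b SA n act B) (s : Sep C SA n act B')
    {Rs : List (ℕ × List ℕ)} {E : List (List ℕ)} (hv : C.val = valS C.S act Rs E) (sq : Sq a C.S)
    (ra : ∀ r ∈ Rs, Rel a act r.1 r.2) (rb : allL Rs (fun r => band (sub r.1 SA) (leq r.2 B)) = true)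
    (ea : ∀ r ∈ E, wd a r = 1) (eb : allL E (fun r => eqW act SA B [r] []) = true) (h0 : Rel a act C.S0 B) :
    RM a C.S n act B := by
  obtain ⟨f, f1, f2⟩ := s.ex
  have l : ∀ p ∈ B' ++ B, p < n := fun p hp => (List.mem_append.1 hp).elim (s.lt p) (M.ltB p)
  have R := RM.step h M.toMod (B := B' ++ B) ⟨s.sub, l, f, f1, fun p hp => bor_iff.2 ((bor_iff.1 (f2 p hp)).imp id
    (anyL_app _))⟩ hv sq ra (fun r hr => by
      have := band_iff.1 (allL_spec rb r hr)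
      rw [leq_spec this.2]; exact M.rel.mono this.1) ea (fun r hr => M.rm.one (allL_spec eb r hr))
    (h0.monoB (List.subset_append_right _ _))
  exact ⟨R.tbl, sq, fun w hw e => R.rel w hw (fixB_iff.2 fun p hp =>
    M.cmp w (inS_sub s.sub hw) (M.rel w (inS_sub s.sub hw) e) p (l p hp)), M.ltB⟩

theorem cen2 {G A : Type*} [Group G] [Group A] {f : G →* A} {z : G} (k : ∀ x, f x = 1 ↔ x = 1 ∨ x = z) (g x : G)
    (hx : f x = 1) : Commute g x := by
  rcases (k x).1 hx with rfl | rfl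
  · exact Commute.one_right g
  · rcases (k (g * x * g⁻¹)).1 (by simp [hx]) with e | e
    · rw [conj_eq_one_iff.1 e]; exact Commute.one_right g
    · exact conj_eq_iff_commute.1 e

/-- two double covers that agree on a subgroup of odd index are isomorphic -/
theorem cover_iso {C C0 A : Type*} [Group C] [Group C0] [Group A] {φ : C →* A} {φ0 : C0 →* A} {t : C} {t0 : C0}
    (s : Function.Surjective φ) (s0 : Function.Surjective φ0) (k : ∀ x, φ x = 1 ↔ x = 1 ∨ x = t)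
    (k0 : ∀ x, φ0 x = 1 ↔ x = 1 ∨ x = t0) (n1 : t ≠ 1) (T0 : Subgroup C0) (hT : Odd T0.index) (m0 : t0 ∈ T0)
    (θ : T0 →* C) (h1 : ∀ x, φ (θ x) = φ0 x) (h2 : θ ⟨t0, m0⟩ = t) :
    ∃ ψ : C0 →* C, Function.Bijective ψ ∧ (∀ x, φ (ψ x) = φ0 x) ∧ ψ t0 = t := by
  have pt : φ t = 1 := (k t).2 (Or.inr rfl)
  have pt0 : φ0 t0 = 1 := (k0 t0).2 (Or.inr rfl)
  have tt : t * t = 1 := ((k (t * t)).1 (by simp [pt])).resolve_right fun e => n1 (mul_eq_left.1 e)
  letI : CommGroup φ.ker := { (inferInstance : Group φ.ker) with mul_comm := fun x y => Subtype.ext (cen2 k x.1 y.1 y.2).eq }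
  let D : Subgroup (C × C0) := (φ.comp (MonoidHom.fst C C0)).eqLocus (φ0.comp (MonoidHom.snd C C0))
  let π : D →* C0 := (MonoidHom.snd C C0).comp D.subtype
  have hπ : Function.Surjective π := fun x => by
    obtain ⟨c, hc⟩ := s (φ0 x)
    exact ⟨⟨(c, x), hc⟩, rfl⟩
  have hi : (T0.comap π).index = T0.index := index_comap_of_surjective _ hπ
  haveI : (T0.comap π).FiniteIndex := ⟨by rw [hi]; rintro e; rw [e] at hT; exact absurd hT (by decide)⟩
  have mk : ∀ x : T0.comap π, φ (x.1.1.1 * (θ ⟨π x.1, x.2⟩)⁻¹) = 1 := fun x => by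
    rw [map_mul, map_inv, h1, mul_inv_eq_one]; exact x.1.2
  let χ : T0.comap π →* φ.ker := MonoidHom.mk' (fun x => ⟨_, mk x⟩) fun x y => Subtype.ext (by
    have e : θ ⟨π (x * y).1, (x * y).2⟩ = θ ⟨π x.1, x.2⟩ * θ ⟨π y.1, y.2⟩ := by rw [← map_mul]; rfl
    show x.1.1.1 * y.1.1.1 * (θ ⟨π (x * y).1, (x * y).2⟩)⁻¹ =
      x.1.1.1 * (θ ⟨π x.1, x.2⟩)⁻¹ * (y.1.1.1 * (θ ⟨π y.1, y.2⟩)⁻¹)
    rw [e, mul_assoc _ _ (_ * _), (cen2 k _ _ (mk y)).eq]; group)
  let V := MonoidHom.transfer χ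
  have hV : ∀ d : D, φ d.1.1 = 1 → ∀ m : π d ∈ T0, (V d : C) = d.1.1 * (θ ⟨π d, m⟩)⁻¹ := fun d hd m => by
    have c : ∀ g : D, Commute g d := fun g => Subtype.ext (Prod.ext (cen2 k _ _ hd).eq (cen2 k0 _ _ (d.2.symm.trans hd)).eq)
    have e := MonoidHom.transfer_eq_pow χ d fun j g _ => by
      rw [mul_assoc, ← ((c g).pow_right j).eq, inv_mul_cancel_left]
    have e2 : (V d) = χ ⟨d, m⟩ ^ (T0.comap π).index := by rw [← map_pow]; exact e
    obtain ⟨j, hj⟩ := hT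
    have e3 : χ ⟨d, m⟩ ^ 2 = 1 := Subtype.ext (by
      rcases (k _).1 (χ ⟨d, m⟩).2 with r | r <;> simp [sq, r, tt])
    rw [e2, hi, hj, pow_succ, pow_mul, e3, one_pow, one_mul]
    rfl
  let Ψ : D →* C := MonoidHom.mk' (fun d => d.1.1 * (V d : C)⁻¹) fun x y => by
    show x.1.1 * y.1.1 * (V (x * y) : C)⁻¹ = _
    rw [map_mul, coe_mul, mul_assoc x.1.1 (V x : C)⁻¹, ← mul_assoc (V x : C)⁻¹,
      ← (cen2 k y.1.1 _ (V x).2).inv_right.eq, (cen2 k (V x : C) _ (V y).2).eq]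
    group
  have hΨ : ∀ d : D, φ d.1.1 = 1 → ∀ m : π d ∈ T0, Ψ d = θ ⟨π d, m⟩ := fun d hd m => by
    show d.1.1 * (V d : C)⁻¹ = _
    rw [hV d hd m, mul_inv_rev, inv_inv, (cen2 k _ _ (show φ d.1.1⁻¹ = 1 by simp [hd])).eq, mul_inv_cancel_left]
  have hk : π.ker ≤ Ψ.ker := fun d hd => by
    have e : π d = 1 := hd
    rw [MonoidHom.mem_ker, hΨ d (d.2.trans (by show φ0 (π d) = 1; rw [e, map_one])) (e ▸ one_mem _), ← map_one θ]
    exact congrArg θ (Subtype.ext e)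
  let ψ := π.liftOfSurjective hπ ⟨Ψ, hk⟩
  have hψ : ∀ d, ψ (π d) = Ψ d := fun d => MonoidHom.liftOfRightInverse_comp_apply _ _ _ _ d
  have c1 : ∀ x, φ (ψ x) = φ0 x := fun x => by
    obtain ⟨d, rfl⟩ := hπ x
    rw [hψ]
    show φ (d.1.1 * (V d : C)⁻¹) = _
    rw [map_mul, map_inv, show φ (V d : C) = 1 from (V d).2, inv_one, mul_one]; exact d.2
  have c2 : ψ t0 = t := (hψ ⟨(1, t0), (map_one φ).trans pt0.symm⟩).trans ((hΨ _ (map_one φ) m0).trans h2)
  refine ⟨ψ, ⟨(injective_iff_map_eq_one ψ).2 fun x hx => ((k0 x).1 (by rw [← c1, hx, map_one])).resolve_right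
    fun e => n1 (by rw [← c2, ← e, hx]), fun c => ?_⟩, c1, c2⟩
  obtain ⟨x, hx⟩ := s0 (φ c)
  rcases (k ((ψ x)⁻¹ * c)).1 (by rw [map_mul, map_inv, c1, hx, inv_mul_cancel]) with e | e
  · exact ⟨x, inv_mul_eq_one.1 e⟩
  · exact ⟨x * t0, by rw [map_mul, c2, ← e, mul_inv_cancel_left]⟩

end CA.PM

namespace CA.McL

open CA.TC hiding wd wd_nil wd_cons wd_append
open CA.PM CA.Fi Cfsg Subgroup Equiv

noncomputable section

/-- a product of four transpositions -/
def sw4 (a b c d e f g h : Fin 8) (k : a ≠ b ∧ c ≠ d ∧ e ≠ f ∧ g ≠ h) : alternatingGroup (Fin 8) :=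
  ⟨swap a b * swap c d * swap e f * swap g h, by simp [Perm.mem_alternatingGroup, k.1, k.2.1, k.2.2.1, k.2.2.2]⟩

/-- the images of the letters -/
def pa (g : ℕ) : alternatingGroup (Fin 8) := nth 1 [1, 1, sw4 0 1 2 3 4 6 5 7 (by decide), sw4 0 2 1 3 4 5 6 7 (by decide), sw4 0 4 1 6 2 5 3 7 (by decide), sw4 0 6 1 4 2 5 3 7 (by decide), sw4 0 3 1 2 4 5 6 7 (by decide), sw4 0 1 2 7 3 5 4 6 (by decide), sw4 0 1 2 3 4 7 5 6 (by decide), sw4 0 6 1 3 2 5 4 7 (by decide), sw4 0 6 1 3 2 7 4 5 (by decide)] g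

theorem pa_sq : ∀ g < 16, pa g * pa g = 1 := by decide +kernel
theorem pa_act : ∀ g < 16, tb SC g = true → ∀ p q : Fin 8, q.1 = act8 g p → (pa g).1 q = p := by decide +kernel

theorem mod8 : Mod pa SC 8 act8 := by
  have T : Tb SC 8 act8 := Tb.of_chk (by decide) tb8
  refine Mod.of_rel T (fun g hg => pa_sq g (lt16 (by decide) hg)) (fun x p q => ∀ hq : q < 8, (x.1 ⟨q, hq⟩).1 = p)
    (fun _ _ _ => rfl) (fun x g p q hg hp e hq => ?_) fun p _ q hq e => e hq
  exact congrArg Fin.val (pa_act g (lt16 (by decide) hg) hg ⟨p, hp⟩ _ (e hq))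

theorem card_A8 : Nat.card (alternatingGroup (Fin 8)) = 20160 := by
  rw [nat_card_alternatingGroup, Nat.card_eq_fintype_card, Fintype.card_fin]; rfl

theorem chain8 : 20160 ≤ Nat.card (gp pa SC) ∧ Rel pa act8 SC B8 := by
  obtain ⟨c0, h0⟩ := mod8.lev (b := 0) (by decide) lw0_ok (D := gp pa SC) ⟨le_rfl, fun w hw _ => wd_mem_gp hw⟩
  obtain ⟨c1, h1⟩ := mod8.lev (b := 1) (by decide) lw1_ok h0
  obtain ⟨c2, h2⟩ := mod8.lev (b := 2) (by decide) lw2_ok h1
  obtain ⟨c3, h3⟩ := mod8.lev (b := 3) (by decide) lw3_ok h2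
  obtain ⟨c4, h4⟩ := mod8.lev (b := 4) (by decide) lw4_ok h3
  obtain ⟨c5, h5⟩ := mod8.lev (b := 5) (by decide) lw5_ok h4
  have u := (card_le_card_group (gp pa SC)).trans card_A8.le
  generalize gp pa SC ⊓ _ ⊓ _ ⊓ _ ⊓ _ ⊓ _ ⊓ _ = D at c5 h5
  have p : 0 < Nat.card D := Nat.card_pos
  refine ⟨by omega, fun w hw e => ?_⟩
  have := h5.2 w hw e
  rwa [card_eq_one.1 (show Nat.card D = 1 by omega), mem_bot] at this

theorem gp8 : gp pa SC = ⊤ := eq_top_of_le_card _ (card_A8 ▸ chain8.1)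

theorem bm8 : BM pa SC 8 act8 B8 := ⟨mod8, chain8.2, by decide⟩

theorem bmC : BM mb SC 275 act B := bm.mono (by decide +kernel)

theorem diag_le : Finite (gp (fun g => (mb g, wd pa [g])) SC) ∧ Nat.card (gp (fun g => (mb g, wd pa [g])) SC) ≤ 40320 := by
  have M1 : BM mb SC 275 actS B := fa.bm ⟨bmC.sq, fun g hg p hp => by
    rw [atb.eq g (tb_sub (by decide +kernel) hg) p hp, actS, blt_iff.2 hp]⟩
  have M : RM _ SC (275 + 8) actS BS := (BM.sum (by decide) M1 bm8 sm_1 sm_2).rm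
  exact M.cov_card (by decide) (by decide) (by decide +kernel) cv3_ok
    ((M.mono (by decide +kernel)).cov_card (by decide) (by decide) (by decide +kernel) cv2_ok
      ((M.mono (by decide +kernel)).cov_card (by decide) (by decide) (by decide +kernel) cv1_ok card_gp_zero))

section
variable {G : Type*} [Group G] {a : ℕ → G}

theorem enC_spec (M : BM a SC 275 act B) {ys : List (List ℕ)} {W : ℕ → List ℕ} {kt : ℕ → ℕ} {N : ℕ}
    (h : ∀ i < N, enC ys W kt i = true) : (∀ i < N, inS SC (W i) = true ∧ wd a (W i) ∈ cW a ys) ∧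
      ∀ i < N, ∀ j < N, wd a (W i) = wd a (W j) → i = j := by
  have := M.wd_inj M.ltB (sub_refl _) fun i hi => (band_iff.1 (h i hi)).1
  exact ⟨fun i hi => ⟨this.1 i hi, mem_cW.2 fun y hy => M.rm.comm (allL_spec (band_iff.1 (h i hi)).2 y hy)⟩, this.2⟩

theorem card_gp_ge [Finite G] (M : BM a SC 275 act B) : 40320 ≤ Nat.card (gp a SC) := by
  have h1 := M.class_ge' M.ltB (sub_refl _) (z := [2]) (D := gp a SC) (fun _ => mem_gp)
    (fun i hi => (band_iff.1 (band_iff.1 (ca_ok i hi)).2).1) fun i hi => (band_iff.1 (ca_ok i hi)).1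
  obtain ⟨k1, k2⟩ := enC_spec M enK
  have h2 := le_ncard (Set.toFinite ((gp a SC ⊓ centralizer {wd a [2]} : Subgroup G) : Set G)) (fun i => wd a (WK i))
    (fun i hi => ⟨wd_mem_gp (k1 i hi).1, mem_cent_iff.2 (mem_cW.1 (k1 i hi).2 _ List.mem_cons_self)⟩) k2
  exact le_trans (Nat.mul_le_mul_left 210 h2) h1

end

theorem model_A8 : Nat.card (gp mb SC) = 40320 ∧ ∀ w, inS SC w = true → wd mb w = 1 → wd pa w = 1 := by
  obtain ⟨f, h⟩ := diag_le
  have g := card_gp_ge bmC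
  have le : gp (fun g => (mb g, wd pa [g])) SC ≤ (gp mb SC).comap (MonoidHom.fst _ _) := gp_le fun g hg => mem_gp hg
  let F : gp (fun g => (mb g, wd pa [g])) SC →* gp mb SC := ((MonoidHom.fst _ _).comp (Subgroup.subtype _)).codRestrict _
    fun x => le x.2
  have hs : Function.Surjective F := fun x => by
    obtain ⟨w, hw, e⟩ := bmC.sq.exists_wd x.2
    exact ⟨⟨_, wd_mem_gp hw⟩, Subtype.ext (by rw [← e]; exact congrArg Prod.fst (wd_prod _ _ w))⟩
  have hb := (hs.bijective_of_nat_card_le (h.trans g)).1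
  refine ⟨le_antisymm ((Nat.card_le_card_of_surjective F hs).trans h) g, fun w hw e => ?_⟩
  have := (injective_iff_map_eq_one F).1 hb ⟨_, wd_mem_gp hw⟩
    (Subtype.ext ((congrArg Prod.fst (wd_prod _ _ w)).trans e))
  have := congrArg (fun x => x.1.2) this
  simp only [wd_prod, wd_one] at this
  exact this

theorem exists_φ0 : ∃ φ0 : gp mb SC →* alternatingGroup (Fin 8), Function.Surjective φ0 ∧
    (∀ x, φ0 x = 1 ↔ x = 1 ∨ x = ⟨mb 1, mem_gp (by decide +kernel)⟩) ∧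
    ∀ w (hw : inS SC w = true), φ0 ⟨wd mb w, wd_mem_gp hw⟩ = wd pa w := by
  obtain ⟨φ, h⟩ := PM.exists_hom bm8.sq bmC.sq model_A8.2
  have hs : Function.Surjective φ := fun x => by
    obtain ⟨w, hw, e⟩ := bm8.sq.exists_wd (gp8 ▸ mem_top x)
    exact ⟨_, (h w hw).trans e⟩
  have c : Nat.card φ.ker = 2 := by
    have := φ.ker.card_mul_index
    rw [index_ker, MonoidHom.range_eq_top.2 hs, card_top, card_A8, model_A8.1] at this
    omega
  have t1 : φ ⟨mb 1, mem_gp (by decide +kernel)⟩ = 1 := by simpa [pa, nth] using h [1] (by decide +kernel)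
  have t2 : mb 1 ≠ 1 := by simpa using bm.ne1 (u := [1]) (v := []) (by decide +kernel)
  refine ⟨φ, hs, fun x => ⟨fun hx => ?_, by rintro (rfl | rfl); exacts [map_one φ, t1]⟩, h⟩
  obtain ⟨y, -, hy⟩ := (Nat.card_eq_two_iff' (1 : φ.ker)).1 c
  by_cases e : x = 1
  · exact Or.inl e
  · exact Or.inr (congrArg Subtype.val ((hy ⟨x, hx⟩ fun r => e (congrArg Subtype.val r)).trans
      (hy ⟨_, t1⟩ fun r => t2 (congrArg (fun z => z.1.1) r)).symm))

end

theorem realizeEqns_McL_D6 : True := by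
  have := @CA.McL.sw4.eq_1
  have := @CA.McL.sw4.eq_def
  have := @CA.McL.sw4.congr_simp
  have := @CA.McL.pa.eq_1
  have := @CA.McL.pa.eq_def
  have := @CA.McL.pa.congr_simp
  trivial

end CA.McL
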