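/-
A non-split double cover of the alternating group of degree eight is the one of the model.
-/
import Cfsg.Agent.McL.D6

set_option autoImplicit false
set_option maxRecDepth 100000

namespace CA.McL

open CA.TC hiding wd wd_nil wd_cons wd_append
open CA.PM CA.Fi Cfsg Subgroup Equiv

/-- letters generating the centralizer of the first one -/
structure St {G : Type*} [Group G] (a : ℕ → G) : Prop where
  bm : BM a SC 275 act B
  card : Nat.card (centralizer {a 1}) = 40320
  gen : ∀ x, Commute x (a 1) → x ∈ gp a SC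

theorem enumT {G : Type*} [Group G] {a : ℕ → G} (M : BM a SC 275 act B) :
    (∀ x ∈ gp a ST, ∃ i < 128, wd a (WT i) = x) ∧ Nat.card (gp a ST) = 128 := by
  have M' := (M.mono (T := ST) (by decide +kernel)).rm
  have h : ∀ x ∈ gp a ST, ∃ i < 128, wd a (WT i) = x := fun x hx => by
    obtain ⟨i, h1, -, h2⟩ := M'.rel.enum M'.tbl M'.sq M'.lt (by decide) (i0 := 0) (by decide) (by decide +kernel) clT hx
    exact ⟨i, h1, h2⟩
  obtain ⟨f, c⟩ := card_le_of_enum h
  exact ⟨h, le_antisymm c (M.le_card_en M.ltB (by decide +kernel) enT fun _ => mem_gp)⟩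

namespace DC

variable {C : Type*} [Group C] {t : C} {φ : C →* alternatingGroup (Fin 8)} (h : DC t φ)
include h

theorem t_ne : t ≠ 1 := fun e => by simpa [e] using h.ot

theorem t_sq : t * t = 1 := by rw [← sq, ← h.ot, pow_orderOf_eq_one]

theorem kr (x : C) : φ x = 1 ↔ x = 1 ∨ x = t := by
  rw [← MonoidHom.mem_ker, h.ker]
  refine ⟨fun ⟨n, hn⟩ => ?_, by rintro (rfl | rfl); exacts [one_mem _, mem_zpowers _]⟩
  have := zpow_mod_orderOf t n
  rw [h.ot] at this
  rcases Int.emod_two_eq_zero_or_one n with e | e <;> simp only [Nat.cast_ofNat, e, zpow_zero, zpow_one] at this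
  exacts [Or.inl (hn.symm.trans this.symm), Or.inr (hn.symm.trans this.symm)]

theorem ksq {z : C} (hz : φ z = 1) : z * z = 1 := by
  rcases (h.kr z).1 hz with rfl | rfl
  exacts [mul_one 1, h.t_sq]

theorem sq_conj {x y : C} {u : alternatingGroup (Fin 8)} (e : φ y * u = u * φ x) (hx : φ (x * x) = 1) :
    y * y = x * x := by
  obtain ⟨c, rfl⟩ := h.sur u
  have hz : φ ((c * x * c⁻¹)⁻¹ * y) = 1 := by
    rw [map_mul, map_inv, map_mul, map_mul, ← e, map_inv]; group
  obtain ⟨z, hy⟩ : ∃ z, y = c * x * c⁻¹ * z ∧ φ z = 1 := ⟨_, (mul_inv_cancel_left _ _).symm, hz⟩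
  have k := cen2 h.kr (c * x * c⁻¹) z hy.2
  calc y * y = c * x * c⁻¹ * (z * (c * x * c⁻¹)) * z := by rw [hy.1]; group
    _ = c * (x * x) * c⁻¹ * (z * z) := by rw [← k.eq]; group
    _ = x * x := by rw [h.ksq hy.2, mul_one, (cen2 h.kr c _ hx).eq, mul_inv_cancel_right]

theorem sq2 {x : C} {w u : List ℕ} (hx : φ x = wd pa w) (e : eqW act8 SC B8 [w, u] [u, [3, 6]] = true) : x * x = t := by
  obtain ⟨y, h1, h2⟩ := h.ns
  have e1 : φ y = wd pa [3, 6] := Subtype.ext (h1.trans (by decide +kernel))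
  rw [← h2]
  exact h.sq_conj (u := wd pa u) (by simpa [hx, e1] using bm8.rm.eq e) (by rw [h2]; exact (h.kr t).2 (Or.inr rfl))

theorem comm3 {x c : C} (h1 : φ c ^ 3 = 1) (h2 : Commute (φ x) (φ c)) : Commute x c := by
  rcases (h.kr (x * c * x⁻¹ * c⁻¹)).1 (by simp [h2.eq]) with e | e
  · exact conj_eq_iff_commute.1 (mul_inv_eq_one.1 e)
  · have k := cen2 h.kr x (c ^ 3) (by rw [map_pow, h1])
    have k2 := cen2 h.kr c t ((h.kr t).2 (Or.inr rfl))
    have : (x * c * x⁻¹) ^ 3 = (t * c) ^ 3 := by rw [← e, inv_mul_cancel_right]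
    rw [conj_pow, conj_eq_iff_commute.2 k, k2.symm.mul_pow, pow_succ t, sq, h.t_sq, one_mul] at this
    exact absurd (right_eq_mul.1 this) h.t_ne

theorem sq3 {x : C} (hx : φ x = pa 3) : x * x = 1 := by
  obtain ⟨y, hy⟩ := h.sur (wd pa [2, 3, 8])
  obtain ⟨c, hc⟩ := h.sur (wd pa [4, 7, 9, 6, 10, 7])
  obtain ⟨d, hd⟩ := h.sur (wd pa [2, 7, 9, 3, 10, 6, 7])
  have e : φ (y⁻¹ * x) = wd pa [2, 8] := by rw [map_mul, map_inv, hy, hx]; decide +kernel
  have e1 := h.sq2 (u := [4, 7, 9, 7]) hy (by decide +kernel)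
  have e2 := h.sq2 (u := [7, 9, 7]) e (by decide +kernel)
  have c1 : Commute y c := h.comm3 (by rw [hc]; exact bm8.rm.pow (by decide +kernel))
    (by rw [hy, hc]; exact bm8.rm.comm (by decide +kernel))
  have c2 : Commute y d := h.comm3 (by rw [hd]; exact bm8.rm.pow (by decide +kernel))
    (by rw [hy, hd]; exact bm8.rm.comm (by decide +kernel))
  have c3 := (c1.mul_right c2).mul_right (cen2 h.kr y ((c * d)⁻¹ * (y⁻¹ * x)) (by
    rw [map_mul, e, map_inv, map_mul, hc, hd]; decide +kernel))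
  rw [mul_inv_cancel_left] at c3
  calc x * x = y * (y⁻¹ * x * y) * (y⁻¹ * x) := by group
    _ = y * y * (y⁻¹ * x * (y⁻¹ * x)) := by rw [← c3.eq]; group
    _ = 1 := by rw [e1, e2, h.t_sq]

theorem rmT : ∃ a : ℕ → C, a 1 = t ∧ (∀ g, tb ST g = true → φ (a g) = pa g) ∧ RM a ST 275 act B := by
  obtain ⟨x, hx⟩ := h.sur (pa 3)
  obtain ⟨y, hy⟩ := h.sur (pa 6)
  obtain ⟨r, hr⟩ := h.sur (pa 7)
  let a : ℕ → C := fun g =>
    [1, t, x * (y * r * y * r) * x * (y * r * y * r), x, x * r * x * r, y * r * y * r, y, r].getD g 1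
  have pt := (h.kr t).2 (Or.inr rfl)
  have ha : ∀ g, tb ST g = true → φ (a g) = pa g := fun g hg => by
    have : g = 1 ∨ g = 2 ∨ g = 3 ∨ g = 4 ∨ g = 5 ∨ g = 6 ∨ g = 7 := by
      have := lt16 (by decide) hg
      revert hg; revert g; decide +kernel
    rcases this with rfl | rfl | rfl | rfl | rfl | rfl | rfl
    exacts [pt, by show φ (_ * _) = _; simp only [map_mul, hx, hy, hr]; decide +kernel, hx,
      by show φ (_ * _) = _; simp only [map_mul, hx, hr]; decide +kernel,
      by show φ (_ * _) = _; simp only [map_mul, hy, hr]; decide +kernel, hy, hr]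
  have sq : Sq a ST := fun g hg => by
    by_cases e : g = 1
    · subst e; exact h.t_sq
    have k : tb 252 g = true := by
      have := lt16 (by decide) hg
      revert hg e; revert g; decide +kernel
    rw [← h.sq3 hx]
    exact h.sq_conj (u := wd pa (cj g)) (by simpa [ha g hg, hx] using bm8.rm.eq (allS_spec (by decide) cj_ok k))
      (by rw [h.sq3 hx, map_one])
  have c1 : ∀ g, tb ST g = true → wd a [1, g, 1, g] = 1 := fun g hg => by
    show t * (a g * (t * (a g * 1))) = 1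
    rw [← mul_assoc (a g), (cen2 h.kr (a g) t pt).eq, mul_one, mul_assoc, sq g hg, mul_one, h.t_sq]
  have c2 : ∀ g k u, tb ST g = true → tb ST k = true → eqW act8 SC B8 [[g, k], u] [u, [3, 6]] = true →
      wd a [g, k, g, k, 1] = 1 := fun g k u hg hk e => by
    have := h.sq2 (x := a g * a k) (by simp [ha g hg, ha k hk]) e
    refine Eq.trans ?_ ((congrArg (· * t) this).trans h.t_sq)
    show a g * (a k * (a g * (a k * (t * 1)))) = _
    simp only [mul_assoc, mul_one]
  refine ⟨a, rfl, ha, RM.step' (Rs := []) (E := E1) C1_ok bm C1_sep rfl sq (fun _ h => nomatch h) rfl ?_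
    (by decide +kernel) (Rel.zero _ _ _)⟩
  simp only [E1, List.forall_mem_cons, List.not_mem_nil, IsEmpty.forall_iff, implies_true, and_true]
  refine ⟨c1 2 (by decide +kernel), c1 3 (by decide +kernel), c1 4 (by decide +kernel), c1 5 (by decide +kernel),
    c1 6 (by decide +kernel), c1 7 (by decide +kernel), ?_, ?_, ?_,
    c2 3 6 [] (by decide +kernel) (by decide +kernel) (by decide +kernel),
    c2 4 5 [8, 7] (by decide +kernel) (by decide +kernel) (by decide +kernel)⟩
  · refine Eq.trans ?_ (sq 4 (by decide +kernel))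
    show a 4 * (x * (r * (x * (r * 1)))) = a 4 * (x * r * x * r)
    simp only [mul_assoc, mul_one]
  · refine Eq.trans ?_ (sq 5 (by decide +kernel))
    show a 5 * (y * (r * (y * (r * 1)))) = a 5 * (y * r * y * r)
    simp only [mul_assoc, mul_one]
  · refine Eq.trans ?_ (sq 2 (by decide +kernel))
    show a 2 * (x * (a 5 * (x * (a 5 * 1)))) = a 2 * (x * a 5 * x * a 5)
    simp only [mul_assoc, mul_one]

theorem st : ∃ a : ℕ → C, a 1 = t ∧ St a := by
  obtain ⟨a, a1, a2, R⟩ := h.rmT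
  obtain ⟨φ0, s0, k0, e0⟩ := exists_φ0
  have sT : sub ST SC = true := by decide +kernel
  have le : gp mb ST ≤ gp mb SC := gp_le fun g hg => mem_gp (tb_sub sT hg)
  obtain ⟨θ, hθ⟩ := PM.exists_hom R.sq (bmC.sq.mono sT) fun w hw e =>
    R.rel w hw (fixB_iff.2 fun p hp => bmC.cmp w (inS_sub sT hw) e p (ltB p hp))
  have hi : ((gp mb ST).subgroupOf (gp mb SC)).index = 315 := by
    have := ((gp mb ST).subgroupOf (gp mb SC)).card_mul_index
    rw [Nat.card_congr (subgroupOfEquivOfLe le).toEquiv, (enumT bmC).2, model_A8.1] at this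
    omega
  obtain ⟨ψ, hb, -, h2⟩ := cover_iso h.sur s0 h.kr k0 h.t_ne ((gp mb ST).subgroupOf (gp mb SC)) (by rw [hi]; decide)
    (mem_gp (by decide +kernel)) (θ.comp (subgroupOfEquivOfLe le).toMonoidHom) (fun x => by
      obtain ⟨w, hw, e⟩ := (bmC.sq.mono sT).exists_wd x.2
      have e1 : x.1 = ⟨_, wd_mem_gp (inS_sub sT hw)⟩ := Subtype.ext e.symm
      have e2 : subgroupOfEquivOfLe le x = ⟨_, wd_mem_gp hw⟩ := Subtype.ext e.symm
      show φ (θ (subgroupOfEquivOfLe le x)) = _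
      rw [e1, e2, hθ w hw, e0 w (inS_sub sT hw), ← wd_map]
      exact wd_congr a2 hw)
    (by
      rw [← a1, ← wd_one a, ← hθ [1] (by decide +kernel)]
      exact congrArg θ (Subtype.ext (wd_one mb 1).symm))
  classical
  let b : ℕ → C := fun g => if hg : tb SC g = true then ψ ⟨mb g, mem_gp hg⟩ else 1
  have hw : ∀ w (hw : inS SC w = true), wd b w = ψ ⟨wd mb w, wd_mem_gp hw⟩ := fun w hw => by
    induction w with
    | nil => exact (map_one ψ).symm
    | cons g w ih =>
      rw [wd_cons, ih (inS_cons.1 hw).2, show b g = _ from dif_pos (inS_cons.1 hw).1, ← map_mul]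
      exact congrArg ψ (Subtype.ext (wd_cons _ _ _).symm)
  have b1 : b 1 = t := (dif_pos (by decide +kernel)).trans h2
  have one : ∀ w, inS SC w = true → (wd b w = 1 ↔ wd mb w = 1) := fun w k => by
    rw [hw w k, map_eq_one_iff ψ hb.1, Subtype.ext_iff]; rfl
  have ct : ∀ x, Commute x t := fun x => cen2 h.kr x t ((h.kr t).2 (Or.inr rfl))
  refine ⟨b, b1, ⟨⟨bmC.toTb, fun g hg => ?_, fun w k e => bmC.cmp w k ((one w k).1 e)⟩,
    fun w k e => (one w k).2 (bmC.rel w k e), ltB⟩, ?_, fun x _ => ?_⟩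
  · simpa using (one [g, g] (inS_cons.2 ⟨hg, inS_cons.2 ⟨hg, rfl⟩⟩)).2 (by simpa using bmC.sq g hg)
  · rw [b1, show centralizer {t} = ⊤ from eq_top_iff.2 fun x _ => mem_cent_iff.2 (ct x), card_top,
      ← Nat.card_eq_of_bijective ψ hb, model_A8.1]
  · obtain ⟨y, rfl⟩ := hb.2 x
    obtain ⟨w, k, e⟩ := bmC.sq.exists_wd y.2
    rw [show y = ⟨_, wd_mem_gp k⟩ from Subtype.ext e.symm, ← hw w k]
    exact wd_mem_gp k

end DC

end CA.McL
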