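/-
Local structure of the centralizer; the extra generator.
-/
import Cfsg.Agent.McL.D7

set_option autoImplicit false
set_option maxRecDepth 100000

namespace CA.McL

open CA.TC hiding wd wd_nil wd_cons wd_append
open CA.PM CA.Fi CA.Typ Cfsg Subgroup Equiv

theorem conj_odd {G : Type*} [Group G] {H T : Subgroup G} (le : T ≤ H) {m : ℕ} (h1 : Nat.card T = 128)
    (h2 : Nat.card H = 128 * m) (hm : m % 2 = 1) {x : G} (hx : x ∈ H) (h : x * x = 1) : ∃ g ∈ H, g⁻¹ * x * g ∈ T := by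
  have := (T.subgroupOf H).card_mul_index
  rw [Nat.card_congr (subgroupOfEquivOfLe le).toEquiv, h1, h2] at this
  obtain ⟨g, hg⟩ := exists_conj_of_odd (T.subgroupOf H) (zpowers ⟨x, hx⟩)
    (isP_zpowers (k := 1) (Subtype.ext (by simpa [sq] using h))) (by omega)
  exact ⟨g, g.2, hg _ (mem_zpowers _)⟩

namespace St

variable {G : Type*} [Group G] {a : ℕ → G} (h : St a)
include h

theorem eq {u v : List (List ℕ)} (e : eqW act SC B u v = true) : wds a u = wds a v := h.bm.rm.eq e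
theorem ne {u v : List (List ℕ)} (e : neW act SC B u v = true) : wds a u ≠ wds a v := h.bm.ne e

theorem congr {b : ℕ → G} (e : ∀ g, tb SC g = true → b g = a g) : St b := by
  have k := fun w hw => wd_congr (w := w) e hw
  have e1 := e 1 (by decide +kernel)
  refine ⟨⟨⟨h.bm.toTb, fun g hg => by rw [e g hg]; exact h.bm.sq g hg, fun w hw r => h.bm.cmp w hw (k w hw ▸ r)⟩,
    fun w hw r => (k w hw).trans (h.bm.rel w hw r), ltB⟩, e1 ▸ h.card, fun x hx => ?_⟩
  obtain ⟨w, hw, rfl⟩ := h.bm.sq.exists_wd (h.gen x (e1 ▸ hx))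
  exact k w hw ▸ wd_mem_gp hw

theorem le : gp a SC ≤ centralizer {a 1} := gp_le fun g hg => mem_cent_iff.2 (by
  simpa using h.bm.rm.comm (allS_spec (f := fun g => eqW act SC B [[g], [1]] [[1], [g]]) (by decide)
    (by decide +kernel) hg))

theorem tsp {x : G} (hx : x ∈ gp a ST) : x = 1 ∨ x = a 1 ∨ (x * x = 1 → ∃ c ∈ gp a SC, c * x * c⁻¹ = a 2) ∧
    ∃ y ∈ gp a ST, ¬ Commute x y := by
  obtain ⟨i, hi, rfl⟩ := (enumT h.bm).1 x hx
  have k := t_ok i hi
  unfold tChk at k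
  rw [bor_iff, bor_iff, band_iff, bor_iff] at k
  rcases k with (k | k) | ⟨k, l⟩
  · exact Or.inl (h.bm.rm.one k)
  · exact Or.inr (Or.inl (by simpa using h.bm.rm.eq1 k))
  · obtain ⟨g, g1, g2⟩ := anyS_spec l
    refine Or.inr (Or.inr ⟨fun e => ?_, a g, mem_gp g1, by simpa using h.bm.ncomm g2⟩)
    rcases k with k | k
    · exact absurd (by simpa using e) (h.ne k)
    · exact ⟨_, wd_mem_gp (eqW_inS k _ List.mem_cons_self), by simpa using h.bm.rm.conj k⟩

theorem leT : gp a ST ≤ centralizer {a 1} :=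
  (gp_le fun _ hg => mem_gp (tb_sub (by decide +kernel) hg)).trans h.le

theorem conj {x : G} (h1 : Commute x (a 1)) (h2 : x * x = 1) (h3 : x ≠ 1) (h4 : x ≠ a 1) :
    ∃ c, Commute c (a 1) ∧ c * x * c⁻¹ = a 2 := by
  obtain ⟨g, g1, g2⟩ := conj_odd h.leT (m := 315) (enumT h.bm).2 h.card rfl (mem_cent_iff.2 h1) h2
  rcases h.tsp g2 with e | e | ⟨e, -⟩
  · exact absurd (by simpa [mul_eq_one_iff_eq_inv] using e) h3
  · refine absurd ?_ h4
    calc x = g * (g⁻¹ * x * g) * g⁻¹ := by group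
      _ = _ := by rw [e, conj_eq_iff_commute.2 (mem_cent_iff.1 g1)]
  · obtain ⟨c, c1, c2⟩ := e (by rw [show g⁻¹ * x * g * (g⁻¹ * x * g) = g⁻¹ * (x * x) * g by group, h2]; group)
    exact ⟨c * g⁻¹, mem_cent_iff.1 (mul_mem (h.le c1) (inv_mem g1)), by rw [← c2]; group⟩

variable [Finite G]

theorem cardK : Nat.card (cW a [[2], [1]]) ≤ 192 := by
  have := h.bm.cc ca_ok
  rw [cW_one, wd_one, h.card] at this
  omega

theorem enum {ys : List (List ℕ)} {W : ℕ → List ℕ} {kt : ℕ → ℕ} {N : ℕ} (e : ∀ i < N, enC ys W kt i = true)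
    (c : Nat.card (cW a ys) ≤ N) {x : G} (hx : x ∈ cW a ys) : ∃ i < N, wd a (W i) = x :=
  exists_of_ncard (Set.toFinite (cW a ys : Set G)) c _ (fun i hi => ((enC_spec h.bm e).1 i hi).2) (enC_spec h.bm e).2 hx

theorem enumA {x : G} (hx : x ∈ cW a [[3], [2], [1]]) : ∃ i < 16, wd a (WA i) = x :=
  h.enum enWA (by have := h.bm.cc cb_ok; have := h.cardK; omega) hx

theorem enumB {x : G} (hx : x ∈ cW a [[6], [2], [1]]) : ∃ i < 16, wd a (WB i) = x :=
  h.enum enWB (by have := h.bm.cc cd_ok; have := h.cardK; omega) hx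

theorem ksp {x : G} (h1 : Commute x (a 1)) (h2 : Commute x (a 2)) :
    (x ^ 3 = 1 → x ≠ 1 → (∃ i < 192, o3 i = true ∧ wd a (WK i) = x) ∧ ∃ k, Commute k (a 1) ∧ Commute k (a 2) ∧
      (k * x * k⁻¹ = a 7 * a 8 ∨ k * x * k⁻¹ = (a 7 * a 8)⁻¹)) ∧
    (x * x = 1 → (x * (a 7 * a 8)⁻¹) ^ 3 = 1 → ∃ v ∈ L7, x = wd a v) ∧
    (Commute x (a 3) → Commute x (a 6) → Commute x (a 7 * a 8) → x = 1 ∨ x = a 1 ∨ x = a 2 ∨ x = a 1 * a 2) := by
  obtain ⟨i, hi, rfl⟩ := h.enum enK h.cardK (x := x) (mem_cW.2 (by simpa using ⟨h2, h1⟩))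
  have k := k_ok i hi
  have yi : wd a [8, 7] = (a 7 * a 8)⁻¹ := by simpa using h.bm.sq.rev (w := [7, 8]) (by decide +kernel)
  unfold kChk at k
  rw [band_iff, band_iff, bor_iff, bor_iff, bor_iff, bor_iff, bor_iff, band_iff, band_iff, bor_iff] at k
  obtain ⟨⟨k1, k2⟩, k3⟩ := k
  refine ⟨fun e1 e2 => ?_, fun e1 e2 => ?_, fun e1 e2 e3 => ?_⟩
  · rcases k1 with (k | k) | ⟨k0, k, l⟩
    · exact absurd (by simpa [pow_succ, mul_assoc] using e1) (h.ne k)
    · exact absurd (h.bm.rm.one k) e2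
    · have c : ∀ j, allS SQ (fun g => eqW act SC B [[g], [j]] [[j], [g]]) = true → Commute (wd a (kW i)) (a j) :=
        fun j e => comm_gp (fun g hg => by simpa using h.bm.rm.comm (allS_spec (by decide) e hg)) (wd_mem_gp k)
      exact ⟨⟨i, hi, k0, rfl⟩, _, c 1 (by decide +kernel), c 2 (by decide +kernel),
        l.imp (fun l => by simpa using h.bm.rm.conj l) fun l => yi ▸ h.bm.rm.conj l⟩
  · rcases k2 with (k | k) | k
    · exact absurd (by simpa using e1) (h.ne k)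
    · exact absurd (by simpa only [pow_succ, mul_assoc, pow_zero, one_mul, wds_cons, wds_nil, mul_one, yi] using e2) (h.ne k)
    · obtain ⟨v, v1, v2⟩ := anyL_spec k
      exact ⟨v, v1, h.bm.rm.eq1 v2⟩
  · rcases k3 with k | k
    · obtain ⟨v, v1, v2⟩ := anyL_spec k
      refine absurd ?_ (h.bm.ncomm v2)
      simp only [List.mem_cons, List.not_mem_nil, or_false] at v1
      rcases v1 with rfl | rfl | rfl <;> simpa
    · obtain ⟨v, v1, v2⟩ := anyL_spec k
      rw [h.bm.rm.eq1 v2]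
      simp only [V4, List.mem_cons, List.not_mem_nil, or_false] at v1
      rcases v1 with rfl | rfl | rfl | rfl <;> simp

/-- images of the generators of the normal 2-subgroup -/
theorem psp {T S z : List ℕ} (p : pChk T S z = true) (β : G →* G)
    (c1 : ∀ x, Commute x (a 1) → Commute x (a 2) → Commute (β x) (a 1) ∧ Commute (β x) (a 2))
    (e1 : β (a 1) = wd a T) (e2 : β (a 2) = wd a S) (e3 : β (a 7 * a 8) = a 7 * a 8) :
    ∃ Y ∈ Y3, β (a 3) * wd a Y = wd a Y * a 3 ∧ β (a 6) * wd a Y = wd a Y * wd a z := by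
  have yi : wd a [8, 7] = (a 7 * a 8)⁻¹ := by simpa using h.bm.sq.rev (w := [7, 8]) (by decide +kernel)
  have k : ∀ j, eqW act SC B [[j], [1]] [[1], [j]] = true → eqW act SC B [[j], [2]] [[2], [j]] = true →
      eqW act SC B [[j, j]] [] = true → eqW act SC B (List.replicate 3 [j, 8, 7]) [] = true → ∃ v ∈ L7, β (a j) = wd a v :=
    fun j k1 k2 k3 k4 => by
      obtain ⟨d1, d2⟩ := c1 (a j) (by simpa using h.bm.rm.comm k1) (by simpa using h.bm.rm.comm k2)
      refine (h.ksp d1 d2).2.1 (by rw [← map_mul]; simpa using congrArg β (h.bm.rm.one k3)) ?_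
      have := h.bm.rm.pow k4
      rw [wd_cons, yi] at this
      rw [← e3, ← map_inv, ← map_mul, ← map_pow, this, map_one]
  obtain ⟨f, f1, f2⟩ := k 3 (by decide +kernel) (by decide +kernel) (by decide +kernel) (by decide +kernel)
  obtain ⟨g, g1, g2⟩ := k 6 (by decide +kernel) (by decide +kernel) (by decide +kernel) (by decide +kernel)
  have := allL_spec (allL_spec p f f1) g g1
  rw [bor_iff, bor_iff] at this
  rcases this with (k | k) | k
  · refine absurd ?_ (h.ne k)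
    have := congrArg β (h.eq (u := [[3], [6], [3], [6]]) (v := [[1]]) (by decide +kernel))
    simpa only [wds_cons, wds_nil, mul_one, map_mul, wd_one, f2, g2, e1] using this
  · refine absurd ?_ (h.ne k)
    have := congrArg β (h.eq (u := [[3], [8, 7], [6], [7, 8], [3], [8, 7], [6], [7, 8]]) (v := [[2]]) (by decide +kernel))
    have y2 : wd a [7, 8] = a 7 * a 8 := by simp
    simp only [wds_cons, wds_nil, mul_one, yi, y2] at this ⊢
    generalize a 7 * a 8 = y at this e3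
    simpa only [map_mul, map_inv, wd_one, f2, g2, e2, e3] using this
  · obtain ⟨Y, Y1, Y2⟩ := anyL_spec k
    rw [band_iff] at Y2
    exact ⟨Y, Y1, by simpa [f2] using h.eq Y2.1, by simpa [g2] using h.eq Y2.2⟩

end St

end CA.McL
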