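/-
The double cover: order, involutions, Sylow subgroup.  The generator outside the centralizer.
-/
import Cfsg.Agent.McL.D8

set_option autoImplicit false
set_option maxRecDepth 100000

namespace CA.McL

open CA.TC hiding wd wd_nil wd_cons wd_append
open CA.PM CA.Fi CA.Typ Cfsg Subgroup Equiv

namespace DC

variable {C : Type*} [Group C] {t : C} {φ : C →* alternatingGroup (Fin 8)} (h : DC t φ)
include h

theorem cent (x : C) : Commute x t := cen2 h.kr x t ((h.kr t).2 (Or.inr rfl))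

theorem card : Nat.card C = 40320 := by
  obtain ⟨a, rfl, s⟩ := h.st
  rw [← s.card, show centralizer {a 1} = ⊤ from eq_top_iff.2 fun x _ => mem_cent_iff.2 (h.cent x), card_top]

theorem conj {x y : C} (hx : orderOf x = 2) (hy : orderOf y = 2) (h1 : x ≠ t) (h2 : y ≠ t) : IsConj x y := by
  obtain ⟨a, rfl, s⟩ := h.st
  have k : ∀ x : C, orderOf x = 2 → x ≠ a 1 → IsConj x (a 2) := fun x hx h1 => by
    obtain ⟨c, -, e⟩ := s.conj (h.cent x) (by rw [← sq, ← hx, pow_orderOf_eq_one]) (by rintro rfl; simp at hx) h1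
    exact isConj_iff.2 ⟨c, e⟩
  exact (k x hx h1).trans (k y hy h2).symm

theorem syl [Finite C] : ∃ T : Sylow 2 C, t ∈ ⁅(T : Subgroup C), (T : Subgroup C)⁆ ∧
    ∀ z ∈ T, (∀ x ∈ T, Commute z x) → z = 1 ∨ z = t := by
  have c := h.card
  obtain ⟨a, rfl, s⟩ := h.st
  obtain ⟨T, hT⟩ := CA.Loc.exists_sylow (p := 2) (k := 7) (enumT s.bm).2 (by rw [c]; decide)
  refine ⟨T, ?_, fun z hz e => ?_⟩
  · have m : ∀ g, tb ST g = true → a g ∈ (T : Subgroup C) := fun g hg => hT ▸ mem_gp hg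
    have := commutator_mem_commutator (m 3 (by decide +kernel)) (m 6 (by decide +kernel))
    rw [commutatorElement_def, inv_eq_of_mul_eq_one_left (s.bm.sq 3 (by decide +kernel)),
      inv_eq_of_mul_eq_one_left (s.bm.sq 6 (by decide +kernel))] at this
    have e := s.eq (u := [[3, 6, 3, 6]]) (v := [[1]]) (by decide +kernel)
    simp only [wds_cons, wds_nil, wd_cons, wd_nil, mul_one, ← mul_assoc] at e
    exact e ▸ this
  · rcases s.tsp (x := z) (hT ▸ hz) with r | r | ⟨-, y, y1, y2⟩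
    exacts [Or.inl r, Or.inr r, absurd (e y (show y ∈ (T : Subgroup C) from hT ▸ y1)) y2]

end DC

/-- the action of the element of order three -/
structure X3 {G : Type*} [Group G] (a : ℕ → G) (x : G) : Prop where
  e1 : x * a 1 * x⁻¹ = a 2
  e2 : x * a 2 * x⁻¹ = a 1 * a 2
  e3 : x * a 3 * x⁻¹ = a 3
  e6 : x * a 6 * x⁻¹ = a 5
  ey : x * (a 7 * a 8) * x⁻¹ = a 7 * a 8

theorem conj_mul' {G : Type*} [Group G] (x y z : G) : x * y * z * (x * y)⁻¹ = x * (y * z * y⁻¹) * x⁻¹ := by group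

namespace St

variable {G : Type*} [Group G] {a : ℕ → G} (h : St a)
include h

theorem cj {g k : ℕ} {w : List ℕ} (e : eqW act SC B [[g], [k]] [w, [g]] = true) : a g * a k * (a g)⁻¹ = wd a w := by
  simpa using h.bm.rm.conj e

theorem cm {g k : ℕ} (e : eqW act SC B [[g], [k]] [[k], [g]] = true) : Commute (a g) (a k) := by
  simpa using h.bm.rm.comm e

theorem t12 : a 2 * (a 1 * a 2) = a 1 := by simpa using h.eq (u := [[2, 1, 2]]) (v := [[1]]) (by decide +kernel)
theorem t112 : a 1 * (a 1 * a 2) = a 2 := by simpa using h.eq (u := [[1, 1, 2]]) (v := [[2]]) (by decide +kernel)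
theorem t122 : a 1 * a 2 * a 2 = a 1 := by simpa [mul_assoc] using h.eq (u := [[1, 2, 2]]) (v := [[1]]) (by decide +kernel)

theorem swap {g : G} (h1 : g * a 1 * g⁻¹ ≠ a 1) (h2 : Commute (g * a 1 * g⁻¹) (a 1)) :
    ∃ n, n * a 1 * n⁻¹ = a 2 ∧ n * a 2 * n⁻¹ = a 1 := by
  have s1 := h.bm.sq 1 (by decide +kernel)
  have n1 : a 1 ≠ 1 := by simpa using h.ne (u := [[1]]) (v := []) (by decide +kernel)
  have k : ∀ g : G, g * a 1 * g⁻¹ * (g * a 1 * g⁻¹) = 1 := fun g => by rw [conj_mul, s1, mul_one, mul_inv_cancel]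
  obtain ⟨c, -, e⟩ := h.conj h2 (k g) (by simpa using n1) h1
  rw [← conj_mul'] at e
  generalize c * g = u at e
  have c12 := h.cm (g := 1) (k := 2) (by decide +kernel)
  obtain ⟨d, d1, d2⟩ := h.conj (x := u⁻¹ * a 1 * u⁻¹⁻¹) (by
    have := c12.map (MulAut.conj u⁻¹)
    rwa [MulAut.conj_apply, MulAut.conj_apply, ← e, ← conj_mul', inv_mul_cancel, one_mul, inv_one, mul_one] at this)
    (k _) (fun r => n1 (conj_eq_one_iff.1 r)) fun r => by
      refine h.ne (u := [[1]]) (v := [[2]]) (by decide +kernel) ?_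
      simp only [wds_cons, wds_nil, wd_one, mul_one]
      rw [← e]; nth_rw 2 [← r]; group
  exact ⟨u * d⁻¹, by rw [conj_mul', conj_eq_iff_commute.2 d1.inv_left, e], by rw [← d2]; group⟩

theorem cK {x : G} (e1 : x * a 1 * x⁻¹ = a 2) (e2 : x * a 2 * x⁻¹ = a 1 * a 2) (y : G) (h1 : Commute y (a 1))
    (h2 : Commute y (a 2)) : Commute (x * y * x⁻¹) (a 1) ∧ Commute (x * y * x⁻¹) (a 2) := by
  have k1 := (h1.mul_right h2).map (MulAut.conj x)
  have k2 := h1.map (MulAut.conj x)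
  simp only [MulAut.conj_apply, map_mul, e1, e2, h.t12] at k1 k2
  simp only [← MulAut.conj_apply, ← map_mul] at k1
  exact ⟨k1, k2⟩

variable [Finite G]

theorem x3 {n : G} (h1 : n * a 1 * n⁻¹ = a 2) (h2 : n * a 2 * n⁻¹ = a 1) : ∃ x, X3 a x := by
  have r1 := h.cj (g := 7) (k := 1) (w := [1]) (by decide +kernel)
  have r2 := h.cj (g := 7) (k := 2) (w := [1, 2]) (by decide +kernel)
  simp only [wd_cons, wd_nil, mul_one] at r1 r2
  have y1 : Commute (a 7 * a 8) (a 1) := by simpa using h.bm.rm.comm (u := [7, 8]) (v := [1]) (by decide +kernel)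
  have y2 : Commute (a 7 * a 8) (a 2) := by simpa using h.bm.rm.comm (u := [7, 8]) (v := [2]) (by decide +kernel)
  have y3 : (a 7 * a 8) ^ 3 = 1 := by simpa using h.bm.rm.pow (u := [7, 8]) (k := 3) (by decide +kernel)
  have y4 : a 7 * a 8 ≠ 1 := by simpa using h.ne (u := [[7, 8]]) (v := []) (by decide +kernel)
  have m1 : n * a 7 * a 1 * (n * a 7)⁻¹ = a 2 := by rw [conj_mul', r1, h1]
  have m2 : n * a 7 * a 2 * (n * a 7)⁻¹ = a 1 * a 2 := by
    rw [conj_mul', r2, ← conj_mul, h1, h2, (h.cm (g := 1) (k := 2) (by decide +kernel)).eq]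
  generalize n * a 7 = m at m1 m2
  obtain ⟨c1, c2⟩ := h.cK m1 m2 _ y1 y2
  obtain ⟨-, k, k1, k2, k3⟩ := (h.ksp c1 c2).1 (by rw [conj_pow, y3, mul_one, mul_inv_cancel]) (by simpa using y4)
  rw [← conj_mul'] at k3
  have p1 : k * m * a 1 * (k * m)⁻¹ = a 2 := by rw [conj_mul', m1, conj_eq_iff_commute.2 k2]
  have p2 : k * m * a 2 * (k * m)⁻¹ = a 1 * a 2 := by rw [conj_mul', m2, conj_eq_iff_commute.2 (k1.mul_right k2)]
  generalize k * m = p at p1 p2 k3
  have p3 : p * (a 1 * a 2) * p⁻¹ = a 1 := by rw [← conj_mul, p1, p2, h.t12]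
  obtain ⟨q, q1, q2, q3⟩ : ∃ q, q * a 1 * q⁻¹ = a 2 ∧ q * a 2 * q⁻¹ = a 1 * a 2 ∧ q * (a 7 * a 8) * q⁻¹ = a 7 * a 8 := by
    refine ⟨p * (p * (p * p)), by simp only [conj_mul', p1, p2, p3], by simp only [conj_mul', p1, p2, p3], ?_⟩
    generalize a 7 * a 8 = y at k3
    have : p * p * y * (p * p)⁻¹ = y := by
      rcases k3 with e | e
      · rw [conj_mul', e, e]
      · rw [conj_mul', e, ← conj_inv, e, inv_inv]
    rw [← mul_assoc p p, conj_mul', this, this]
  obtain ⟨Y, Y1, Y2, Y3⟩ := h.psp p_ok1 (MulAut.conj q).toMonoidHom (h.cK q1 q2) (by simpa using q1) (by simpa using q2) q3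
  have c : ∀ v, (allL McL.Y3 fun Y => eqW act SC B [Y, v] [v, Y]) = true →
      (wd a Y)⁻¹ * wd a v * (wd a Y)⁻¹⁻¹ = wd a v := fun v e =>
    conj_eq_iff_commute.2 (h.bm.rm.comm (allL_spec e Y Y1)).inv_left
  refine ⟨(wd a Y)⁻¹ * q, ?_, ?_, ?_, ?_, ?_⟩ <;> rw [conj_mul']
  · simpa [q1] using c [2] (by decide +kernel)
  · simpa [q2] using c [1, 2] (by decide +kernel)
  · rw [inv_inv, mul_assoc]; exact inv_mul_eq_of_eq_mul Y2
  · rw [inv_inv, mul_assoc, ← wd_one a 5]; exact inv_mul_eq_of_eq_mul Y3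
  · simpa [q3] using c [7, 8] (by decide +kernel)

theorem x3_pow {x : G} (k : X3 a x) : x ^ 3 = 1 := by
  have p3 : x * (a 1 * a 2) * x⁻¹ = a 1 := by rw [← conj_mul, k.e1, k.e2, h.t12]
  have e : x ^ 3 = x * (x * x) := pow_three x
  have y5 : a 5 = (a 7 * a 8)⁻¹ * a 6 * (a 7 * a 8)⁻¹⁻¹ := by
    rw [inv_inv, mul_assoc]
    exact eq_inv_mul_of_mul_eq (by simpa [mul_assoc] using h.eq (u := [[7, 8, 5]]) (v := [[6, 7, 8]]) (by decide +kernel))
  have y3 : (a 7 * a 8) ^ 3 = 1 := by simpa using h.bm.rm.pow (u := [7, 8]) (k := 3) (by decide +kernel)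
  have cy := conj_eq_iff_commute.1 k.ey
  have c6 : Commute (x ^ 3) (a 6) := by
    have e6 := k.e6
    rw [y5] at e6
    generalize a 7 * a 8 = y at e6 y3 cy
    have : Commute (y * x) (a 6) := conj_eq_iff_commute.1 (by rw [conj_mul', e6]; group)
    have := this.pow_left 3
    rwa [cy.symm.mul_pow, y3, one_mul] at this
  have c : Commute x (x ^ 3) := (Commute.refl x).pow_right 3
  rw [← conj_eq_iff_commute] at c
  rcases (h.ksp (x := x ^ 3) (conj_eq_iff_commute.1 (by simp only [e, conj_mul', k.e1, k.e2, p3]))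
    (conj_eq_iff_commute.1 (by simp only [e, conj_mul', k.e1, k.e2, p3]))).2.2
    ((conj_eq_iff_commute.1 k.e3).pow_left 3) c6 (cy.pow_left 3) with r | r | r | r
  · exact r
  · rw [r, k.e1] at c
    exact absurd (by simpa using c) (h.ne (u := [[2]]) (v := [[1]]) (by decide +kernel))
  · rw [r, k.e2] at c
    exact absurd (by simpa using c) (h.ne (u := [[1, 2]]) (v := [[2]]) (by decide +kernel))
  · rw [r, p3] at c
    exact absurd (by simpa using c) (h.ne (u := [[1]]) (v := [[1, 2]]) (by decide +kernel))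

theorem x3_sq {x : G} (k : X3 a x) : a 7 * x * (a 7 * x) = 1 ∨ a 7 * x * (a 7 * x) = a 2 := by
  have b1 : a 7 * x * a 1 * (a 7 * x)⁻¹ = a 1 * a 2 := by
    rw [conj_mul', k.e1]; simpa using h.cj (g := 7) (k := 2) (w := [1, 2]) (by decide +kernel)
  have b2 : a 7 * x * a 2 * (a 7 * x)⁻¹ = a 2 := by
    rw [conj_mul', k.e2]; simpa using h.bm.rm.conj (u := [7]) (z := [1, 2]) (y := [2]) (by decide +kernel)
  have b3 : a 7 * x * a 3 * (a 7 * x)⁻¹ = wd a [7, 8, 3, 8, 7] := by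
    rw [conj_mul', k.e3]; exact h.cj (by decide +kernel)
  have b6 : a 7 * x * a 6 * (a 7 * x)⁻¹ = wd a [8, 7, 6, 7, 8] := by
    rw [conj_mul', k.e6]; exact h.cj (by decide +kernel)
  have yi : a 8 * a 7 = (a 7 * a 8)⁻¹ := by simpa using h.bm.sq.rev (w := [7, 8]) (by decide +kernel)
  have by' : a 7 * x * (a 7 * a 8) * (a 7 * x)⁻¹ = (a 7 * a 8)⁻¹ := by
    rw [conj_mul', k.ey, ← yi]; simpa using h.bm.rm.conj (u := [7]) (z := [7, 8]) (y := [8, 7]) (by decide +kernel)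
  have w3 : wd a [7, 8, 3, 8, 7] = a 7 * a 8 * a 3 * (a 7 * a 8)⁻¹ := by simp [← yi, mul_assoc]
  have w6 : wd a [8, 7, 6, 7, 8] = (a 7 * a 8)⁻¹ * a 6 * (a 7 * a 8) := by simp [← yi, mul_assoc]
  rw [w3] at b3
  rw [w6] at b6
  generalize a 7 * x = b at *
  have b12 : b * (a 1 * a 2) * b⁻¹ = a 1 := by rw [← conj_mul, b1, b2, h.t122]
  have c : Commute b (b * b) := (Commute.refl b).mul_right (Commute.refl b)
  rw [← conj_eq_iff_commute] at c
  have := (h.ksp (x := b * b) (conj_eq_iff_commute.1 (by rw [conj_mul', b1, b12]))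
    (conj_eq_iff_commute.1 (by rw [conj_mul', b2, b2]))).2.2
  generalize a 7 * a 8 = y at *
  rcases this
    (conj_eq_iff_commute.1 (by rw [conj_mul', b3, ← conj_mul, ← conj_mul, ← conj_inv, by', b3]; group))
    (conj_eq_iff_commute.1 (by rw [conj_mul', b6, ← conj_mul, ← conj_mul, ← conj_inv, by', b6]; group))
    (conj_eq_iff_commute.1 (by rw [conj_mul', by', ← conj_inv, by', inv_inv])) with r | r | r | r
  · exact Or.inl r
  · rw [r, b1] at c
    exact absurd (by simpa using c) (h.ne (u := [[1, 2]]) (v := [[1]]) (by decide +kernel))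
  · exact Or.inr r
  · rw [r, b12] at c
    exact absurd (by simpa using c) (h.ne (u := [[1]]) (v := [[1, 2]]) (by decide +kernel))

theorem x3_inv {x : G} (k : X3 a x) : ∃ x, X3 a x ∧ a 7 * x * (a 7 * x) = 1 := by
  rcases h.x3_sq k with e | e
  · exact ⟨x, k, e⟩
  have c : ∀ v, eqW act SC B [[1], v] [v, [1]] = true → x * a 1 * wd a v * (x * a 1)⁻¹ = x * wd a v * x⁻¹ := fun v e => by
    rw [conj_mul', conj_eq_iff_commute.2 (show Commute (a 1) (wd a v) by simpa using h.bm.rm.comm e)]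
  refine ⟨x * a 1, ⟨by simpa [k.e1] using c [1] (by decide +kernel), by simpa [k.e2] using c [2] (by decide +kernel),
    by simpa [k.e3] using c [3] (by decide +kernel), by simpa [k.e6] using c [6] (by decide +kernel),
    by simpa [k.ey] using c [7, 8] (by decide +kernel)⟩, ?_⟩
  have b1 : a 7 * x * a 1 * (a 7 * x)⁻¹ = a 1 * a 2 := by
    rw [conj_mul', k.e1]; simpa using h.cj (g := 7) (k := 2) (w := [1, 2]) (by decide +kernel)
  calc a 7 * (x * a 1) * (a 7 * (x * a 1)) = a 7 * x * a 1 * (a 7 * x)⁻¹ * (a 7 * x * (a 7 * x)) * a 1 := by group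
    _ = 1 := by rw [b1, e, h.t122, h.bm.sq 1 (by decide +kernel)]

end St

end CA.McL
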