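/-
The amalgam of the centralizer with the two normalizers generates the McLaughlin group.
-/
import Cfsg.Agent.McL.D9
import Cfsg.Agent.McL.D5

set_option autoImplicit false
set_option maxRecDepth 100000

namespace CA.McL

open CA.TC hiding wd wd_nil wd_cons wd_append
open CA.PM CA.Fi CA.Typ CA.FG Cfsg Subgroup Equiv

theorem all_cases {g : ℕ} (hg : tb ALL g = true) : tb SC g = true ∨ g = 11 := by
  have := lt16 (by decide) hg
  revert hg; revert g; decide +kernel

/-- the centralizer together with the extra generator -/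
structure St2 {G : Type*} [Group G] (a : ℕ → G) : Prop extends St a where
  sq : Sq a ALL
  nv : RM a SNV 275 act B

theorem St.st2 {G : Type*} [Group G] [Finite G] {a : ℕ → G} (h : St a) {g : G} (h1 : g * a 1 * g⁻¹ ≠ a 1)
    (h2 : Commute (g * a 1 * g⁻¹) (a 1)) : ∃ b : ℕ → G, b 1 = a 1 ∧ St2 b := by
  obtain ⟨n, n1, n2⟩ := h.swap h1 h2
  obtain ⟨x, k⟩ := h.x3 n1 n2
  obtain ⟨x, k, e⟩ := h.x3_inv k
  have p := h.x3_pow k
  let b : ℕ → G := fun g => if g = 11 then a 7 * x else a g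
  have h' : St b := h.congr fun g hg => if_neg (by rintro rfl; revert hg; decide +kernel)
  have sq : Sq b ALL := fun g hg => (all_cases hg).elim (h'.bm.sq g) (by rintro rfl; exact e)
  have i : (a 7 * x)⁻¹ = a 7 * x := inv_eq_of_mul_eq_one_left e
  have s7 := h.bm.sq 7 (by decide +kernel)
  refine ⟨b, rfl, h', sq, RM.step' (Rs := [(SP2, B)]) (E := E2) C2_ok McL.bm C2_sep rfl (sq.mono (by decide +kernel))
    (List.forall_mem_singleton.2 (h'.bm.rel.mono (by decide +kernel))) (by decide +kernel) ?_ (by decide +kernel)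
    (h'.bm.rel.mono (by decide +kernel))⟩
  simp only [E2, List.forall_mem_cons, List.not_mem_nil, IsEmpty.forall_iff, implies_true, and_true]
  refine ⟨?_, ?_, ?_, ?_⟩
  · show a 7 * x * (a 3 * (a 7 * x * (a 4 * (a 3 * 1)))) = 1
    nth_rw 2 [← i]
    rw [← mul_assoc _ (a 3), ← mul_assoc, conj_mul', k.e3, inv_eq_of_mul_eq_one_left s7]
    simpa [mul_assoc] using h.eq (u := [[7, 3, 7, 4, 3]]) (v := []) (by decide +kernel)
  · show a 7 * x * (a 6 * (a 7 * x * (a 5 * 1))) = 1
    nth_rw 2 [← i]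
    rw [← mul_assoc _ (a 6), ← mul_assoc, conj_mul', k.e6, inv_eq_of_mul_eq_one_left s7]
    simpa [mul_assoc] using h.eq (u := [[7, 5, 7, 5]]) (v := []) (by decide +kernel)
  · show a 7 * x * (a 7 * (a 8 * (a 7 * x * (a 7 * (a 8 * 1))))) = 1
    nth_rw 2 [← i]
    rw [← mul_assoc (a 7) (a 8), ← mul_assoc _ (a 7 * a 8), ← mul_assoc, conj_mul', k.ey, inv_eq_of_mul_eq_one_left s7]
    simpa [mul_assoc] using h.eq (u := [[7, 7, 8, 7, 7, 8]]) (v := []) (by decide +kernel)
  · show a 7 * (a 7 * x * (a 7 * (a 7 * x * (a 7 * (a 7 * x * 1))))) = 1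
    have : ∀ y, a 7 * (a 7 * y) = y := fun y => by rw [← mul_assoc, s7, one_mul]
    simpa only [mul_assoc, this, mul_one, pow_three] using p

namespace St2

variable {G : Type*} [Group G] {a : ℕ → G} (h : St2 a)
include h

theorem nsp {S : ℕ} {W : ℕ → List ℕ} {nx : ℕ → ℕ → ℕ} (hS : S < 65536) (hn : ∀ i < 16, nChk S W nx i = true)
    {u : List ℕ} (hu : inS S u = true) : ∀ i < 16, run nx u i < 16 ∧ wd a (W i) * wd a u = wd a u * wd a (W (run nx u i)) := by
  induction u with
  | nil => intro i hi; exact ⟨hi, by simp⟩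
  | cons g u ih =>
    intro i hi
    rw [inS_cons] at hu
    have k := allS_spec hS (band_iff.1 (hn i hi)).2 hu.1
    rw [band_iff, blt_iff, bor_iff] at k
    have e : wd a (W i) * a g = a g * wd a (W (nx g i)) := by
      rcases k.2 with e | e
      exacts [by simpa using h.eq e, by simpa using h.nv.eq e]
    obtain ⟨l1, l2⟩ := ih hu.2 _ k.1
    rw [run_cons, wd_cons, ← mul_assoc, e, mul_assoc, l2, mul_assoc]
    exact ⟨l1, rfl⟩

theorem pow {S : ℕ} {ys : List (List ℕ)} {W : ℕ → List ℕ} {kt : ℕ → ℕ} {nx : ℕ → ℕ → ℕ} (hS : S < 65536)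
    (en : ∀ i < 16, enC ys W kt i = true) (c : ∀ x ∈ cW a ys, ∃ i < 16, wd a (W i) = x)
    (hn : ∀ i < 16, nChk S W nx i = true) (hy : allL ys (fun y => anyLt 16 fun i => leq (W i) y) = true)
    (w : List ℕ) (m : ℕ) (hw : wChk S W nx w m = true) : wd a (List.replicate m w).flatten = 1 := by
  unfold wChk at hw
  rw [band_iff] at hw
  have i5 : inS S (List.replicate m w).flatten = true :=
    inS_flatten (allL_iff.2 fun x hx => List.eq_of_mem_replicate hx ▸ hw.1)
  have k := fun j hj => band_iff.1 (allLt_spec hw.2 j hj)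
  obtain ⟨j, hj, e⟩ := c (wd a (List.replicate m w).flatten) (mem_cW.2 fun y hy' => by
    obtain ⟨i, hi, e⟩ := anyLt_spec (allL_spec hy y hy')
    have := (h.nsp hS hn i5 i hi).2
    rw [beq_iff.1 (k i hi).1, leq_spec e] at this
    exact this.symm)
  obtain ⟨l1, l2⟩ := h.nsp hS hn hw.1 j hj
  have c2 : Commute (wd a (W j)) (wd a w) := by rw [e, wd_pow]; exact (Commute.refl _).pow_left m
  rw [c2.eq, mul_right_inj] at l2
  rcases bor_iff.1 (k j hj).2 with r | r
  · exact absurd ((enC_spec h.bm en).2 _ hj _ l1 l2).symm (bne_iff.1 r)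
  · rw [← e, leq_spec r]; rfl

variable [Finite G]

theorem r1 : RM a SN1 275 act B := by
  refine RM.step' (Rs := [(SP1, B), (SNV, B)]) (E := E3) C3_ok bm C3_sep rfl (h.sq.mono (by decide +kernel)) ?_
    (by decide +kernel) ?_ (by decide +kernel) (h.bm.rel.mono (by decide +kernel)) <;>
    simp only [E3, List.forall_mem_cons, List.not_mem_nil, IsEmpty.forall_iff, implies_true, and_true]
  · exact ⟨h.bm.rel.mono (by decide +kernel), h.nv.rel⟩
  · have k := h.pow (by decide) enWA (fun _ => h.enumA) nWA_ok (by decide +kernel)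
    exact ⟨k [8, 10, 11, 10, 11] 3 (by decide +kernel), k [6, 10, 6, 11] 5 (by decide +kernel)⟩

theorem r2 : RM a SN2 275 act B := by
  refine RM.step' (Rs := [(SP3, B), (SNV, B)]) (E := E4) C4_ok bm C4_sep rfl (h.sq.mono (by decide +kernel)) ?_
    (by decide +kernel) ?_ (by decide +kernel) (h.bm.rel.mono (by decide +kernel)) <;>
    simp only [E4, List.forall_mem_cons, List.not_mem_nil, IsEmpty.forall_iff, implies_true, and_true]
  · exact ⟨h.bm.rel.mono (by decide +kernel), h.nv.rel⟩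
  · have k := h.pow (by decide) enWB (fun _ => h.enumB) nWB_ok (by decide +kernel)
    exact ⟨k [7, 9, 11] 5 (by decide +kernel), k [7, 9, 7, 11] 5 (by decide +kernel)⟩

theorem r5 : RM a S5 275 act B := by
  refine RM.step' (Rs := [(1920, B), (3456, B), (2944, B)]) (E := []) C5_ok bm C5_sep rfl
    (h.sq.mono (by decide +kernel)) ?_ (by decide +kernel) (fun _ h => nomatch h) rfl (h.bm.rel.mono (by decide +kernel))
  simp only [List.forall_mem_cons, List.not_mem_nil, IsEmpty.forall_iff, implies_true, and_true]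
  exact ⟨h.bm.rel.mono (by decide +kernel), h.r1.rel.mono (by decide +kernel), h.r2.rel.mono (by decide +kernel)⟩

end St2

theorem gen_mb {x : Spor.McL} (hx : Commute x (mb 1)) : x ∈ gp mb SC := by
  have s5 : sub S5 ALL = true := by decide +kernel
  have s0 : sub C5.S0 ALL = true := by decide +kernel
  obtain ⟨w, hw, rfl⟩ := (bm.sq.mono s5).exists_wd (gp5 ▸ mem_top x)
  obtain ⟨p, hp, u, u1, u2⟩ := C5_ok.cover' (bm.sq.mono s5) (valS_spec (Rs := [(1920, B), (3456, B), (2944, B)]) (E := [])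
    (bm.sq.mono s5) (by
      simp only [List.forall_mem_cons, List.not_mem_nil, IsEmpty.forall_iff, implies_true, and_true]
      exact ⟨bm.rel.mono (by decide +kernel), bm.rel.mono (by decide +kernel), bm.rel.mono (by decide +kernel)⟩)
    fun _ h => nomatch h) hw
  rcases bor_iff.1 (C5_s p hp) with e | e
  · obtain rfl := beq_iff.1 e
    rw [tw_zero C5_ok.root, List.append_nil] at u2
    exact u2 ▸ wd_mem_gp (inS_sub (by decide +kernel) u1)
  · obtain ⟨b, hb, e⟩ := anyL_spec e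
    rw [bne_iff, frc_eq] at e
    have f1 : ∀ q < 275, act 1 q = q → C5l q = 0 := by decide +kernel
    have f2 : ∀ b ∈ B5, b < 275 ∧ act 1 b = b := by decide +kernel
    obtain ⟨b1, b2⟩ := f2 b hb
    have t1 : ∀ q < 275, II (mb 1) q = act 1 q := atb.eq 1 (by decide +kernel)
    have q1 := fa.lt (wd mb w)⁻¹ b b1
    have q2 := fa.fix_comm hx.inv_left b1 ((t1 b b1).trans b2)
    have q3 : II (wd mb w) (II (wd mb w)⁻¹ b) = b := by rw [← fa.mul _ _ _ b1, inv_mul_cancel, fa.one _ b1]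
    generalize II (wd mb w)⁻¹ b = q at q1 q2 q3
    have := congrArg (fun x => II x q) u2
    simp only [wd_append] at this
    rw [fa.mul _ _ _ q1, q3, fa.run atb (inS_sub s5 (C5_ok.inS hp)) b1, fa.run atb (inS_sub s0 u1) q1] at this
    rw [this, inv_run bm.toTb s0 (by decide) C5_i u1 q1, f1 q q1 (t1 q q1 ▸ q2), f1 b b1 b2] at e
    exact absurd rfl e

theorem st_mb : St2 mb := by
  have le : gp mb SC ≤ centralizer {mb 1} := gp_le fun g hg => mem_cent_iff.2 (by
    simpa using bmC.rm.comm (allS_spec (f := fun g => eqW act SC B [[g], [1]] [[1], [g]]) (by decide)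
      (by decide +kernel) hg))
  exact ⟨⟨bmC, by rw [← model_A8.1, le_antisymm le fun x hx => gen_mb (mem_cent_iff.1 hx)], fun _ => gen_mb⟩, bm.sq,
    bm.rm.mono (by decide +kernel)⟩

theorem conj_t_s : IsConj (mb 1) (mb 2) :=
  isConj_iff.2 ⟨wd mb [7, 11], by simpa only [wd_one] using bm.rm.conj (u := [7, 11]) (z := [1]) (y := [2]) (by decide +kernel)⟩

/-- words for the letters of the centralizer -/
noncomputable def u4 (g : ℕ) : List ℕ := nth [] [[], [9, 10, 9, 10], [9, 10, 7, 8, 7, 10, 9], [9, 8, 7, 9, 7, 9, 8, 9],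
  [8, 9, 8, 7, 9, 8, 9], [7, 10, 7, 8, 10, 8, 7, 10], [7, 9, 10, 9, 7, 8, 7, 10, 7], [7], [8], [9], [10]] g

theorem St2.hom {G : Type*} [Group G] [Finite G] {a : ℕ → G} (h : St2 a) :
    ∃ ψ : Spor.McL →* G, Function.Injective ψ ∧ ∀ g, tb ALL g = true → ψ (mb g) = a g := by
  obtain ⟨ψ, e⟩ := (bm.mono (T := S5) (by decide +kernel)).exists_hom gp5 h.r5
  have k : ∀ g, tb ALL g = true → ψ (mb g) = a g := fun g hg => by
    rcases all_cases hg with r | rfl
    · have := band_iff.1 (allS_spec (S := SC) (f := fun g => band (inS S5 (u4 g)) (eqW act SC B [[g]] [u4 g])) (by decide)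
        (by decide +kernel) r)
      rw [← wd_one mb, ← wd_one a, bmC.rm.eq1 this.2, h.bm.rm.eq1 this.2, e _ this.1]
    · simpa using e [11] (by decide +kernel)
  refine ⟨ψ, (MonoidHom.ker_eq_bot_iff ψ).1 (normal_eq_bot (z := mb 1) (s := mb 2) (bm.sq 1 (by decide +kernel)) conj_t_s
    (isConj_iff.2 ⟨_, by simpa using bm.rm.conj (u := [11]) (z := [1]) (y := [2, 1]) (by decide +kernel)⟩)
    fun x hx c => ?_), k⟩
  obtain ⟨w, hw, rfl⟩ := bmC.sq.exists_wd (gen_mb c)
  rw [MonoidHom.mem_ker, ← wd_map, wd_congr (fun g hg => k g (tb_sub (by decide +kernel) hg)) hw] at hx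
  exact bmC.rel w hw (fixB_iff.2 fun p hp => h.bm.cmp w hw hx p (ltB p hp))

/-- the McLaughlin group inside a group with the same centralizer of an involution -/
theorem jw {G : Type*} [Group G] [Finite G] {t : G} {φ : (𝒞[t] : Subgroup G) →* alternatingGroup (Fin 8)}
    (ht : t ∈ 𝒞[t]) (h : DC ⟨t, ht⟩ φ) (hg : ∃ g, g * t * g⁻¹ ≠ t ∧ Commute (g * t * g⁻¹) t) :
    ∃ ψ : Spor.McL →* G, Function.Injective ψ ∧ 𝒞[t] ≤ ψ.range ∧
      ∃ h ∈ ψ.range, h * t * h⁻¹ ≠ t ∧ Commute (h * t * h⁻¹) t := by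
  obtain ⟨c, c1, s⟩ := h.st
  obtain ⟨g, g1, g2⟩ := hg
  have e := wd_map (𝒞[t] : Subgroup G).subtype c
  have t1 : (𝒞[t] : Subgroup G).subtype (c 1) = t := by rw [c1]; rfl
  have s' : St fun i => (𝒞[t] : Subgroup G).subtype (c i) :=
    ⟨⟨⟨s.bm.toTb, fun g hg => by rw [← map_mul, s.bm.sq g hg, map_one],
      fun w hw r => s.bm.cmp w hw (Subtype.ext ((e w).symm.trans r))⟩,
      fun w hw r => by rw [e, s.bm.rel w hw r, map_one], ltB⟩, by rw [t1, h.card], fun x hx => by
      rw [t1] at hx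
      obtain ⟨w, hw, r⟩ := s.bm.sq.exists_wd (s.gen ⟨x, mem_cent_iff.2 hx⟩ (c1 ▸ h.cent _))
      exact (show _ = x from (e w).trans (congrArg Subtype.val r)) ▸ wd_mem_gp hw⟩
  obtain ⟨a, a1, s2⟩ := s'.st2 (g := g) (by rwa [t1]) (by rwa [t1])
  obtain rfl : a 1 = t := a1.trans t1
  obtain ⟨ψ, p1, p2⟩ := s2.hom
  have r : a 11 * a 1 * (a 11)⁻¹ = a 1 * a 2 := by
    simpa using s2.nv.conj (u := [11]) (z := [1]) (y := [1, 2]) (by decide +kernel)
  refine ⟨ψ, p1, fun x hx => gp_le (K := ψ.range) (fun g hg => ⟨_, p2 g (tb_sub (by decide +kernel) hg)⟩) (s2.gen x (mem_cent_iff.1 hx)),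
    a 11, ⟨_, p2 11 (by decide +kernel)⟩, ?_, ?_⟩ <;> rw [r]
  · simpa using s2.ne (u := [[1, 2]]) (v := [[1]]) (by decide +kernel)
  · simpa using s2.bm.rm.comm (u := [1, 2]) (v := [1]) (by decide +kernel)

theorem center_McL : Subgroup.center Spor.McL = ⊥ := by
  refine eq_bot_iff.2 fun z hz => ?_
  have c : ∀ g, Commute z g := fun g => (mem_center_iff.1 hz g).symm
  rcases (st_mb.ksp (c _) (c _)).2.2 (c _) (c _) (c _) with r | r | r | r
  · exact r
  · exact absurd (by simpa [r] using c (mb 11)) (bm.ncomm (u := [1]) (v := [11]) (by decide +kernel))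
  · exact absurd (by simpa [r] using c (mb 7)) (bm.ncomm (u := [2]) (v := [7]) (by decide +kernel))
  · exact absurd (by simpa [r] using c (mb 7)) (bm.ncomm (u := [1, 2]) (v := [7]) (by decide +kernel))

theorem realizeEqns_McL_DA : True := by
  have := @CA.McL.u4.eq_1
  have := @CA.McL.u4.eq_def
  have := @CA.McL.u4.congr_simp
  trivial

end CA.McL
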