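/-
McL:2 case of the 3-local characterisation (package C2): general lemmas.
-/
import Cfsg.Agent.McL.Defs
import Cfsg.Agent.BG.I01

set_option autoImplicit false

namespace CA.McL.E

open CA.FG Subgroup
open scoped commutatorElement

universe u

variable {G : Type*} [Group G]

/-- no element of order three -/
def N3 (R : Subgroup G) : Prop := ∀ x ∈ R, x ^ 3 = 1 → x = 1

theorem N3.not_dvd [Finite G] {R : Subgroup G} (h : N3 R) : ¬ 3 ∣ Nat.card R := by
  intro hd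
  haveI : Fact (Nat.Prime 3) := ⟨Nat.prime_three⟩
  obtain ⟨x, hx⟩ := exists_prime_orderOf_dvd_card' 3 hd
  have h1 : (x : G) ^ 3 = 1 := by
    have := pow_orderOf_eq_one x
    rw [hx] at this
    exact_mod_cast congrArg Subtype.val this
  have h2 : x = 1 := Subtype.ext (h x x.2 h1)
  rw [h2, orderOf_one] at hx
  omega

theorem N3.of_not_dvd {R : Subgroup G} (h : ¬ 3 ∣ Nat.card R) : N3 R := by
  intro x hx h3
  by_contra h1
  haveI : Fact (Nat.Prime 3) := ⟨Nat.prime_three⟩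
  exact h (by simpa [Subgroup.orderOf_mk, orderOf_eq_prime h3 h1] using orderOf_dvd_natCard (⟨x, hx⟩ : R))

/-- a 2-subgroup that is self-normalizing in every 2-overgroup has odd index -/
theorem odd_index [Finite G] {T : Subgroup G} (hT : IsPGroup 2 T)
    (h : ∀ g : G, (∀ x ∈ T, ∃ k : ℕ, (x * g) ^ 2 ^ k = 1) → (∀ x ∈ T, g * x * g⁻¹ ∈ T) → g ∈ T) :
    Odd T.index := by
  obtain ⟨S, hS, hTS⟩ := sylow_superset Nat.prime_two (pGrp_of_isPGroup Nat.prime_two hT) (le_top (a := T))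
  have e : T = S := nilpotent_sub_norm hS.pGrp.nil hTS fun g hg =>
    h g (fun x hx => (pElt_iff Nat.prime_two).1 (hS.pGrp.piElt (S.mul_mem (hTS hx) hg.1)))
      fun x hx => (mem_normalizer_iff.1 hg.2 x).1 hx
  have := hS.not_dvd_index Nat.prime_two
  rw [← e, relIndex_top_right] at this
  exact Nat.not_even_iff_odd.1 fun he => this he.two_dvd

theorem conj_into [Finite G] {T : Subgroup G} (hT : Odd T.index) {y : G} (hy : y * y = 1) :
    ∃ g : G, g⁻¹ * y * g ∈ T := by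
  haveI : Fact (Nat.Prime 2) := ⟨Nat.prime_two⟩
  have hp : IsPGroup 2 (zpowers y) := (pGrp_iff_isPGroup Nat.prime_two).1
    (piGrp_zpowers_iff.2 (pElt_of_pow_eq_one Nat.prime_two (by rw [pow_two, hy])))
  obtain ⟨c, hc⟩ := hp.nonempty_fixed_point_of_prime_not_dvd_card (G ⧸ T)
    (fun hd => (Nat.not_even_iff_odd.2 hT) (even_iff_two_dvd.2 hd))
  obtain ⟨g, rfl⟩ := QuotientGroup.mk_surjective c
  have h1 : y • (g : G ⧸ T) = g := hc ⟨y, mem_zpowers y⟩
  rw [MulAction.Quotient.smul_mk, QuotientGroup.eq, smul_eq_mul] at h1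
  refine ⟨g, ?_⟩
  have : g⁻¹ * y * g = ((y * g)⁻¹ * g) := by
    rw [mul_inv_rev, inv_eq_of_mul_eq_one_right hy]
  rwa [this]

/-- Thompson's transfer lemma, with the values on involutions -/
theorem transfer_sign [Finite G] {T : Subgroup G} (hT : Odd T.index) (χ : T →* ℤˣ) :
    ∃ lam : G →* ℤˣ, ∀ (y : G) (ε : ℤˣ), y * y = 1 →
      (∀ (g : G) (h : g⁻¹ * y * g ∈ T), χ ⟨_, h⟩ = ε) → lam y = ε := by
  classical
  refine ⟨MonoidHom.transfer χ, fun y ε hy h => ?_⟩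
  haveI := Fintype.ofFinite (Quotient (MulAction.orbitRel (zpowers y) (G ⧸ T)))
  have hε : ε ^ T.index = ε := by
    obtain ⟨m, hm⟩ := hT
    rw [hm, pow_succ, pow_mul, Int.units_sq, one_pow, one_mul]
  rw [MonoidHom.transfer_eq_prod_quotient_orbitRel_zpowers_quot, ← hε, index_eq_sum_minimalPeriod T y,
    ← Finset.prod_pow_eq_pow_sum]
  refine Finset.prod_congr rfl fun q _ => ?_
  have key : ∀ (k : ℕ) (g : G) (hh : g⁻¹ * y ^ k * g ∈ T), χ ⟨_, hh⟩ = ε ^ k := by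
    intro k g hh
    rcases Nat.even_or_odd' k with ⟨m, rfl | rfl⟩
    · have e : y ^ (2 * m) = 1 := by rw [pow_mul, pow_two, hy, one_pow]
      have : (⟨_, hh⟩ : T) = 1 := Subtype.ext (by simp [e])
      rw [this, map_one, pow_mul, Int.units_sq, one_pow]
    · have e : y ^ (2 * m + 1) = y := by rw [pow_succ, pow_mul, pow_two, hy, one_pow, one_mul]
      have h2 : g⁻¹ * y * g ∈ T := e ▸ hh
      have : (⟨_, hh⟩ : T) = ⟨_, h2⟩ := Subtype.ext (by simp [e])
      rw [this, h g h2, pow_succ, pow_mul, Int.units_sq, one_pow, one_mul]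
  exact key _ _ _

theorem mem_zp3 {a x : G} (ha : a ^ 3 = 1) (hx : x ∈ zpowers a) : x = 1 ∨ x = a ∨ x = a⁻¹ := by
  obtain ⟨i, rfl⟩ := hx
  have e : a ^ i = a ^ (i % 3) := by
    conv_lhs => rw [← Int.mul_ediv_add_emod i 3, zpow_add, zpow_mul]
    rw [show a ^ (3 : ℤ) = 1 by exact_mod_cast ha, one_zpow, one_mul]
  have : i % 3 = 0 ∨ i % 3 = 1 ∨ i % 3 = 2 := by omega
  rcases this with h | h | h <;> simp only [e, h]
  · simp
  · simp
  · refine Or.inr (Or.inr (eq_inv_of_mul_eq_one_left ?_))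
    rw [← ha, zpow_two, pow_succ, pow_two]

theorem mem_zp2 {a x : G} (ha : a * a = 1) (hx : x ∈ zpowers a) : x = 1 ∨ x = a := by
  obtain ⟨i, rfl⟩ := hx
  have e : a ^ i = a ^ (i % 2) := by
    conv_lhs => rw [← Int.mul_ediv_add_emod i 2, zpow_add, zpow_mul]
    rw [zpow_two, ha, one_zpow, one_mul]
  have : i % 2 = 0 ∨ i % 2 = 1 := by omega
  rcases this with h | h <;> simp [e, h]

/-- a subgroup of order three that is Sylow -/
theorem syl3 [Finite G] {M : Subgroup G} {a : G} (haM : a ∈ M) (ha : a ^ 3 = 1) (ha1 : a ≠ 1)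
    (hc : ∀ x ∈ M, Commute x a → x ^ 4 ∈ zpowers a) : IsSylowOf 3 (zpowers a) M := by
  haveI : Fact (Nat.Prime 3) := ⟨Nat.prime_three⟩
  have pa : IsPGrp 3 (zpowers a) := piGrp_zpowers_iff.2 (pElt_of_pow_eq_one Nat.prime_three ha)
  refine sylow_of_maximal Nat.prime_three pa (zpowers_le.2 haM) fun Q pQ h1 h2 => ?_
  have k : ∀ x ∈ Q, Commute x a → x ∈ zpowers a := by
    intro x hx c
    obtain ⟨k, hk⟩ := (pElt_iff Nat.prime_three).1 (pQ.piElt hx)
    have co : (orderOf x).Coprime 4 :=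
      Nat.Coprime.coprime_dvd_left (orderOf_dvd_of_pow_eq_one hk) (Nat.Coprime.pow_left k (by norm_num))
    obtain ⟨m, hm⟩ := exists_pow_eq_self_of_coprime co.symm
    rw [← hm]
    exact pow_mem (hc x (h2 hx) c) m
  refine (nilpotent_sub_norm pQ.nil h1 fun x hx => k x hx.1 ?_).symm
  obtain ⟨k, hk⟩ := (pElt_iff Nat.prime_three).1 (pQ.piElt hx.1)
  have co : (orderOf x).Coprime 2 :=
    Nat.Coprime.coprime_dvd_left (orderOf_dvd_of_pow_eq_one hk) (Nat.Coprime.pow_left k (by norm_num))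
  obtain ⟨m, hm⟩ := exists_pow_eq_self_of_coprime co.symm
  rw [← hm]
  refine Commute.pow_left ?_ m
  have e : x ^ 2 * a * (x ^ 2)⁻¹ = a := by
    rcases mem_zp3 ha ((mem_normalizer_iff.1 hx.2 a).1 (mem_zpowers a)) with e | e | e
    · exact absurd (by simpa using e) ha1
    · calc _ = x * (x * a * x⁻¹) * x⁻¹ := by rw [pow_two]; group
        _ = a := by rw [e, e]
    · calc _ = x * (x * a * x⁻¹) * x⁻¹ := by rw [pow_two]; group
        _ = x * a⁻¹ * x⁻¹ := by rw [e]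
        _ = (x * a * x⁻¹)⁻¹ := by group
        _ = a := by rw [e, inv_inv]
  exact mul_inv_eq_iff_eq_mul.1 e

theorem conj3 [Finite G] {M : Subgroup G} {a : G} (haM : a ∈ M) (ha : a ^ 3 = 1) (ha1 : a ≠ 1)
    (hc : ∀ x ∈ M, Commute x a → x ^ 4 ∈ zpowers a) {x : G} (hx : x ∈ M) (x3 : x ^ 3 = 1) (x1 : x ≠ 1) :
    ∃ g ∈ M, g * x * g⁻¹ = a ∨ g * x * g⁻¹ = a⁻¹ := by
  obtain ⟨g, hg, h⟩ := sylow_Jsub Nat.prime_three (syl3 haM ha ha1 hc)
    (piGrp_zpowers_iff.2 (pElt_of_pow_eq_one Nat.prime_three x3)) (zpowers_le.2 hx)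
  refine ⟨g, hg, ?_⟩
  rcases mem_zp3 ha (h (⟨x, mem_zpowers x, rfl⟩ : g * x * g⁻¹ ∈ zpowers x :^ g)) with e | e | e
  · exact absurd (by simpa using e) x1
  · exact Or.inl e
  · exact Or.inr e

/-- the statement of helper4's lemma `Be` -/
def BeS : Prop := ∀ (F : Type u) [Group F] [Finite F] (a τ : F), orderOf a = 3 → 𝒞[a] = zpowers a →
  τ * τ = 1 → τ * a * τ⁻¹ = a⁻¹ → ∃ K : Subgroup F, K.Normal ∧
    (∀ y, orderOf y = 2 → ¬ IsConj τ y → y ∈ K) ∧ (a ∉ K ∨ K.index = 2)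

theorem be2 (hB : BeS.{u}) {F : Type u} [Group F] [Finite F] {a τ : F} (ha : a ^ 3 = 1) (ha1 : a ≠ 1)
    (hc : ∀ x, Commute x a → x ∈ zpowers a) (τ2 : τ * τ = 1) (hτ : τ * a * τ⁻¹ = a⁻¹) :
    N3 (closure {y : F | y * y = 1 ∧ ¬ IsConj τ y}) := by
  haveI : Fact (Nat.Prime 3) := ⟨Nat.prime_three⟩
  haveI : Fact (Nat.Prime 2) := ⟨Nat.prime_two⟩
  obtain ⟨K, nK, hK, h⟩ := hB F a τ (orderOf_eq_prime ha ha1) (le_antisymm
    (fun x hx => hc x (mem_centralizer_singleton_iff.1 hx))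
    (zpowers_le.2 (mem_centralizer_singleton_iff.2 rfl))) τ2 hτ
  have hK' : ∀ y : F, y * y = 1 → ¬ IsConj τ y → y ∈ K := fun y y2 hy => by
    by_cases y1 : y = 1
    · exact y1 ▸ K.one_mem
    · exact hK y (orderOf_eq_prime (by rw [pow_two, y2]) y1) hy
  have hc' : ∀ x ∈ (⊤ : Subgroup F), Commute x a → x ^ 4 ∈ zpowers a := fun x _ c => pow_mem (hc x c) 4
  by_cases aK : a ∈ K
  swap
  · intro x hx x3
    by_contra x1
    have xK : x ∈ K := (closure_le K).2 (fun y hy => hK' y hy.1 hy.2) hx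
    obtain ⟨g, -, e | e⟩ := conj3 (mem_top a) ha ha1 hc' (mem_top x) x3 x1
    · exact aK (e ▸ nK.conj_mem x xK g)
    · exact aK (K.inv_mem_iff.1 (e ▸ nK.conj_mem x xK g))
  have iK := h.resolve_left fun h => h aK
  have sy : IsSylowOf 3 (zpowers a) K := syl3 aK ha ha1 fun x _ c => pow_mem (hc x c) 4
  have nm : ∀ n : F, n ∈ 𝒩(zpowers a) → n ∈ zpowers a ∨ n * τ ∈ zpowers a := fun n hn => by
    rcases mem_zp3 ha ((mem_normalizer_iff.1 hn a).1 (mem_zpowers a)) with e | e | e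
    · exact absurd (by simpa using e) ha1
    · exact Or.inl (hc n (mul_inv_eq_iff_eq_mul.1 e))
    · refine Or.inr (hc _ (mul_inv_eq_iff_eq_mul.1 ?_))
      calc _ = n * (τ * a * τ⁻¹) * n⁻¹ := by group
        _ = (n * a * n⁻¹)⁻¹ := by rw [hτ]; group
        _ = a := by rw [e, inv_inv]
  have aK' : zpowers a ≤ K := zpowers_le.2 aK
  have τK : τ ∉ K := fun τK => by
    have : K = ⊤ := by
      rw [eq_top_iff]
      intro g _
      obtain ⟨x, hx, n, hn, rfl⟩ := frattini_arg_mem Nat.prime_three sy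
        (show g ∈ 𝒩(K) by rw [normalizer_eq_top_iff.2 nK]; trivial)
      refine K.mul_mem hx ?_
      rcases nm n hn with e | e
      · exact aK' e
      · exact (K.mul_mem_cancel_right τK).1 (aK' e)
    rw [this, index_top] at iK
    omega
  obtain ⟨P, hP⟩ := sy.exists_sylow Nat.prime_three
  have mP : ∀ x : K, x ∈ (P : Subgroup K) ↔ (x : F) ∈ zpowers a := fun x => by
    rw [← hP]
    exact ⟨fun h => ⟨x, h, rfl⟩, fun ⟨y, hy, e⟩ => (Subtype.ext e : y = x) ▸ hy⟩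
  have hN : normalizer (P : Set K) ≤ centralizer (P : Set K) := fun n hn => by
    have h1 : (n : F) ∈ 𝒩(zpowers a) := by
      refine mem_normalizer_fintype fun y hy => ?_
      exact (mP _).1 ((mem_normalizer_iff.1 hn ⟨y, aK' hy⟩).1 ((mP _).2 hy))
    have h2 : (n : F) ∈ zpowers a :=
      (nm n h1).resolve_right fun e => τK ((K.mul_mem_cancel_left n.2).1 (aK' e))
    intro y hy
    obtain ⟨i, hi⟩ := (mP y).1 hy
    obtain ⟨j, hj⟩ := h2
    exact Subtype.ext (by simp only [coe_mul, ← hi, ← hj]; exact (Commute.zpow_zpow_self a i j).eq)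
  haveI : IsMulCommutative (P : Subgroup K) := ⟨⟨fun x y => Subtype.ext
    (hN (le_normalizer y.2) x x.2)⟩⟩
  have le : closure {y : F | y * y = 1 ∧ ¬ IsConj τ y} ≤ (MonoidHom.transferSylow P hN).ker.map K.subtype := by
    refine (closure_le _).2 fun y hy => ⟨⟨y, hK' y hy.1 hy.2⟩, ?_, rfl⟩
    set z := MonoidHom.transferSylow P hN ⟨y, hK' y hy.1 hy.2⟩ with hz
    have z2 : z * z = 1 := by
      rw [hz, ← map_mul, show (⟨y, hK' y hy.1 hy.2⟩ * ⟨y, hK' y hy.1 hy.2⟩ : K) = 1 from Subtype.ext hy.1, map_one]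
    have z3 : z ^ 3 = 1 := by
      obtain ⟨i, hi⟩ := (mP z).1 z.2
      refine Subtype.ext (Subtype.ext ?_)
      simp only [SubmonoidClass.coe_pow, ← hi, OneMemClass.coe_one]
      rw [← zpow_natCast, ← zpow_mul, mul_comm, zpow_mul, zpow_natCast, ha, one_zpow]
    show z = 1
    rw [pow_succ, pow_two, z2, one_mul] at z3
    exact z3
  rintro x hx x3
  obtain ⟨y, hy, rfl⟩ := le hx
  have := N3.of_not_dvd (MonoidHom.not_dvd_card_ker_transferSylow P hN) y hy (Subtype.ext x3)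
  rw [this, map_one]

/-- a central involution modulo a normal subgroup of a 2-group -/
theorem exists_central [Finite G] {S K : Subgroup G} (hS : IsPGrp 2 S) (hK : K ≤ S)
    (hn : ∀ x ∈ S, ∀ k ∈ K, x * k * x⁻¹ ∈ K) (hne : ¬ S ≤ K) :
    ∃ y ∈ S, y ∉ K ∧ y * y ∈ K ∧ ∀ x ∈ S, ⁅y, x⁆ ∈ K := by
  haveI : Fact (Nat.Prime 2) := ⟨Nat.prime_two⟩
  haveI : (K.subgroupOf S).Normal := ⟨fun k hk x => hn x x.2 k hk⟩
  have pQ : IsPGroup 2 (S ⧸ K.subgroupOf S) := (hS.isPGroup Nat.prime_two).to_quotient _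
  haveI : Nontrivial (S ⧸ K.subgroupOf S) :=
    QuotientGroup.nontrivial_iff.2 fun e => hne (subgroupOf_eq_top.1 e)
  haveI := pQ.center_nontrivial
  obtain ⟨z, hz⟩ := exists_prime_orderOf_dvd_card' (G := center (S ⧸ K.subgroupOf S)) 2
    ((pQ.to_subgroup _).card_eq_or_dvd.resolve_left Finite.one_lt_card.ne')
  obtain ⟨y, hy⟩ := QuotientGroup.mk_surjective z.1
  refine ⟨y, y.2, fun h => ?_, ?_, fun x hx => ?_⟩
  · have : z = 1 := Subtype.ext (hy ▸ (QuotientGroup.eq_one_iff y).2 h)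
    rw [this, orderOf_one] at hz
    omega
  · have : z * z = 1 := by rw [← pow_two, ← hz, pow_orderOf_eq_one]
    have h2 : ((y * y : S) : S ⧸ K.subgroupOf S) = 1 := by
      rw [QuotientGroup.mk_mul, hy]; exact congrArg Subtype.val this
    exact mem_subgroupOf.1 ((QuotientGroup.eq_one_iff _).1 h2)
  · have h2 : ((⁅y, ⟨x, hx⟩⁆ : S) : S ⧸ K.subgroupOf S) = 1 := by
      rw [← QuotientGroup.mk'_apply, map_commutatorElement, commutatorElement_eq_one_iff_mul_comm,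
        QuotientGroup.mk'_apply, hy]
      exact (mem_center_iff.1 z.2 _).symm
    exact mem_subgroupOf.1 ((QuotientGroup.eq_one_iff _).1 h2)

end CA.McL.E

theorem CA.McL.realizeEqnsE1 : True := by
  have := @CA.McL.E.BeS.eq_1.{0}
  have := @CA.McL.E.BeS.eq_def.{0}
  have := @CA.McL.E.BeS.congr_simp.{0}
  have := @CA.McL.E.N3.eq_1.{0}
  have := @CA.McL.E.N3.eq_def.{0}
  have := @CA.McL.E.N3.congr_simp.{0}
  trivial
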