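/-
McL:2 case (package C2): finite computations in `S₃ × S₅` and in `D₈ ≀ 2`.
-/
import Cfsg.Agent.McL.E1

set_option autoImplicit false

namespace CA.McL.E

open Equiv DihedralGroup

/-- `(4 5)` -/
def t1 : N2 := ⟨swap 3 4, by decide⟩
/-- `(1 2)` -/
def t2 : N2 := ⟨swap 0 1, by decide⟩
/-- `(6 7)` -/
def t3 : N2 := ⟨swap 5 6, by decide⟩
/-- `(4 5)(6 7)` -/
def z1 : N2 := ⟨swap 3 4 * swap 5 6, by decide⟩
/-- a conjugate of `z1` under `a2` -/
def u1 : N2 := ⟨swap 4 5 * swap 3 6, by decide⟩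
/-- a four-cycle -/
def r4 : N2 := t1 * u1

def mk8 (a b c d e f g h : ℕ) : ℕ := a + 8 * (b + 8 * (c + 8 * (d + 8 * (e + 8 * (f + 8 * (g + 8 * h))))))
def gt (c i : ℕ) : ℕ := c / 8 ^ i % 8
def cm (p q : ℕ) : ℕ := mk8 (gt p (gt q 0)) (gt p (gt q 1)) (gt p (gt q 2)) (gt p (gt q 3)) (gt p (gt q 4))
  (gt p (gt q 5)) (gt p (gt q 6)) (gt p (gt q 7))
def cd (x : N2) : ℕ := mk8 (x.1 0) (x.1 1) (x.1 2) (x.1 3) (x.1 4) (x.1 5) (x.1 6) (x.1 7)

theorem gt_cd (x : N2) (i : Fin 8) : gt (cd x) i = x.1 i := by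
  have h0 := (x.1 0).isLt; have h1 := (x.1 1).isLt; have h2 := (x.1 2).isLt; have h3 := (x.1 3).isLt
  have h4 := (x.1 4).isLt; have h5 := (x.1 5).isLt; have h6 := (x.1 6).isLt; have h7 := (x.1 7).isLt
  fin_cases i <;> simp only [gt, cd, mk8, Fin.zero_eta, Fin.mk_one, Fin.reduceFinMk, Fin.isValue] <;> omega

theorem cd_mul (x y : N2) : cd (x * y) = cm (cd x) (cd y) := by
  have h : ∀ i : Fin 8, gt (cd x) (gt (cd y) i) = (x * y).1 i := fun i => by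
    rw [gt_cd, gt_cd]; rfl
  exact congr (congr (congr (congr (congr (congr (congr (congrArg mk8 (h 0).symm) (h 1).symm) (h 2).symm)
    (h 3).symm) (h 4).symm) (h 5).symm) (h 6).symm) (h 7).symm

theorem cd_inj {x y : N2} : cd x = cd y ↔ x = y :=
  ⟨fun h => Subtype.ext (Equiv.ext fun i => Fin.ext (by rw [← gt_cd, ← gt_cd, h])), congrArg cd⟩

def L5 : List ℕ := [3, 4, 5, 6, 7]

def allN (P : ℕ → Bool) : Bool :=
  [0, 1, 2].all fun a => [0, 1, 2].all fun b => b == a || [0, 1, 2].all fun c => c == a || c == b ||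
    L5.all fun d => L5.all fun e => e == d || L5.all fun f => f == d || f == e ||
      L5.all fun g => g == d || g == e || g == f || L5.all fun h => h == d || h == e || h == f || h == g ||
        P (mk8 a b c d e f g h)

theorem allN_spec {P : ℕ → Bool} (h : allN P = true) (x : N2) : P (cd x) = true := by
  have m3 : ∀ i : Fin 8, i.val < 3 → (x.1 i).val ∈ [0, 1, 2] := fun i hi => by
    have := (x.2 i).1 hi
    simp only [List.mem_cons, List.not_mem_nil, or_false]; omega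
  have m5 : ∀ i : Fin 8, ¬ i.val < 3 → (x.1 i).val ∈ L5 := fun i hi => by
    have := (x.2 i).not.1 hi
    have := (x.1 i).isLt
    simp only [L5, List.mem_cons, List.not_mem_nil, or_false]; omega
  have ne : ∀ i j : Fin 8, i ≠ j → ((x.1 i).val == (x.1 j).val) = false := fun i j hij => by
    simpa [Fin.val_inj] using hij
  simp only [allN, List.all_eq_true] at h
  have h := h _ (m3 0 (by decide)) _ (m3 1 (by decide))
  simp only [ne 1 0 (by decide), Bool.false_or, List.all_eq_true] at h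
  have h := h _ (m3 2 (by decide))
  simp only [ne 2 0 (by decide), ne 2 1 (by decide), Bool.false_or, List.all_eq_true] at h
  have h := h _ (m5 3 (by decide)) _ (m5 4 (by decide))
  simp only [ne 4 3 (by decide), Bool.false_or, List.all_eq_true] at h
  have h := h _ (m5 5 (by decide))
  simp only [ne 5 3 (by decide), ne 5 4 (by decide), Bool.false_or, List.all_eq_true] at h
  have h := h _ (m5 6 (by decide))
  simp only [ne 6 3 (by decide), ne 6 4 (by decide), ne 6 5 (by decide), Bool.false_or, List.all_eq_true] at h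
  have h := h _ (m5 7 (by decide))
  simp only [ne 7 3 (by decide), ne 7 4 (by decide), ne 7 5 (by decide), ne 7 6 (by decide), Bool.false_or] at h
  exact h

def p4 (c : ℕ) : ℕ := cm (cm c c) (cm c c)
def p20 (c : ℕ) : ℕ := p4 (cm (p4 c) c)

theorem cd_p4 (x : N2) : cd (x ^ 4) = p4 (cd x) := by
  rw [p4, ← cd_mul, ← cd_mul]; simp only [pow_succ, pow_zero, one_mul, mul_assoc]
theorem cd_p20 (x : N2) : cd (x ^ 20) = p20 (cd x) := by
  rw [p20, ← cd_p4, ← cd_mul, ← cd_p4, ← pow_succ, ← pow_mul]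

/-- the order is divisible by three -/
def D3 (x : N2) : Prop := x ^ 20 ≠ 1 ∧ (x ^ 20) ^ 3 = 1

def d3 (c : ℕ) : Bool := p20 c != cd 1 && cm (cm (p20 c) (p20 c)) (p20 c) == cd 1

theorem d3_spec {x : N2} (h : d3 (cd x) = true) : D3 x := by
  simp only [d3, ← cd_p20, ← cd_mul, Bool.and_eq_true, bne_iff_ne, ne_eq, beq_iff_eq, cd_inj] at h
  exact ⟨h.1, by rw [← h.2]; group⟩

theorem q1 (x : N2) (h1 : Commute x a1) (h2 : Commute x z1) : x ^ 4 = 1 ∨ x ^ 4 = a1 ∨ x ^ 4 = a1⁻¹ := by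
  have := allN_spec (P := fun c => !(cm c (cd a1) == cm (cd a1) c) || !(cm c (cd z1) == cm (cd z1) c) ||
    p4 c == cd 1 || p4 c == cd a1 || p4 c == cd a1⁻¹) (by decide +kernel) x
  simpa [← cd_mul, ← cd_p4, cd_inj, h1.eq, h2.eq, or_assoc] using this

theorem q2 (x : N2) (h1 : Commute x a1) (h2 : Commute x z1) (h3 : Commute x u1) :
    ∃ p ∈ [1, a1, a1⁻¹], ∃ q ∈ [1, z1, u1, z1 * u1], x = p * q := by
  have := allN_spec (P := fun c => !(cm c (cd a1) == cm (cd a1) c) || !(cm c (cd z1) == cm (cd z1) c) ||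
    !(cm c (cd u1) == cm (cd u1) c) ||
    [1, a1, a1⁻¹].any fun p => [1, z1, u1, z1 * u1].any fun q => c == cd (p * q)) (by decide +kernel) x
  simpa only [← cd_mul, cd_inj, h1.eq, h2.eq, h3.eq, beq_self_eq_true, Bool.not_true, Bool.false_or,
    List.any_eq_true, beq_iff_eq] using this

theorem q3 (x : N2) (h1 : Commute x a1) :
    x ∈ [1, ta, z1, u1, z1 * u1, ta * z1 * ta⁻¹, ta * u1 * ta⁻¹, ta * (z1 * u1) * ta⁻¹] ∨ D3 x ∨
      D3 (x * x * (a2 * x * a2⁻¹) * (a2⁻¹ * x * a2)) ∨ D3 (x * x * (a2⁻¹ * x * a2) * (a2 * x * a2⁻¹)) ∨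
      D3 (x * (a2 * x * a2⁻¹) * x * (a2⁻¹ * x * a2)) := by
  have := allN_spec (P := fun c => !(cm c (cd a1) == cm (cd a1) c) ||
    ([1, ta, z1, u1, z1 * u1, ta * z1 * ta⁻¹, ta * u1 * ta⁻¹, ta * (z1 * u1) * ta⁻¹].any fun p => c == cd p) ||
    d3 c || d3 (cm (cm (cm c c) (cm (cm (cd a2) c) (cd a2⁻¹))) (cm (cm (cd a2⁻¹) c) (cd a2))) ||
    d3 (cm (cm (cm c c) (cm (cm (cd a2⁻¹) c) (cd a2))) (cm (cm (cd a2) c) (cd a2⁻¹))) ||
    d3 (cm (cm (cm c (cm (cm (cd a2) c) (cd a2⁻¹))) c) (cm (cm (cd a2⁻¹) c) (cd a2)))) (by decide +kernel) x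
  simp only [← cd_mul, cd_inj, h1.eq, beq_self_eq_true, Bool.not_true, Bool.false_or,
    List.any_eq_true, beq_iff_eq, Bool.or_eq_true, exists_eq_right', or_assoc] at this
  exact this.imp id (Or.imp d3_spec (Or.imp d3_spec (Or.imp d3_spec d3_spec)))

theorem q4 (x : N2) (h1 : Commute x a1) (h2 : Commute x t1) :
    D3 x ∨ ∃ p ∈ [1, t1], ∃ q ∈ [1, ta, t3, ta * t3 * ta⁻¹], x = p * q := by
  have := allN_spec (P := fun c => !(cm c (cd a1) == cm (cd a1) c) || !(cm c (cd t1) == cm (cd t1) c) || d3 c ||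
    [1, t1].any fun p => [1, ta, t3, ta * t3 * ta⁻¹].any fun q => c == cd (p * q)) (by decide +kernel) x
  simp only [← cd_mul, cd_inj, h1.eq, h2.eq, beq_self_eq_true, Bool.not_true, Bool.false_or,
    List.any_eq_true, beq_iff_eq, Bool.or_eq_true] at this
  exact this.imp d3_spec id

/-- the dihedral group generated by `(4 5)` and the four-group on `4, 5, 6, 7` -/
def rho : DihedralGroup 4 →* N2 := MonoidHom.mk' (fun d => match d with
  | r i => r4 ^ i.val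
  | sr i => t1 * r4 ^ i.val) (by decide +kernel)

theorem rho_t : rho (sr 0) = t1 := by decide +kernel
theorem rho_z : rho (r 2) = z1 := by decide +kernel
theorem rho_u : rho (sr 1) = u1 := by decide +kernel
theorem rho_zu : rho (sr 3) = z1 * u1 := by decide +kernel
theorem rho_gen (d : DihedralGroup 4) : ∃ p ∈ [1, t1], ∃ q ∈ [1, z1, u1, z1 * u1], rho d = p * q := by
  revert d; decide +kernel

/-- the sign -/
def sg : DihedralGroup 4 →* ℤˣ := MonoidHom.mk' (fun d => match d with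
  | r i => if i = 0 ∨ i = 2 then 1 else -1
  | sr i => if i = 0 ∨ i = 2 then -1 else 1) (by decide +kernel)

/-- type of an element: trivial, in the four-group, transposition, four-cycle -/
def tD : DihedralGroup 4 → ℕ
  | r i => if i = 0 then 0 else if i = 2 then 1 else 3
  | sr i => if i = 0 ∨ i = 2 then 2 else 1

/-- `D₈ ≀ 2` -/
@[ext] structure W where
  a : DihedralGroup 4
  b : DihedralGroup 4
  e : Bool
  deriving DecidableEq

instance : Fintype W := Fintype.ofEquiv (DihedralGroup 4 × DihedralGroup 4 × Bool)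
  ⟨fun x => ⟨x.1, x.2.1, x.2.2⟩, fun w => ⟨w.a, w.b, w.e⟩, fun _ => rfl, fun _ => rfl⟩

instance : Mul W := ⟨fun x y => if x.e then ⟨x.a * y.b, x.b * y.a, !y.e⟩ else ⟨x.a * y.a, x.b * y.b, y.e⟩⟩
instance : One W := ⟨⟨1, 1, false⟩⟩
instance : Inv W := ⟨fun x => if x.e then ⟨x.b⁻¹, x.a⁻¹, true⟩ else ⟨x.a⁻¹, x.b⁻¹, false⟩⟩

theorem W.mul_f (a b : DihedralGroup 4) (y : W) : (⟨a, b, false⟩ * y : W) = ⟨a * y.a, b * y.b, y.e⟩ := rfl
theorem W.mul_t (a b : DihedralGroup 4) (y : W) : (⟨a, b, true⟩ * y : W) = ⟨a * y.b, b * y.a, !y.e⟩ := rfl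

instance : Group W := Group.ofLeftAxioms
  (by rintro ⟨a, b, _ | _⟩ ⟨c, d, _ | _⟩ ⟨e, f, _ | _⟩ <;> simp [W.mul_f, W.mul_t, mul_assoc])
  (by decide +kernel) (by decide +kernel)

/-- the sign on the wreath product -/
def chi : W →* ℤˣ := MonoidHom.mk' (fun w => sg w.a * sg w.b) (by
  rintro ⟨a, b, _ | _⟩ ⟨c, d, e⟩ <;> simp only [W.mul_f, W.mul_t, map_mul] <;> ac_rfl)

/-- type of an involution: transposition, double transposition, liftable -/
def ty (w : W) : ℕ :=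
  if w.e then 2 else if tD w.a + tD w.b = 1 ∨ (tD w.a = 2 ∧ tD w.b = 2) then 1
  else if (tD w.a = 2 ∧ tD w.b = 0) ∨ (tD w.a = 0 ∧ tD w.b = 2) then 0 else 2

theorem W.cls : ∀ w : W, w * w = 1 → w ≠ 1 → ∃ g : W,
    (ty w = 0 ∧ chi w = -1 ∧ g * w * g⁻¹ = ⟨sr 0, 1, false⟩) ∨
    (ty w = 1 ∧ chi w = 1 ∧ (g * w * g⁻¹ = ⟨r 2, 1, false⟩ ∨ g * w * g⁻¹ = ⟨sr 1, 1, false⟩ ∨
      g * w * g⁻¹ = ⟨sr 0, sr 0, false⟩)) ∨
    (ty w = 2 ∧ chi w = 1 ∧ (g * w * g⁻¹ = ⟨r 2, r 2, false⟩ ∨ g * w * g⁻¹ = ⟨r 2, sr 1, false⟩ ∨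
      g * w * g⁻¹ = ⟨sr 1, sr 1, false⟩ ∨ g * w * g⁻¹ = ⟨1, 1, true⟩)) ∨
    (ty w = 2 ∧ (g * w * g⁻¹ = ⟨r 2, sr 0, false⟩ ∨ g * w * g⁻¹ = ⟨sr 1, sr 0, false⟩)) := by
  decide +kernel

theorem W.p8 : ∀ w : W, w ^ 2 ^ 3 = 1 := by decide +kernel

theorem W.nrm : ∀ y1 : W, y1 * y1 = 1 → ty y1 = 1 → (∃ q, q * q = y1) → ∀ y2 : W, y2 * y2 = 1 → ty y2 = 1 →
    y1 * y2 = y2 * y1 → y1 * y2 ≠ 1 → ty (y1 * y2) = 1 → ∀ y3 : W, y3 * y3 = 1 → ty y3 = 1 → (∃ q, q * q = y3) →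
    y1 * y3 = y3 * y1 → y2 * y3 = y3 * y2 → y1 * y3 ≠ 1 → ty (y1 * y3) = 2 → ty (y2 * y3) = 2 →
    ∀ y4 : W, y4 * y4 = 1 → ty y4 = 1 → y3 * y4 ≠ 1 → ty (y3 * y4) = 1 → y1 * y4 = y4 * y1 → y2 * y4 = y4 * y2 →
    ty (y1 * y4) = 2 → ∃ h : W, h * ⟨r 2, 1, false⟩ * h⁻¹ = y1 ∧ h * ⟨sr 1, 1, false⟩ * h⁻¹ = y2 ∧
      h * ⟨1, r 2, false⟩ * h⁻¹ = y3 ∧ h * ⟨1, sr 1, false⟩ * h⁻¹ = y4 := by
  decide +kernel

/-- `D₈ × 2` -/
abbrev V : Type := DihedralGroup 4 × Multiplicative (ZMod 2)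

/-- its embedding -/
def psi : V →* N2 := MonoidHom.mk' (fun w => rho w.1 * t2 ^ w.2.toAdd.val) (by decide +kernel)

/-- type of an involution -/
def tV (w : V) : ℕ := ty ⟨w.1, if w.2 = 1 then 1 else sr 0, false⟩

theorem V.cls : ∀ w : V, w * w = 1 → w ≠ 1 → ∃ g ∈ [1, a2, a2⁻¹, r4],
    (tV w = 0 ∧ (g * psi w * g⁻¹ = t1 ∨ g * psi w * g⁻¹ = t2)) ∨
    (tV w = 1 ∧ (g * psi w * g⁻¹ = z1 ∨ g * psi w * g⁻¹ = t1 * t2)) ∨
    (tV w = 2 ∧ g * psi w * g⁻¹ = z1 * t2) := by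
  decide +kernel

theorem V.p4 : ∀ w : V, w ^ 2 ^ 2 = 1 := by decide +kernel

theorem V.inj : ∀ w : V, psi w = 1 → w = 1 := by decide +kernel

set_option synthInstance.maxSize 2000 in
theorem V.nrm : ∀ y1 : V, y1 * y1 = 1 → tV y1 = 1 → (∃ q, q * q = y1) → ∀ y2 : V, y2 * y2 = 1 → tV y2 = 1 →
    y1 * y2 ≠ 1 → tV (y1 * y2) = 1 → ∀ y3 : V, y3 * y3 = 1 → tV y3 = 0 → tV (y1 * y3) = 2 → tV (y2 * y3) = 2 →
    ∃ h : V, h * (r 2, 1) * h⁻¹ = y1 ∧ h * (sr 1, 1) * h⁻¹ = y2 ∧ h * (1, .ofAdd 1) * h⁻¹ = y3 := by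
  decide +kernel

theorem psi_l (d : DihedralGroup 4) : psi (d, 1) = rho d := by revert d; decide +kernel
theorem psi_r : psi (1, .ofAdd 1) = t2 := by decide +kernel

end CA.McL.E

theorem CA.McL.realizeEqnsE2 : True := by
  have := @CA.McL.E.t2.eq_1
  have := @CA.McL.E.t2.eq_def
  have := @CA.McL.E.t2.congr_simp
  have := @CA.McL.E.d3.eq_1
  have := @CA.McL.E.d3.eq_def
  have := @CA.McL.E.d3.congr_simp
  have := @CA.McL.E.tD.eq_1
  have := @CA.McL.E.tD.eq_2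
  have := @CA.McL.E.tD.eq_def
  have := @CA.McL.E.tD.congr_simp
  have := @CA.McL.E.L5.eq_1
  have := @CA.McL.E.L5.eq_def
  have := @CA.McL.E.L5.congr_simp
  have := @CA.McL.E.p20.eq_1
  have := @CA.McL.E.p20.eq_def
  have := @CA.McL.E.p20.congr_simp
  have := @CA.McL.E.gt.eq_1
  have := @CA.McL.E.gt.eq_def
  have := @CA.McL.E.gt.congr_simp
  have := @CA.McL.E.r4.eq_1
  have := @CA.McL.E.r4.eq_def
  have := @CA.McL.E.r4.congr_simp
  have := @CA.McL.E.z1.eq_1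
  have := @CA.McL.E.z1.eq_def
  have := @CA.McL.E.z1.congr_simp
  have := @CA.McL.E.allN.eq_1
  have := @CA.McL.E.allN.eq_def
  have := @CA.McL.E.allN.congr_simp
  have := @CA.McL.E.ty.eq_1
  have := @CA.McL.E.ty.eq_def
  have := @CA.McL.E.ty.congr_simp
  have := @CA.McL.E.D3.eq_1
  have := @CA.McL.E.D3.eq_def
  have := @CA.McL.E.D3.congr_simp
  have := @CA.McL.E.p4.eq_1
  have := @CA.McL.E.p4.eq_def
  have := @CA.McL.E.p4.congr_simp
  have := @CA.McL.E.sg.eq_1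
  have := @CA.McL.E.sg.eq_def
  have := @CA.McL.E.sg.congr_simp
  have := @CA.McL.E.t3.eq_1
  have := @CA.McL.E.t3.eq_def
  have := @CA.McL.E.t3.congr_simp
  have := @CA.McL.E.tV.eq_1
  have := @CA.McL.E.tV.eq_def
  have := @CA.McL.E.tV.congr_simp
  have := @CA.McL.E.u1.eq_1
  have := @CA.McL.E.u1.eq_def
  have := @CA.McL.E.u1.congr_simp
  have := @CA.McL.E.t1.eq_1
  have := @CA.McL.E.t1.eq_def
  have := @CA.McL.E.t1.congr_simp
  have := @CA.McL.E.cd.eq_1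
  have := @CA.McL.E.cd.eq_def
  have := @CA.McL.E.cd.congr_simp
  have := @CA.McL.E.V.eq_1
  have := @CA.McL.E.V.eq_def
  have := @CA.McL.E.V.congr_simp
  have := @CA.McL.E.instDecidableEqW.decEq.eq_1
  have := @CA.McL.E.instDecidableEqW.decEq.eq_def
  have := @CA.McL.E.instDecidableEqW.decEq.congr_simp
  have := @CA.McL.E.rho.eq_1
  have := @CA.McL.E.rho.eq_def
  have := @CA.McL.E.rho.congr_simp
  have := @CA.McL.E.cm.eq_1
  have := @CA.McL.E.cm.eq_def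
  have := @CA.McL.E.cm.congr_simp
  have := @CA.McL.E.psi.eq_1
  have := @CA.McL.E.psi.eq_def
  have := @CA.McL.E.psi.congr_simp
  have := @CA.McL.E.mk8.eq_1
  have := @CA.McL.E.mk8.eq_def
  have := @CA.McL.E.mk8.congr_simp
  have := @CA.McL.E.chi.eq_1
  have := @CA.McL.E.chi.eq_def
  have := @CA.McL.E.chi.congr_simp
  trivial
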