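/-
McL:2 case (package C2): lifting, the complement `F0` of the four-group in its centralizer.
-/
import Cfsg.Agent.McL.E2

set_option autoImplicit false

namespace CA.McL.E

open CA.FG Subgroup

attribute [local instance 2000] List.decidableBAll List.decidableBEx

variable {C X : Type*} [Group C] [Group X] {π : C →* X} {t : C}

/-- central extension by an involution -/
structure CE (π : C →* X) (t : C) : Prop where
  sur : Function.Surjective π
  ker : π.ker = zpowers t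
  ot : orderOf t = 2

namespace CE

theorem tt (h : CE π t) : t * t = 1 := by rw [← pow_two, ← h.ot, pow_orderOf_eq_one]
theorem t1 (h : CE π t) : t ≠ 1 := fun e => by have := h.ot; rw [e, orderOf_one] at this; omega
theorem pt (h : CE π t) : π t = 1 := (h.ker ▸ mem_zpowers t : t ∈ π.ker)
theorem mem (h : CE π t) {c : C} (hc : π c = 1) : c = 1 ∨ c = t := mem_zp2 h.tt (h.ker ▸ (hc : c ∈ π.ker))
theorem cen (h : CE π t) (c : C) : Commute c t :=
  mul_inv_eq_iff_eq_mul.1 ((h.mem (c := c * t * c⁻¹) (by simp [h.pt])).resolve_left (by simpa using h.t1))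
theorem eq (h : CE π t) {c d : C} (e : π c = π d) : d = c ∨ d = c * t :=
  (h.mem (c := c⁻¹ * d) (by simp [e])).imp (fun e => (inv_mul_eq_one.1 e).symm) inv_mul_eq_iff_eq_mul.1
theorem lf_of (h : CE π t) {c : C} (e : c * c = 1) : Lf π (π c) := fun d hd => by
  rcases h.eq hd.symm with rfl | rfl
  · exact e
  · calc _ = c * (t * c) * t := by group
      _ = c * c * (t * t) := by rw [← (h.cen c).eq]; group
      _ = 1 := by rw [e, h.tt, one_mul]
theorem sq (h : CE π t) {c : C} (hn : ¬ Lf π (π c)) (e : π c * π c = 1) : c * c = t :=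
  (h.mem (by rw [map_mul, e])).resolve_left fun e => hn (h.lf_of e)
theorem lf_conj (h : CE π t) {x y : X} (e : IsConj x y) (hx : Lf π x) : Lf π y := by
  obtain ⟨g, rfl⟩ := isConj_iff.1 e
  obtain ⟨c, rfl⟩ := h.sur x
  obtain ⟨g, rfl⟩ := h.sur g
  have := h.lf_of (c := g * c * g⁻¹) (by
    calc _ = g * (c * c) * g⁻¹ := by group
      _ = 1 := by rw [hx c rfl]; group)
  simpa using this
theorem comm (h : CE π t) {c d : C} (e : Commute (π c) (π d)) : Commute c d ∨ c * d = d * c * t :=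
  h.eq (by rw [map_mul, map_mul, e.eq])
theorem lf_mul (h : CE π t) {c d : C} (e : Commute c d) (hc : c * c = t) (hd : d * d = t) : Lf π (π c * π d) := by
  rw [← map_mul]
  refine h.lf_of ?_
  calc _ = c * (d * c) * d := by group
    _ = c * c * (d * d) := by rw [← e.eq]; group
    _ = 1 := by rw [hc, hd, h.tt]
theorem ac_mul (h : CE π t) {a b z : C} (ha : a * z = z * a * t) (hb : b * z = z * b * t) : Commute (a * b) z := by
  calc a * b * z = a * (b * z) := by group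
    _ = a * z * b * t := by rw [hb]; group
    _ = z * a * (t * b) * t := by rw [ha]; group
    _ = z * (a * b) * (t * t) := by rw [← (h.cen b).eq]; group
    _ = z * (a * b) := by rw [h.tt, mul_one]
theorem ac_mul' (_ : CE π t) {a b z : C} (ha : Commute a z) (hb : b * z = z * b * t) :
    a * b * z = z * (a * b) * t := by
  calc a * b * z = a * (b * z) := by group
    _ = a * z * b * t := by rw [hb]; group
    _ = z * (a * b) * t := by rw [ha.eq]; group
theorem comm_lift (h : CE π t) {c d c' d' : C} (e : Commute c d) (hc : π c = π c') (hd : π d = π d') :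
    Commute c' d' := by
  rcases h.eq hc with rfl | rfl <;> rcases h.eq hd with rfl | rfl
  · exact e
  · exact e.mul_right (h.cen _)
  · exact e.mul_left (h.cen _).symm
  · exact (e.mul_right (h.cen _)).mul_left (h.cen _).symm
/-- an element whose cube is trivial acts on the lifts of the elements it centralizes trivially -/
theorem comm3 (h : CE π t) {c d : C} (e : Commute (π c) (π d)) (h3 : π c ^ 3 = 1) : Commute c d := by
  refine (h.comm e).resolve_right fun e' => ?_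
  have h1 : Commute (c * c * c) d := by
    rcases h.mem (c := c * c * c) (by rw [← h3]; simp [pow_succ]) with e | e <;> rw [e]
    · exact Commute.one_left d
    · exact (h.cen d).symm
  have h2 := h.ac_mul' (h.ac_mul e' e') e'
  rw [h1.eq] at h2
  exact h.t1 (by simpa using h2)

end CE

/-- the four-group on `4, 5, 6, 7` -/
def U : Subgroup N2 where
  carrier := {x | x ∈ [1, z1, u1, z1 * u1]}
  one_mem' := by simp
  mul_mem' := by
    have : ∀ a ∈ [1, z1, u1, z1 * u1], ∀ b ∈ [1, z1, u1, z1 * u1], a * b ∈ [1, z1, u1, z1 * u1] := by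
      decide +kernel
    exact fun {_ _} ha hb => this _ ha _ hb
  inv_mem' := by
    have : ∀ a ∈ [1, z1, u1, z1 * u1], a⁻¹ ∈ [1, z1, u1, z1 * u1] := by decide +kernel
    exact fun {_} ha => this _ ha

theorem mem_U {x : N2} : x ∈ U ↔ x ∈ [1, z1, u1, z1 * u1] := Iff.rfl
instance (x : N2) : Decidable (x ∈ U) := inferInstanceAs (Decidable (x ∈ [1, z1, u1, z1 * u1]))
theorem U_all {P : N2 → Prop} (h : ∀ x ∈ [1, z1, u1, z1 * u1], P x) : ∀ x ∈ U, P x := h
theorem zU : z1 ∈ U := by decide +kernel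
theorem uU : u1 ∈ U := by decide +kernel

/-- the hypotheses with `f` defined on `N2` -/
structure YH (π : C →* X) (t : C) (F : N2 →* X) (v : X) : Prop extends CE π t where
  inj : Function.Injective F
  rng : F.range = 𝒩(zpowers (F a1))
  vv : v * v = 1
  va : v * F a1 * v⁻¹ = F a2
  vw : v * F w1 * v⁻¹ = F w2
  cb : ∀ g, Commute g (F a1 * F a2) → g ∈ 𝒩(closure {F a1, F a2})
  nw : ¬ Lf π (F w1)
  pv : Lf π v
  vt : Commute v (F ta)
  nt : ¬ Lf π (F ta)
  pvt : Lf π (v * F ta)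
  nc : ¬ IsConj v (F (w1 * w2 * ta))

/-- the complement -/
def F0 (π : C →* X) (F : N2 →* X) : Subgroup X := 𝒞((U.map F).comap π).map π

variable {F : N2 →* X} {v : X}

theorem cj {x y : N2} (g : N2) (e : g * x * g⁻¹ = y) : IsConj (F x) (F y) :=
  isConj_iff.2 ⟨F g, by rw [← e]; simp⟩

theorem cmF {x y : N2} (e : x * y = y * x) : Commute (F x) (F y) := Commute.map e F

theorem mem_F0 {x : X} : x ∈ F0 π F ↔ ∃ c, π c = x ∧ ∀ d, ∀ p ∈ U, F p = π d → Commute d c :=
  ⟨fun ⟨c, hc, e⟩ => ⟨c, e, fun d p hp e' => hc d ⟨p, hp, e'⟩⟩,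
    fun ⟨c, e, hc⟩ => ⟨c, fun d ⟨p, hp, e'⟩ => hc d p hp e', e⟩⟩

namespace YH

theorem nU (h : YH π t F v) : ∀ p ∈ U, p ≠ 1 → IsConj (F z1) (F p) := by
  have : ∀ p ∈ [1, z1, u1, z1 * u1], p ≠ 1 → ∃ g ∈ [1, a2, a2⁻¹], g * z1 * g⁻¹ = p := by decide +kernel
  intro p hp p1
  obtain ⟨g, -, e⟩ := this p hp p1
  exact cj g e

theorem nz (h : YH π t F v) : ¬ Lf π (F z1) := fun e =>
  h.nw (h.lf_conj (cj (ta * t3 * ta⁻¹) (by decide +kernel)) e)

theorem nlU (h : YH π t F v) {p : N2} (hp : p ∈ U) (p1 : p ≠ 1) : ¬ Lf π (F p) := fun e =>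
  h.nz (h.lf_conj (h.nU p hp p1).symm e)

theorem U2 : ∀ p ∈ U, F p * F p = 1 := U_all (by
  have : ∀ p ∈ [1, z1, u1, z1 * u1], p * p = 1 := by decide +kernel
  intro p hp; rw [← map_mul, this p hp, map_one])

theorem anti (h : YH π t F v) {p q : N2} (hp : p ∈ U) (hq : q ∈ U) (p1 : p ≠ 1) (q1 : q ≠ 1) (pq : p * q ≠ 1)
    {c d : C} (hc : π c = F p) (hd : π d = F q) : c * d = d * c * t := by
  have cm : ∀ p ∈ [1, z1, u1, z1 * u1], ∀ q ∈ [1, z1, u1, z1 * u1], p * q = q * p := by decide +kernel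
  refine (h.comm (by rw [hc, hd]; exact cmF (cm p hp q hq))).resolve_left fun e => ?_
  have := h.lf_mul e (h.sq (hc ▸ h.nlU hp p1) (hc ▸ U2 p hp)) (h.sq (hd ▸ h.nlU hq q1) (hd ▸ U2 q hq))
  rw [hc, hd, ← map_mul] at this
  exact h.nlU (U.mul_mem hp hq) pq this

theorem F0_lift (h : YH π t F v) {c d : C} (hc : π c ∈ F0 π F) {p : N2} (hp : p ∈ U) (hd : π d = F p) :
    Commute d c := by
  obtain ⟨c', e, hc'⟩ := mem_F0.1 hc
  exact h.comm_lift (hc' d p hp hd.symm) rfl e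

theorem F0_le (h : YH π t F v) {x : X} (hx : x ∈ F0 π F) : ∀ p ∈ U, Commute x (F p) := fun p hp => by
  obtain ⟨c, rfl⟩ := h.sur x
  obtain ⟨d, hd⟩ := h.sur (F p)
  exact hd ▸ ((h.F0_lift hx hp hd).map π).symm

theorem F0_of (h : YH π t F v) {c z u : C} (hz : π z = F z1) (hu : π u = F u1) (h1 : Commute c z)
    (h2 : Commute c u) : π c ∈ F0 π F := by
  refine mem_F0.2 ⟨c, rfl, fun d p hp e => ?_⟩
  simp only [mem_U, List.mem_cons, List.not_mem_nil, or_false] at hp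
  rcases hp with rfl | rfl | rfl | rfl
  · exact h.comm_lift (Commute.one_left c) (by rw [← e, map_one, map_one]) rfl
  · exact h.comm_lift h1.symm (hz.trans e) rfl
  · exact h.comm_lift h2.symm (hu.trans e) rfl
  · exact h.comm_lift (h1.mul_right h2).symm (by rw [← e, map_mul, map_mul, hz, hu]) rfl

theorem F0_conj (h : YH π t F v) {g x : X} (hg : ∀ p ∈ U, ∃ q ∈ U, g⁻¹ * F p * g = F q) (hx : x ∈ F0 π F) :
    g * x * g⁻¹ ∈ F0 π F := by
  obtain ⟨c, rfl⟩ := h.sur x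
  obtain ⟨g, rfl⟩ := h.sur g
  refine mem_F0.2 ⟨g * c * g⁻¹, by simp, fun d p hp e => ?_⟩
  obtain ⟨q, hq, e'⟩ := hg p hp
  have := h.F0_lift hx hq (d := g⁻¹ * d * g) (by rw [← e', e]; simp)
  calc d * (g * c * g⁻¹) = g * (g⁻¹ * d * g * c) * g⁻¹ := by group
    _ = g * c * g⁻¹ * d := by rw [this.eq]; group

theorem F0_3 (h : YH π t F v) {x : X} (hx : ∀ p ∈ U, Commute x (F p)) (x3 : x ^ 3 = 1) : x ∈ F0 π F := by
  obtain ⟨c, rfl⟩ := h.sur x
  obtain ⟨z, hz⟩ := h.sur (F z1)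
  obtain ⟨u, hu⟩ := h.sur (F u1)
  exact h.F0_of hz hu (h.comm3 (hz ▸ hx _ zU) x3) (h.comm3 (hu ▸ hx _ uU) x3)

theorem F0_dec (h : YH π t F v) {x : X} (hx : ∀ p ∈ U, Commute x (F p)) : ∃ p ∈ U, F p * x ∈ F0 π F := by
  obtain ⟨c, rfl⟩ := h.sur x
  obtain ⟨z, hz⟩ := h.sur (F z1)
  obtain ⟨u, hu⟩ := h.sur (F u1)
  have zu := h.anti zU uU (by decide +kernel) (by decide +kernel) (by decide +kernel) hz hu
  have uz := h.anti uU zU (by decide +kernel) (by decide +kernel) (by decide +kernel) hu hz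
  rcases h.comm (hz ▸ hx _ zU) with h1 | h1 <;> rcases h.comm (hu ▸ hx _ uU) with h2 | h2
  · exact ⟨1, U.one_mem, by simpa using h.F0_of hz hu h1 h2⟩
  · exact ⟨z1, zU, by
      rw [← hz, ← map_mul]; exact h.F0_of hz hu ((Commute.refl z).mul_left h1) (h.ac_mul zu h2)⟩
  · exact ⟨u1, uU, by
      rw [← hu, ← map_mul]; exact h.F0_of hz hu (h.ac_mul uz h1) ((Commute.refl u).mul_left h2)⟩
  · refine ⟨z1 * u1, U.mul_mem zU uU, ?_⟩
    rw [map_mul, ← hz, ← hu, ← map_mul, ← map_mul]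
    refine h.F0_of hz hu (h.ac_mul (h.ac_mul' (Commute.refl z) uz) h1) ?_
    rw [mul_assoc]
    exact h.ac_mul zu (h.ac_mul' (Commute.refl u) h2)

theorem F0_inf (h : YH π t F v) {p : N2} (hp : p ∈ U) (hx : F p ∈ F0 π F) : p = 1 := by
  by_contra p1
  have : ∀ p ∈ [1, z1, u1, z1 * u1], p ≠ 1 → ∃ q ∈ [1, z1, u1, z1 * u1], q ≠ 1 ∧ p * q ≠ 1 := by decide +kernel
  obtain ⟨q, hq, q1, pq⟩ := this p hp p1
  obtain ⟨c, hc⟩ := h.sur (F p)
  obtain ⟨d, hd⟩ := h.sur (F q)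
  have e := h.anti hp hq p1 q1 pq hc hd
  rw [(h.F0_lift (hc ▸ hx) hq hd).eq] at e
  exact h.t1 (by simpa using e)

theorem nrmU {g : N2} (hg : ∀ p ∈ [1, z1, u1, z1 * u1], g⁻¹ * p * g ∈ U) :
    ∀ p ∈ U, ∃ q ∈ U, (F g)⁻¹ * F p * F g = F q := fun p hp => ⟨_, hg p hp, by simp⟩

theorem F0_a2 (h : YH π t F v) {x : X} (hx : x ∈ F0 π F) : F a2 * x * (F a2)⁻¹ ∈ F0 π F :=
  h.F0_conj (nrmU (by decide +kernel)) hx

theorem F0_c (h : YH π t F v) {x : X} (hx : ∀ p ∈ U, Commute x (F p)) (ha : Commute x (F a2)) : x ∈ F0 π F := by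
  obtain ⟨p, hp, e⟩ := h.F0_dec hx
  have e2 := h.F0_a2 e
  have e3 : F a2 * (F p * x) * (F a2)⁻¹ * (F p * x)⁻¹ = F (a2 * p * a2⁻¹ * p⁻¹) := by
    calc _ = F a2 * F p * (x * (F a2)⁻¹ * x⁻¹) * (F p)⁻¹ := by group
      _ = _ := by rw [ha.inv_right.eq]; simp
  have k : ∀ p ∈ [1, z1, u1, z1 * u1], a2 * p * a2⁻¹ * p⁻¹ ∈ U ∧ (a2 * p * a2⁻¹ * p⁻¹ = 1 → p = 1) := by
    decide +kernel
  have := (k p hp).2 (h.F0_inf (k p hp).1 (e3 ▸ (F0 π F).mul_mem e2 ((F0 π F).inv_mem e)))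
  simpa [this] using e

theorem a1F (h : YH π t F v) : F a1 ∈ F0 π F :=
  h.F0_3 (U_all (by
    have : ∀ p ∈ [1, z1, u1, z1 * u1], a1 * p = p * a1 := by decide +kernel
    exact fun p hp => cmF (this p hp))) (by rw [← map_pow, show a1 ^ 3 = 1 by decide +kernel, map_one])

theorem t2F (h : YH π t F v) : F t2 ∈ F0 π F :=
  h.F0_c (U_all (by
    have : ∀ p ∈ [1, z1, u1, z1 * u1], t2 * p = p * t2 := by decide +kernel
    exact fun p hp => cmF (this p hp))) (cmF (by decide +kernel))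

theorem cen1 (h : YH π t F v) {g : X} (hg : Commute g (F a1)) : ∃ x, F x = g ∧ Commute x a1 := by
  have : g ∈ F.range := by
    rw [h.rng]
    refine centralizer_le_normalizer _ fun y hy => ?_
    obtain ⟨i, rfl⟩ := hy
    exact (hg.zpow_right i).symm
  obtain ⟨x, rfl⟩ := this
  exact ⟨x, rfl, h.inj (by simpa using hg.eq)⟩

theorem F0_a1 (h : YH π t F v) {g : X} (hg : g ∈ F0 π F) (ha : Commute g (F a1)) : g ∈ zpowers (F a1) := by
  obtain ⟨x, rfl, c⟩ := h.cen1 ha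
  have k : ∀ p ∈ U, Commute x p := fun p hp => h.inj (by simpa using (h.F0_le hg p hp).eq)
  obtain ⟨p, hp, q, hq, rfl⟩ := q2 x c (k _ zU) (k _ uU)
  have hp' : F p ∈ zpowers (F a1) := by
    simp only [List.mem_cons, List.not_mem_nil, or_false] at hp
    rcases hp with rfl | rfl | rfl <;> simp
  have : q = 1 := h.F0_inf hq (((F0 π F).mul_mem_cancel_left (zpowers_le.2 h.a1F hp')).1 (by simpa using hg))
  simpa [this] using hp'

end YH

end CA.McL.E

theorem CA.McL.realizeEqnsE3 : True := by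
  have := @CA.McL.E.U.eq_1
  have := @CA.McL.E.U.eq_def
  have := @CA.McL.E.U.congr_simp
  have := @CA.McL.E.F0.eq_1.{0,0}
  have := @CA.McL.E.F0.eq_def.{0,0}
  have := @CA.McL.E.F0.congr_simp.{0,0}
  trivial
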