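/-
McL:2 case (package C2): signalizers for the Sylow 3-subgroup.
-/
import Cfsg.Agent.McL.E3

set_option autoImplicit false

namespace CA.McL.E

open CA.FG Subgroup

attribute [local instance 2000] List.decidableBAll List.decidableBEx

universe u

variable {C : Type*} {X : Type u} [Group C] [Group X] {π : C →* X} {t : C} {F : N2 →* X} {v s : X}

/-- `(4 7)(5 8)` -/
def g0 : N2 := ⟨Equiv.swap 3 6 * Equiv.swap 4 7, by decide⟩

/-- the elements of the Sylow 3-subgroup -/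
def L9 : List N2 := [1, a1, a1⁻¹, a2, a2⁻¹, a1 * a2, (a1 * a2)⁻¹, a1 * a2⁻¹, (a1 * a2⁻¹)⁻¹]

/-- the Sylow 3-subgroup -/
def Dn : Subgroup N2 where
  carrier := {x | x ∈ L9}
  one_mem' := by simp [L9]
  mul_mem' := by
    have : ∀ a ∈ L9, ∀ b ∈ L9, a * b ∈ L9 := by decide +kernel
    exact fun {_ _} ha hb => this _ ha _ hb
  inv_mem' := by
    have : ∀ a ∈ L9, a⁻¹ ∈ L9 := by decide +kernel
    exact fun {_} ha => this _ ha

theorem Dn_eq (F : N2 →* X) : closure {F a1, F a2} = Dn.map F := by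
  refine le_antisymm ((closure_le _).2 ?_) ?_
  · rintro x (rfl | rfl)
    · exact ⟨a1, by simp [Dn, L9], rfl⟩
    · exact ⟨a2, by simp [Dn, L9], rfl⟩
  · rintro _ ⟨x, hx, rfl⟩
    have h1 : F a1 ∈ closure {F a1, F a2} := subset_closure (by simp)
    have h2 : F a2 ∈ closure {F a1, F a2} := subset_closure (by simp)
    have hx : x ∈ L9 := hx
    simp only [L9, List.mem_cons, List.not_mem_nil, or_false] at hx
    rcases hx with rfl | rfl | rfl | rfl | rfl | rfl | rfl | rfl | rfl <;>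
      simp only [map_one, map_mul, map_inv, inv_mem_iff, one_mem, h1, h2, mul_mem_cancel_left]

theorem Dn_p [Finite X] (F : N2 →* X) : IsPGrp 3 (Dn.map F) := by
  have : ∀ a ∈ L9, a ^ 3 ^ 1 = 1 := by decide +kernel
  refine pGrp_of_forall_pow Nat.prime_three (k := 1) ?_
  rintro _ ⟨x, hx, rfl⟩
  rw [← map_pow, this x hx, map_one]

theorem a13 : F a1 ^ 3 = 1 := by rw [← map_pow, show a1 ^ 3 = 1 by decide +kernel, map_one]
theorem a23 : F a2 ^ 3 = 1 := by rw [← map_pow, show a2 ^ 3 = 1 by decide +kernel, map_one]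

theorem conj_inv3 {R : Subgroup X} {a : X} (ha : a ^ 3 = 1) (h : ∀ x ∈ R, a * x * a⁻¹ ∈ R) :
    ∀ x ∈ R, a⁻¹ * x * a ∈ R := fun x hx => by
  have e : a⁻¹ = a * a := inv_eq_of_mul_eq_one_right (by rw [← ha, pow_succ', pow_two])
  have := h _ (h x hx)
  rwa [show a * (a * x * a⁻¹) * a⁻¹ = (a * a) * x * (a * a)⁻¹ by group, ← e, inv_inv] at this

theorem closure_conj {S : Set X} {g : X} (h : ∀ y ∈ S, g * y * g⁻¹ ∈ S) : ∀ x ∈ closure S, g * x * g⁻¹ ∈ closure S :=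
  fun _ hx => (closure_le ((closure S).comap (MulAut.conj g).toMonoidHom)).2
    (fun y hy => subset_closure (h y hy)) hx

/-- the conjugate of a subgroup -/
def cs (s : X) (R : Subgroup X) : Subgroup X := R.comap (MulAut.conj s).toMonoidHom

theorem mem_cs {R : Subgroup X} {x : X} : x ∈ cs s R ↔ s * x * s⁻¹ ∈ R := Iff.rfl

theorem N3.cs {R : Subgroup X} (h : N3 R) (s : X) : N3 (cs s R) := fun x hx x3 => by
  simpa using h _ (mem_cs.1 hx) (by rw [conj_pow, x3]; simp)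

/-- an involution interchanging the two 3-cycles -/
structure Sw (π : C →* X) (F : N2 →* X) (s : X) : Prop where
  ss : s * s = 1
  sa : s * F a1 * s⁻¹ = F a2
  st : s * F t1 * s⁻¹ = F t2
  sl : Lf π s

theorem Sw.sw (h : Sw π F s) {x y : X} (e : s * x * s⁻¹ = y) : s * y * s⁻¹ = x := by
  rw [← e, show s * (s * x * s⁻¹) * s⁻¹ = (s * s) * x * (s * s)⁻¹ by group, h.ss]; simp

theorem Sw.comm (_ : Sw π F s) {x y : X} (e : Commute x y) : Commute (s * x * s⁻¹) (s * y * s⁻¹) :=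
  e.map (MulAut.conj s)

/-- the four-group commutes with its conjugate -/
def CII (F : N2 →* X) (s : X) : Prop := ∀ p ∈ U, ∀ q ∈ U, Commute (F p) (s * F q * s⁻¹)

theorem aU : ∀ p ∈ U, Commute (F a1) (F p) := U_all (by
  have : ∀ p ∈ [1, z1, u1, z1 * u1], a1 * p = p * a1 := by decide +kernel
  exact fun p hp => cmF (this p hp))

theorem conj_comm {g x y : X} (h : Commute x y) (hg : Commute g y) : Commute (g * x * g⁻¹) y :=
  (hg.mul_left h).mul_left hg.inv_left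

theorem Sw.cII (h : Sw π F s) {q : N2} (hq : q ∈ U) (q1 : q ≠ 1) (c : Commute (F z1) (s * F q * s⁻¹)) :
    CII F s := by
  have k : ∀ q ∈ [1, z1, u1, z1 * u1], q ≠ 1 → ∀ p ∈ [1, z1, u1, z1 * u1],
      p = 1 ∨ p = q ∨ p = a2 * q * a2⁻¹ ∨ p = a2⁻¹ * q * a2⁻¹⁻¹ := by decide +kernel
  have e1 : Commute (s * F a2 * s⁻¹) (F z1) := h.sw h.sa ▸ aU _ zU
  have c1 : ∀ p ∈ U, Commute (s * F p * s⁻¹) (F z1) := fun p hp => by
    rcases k q hq q1 p hp with rfl | rfl | rfl | rfl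
    · simp
    · exact c.symm
    · have := conj_comm c.symm e1
      convert this using 1; simp only [map_mul, map_inv]; group
    · have := conj_comm c.symm e1.inv_left
      convert this using 1; simp only [map_mul, map_inv]; group
  intro p hp q hq
  have e2 : Commute (F a2) (s * F q * s⁻¹) := h.sa ▸ h.comm (aU q hq)
  rcases k z1 zU (by decide +kernel) p hp with rfl | rfl | rfl | rfl
  · simp
  · exact (c1 q hq).symm
  · simpa using conj_comm (c1 q hq).symm e2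
  · simpa using conj_comm (c1 q hq).symm e2.inv_left

namespace YH

theorem ne1 (h : YH π t F v) {x : N2} (hx : x ≠ 1) : F x ≠ 1 := fun e => hx (h.inj (by rw [e, map_one]))

theorem ncm (h : YH π t F v) {x y : N2} (e : x * y ≠ y * x) : ¬ Commute (F x) (F y) := fun c =>
  e (h.inj (by simpa using c.eq))

theorem sw1 (h : YH π t F v) : Sw π F v where
  ss := h.vv
  sa := h.va
  st := by
    rw [show t1 = w1 * ta by decide +kernel, show t2 = w2 * ta by decide +kernel, map_mul, map_mul, ← h.vw]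
    calc _ = v * F w1 * (F ta * v⁻¹) := by group
      _ = _ := by rw [← h.vt.inv_left.eq]; group
  sl := h.pv

theorem sw2 (h : YH π t F v) : Sw π F (v * F ta) where
  ss := by
    calc _ = v * (F ta * v) * F ta := by group
      _ = v * v * F (ta * ta) := by rw [← h.vt.eq, map_mul]; group
      _ = 1 := by rw [h.vv, show ta * ta = 1 by decide +kernel, map_one, one_mul]
  sa := by
    calc _ = v * F (ta * a1 * ta⁻¹) * v⁻¹ := by simp only [map_mul, map_inv]; group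
      _ = _ := by rw [show ta * a1 * ta⁻¹ = a1 by decide +kernel, h.va]
  st := by
    calc _ = v * F (ta * t1 * ta⁻¹) * v⁻¹ := by simp only [map_mul, map_inv]; group
      _ = _ := by rw [show ta * t1 * ta⁻¹ = t1 by decide +kernel, h.sw1.st]
  sl := h.pvt

theorem vta (h : YH π t F v) : v * F ta * v⁻¹ = F ta := mul_inv_eq_iff_eq_mul.2 h.vt.eq

theorem c_t1 (_ : YH π t F v) : IsConj (F ta) (F t1) :=
  cj g0 (by decide +kernel)

theorem c_t2 (h : YH π t F v) : IsConj (F ta) (F t2) := h.c_t1.trans (isConj_iff.2 ⟨v, h.sw1.st⟩)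

theorem c_i (h : YH π t F v) : IsConj (F z1) (F (t1 * t2)) :=
  ((cj (ta * t3 * ta⁻¹) (by decide +kernel : _ = w1)).trans (isConj_iff.2 ⟨v, h.vw⟩)).trans
    (cj g0 (by decide +kernel))

theorem c_zt (_ : YH π t F v) : IsConj (F (w1 * w2 * ta)) (F (z1 * t2)) :=
  cj (ta * t3 * ta⁻¹) (by decide +kernel)

theorem d3 (h : YH π t F v) {R : Subgroup X} (hR : N3 R) {x : N2} (hx : F x ∈ R) (d : D3 x) : False :=
  h.ne1 d.1 (hR _ (by rw [map_pow]; exact pow_mem hx _) (by rw [← map_pow, d.2, map_one]))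

theorem s2 (h : YH π t F v) {R : Subgroup X} (hR : N3 R) (n2 : ∀ x ∈ R, F a2 * x * (F a2)⁻¹ ∈ R) {x : N2}
    (c : Commute x a1) (hx : F x ∈ R) :
    x ∈ [1, ta, z1, u1, z1 * u1, ta * z1 * ta⁻¹, ta * u1 * ta⁻¹, ta * (z1 * u1) * ta⁻¹] := by
  have h1 : F (a2 * x * a2⁻¹) ∈ R := by simpa using n2 _ hx
  have h2 : F (a2⁻¹ * x * a2) ∈ R := by simpa using conj_inv3 a23 n2 _ hx
  refine (q3 x c).resolve_right ?_
  rintro (d | d | d | d) <;> refine h.d3 hR ?_ d
  · exact hx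
  · rw [map_mul, map_mul, map_mul]; exact R.mul_mem (R.mul_mem (R.mul_mem hx hx) h1) h2
  · rw [map_mul, map_mul, map_mul]; exact R.mul_mem (R.mul_mem (R.mul_mem hx hx) h2) h1
  · rw [map_mul, map_mul, map_mul]; exact R.mul_mem (R.mul_mem (R.mul_mem hx h1) hx) h2

theorem s3 (h : YH π t F v) {R : Subgroup X} (hR : N3 R) (n2 : ∀ x ∈ R, F a2 * x * (F a2)⁻¹ ∈ R)
    (hU : ∀ p ∈ U, F p ∈ R) {g : X} (c : Commute g (F a1)) (hg : g ∈ R) : ∃ p ∈ U, F p = g := by
  obtain ⟨x, rfl, c'⟩ := h.cen1 c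
  have k : ∀ x ∈ [1, ta, z1, u1, z1 * u1, ta * z1 * ta⁻¹, ta * u1 * ta⁻¹, ta * (z1 * u1) * ta⁻¹],
      x ∈ U ∨ ∃ p ∈ [1, z1, u1, z1 * u1], E.d3 (cd (x * p)) = true := by decide +kernel
  rcases k x (h.s2 hR n2 c' hg) with e | ⟨p, hp, d⟩
  · exact ⟨x, e, rfl⟩
  · exact (h.d3 hR (by rw [map_mul]; exact R.mul_mem hg (hU p hp)) (d3_spec d)).elim

theorem cs_n (_ : YH π t F v) (hs : Sw π F s) {R : Subgroup X} (n1 : ∀ x ∈ R, F a1 * x * (F a1)⁻¹ ∈ R) :
    ∀ x ∈ cs s R, F a2 * x * (F a2)⁻¹ ∈ cs s R := fun x hx => by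
  have := n1 _ (mem_cs.1 hx)
  rw [← hs.sw hs.sa] at this
  rw [mem_cs]
  convert this using 1; group

theorem cs_c (_ : YH π t F v) (hs : Sw π F s) {g : X} (c : Commute g (F a2)) : Commute (s * g * s⁻¹) (F a1) :=
  hs.sw hs.sa ▸ hs.comm c

theorem gen [Finite X] (h : YH π t F v) {R Y : Subgroup X} (hR : N3 R) (n1 : ∀ x ∈ R, F a1 * x * (F a1)⁻¹ ∈ R)
    (n2 : ∀ x ∈ R, F a2 * x * (F a2)⁻¹ ∈ R) (h1 : ∀ x ∈ R, Commute x (F a1) → x ∈ Y)
    (h2 : ∀ x ∈ R, Commute x (F a2) → x ∈ Y) : R ≤ Y := by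
  have cm : ∀ a ∈ L9, ∀ b ∈ L9, a * b = b * a := by decide +kernel
  have nR : Dn.map F ≤ 𝒩(R) := by
    rw [← Dn_eq, closure_le]
    rintro x (rfl | rfl)
    · exact mem_normalizer_fintype n1
    · exact mem_normalizer_fintype n2
  have co : (Nat.card R).Coprime (Nat.card (Dn.map F)) := ((Dn_p F).coprime_of_not_dvd hR.not_dvd).symm
  have a1D : F a1 ∈ Dn.map F := ⟨a1, by simp [Dn, L9], rfl⟩
  have a2D : F a2 ∈ Dn.map F := ⟨a2, by simp [Dn, L9], rfl⟩
  have hN : ∀ x ∈ R, x ∈ 𝒩(Dn.map F) → x ∈ Y := fun x hx hn =>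
    h1 x hx (((coprime_norm_cent nR co).le ⟨hx, hn⟩).2 _ a1D).symm
  have cb : ∀ g, Commute g (F (a1 * a2)) → g ∈ 𝒩(Dn.map F) := fun g c => Dn_eq F ▸ h.cb g (by simpa using c)
  have cb' : ∀ g, Commute g (F (a1 * a2⁻¹)) → g ∈ 𝒩(Dn.map F) := fun g c => by
    have e : F t1 * F (a1 * a2⁻¹) * (F t1)⁻¹ = F (a1 * a2) := by
      rw [← map_inv, ← map_mul, ← map_mul]; congr 1; decide +kernel
    have h3 := cb (F t1 * g * (F t1)⁻¹) (e ▸ c.map (MulAut.conj (F t1)))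
    have h4 : F t1 ∈ 𝒩(Dn.map F) := by
      refine mem_normalizer_fintype ?_
      rintro _ ⟨x, hx, rfl⟩
      have : ∀ x ∈ L9, t1 * x * t1⁻¹ ∈ L9 := by decide +kernel
      exact ⟨_, this x hx, by simp⟩
    exact (mul_mem_cancel_left h4).1 ((mul_mem_cancel_right (inv_mem h4)).1 h3)
  refine CA.BG.coprime_abelian_gen_cent1_le (A := Dn.map F) ⟨⟨?_⟩⟩ (fun cy => ?_) nR co ?_
  · rintro ⟨_, x, hx, rfl⟩ ⟨_, y, hy, rfl⟩
    exact Subtype.ext (cmF (cm x hx y hy)).eq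
  · obtain ⟨⟨c, hc⟩, hg⟩ := cy.exists_generator
    have c3 : c ^ 3 = 1 := by
      obtain ⟨x, hx, rfl⟩ := hc
      have : ∀ a ∈ L9, a ^ 3 = 1 := by decide +kernel
      rw [← map_pow, this x hx, map_one]
    have k : ∀ x (hx : x ∈ Dn.map F), x ∈ zpowers c := fun x hx => by
      obtain ⟨i, hi⟩ := hg ⟨x, hx⟩
      exact ⟨i, by simpa using congrArg Subtype.val hi⟩
    have n1 : F a1 ≠ 1 := h.ne1 (by decide +kernel)
    have n2 : F a2 ≠ 1 := h.ne1 (by decide +kernel)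
    have n3 : F a1 ≠ F a2 := fun e => absurd (h.inj e) (by decide +kernel)
    have n4 : F a1 ≠ (F a2)⁻¹ := fun e => absurd (h.inj (e.trans (map_inv F a2).symm)) (by decide +kernel)
    rcases mem_zp3 c3 (k _ a1D) with e | e | e <;> rcases mem_zp3 c3 (k _ a2D) with e' | e' | e' <;>
      first | exact n1 e | exact n2 e' | exact n3 (e.trans e'.symm) | exact n4 (by rw [e, e', inv_inv]) |
        exact n4 (by rw [e, e'])
  · rintro _ ⟨x, hx, rfl⟩ x1 g ⟨hg, c⟩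
    have c : Commute g (F x) := mem_centralizer_singleton_iff.1 c
    have hx : x ∈ L9 := hx
    simp only [L9, List.mem_cons, List.not_mem_nil, or_false] at hx
    rcases hx with rfl | rfl | rfl | rfl | rfl | rfl | rfl | rfl | rfl
    · exact absurd (map_one F) x1
    · exact h1 g hg c
    · exact h1 g hg (by simpa using c)
    · exact h2 g hg c
    · exact h2 g hg (by simpa using c)
    · exact hN g hg (cb g c)
    · exact hN g hg (cb g (by rw [map_inv] at c; exact Commute.inv_right_iff.1 c))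
    · exact hN g hg (cb' g c)
    · exact hN g hg (cb' g (by rw [map_inv] at c; exact Commute.inv_right_iff.1 c))

theorem ntu [Finite X] (h : YH π t F v) : ¬ IsConj (F ta) (F z1) := fun c => by
  obtain ⟨g, hg⟩ := isConj_iff.1 c
  have n1 : F a1 ≠ 1 := h.ne1 (by decide +kernel)
  have sy : IsSylowOf 3 (zpowers (F a1)) 𝒞[F z1] := by
    refine syl3 (mem_centralizer_singleton_iff.2 (aU _ zU)) a13 n1 fun x hx c => ?_
    obtain ⟨x, rfl, c'⟩ := h.cen1 c
    have c2 : Commute x z1 := h.inj (by simpa using mem_centralizer_singleton_iff.1 hx)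
    rw [← map_pow]
    rcases q1 x c' c2 with e | e | e <;> simp [e]
  have le : Dn.map F :^ g ≤ 𝒞[F z1] := by
    rintro _ ⟨_, ⟨x, hx, rfl⟩, rfl⟩
    have : ∀ a ∈ L9, a * ta = ta * a := by decide +kernel
    exact mem_centralizer_singleton_iff.2 (hg ▸ (cmF (this x hx)).map (MulAut.conj g))
  obtain ⟨m, -, hm⟩ := sylow_Jsub Nat.prime_three sy ((Dn_p F).conjg g) le
  have k : ∀ x ∈ L9, m * (g * F x * g⁻¹) * m⁻¹ ∈ zpowers (F a1) := fun x hx => hm ⟨_, ⟨_, ⟨x, hx, rfl⟩, rfl⟩, rfl⟩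
  have j : ∀ x y : N2, x ≠ y → m * (g * F x * g⁻¹) * m⁻¹ ≠ m * (g * F y * g⁻¹) * m⁻¹ := fun x y n e =>
    n (h.inj (by simpa using e))
  have j1 : ∀ x : N2, x ≠ 1 → m * (g * F x * g⁻¹) * m⁻¹ ≠ 1 := fun x n => by simpa using h.ne1 n
  rcases mem_zp3 a13 (k a1 (by simp [L9])) with e | e | e
  · exact j1 _ (by decide +kernel) e
  all_goals rcases mem_zp3 a13 (k a2 (by simp [L9])) with e' | e' | e'
  · exact j1 _ (by decide +kernel) e'
  · exact j _ _ (by decide +kernel) (e.trans e'.symm)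
  · exact j a1 a2⁻¹ (by decide +kernel) (by rw [e, ← inv_inv (F a1), ← e', map_inv]; group)
  · exact j1 _ (by decide +kernel) e'
  · exact j a1 a2⁻¹ (by decide +kernel) (by rw [e, ← e', map_inv]; group)
  · exact j _ _ (by decide +kernel) (e.trans e'.symm)

end YH

/-- the involutions of `F0` not conjugate to `(1 2)` generate a 3'-group -/
def R0 (π : C →* X) (F : N2 →* X) : Subgroup X :=
  closure {y | y ∈ F0 π F ∧ y * y = 1 ∧ ∀ g ∈ F0 π F, g * F t2 * g⁻¹ ≠ y}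

namespace YH

theorem R0_le : R0 π F ≤ F0 π F := (closure_le _).2 fun _ hy => hy.1

theorem R0_3 [Finite X] (h : YH π t F v) (hB : BeS.{u}) : N3 (R0 π F) := by
  have := be2 hB (F := F0 π F) (a := ⟨_, h.a1F⟩) (τ := ⟨_, h.t2F⟩) (Subtype.ext a13)
    (fun e => h.ne1 (by decide +kernel) (congrArg Subtype.val e))
    (fun x c => by
      obtain ⟨i, hi⟩ := h.F0_a1 x.2 (congrArg Subtype.val c.eq)
      exact ⟨i, Subtype.ext (by simpa using hi)⟩)
    (Subtype.ext (by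
      show F t2 * F t2 = 1
      rw [← map_mul, show t2 * t2 = 1 by decide +kernel, map_one]))
    (Subtype.ext (by
      show F t2 * F a1 * (F t2)⁻¹ = (F a1)⁻¹
      rw [← map_inv, ← map_inv, ← map_mul, ← map_mul]; congr 1; decide +kernel))
  intro x hx x3
  obtain ⟨y, hy, rfl⟩ := (closure_le ((closure {y : F0 π F | y * y = 1 ∧ ¬ IsConj ⟨_, h.t2F⟩ y}).map
    (F0 π F).subtype)).2 (fun y hy => ⟨⟨y, hy.1⟩, subset_closure ⟨Subtype.ext hy.2.1, fun c => by
      obtain ⟨g, hg⟩ := isConj_iff.1 c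
      exact hy.2.2 g g.2 (congrArg Subtype.val hg)⟩, rfl⟩) hx
  rw [this y hy (Subtype.ext x3), map_one]

theorem R0_F {g : X} (hg : g ∈ F0 π F) : ∀ x ∈ R0 π F, g * x * g⁻¹ ∈ R0 π F :=
  closure_conj fun y hy => ⟨mul_mem (mul_mem hg hy.1) (inv_mem hg), by
    rw [show g * y * g⁻¹ * (g * y * g⁻¹) = g * (y * y) * g⁻¹ by group, hy.2.1]; simp, fun k hk e =>
      hy.2.2 (g⁻¹ * k) (mul_mem (inv_mem hg) hk) (by
        rw [show g⁻¹ * k * F t2 * (g⁻¹ * k)⁻¹ = g⁻¹ * (k * F t2 * k⁻¹) * g by group, e]; group)⟩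

theorem R0_a2 (h : YH π t F v) : ∀ x ∈ R0 π F, F a2 * x * (F a2)⁻¹ ∈ R0 π F :=
  closure_conj fun y hy => ⟨h.F0_a2 hy.1, by
    rw [show F a2 * y * (F a2)⁻¹ * (F a2 * y * (F a2)⁻¹) = F a2 * (y * y) * (F a2)⁻¹ by group, hy.2.1]; simp,
    fun k hk e => hy.2.2 _ (conj_inv3 a23 (fun _ => h.F0_a2) k hk) (by
      have c : Commute (F a2) (F t2) := cmF (by decide +kernel)
      rw [show (F a2)⁻¹ * k * F a2 * F t2 * ((F a2)⁻¹ * k * F a2)⁻¹ =
        (F a2)⁻¹ * (k * (F a2 * F t2 * (F a2)⁻¹) * k⁻¹) * F a2 by group, c.mul_inv_cancel, e]; group)⟩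

theorem R0_a1 [Finite X] (h : YH π t F v) (hB : BeS.{u}) {g : X} (hg : g ∈ R0 π F) (c : Commute g (F a1)) :
    g = 1 := by
  refine h.R0_3 hB g hg ?_
  obtain ⟨i, rfl⟩ := h.F0_a1 (R0_le hg) c
  show (F a1 ^ i) ^ 3 = 1
  rw [← zpow_natCast, ← zpow_mul, mul_comm, zpow_mul, zpow_natCast, a13, one_zpow]

theorem cF3 [Finite X] (h : YH π t F v) {x : X} (hx : x ∈ F0 π F) (x3 : x ^ 3 = 1) (x1 : x ≠ 1) :
    ∃ g ∈ F0 π F, ∀ y, Commute x y → Commute (F a1) (g * y * g⁻¹) := by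
  obtain ⟨g, hg, e⟩ := conj3 h.a1F a13 (h.ne1 (by decide +kernel)) (fun x hx c => pow_mem (h.F0_a1 hx c) 4) hx x3 x1
  refine ⟨g, hg, fun y c => ?_⟩
  have := c.map (MulAut.conj g)
  simp only [MulAut.conj_apply] at this
  rcases e with e | e <;> rw [e] at this
  · exact this
  · exact Commute.inv_left_iff.1 this

end YH

end CA.McL.E

theorem CA.McL.realizeEqnsE4 : True := by
  have := @CA.McL.E.Dn.eq_1
  have := @CA.McL.E.Dn.eq_def
  have := @CA.McL.E.Dn.congr_simp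
  have := @CA.McL.E.CII.eq_1.{0}
  have := @CA.McL.E.CII.eq_def.{0}
  have := @CA.McL.E.CII.congr_simp.{0}
  have := @CA.McL.E.L9.eq_1
  have := @CA.McL.E.L9.eq_def
  have := @CA.McL.E.L9.congr_simp
  have := @CA.McL.E.g0.eq_1
  have := @CA.McL.E.g0.eq_def
  have := @CA.McL.E.g0.congr_simp
  have := @CA.McL.E.cs.eq_1.{0}
  have := @CA.McL.E.cs.eq_def.{0}
  have := @CA.McL.E.cs.congr_simp.{0}
  have := @CA.McL.E.R0.eq_1.{0,0}
  have := @CA.McL.E.R0.eq_def.{0,0}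
  have := @CA.McL.E.R0.congr_simp.{0,0}
  trivial
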