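/-
McL:2 case (package C2): the four-group commutes with one of its conjugates.
-/
import Cfsg.Agent.McL.E4

set_option autoImplicit false

namespace CA.McL.E

open CA.FG Subgroup DihedralGroup
open scoped commutatorElement

attribute [local instance 2000] List.decidableBAll List.decidableBEx

universe u

variable {C : Type*} {X : Type u} [Group C] [Group X] {π : C →* X} {t : C} {F : N2 →* X} {v s : X}

/-- types of involutions -/
def Ty (π : C →* X) (F : N2 →* X) (x : X) : ℕ → Prop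
  | 0 => IsConj (F ta) x
  | 1 => IsConj (F z1) x
  | _ => Lf π x

theorem t22 : F t2 * F t2 = 1 := by rw [← map_mul, show t2 * t2 = 1 by decide +kernel, map_one]

namespace YH

theorem ty_conj (h : YH π t F v) {x y : X} (c : IsConj x y) {n : ℕ} (hx : Ty π F x n) : Ty π F y n := by
  match n with
  | 0 => exact IsConj.trans hx c
  | 1 => exact IsConj.trans hx c
  | _ + 2 => exact h.lf_conj c hx

theorem ty_eq [Finite X] (h : YH π t F v) {x : X} {m n : ℕ} (hm : m ≤ 2) (hn : n ≤ 2) (hx : Ty π F x m)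
    (hy : Ty π F x n) : m = n := by
  have a : IsConj (F ta) x → IsConj (F z1) x → False := fun a b => h.ntu (a.trans b.symm)
  have b : IsConj (F ta) x → Lf π x → False := fun a b => h.nt (h.lf_conj a.symm b)
  have c : IsConj (F z1) x → Lf π x → False := fun a b => h.nz (h.lf_conj a.symm b)
  interval_cases m <;> interval_cases n <;>
    first | rfl | exact (a hx hy).elim | exact (a hy hx).elim | exact (b hx hy).elim | exact (b hy hx).elim |
      exact (c hx hy).elim | exact (c hy hx).elim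

theorem nt2 (h : YH π t F v) : ¬ Lf π (F t2) := fun e => h.nt (h.lf_conj h.c_t2.symm e)

theorem lf_zt (h : YH π t F v) : Lf π (F (z1 * t2)) := by
  obtain ⟨c, hc⟩ := h.sur (F z1)
  obtain ⟨d, hd⟩ := h.sur (F t2)
  rw [map_mul, ← hc, ← hd]
  exact h.lf_mul (h.F0_lift (hd ▸ h.t2F) zU hc) (h.sq (hc ▸ h.nz) (hc ▸ U2 _ zU)) (h.sq (hd ▸ h.nt2) (hd ▸ t22))

theorem conj_ta (_ : YH π t F v) (p : N2) :
    v * F (ta * p * ta⁻¹) * v⁻¹ = v * F ta * F p * (v * F ta)⁻¹ := by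
  simp only [map_mul, map_inv]; group

section caseI

theorem I1 [Finite X] (h : YH π t F v) (hB : BeS.{u}) (n1 : ¬ CII F v) (n2 : ¬ CII F (v * F ta)) :
    R0 π F ≤ ⊥ := by
  refine h.gen (h.R0_3 hB) (R0_F h.a1F) h.R0_a2 (fun g hg c => h.R0_a1 hB hg c) fun g hg c => ?_
  obtain ⟨x, hx, c'⟩ := h.cen1 (h.cs_c h.sw1 c)
  have e : v * F x * v⁻¹ = g := h.sw1.sw hx.symm
  have cz : Commute (F z1) (v * F x * v⁻¹) := e ▸ (h.F0_le (R0_le hg) _ zU).symm
  have := h.s2 ((h.R0_3 hB).cs v) (h.cs_n h.sw1 (R0_F h.a1F)) c' (mem_cs.2 (e ▸ hg))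
  simp only [List.mem_cons, List.not_mem_nil, or_false] at this
  rcases this with rfl | rfl | rfl | rfl | rfl | rfl | rfl | rfl
  · simp [← e]
  · exact (h.ncm (by decide +kernel) (h.vta ▸ cz)).elim
  · exact (n1 (h.sw1.cII zU (by decide +kernel) cz)).elim
  · exact (n1 (h.sw1.cII uU (by decide +kernel) cz)).elim
  · exact (n1 (h.sw1.cII (U.mul_mem zU uU) (by decide +kernel) cz)).elim
  · exact (n2 (h.sw2.cII zU (by decide +kernel) (h.conj_ta _ ▸ cz))).elim
  · exact (n2 (h.sw2.cII uU (by decide +kernel) (h.conj_ta _ ▸ cz))).elim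
  · exact (n2 (h.sw2.cII (U.mul_mem zU uU) (by decide +kernel) (h.conj_ta _ ▸ cz))).elim

theorem I2 [Finite X] (h : YH π t F v) (hB : BeS.{u}) (n1 : ¬ CII F v) (n2 : ¬ CII F (v * F ta)) {y : X}
    (hy : y ∈ F0 π F) (y2 : y * y = 1) (y1 : y ≠ 1) : ¬ Lf π y := fun l => by
  have : y ∈ R0 π F := subset_closure ⟨hy, y2, fun g _ e => h.nt2 (h.lf_conj (isConj_iff.2 ⟨g, e⟩).symm l)⟩
  exact y1 (h.I1 hB n1 n2 this)

theorem I3 [Finite X] (h : YH π t F v) : N3 (F0 π F ⊓ 𝒞[F t2]) := fun x hx x3 => by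
  by_contra x1
  obtain ⟨g, hg, c⟩ := h.cF3 hx.1 x3 x1
  have := h.F0_a1 (mul_mem (mul_mem hg h.t2F) (inv_mem hg)) (c _ (mem_centralizer_singleton_iff.1 hx.2)).symm
  have e : g * F t2 * g⁻¹ * (g * F t2 * g⁻¹) = 1 := by
    rw [show g * F t2 * g⁻¹ * (g * F t2 * g⁻¹) = g * (F t2 * F t2) * g⁻¹ by group, t22]; simp
  have n : F (a1 * a1) ≠ 1 := h.ne1 (by decide +kernel)
  rcases mem_zp3 a13 this with e' | e' | e'
  · exact h.ne1 (x := t2) (by decide +kernel) (by simpa using e')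
  · exact n (by rw [map_mul, ← e', e])
  · exact n (by rw [e', ← mul_inv_rev, inv_eq_one] at e; rw [map_mul, e])

theorem E_a2 (h : YH π t F v) : ∀ x ∈ F0 π F ⊓ 𝒞[F t2], F a2 * x * (F a2)⁻¹ ∈ F0 π F ⊓ 𝒞[F t2] := fun _ hx =>
  ⟨h.F0_a2 hx.1, mem_centralizer_singleton_iff.2
    (conj_comm (mem_centralizer_singleton_iff.1 hx.2) (cmF (by decide +kernel)))⟩

theorem I4 [Finite X] (h : YH π t F v) (n1 : ¬ CII F v) (n2 : ¬ CII F (v * F ta)) {g : X}
    (hg : g ∈ F0 π F ⊓ 𝒞[F t2]) (c : Commute g (F a2)) : g ∈ zpowers (F t2) := by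
  obtain ⟨x, hx, c'⟩ := h.cen1 (h.cs_c h.sw1 c)
  have e : v * F x * v⁻¹ = g := h.sw1.sw hx.symm
  have c2 : Commute x t1 := h.inj (by
    have := h.sw1.comm (mem_centralizer_singleton_iff.1 hg.2)
    rw [← hx, h.sw1.sw h.sw1.st] at this
    simpa using this.eq)
  rcases q4 x c' c2 with d | ⟨p, hp, q, hq, rfl⟩
  · exact (h.d3 (h.I3.cs v) (mem_cs.2 (e ▸ hg)) d).elim
  have hp' : v * F p * v⁻¹ ∈ zpowers (F t2) := by
    simp only [List.mem_cons, List.not_mem_nil, or_false] at hp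
    rcases hp with rfl | rfl
    · simp
    · rw [h.sw1.st]; exact mem_zpowers _
  have e2 : g = v * F p * v⁻¹ * (v * F q * v⁻¹) := by rw [← e, map_mul]; group
  have hq' : v * F q * v⁻¹ ∈ F0 π F := (mul_mem_cancel_left (zpowers_le.2 h.t2F hp')).1 (e2 ▸ hg.1)
  have cz : Commute (F z1) (v * F q * v⁻¹) := (h.F0_le hq' _ zU).symm
  have cz' : Commute (F z1) (v * F (t1 * q) * v⁻¹) := by
    have := (h.sw1.st ▸ (h.F0_le h.t2F _ zU).symm : Commute (F z1) (v * F t1 * v⁻¹)).mul_right cz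
    rwa [show v * F (t1 * q) * v⁻¹ = v * F t1 * v⁻¹ * (v * F q * v⁻¹) by rw [map_mul]; group]
  simp only [List.mem_cons, List.not_mem_nil, or_false] at hq
  rcases hq with rfl | rfl | rfl | rfl
  · simpa [e2] using hp'
  · exact (h.ncm (by decide +kernel) (h.vta ▸ cz)).elim
  · rw [show t1 * t3 = z1 by decide +kernel] at cz'
    exact (n1 (h.sw1.cII zU (by decide +kernel) cz')).elim
  · rw [show t1 * (ta * t3 * ta⁻¹) = ta * z1 * ta⁻¹ by decide +kernel, h.conj_ta] at cz'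
    exact (n2 (h.sw2.cII zU (by decide +kernel) cz')).elim

end caseI

end YH

/-- the core computation: a 2-group extension with a unique involution upstairs -/
theorem CE.core (h : CE π t) {a τ y : C} (ct : Commute a τ) (τ2 : τ * τ = t)
    (cy : Commute (π y) (π τ)) (nτ : ∀ k : C, π k ∈ zpowers (π τ) → Commute k τ)
    (hn : π (y * (a * y * a⁻¹) * (a⁻¹ * y * a)) ∈ zpowers (π τ))
    (y2 : π (y * y) ∈ zpowers (π τ)) (cm : π ⁅y, a * y * a⁻¹⁆ ∈ zpowers (π τ))
    (nl : π y * π y = 1 → ¬ Lf π (π y) ∧ ¬ Lf π (π y * π τ)) : False := by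
  have τ4 : π τ * π τ = 1 := by rw [← map_mul, τ2, h.pt]
  have c0 : Commute y τ := by
    refine (h.comm cy).resolve_right fun e => ?_
    have k : ∀ b : C, Commute b τ → b * y * b⁻¹ * τ = τ * (b * y * b⁻¹) * t := fun b hb => by
      calc _ = b * (y * (b⁻¹ * τ)) := by group
        _ = b * (y * τ) * b⁻¹ := by rw [hb.inv_left.eq]; group
        _ = b * τ * y * (t * b⁻¹) := by rw [e]; group
        _ = _ := by rw [hb.eq, ← (h.cen _).eq]; group
    have h2 := h.ac_mul' (h.ac_mul e (k a ct)) (by simpa using k a⁻¹ ct.inv_left)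
    rw [(nτ _ hn).eq] at h2
    exact h.t1 (by simpa using h2)
  rcases mem_zp2 τ4 y2 with e | e
  · rw [map_mul] at e
    exact (nl e).2 (h.lf_mul c0 (h.sq (nl e).1 e) τ2)
  have c1 : Commute (a * y * a⁻¹) τ := conj_comm c0 ct
  have c2 : Commute (a⁻¹ * y * a) τ := by simpa using conj_comm c0 ct.inv_left
  have pa : Commute (π a) (π τ) := ct.map π
  rcases mem_zp2 τ4 cm with e' | e'
  · set A := π a
    set Y := π y
    set T := π τ
    have e : Y * Y = T := by simpa using e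
    have cc : Commute Y (A * Y * A⁻¹) := commutatorElement_eq_one_iff_commute.1 (by simpa [Y, A] using e')
    have e1 : A * Y * A⁻¹ * (A * Y * A⁻¹) = T := by
      rw [show A * Y * A⁻¹ * (A * Y * A⁻¹) = A * (Y * Y) * A⁻¹ by group, e, pa.mul_inv_cancel]
    have e2 : A⁻¹ * Y * A * (A⁻¹ * Y * A) = T := by
      rw [show A⁻¹ * Y * A * (A⁻¹ * Y * A) = A⁻¹ * (Y * Y) * A⁻¹⁻¹ by group, e, pa.inv_left.mul_inv_cancel]
    have e3 : Y * (A * Y * A⁻¹) * (Y * (A * Y * A⁻¹)) = 1 := by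
      calc _ = Y * ((A * Y * A⁻¹) * Y) * (A * Y * A⁻¹) := by group
        _ = Y * Y * (A * Y * A⁻¹ * (A * Y * A⁻¹)) := by rw [← cc.eq]; group
        _ = 1 := by rw [e, e1, τ4]
    have c3 : Commute (A⁻¹ * Y * A) T := by simpa [A, Y, T] using c2.map π
    have T1 : T ≠ 1 := fun e => by
      rcases h.mem e with e | e
      · exact h.t1 (by rw [← τ2, e, one_mul])
      · exact h.t1 (by rw [← τ2, e, h.tt])
    have hn' : Y * (A * Y * A⁻¹) * (A⁻¹ * Y * A) ∈ zpowers T := by simpa [A, Y] using hn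
    set B := A⁻¹ * Y * A
    set D := Y * (A * Y * A⁻¹)
    rcases mem_zp2 τ4 hn' with e4 | e4
    · rw [eq_inv_of_mul_eq_one_left e4, ← mul_inv_rev, e2, inv_eq_one] at e3
      exact T1 e3
    · rw [eq_mul_inv_of_mul_eq e4] at e3
      refine T1 (inv_eq_one.1 ?_)
      calc T⁻¹ = T * T * (B * B)⁻¹ := by rw [τ4, e2, one_mul]
        _ = T * (T * B⁻¹) * B⁻¹ := by group
        _ = 1 := by rw [← c3.inv_left.eq, ← e3]; group
  · set b := a * y * a⁻¹
    have k : Commute (y * y) b := (h.comm_lift c1 rfl e.symm).symm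
    have k2 : ⁅y, b⁆ * ⁅y, b⁆ = t := by
      rcases h.eq e'.symm with e | e <;> rw [e]
      · exact τ2
      · calc _ = τ * (t * τ) * t := by group
          _ = τ * τ * (t * t) := by rw [← (h.cen τ).eq]; group
          _ = t := by rw [τ2, h.tt, mul_one]
    have k3 : Commute y ⁅y, b⁆ := h.comm_lift c0 rfl e'.symm
    have k4 : y * b * y⁻¹ = ⁅y, b⁆ * b := by rw [commutatorElement_def]; group
    have k5 : y * y * b * (y * y)⁻¹ = t * b := by
      calc _ = y * (y * b * y⁻¹) * y⁻¹ := by group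
        _ = y * ⁅y, b⁆ * y⁻¹ * (y * b * y⁻¹) := by rw [k4]; group
        _ = _ := by rw [k3.mul_inv_cancel, k4, ← mul_assoc, k2]
    rw [k.mul_inv_cancel] at k5
    exact h.t1 (by simpa using k5)

namespace YH

theorem I5 [Finite X] (h : YH π t F v) (hB : BeS.{u}) (n1 : ¬ CII F v) (n2 : ¬ CII F (v * F ta)) {g : X}
    (hg : g ∈ F0 π F ⊓ 𝒞[F t2]) (g2 : ∃ k : ℕ, g ^ 2 ^ k = 1) : g ∈ zpowers (F t2) := by
  have pa : IsPGrp 3 (zpowers (F a2)) := piGrp_zpowers_iff.2 (pElt_of_pow_eq_one Nat.prime_three a23)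
  obtain ⟨S, hS, nS⟩ := sol_coprime_Sylow_exists (A := zpowers (F a2)) (M := F0 π F ⊓ 𝒞[F t2]) Nat.prime_two
    (Or.inr pa.sol) (zpowers_le.2 (mem_normalizer_fintype h.E_a2)) (pa.coprime_of_not_dvd h.I3.not_dvd).symm
  have tE : F t2 ∈ F0 π F ⊓ 𝒞[F t2] := ⟨h.t2F, mem_centralizer_singleton_iff.2 rfl⟩
  have cS : ∀ x ∈ F0 π F ⊓ 𝒞[F t2], Commute x (F t2) := fun x hx => mem_centralizer_singleton_iff.1 hx.2
  have cS' : ∀ x ∈ F0 π F ⊓ 𝒞[F t2], ∀ k ∈ zpowers (F t2), Commute x k := fun x hx k ⟨i, hi⟩ =>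
    hi ▸ (cS x hx).zpow_right i
  have J : ∀ g ∈ F0 π F ⊓ 𝒞[F t2], (∃ k : ℕ, g ^ 2 ^ k = 1) → ∃ m ∈ F0 π F ⊓ 𝒞[F t2], m * g * m⁻¹ ∈ S :=
    fun g hg g2 => by
      obtain ⟨m, hm, e⟩ := sylow_Jsub Nat.prime_two hS (piGrp_zpowers_iff.2 ((pElt_iff Nat.prime_two).2 g2))
        (zpowers_le.2 hg)
      exact ⟨m, hm, e ⟨g, mem_zpowers g, rfl⟩⟩
  have tS : F t2 ∈ S := by
    obtain ⟨m, hm, e⟩ := J _ tE ⟨1, by rw [pow_one, pow_two, t22]⟩
    rwa [(cS m hm).mul_inv_cancel] at e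
  by_cases le : S ≤ zpowers (F t2)
  · obtain ⟨m, hm, e⟩ := J g hg g2
    have := (cS' m hm _ (le e)).inv_mul_cancel
    rw [← show m⁻¹ * (m * g * m⁻¹) * m = g by group, this]
    exact le e
  exfalso
  obtain ⟨y, yS, yn, y2, yc⟩ := exists_central hS.pGrp (zpowers_le.2 tS)
    (fun x hx k hk => by rwa [(cS' x (hS.le hx) k hk).mul_inv_cancel]) le
  have aS : ∀ x ∈ S, F a2 * x * (F a2)⁻¹ ∈ S := fun x hx => (mem_normalizer_iff.1 (nS (mem_zpowers _)) x).1 hx
  have aS' := conj_inv3 a23 aS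
  have ca : Commute (F a2) (F t2) := cmF (by decide +kernel)
  obtain ⟨y, rfl⟩ := h.sur y
  obtain ⟨a, ha⟩ := h.sur (F a2)
  obtain ⟨τ, hτ⟩ := h.sur (F t2)
  have τ2 : τ * τ = t := h.sq (hτ ▸ h.nt2) (hτ ▸ t22)
  refine h.core (a := a) (τ := τ) (y := y) (h.comm3 (by rwa [ha, hτ]) (ha ▸ a23)) τ2 (hτ ▸ cS _ (hS.le yS))
    (fun k hk => ?_) ?_ (by rwa [hτ, map_mul]) ?_ fun e => ⟨h.I2 hB n1 n2 (hS.le yS).1 e
      (fun e => yn (e ▸ one_mem _)), h.I2 hB n1 n2 (mul_mem (hS.le yS).1 (hτ ▸ h.t2F)) ?_ fun e' => yn ?_⟩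
  · rcases mem_zp2 (hτ ▸ t22) hk with e | e
    · exact h.comm_lift (Commute.one_left τ) (by rw [e, map_one]) rfl
    · exact h.comm_lift (Commute.refl τ) e.symm rfl
  · simp only [map_mul, map_inv, ha, hτ]
    set A := F a2
    set Y := π y
    have nS : Y * (A * Y * A⁻¹) * (A⁻¹ * Y * A) ∈ S := mul_mem (mul_mem yS (aS _ yS)) (aS' _ yS)
    refine h.I4 n1 n2 (hS.le nS) ?_
    have A3 : A * A = A⁻¹ := eq_inv_of_mul_eq_one_left (by rw [← a23 (F := F), pow_succ, pow_two])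
    have e1 : A * (Y * (A * Y * A⁻¹) * (A⁻¹ * Y * A)) * A⁻¹ =
        ⁅Y, A * Y * A⁻¹ * (A⁻¹ * Y * A)⁆⁻¹ * (Y * (A * Y * A⁻¹) * (A⁻¹ * Y * A)) := by
      have : A * (A * Y * A⁻¹) * A⁻¹ = A⁻¹ * Y * A := by
        rw [show A * (A * Y * A⁻¹) * A⁻¹ = (A * A) * Y * (A * A)⁻¹ by group, A3, inv_inv]
      calc _ = A * Y * A⁻¹ * (A * (A * Y * A⁻¹) * A⁻¹) * Y := by group
        _ = _ := by rw [this, commutatorElement_def]; group
    set n := Y * (A * Y * A⁻¹) * (A⁻¹ * Y * A)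
    rcases mem_zp2 t22 (inv_mem (yc _ (mul_mem (aS _ yS) (aS' _ yS)))) with e | e <;> rw [e] at e1
    · exact (mul_inv_eq_iff_eq_mul.1 (e1.trans (one_mul n))).symm
    · exfalso
      have s1 : ∀ m : X, A * m * A⁻¹ = F t2 * m → A * (F t2 * m) * A⁻¹ = m := fun m hm => by
        calc _ = A * F t2 * A⁻¹ * (A * m * A⁻¹) := by group
          _ = m := by rw [ca.mul_inv_cancel, hm, ← mul_assoc, t22, one_mul]
      have s2 : A * (A * (A * n * A⁻¹) * A⁻¹) * A⁻¹ = n := by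
        rw [show A * (A * (A * n * A⁻¹) * A⁻¹) * A⁻¹ = A ^ 3 * n * (A ^ 3)⁻¹ by
          simp only [pow_succ, pow_zero, one_mul, mul_inv_rev, mul_assoc], a23]; simp
      rw [e1, s1 n e1, e1] at s2
      exact h.ne1 (x := t2) (by decide +kernel) (by simpa using s2)
  · rw [map_commutatorElement, hτ]
    exact yc _ (by simpa [ha] using aS _ yS)
  · calc _ = π y * (π τ * π y) * π τ := by group
      _ = π y * π y * (π τ * π τ) := by rw [hτ, ← (cS _ (hS.le yS)).eq]; group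
      _ = 1 := by rw [e, hτ, t22, one_mul]
  · rw [eq_inv_of_mul_eq_one_left e', hτ]
    exact inv_mem (mem_zpowers _)

theorem tyV (h : YH π t F v) (w : V) (w2' : w * w = 1) (w1' : w ≠ 1) :
    tV w ≤ 2 ∧ Ty π F (F (psi w)) (tV w) ∧ (tV w = 2 → IsConj (F (w1 * w2 * ta)) (F (psi w))) := by
  obtain ⟨g, -, ⟨e, e' | e'⟩ | ⟨e, e' | e'⟩ | ⟨e, e'⟩⟩ := V.cls w w2' w1' <;> rw [e] <;>
    refine ⟨by omega, ?_, fun e => ?_⟩ <;> try omega
  · exact h.c_t1.trans (cj g e').symm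
  · exact h.c_t2.trans (cj g e').symm
  · exact (cj g e').symm
  · exact h.c_i.trans (cj g e').symm
  · exact h.lf_conj (cj g e').symm h.lf_zt
  · exact h.c_zt.trans (cj g e').symm

end YH

/-- an element normalizing the image of an injective homomorphism induces an endomorphism -/
theorem exists_endo {G H : Type*} [Group G] [Group H] {φ : H →* G} (hφ : Function.Injective φ) {g : G}
    (hg : ∀ x ∈ φ.range, g * x * g⁻¹ ∈ φ.range) : ∃ α : H →* H, ∀ w, φ (α w) = g * φ w * g⁻¹ := by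
  choose α hα using fun w => hg (φ w) ⟨w, rfl⟩
  exact ⟨MonoidHom.mk' α fun a b => hφ (by rw [map_mul, hα, hα, hα, map_mul]; group), hα⟩

theorem range_p {G H : Type*} [Group G] [Group H] (φ : H →* G) {k : ℕ} (h : ∀ w : H, w ^ 2 ^ k = 1) :
    IsPGroup 2 φ.range := by
  rintro ⟨_, w, rfl⟩
  refine ⟨k, Subtype.ext ?_⟩
  show φ w ^ _ = (1 : G)
  rw [← map_pow, h, map_one]

namespace YH

theorem caseII [Finite X] (h : YH π t F v) (hB : BeS.{u}) : CII F v ∨ CII F (v * F ta) := by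
  by_contra hn
  obtain ⟨n1, n2⟩ := not_or.1 hn
  have inj : Function.Injective (F.comp psi) := h.inj.comp ((injective_iff_map_eq_one psi).2 V.inj)
  have odd : Odd (F.comp psi).range.index := by
    refine odd_index (range_p _ V.p4) fun g g2 hg => ?_
    obtain ⟨α, hα⟩ := exists_endo inj hg
    have a1' : ∀ w, w ≠ 1 → α w ≠ 1 := fun w w1 e => w1 (inj (by simpa [e] using (hα w).symm))
    have a2' : ∀ w, w * w = 1 → α w * α w = 1 := fun w e => by rw [← map_mul, e, map_one]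
    have k : ∀ w, w * w = 1 → w ≠ 1 → tV (α w) = tV w := fun w w2 w1 => by
      have p := h.tyV w w2 w1
      have q := h.tyV _ (a2' w w2) (a1' w w1)
      exact h.ty_eq q.1 p.1 q.2.1 (h.ty_conj (isConj_iff.2 ⟨g, (hα w).symm⟩) p.2.1)
    obtain ⟨m, m1, m2, m3⟩ := V.nrm (α (r 2, 1)) (a2' _ (by decide +kernel))
      (by rw [k _ (by decide +kernel) (by decide +kernel)]; decide +kernel)
      ⟨α (r 1, 1), by rw [← map_mul]; congr 1⟩ (α (sr 1, 1)) (a2' _ (by decide +kernel))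
      (by rw [k _ (by decide +kernel) (by decide +kernel)]; decide +kernel)
      (by rw [← map_mul]; exact a1' _ (by decide +kernel))
      (by rw [← map_mul, k _ (by decide +kernel) (by decide +kernel)]; decide +kernel)
      (α (1, .ofAdd 1)) (a2' _ (by decide +kernel))
      (by rw [k _ (by decide +kernel) (by decide +kernel)]; decide +kernel)
      (by rw [← map_mul, k _ (by decide +kernel) (by decide +kernel)]; decide +kernel)
      (by rw [← map_mul, k _ (by decide +kernel) (by decide +kernel)]; decide +kernel)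
    have cc : ∀ w, m * w * m⁻¹ = α w → Commute ((F (psi m))⁻¹ * g) (F (psi w)) := fun w e => by
      have := hα w
      rw [← e] at this
      simp only [map_mul, map_inv, MonoidHom.comp_apply] at this
      calc _ = (F (psi m))⁻¹ * (g * F (psi w) * g⁻¹) * g := by group
        _ = _ := by rw [← this]; group
    have c1 := cc _ m1
    have c2 := cc _ m2
    have c3 := cc _ m3
    rw [psi_l, rho_z] at c1
    rw [psi_l, rho_u] at c2
    rw [psi_r] at c3
    obtain ⟨p, hp, e⟩ := h.F0_dec (x := (F (psi m))⁻¹ * g) (U_all (by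
      simp only [List.mem_cons, List.not_mem_nil, or_false]
      rintro _ (rfl | rfl | rfl | rfl)
      · simp
      · exact c1
      · exact c2
      · rw [map_mul]; exact c1.mul_right c2))
    have pT : F p ∈ (F.comp psi).range := by
      have : ∀ p ∈ [1, z1, u1, z1 * u1], ∃ w : V, psi w = p := by decide +kernel
      obtain ⟨w, rfl⟩ := this p hp
      exact ⟨w, rfl⟩
    have mT : (F (psi m))⁻¹ ∈ (F.comp psi).range := inv_mem ⟨m, rfl⟩
    have := h.I5 hB n1 n2 ⟨e, mem_centralizer_singleton_iff.2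
      ((h.F0_le h.t2F p hp).symm.mul_left c3)⟩ (by simpa only [mul_assoc] using g2 _ (mul_mem pT mT))
    have tT : zpowers (F t2) ≤ (F.comp psi).range := zpowers_le.2 ⟨_, congrArg F psi_r⟩
    exact (mul_mem_cancel_left mT).1 ((mul_mem_cancel_left pT).1 (tT this))
  obtain ⟨g, w, hw⟩ := conj_into odd h.vv
  have c : IsConj v (F (psi w)) := isConj_iff.2 ⟨g⁻¹, by simpa using hw.symm⟩
  have w2' : w * w = 1 := inj (by
    rw [map_mul, hw, map_one, show g⁻¹ * v * g * (g⁻¹ * v * g) = g⁻¹ * (v * v) * g by group, h.vv]; simp)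
  have w1' : w ≠ 1 := fun e => by
    have v1 : v = 1 := by simpa [e] using c
    have := h.va
    rw [v1] at this
    exact absurd (h.inj (by simpa using this)) (by decide +kernel : a1 ≠ a2)
  obtain ⟨p1, p2, p3⟩ := h.tyV w w2' w1'
  exact h.nc (c.trans (p3 (h.ty_eq p1 le_rfl p2 (h.lf_conj c h.pv))).symm)

end YH

end CA.McL.E

theorem CA.McL.realizeEqnsE5 : True := by
  have := @CA.McL.E.Ty.eq_1.{0,0}
  have := @CA.McL.E.Ty.eq_2.{0,0}
  have := @CA.McL.E.Ty.eq_3.{0,0}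
  have := @CA.McL.E.Ty.eq_def.{0,0}
  have := @CA.McL.E.Ty.congr_simp.{0,0}
  trivial
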