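/-
McL:2 case (package C2): the Sylow 2-subgroup `D₈ ≀ 2` and the transfer.
-/
import Cfsg.Agent.McL.E5

set_option autoImplicit false

namespace CA.McL.E

open CA.FG Subgroup DihedralGroup

attribute [local instance 2000] List.decidableBAll List.decidableBEx

universe u

variable {C : Type*} {X : Type u} [Group C] [Group X] {π : C →* X} {t : C} {F : N2 →* X} {v s : X}

/-- the conjugate embedding -/
def F2 (F : N2 →* X) (s : X) : N2 →* X := (MulAut.conj s).toMonoidHom.comp F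

theorem F2_def (x : N2) : F2 F s x = s * F x * s⁻¹ := rfl

/-- the union of the two four-groups -/
def SA (F : N2 →* X) (s : X) : Set X := {y | ∃ p ∈ U, y = F p ∨ y = F2 F s p}

theorem cent_conj {S : Set X} {g : X} (hg : ∀ y ∈ S, g⁻¹ * y * g ∈ S) :
    ∀ x ∈ centralizer S, g * x * g⁻¹ ∈ centralizer S := fun x hx y hy => by
  calc y * (g * x * g⁻¹) = g * (g⁻¹ * y * g * x) * g⁻¹ := by group
    _ = _ := by rw [hx _ (hg y hy)]; group

theorem UU : ∀ p ∈ U, ∀ q ∈ U, p * q = q * p := by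
  have : ∀ p ∈ [1, z1, u1, z1 * u1], ∀ q ∈ [1, z1, u1, z1 * u1], p * q = q * p := by decide +kernel
  exact this

theorem Ua2 : ∀ p ∈ U, a2⁻¹ * p * a2 ∈ U := by
  have : ∀ p ∈ [1, z1, u1, z1 * u1], a2⁻¹ * p * a2 ∈ U := by decide +kernel
  exact this

theorem Ua1 : ∀ p ∈ U, a1⁻¹ * p * a1 = p := by
  have : ∀ p ∈ [1, z1, u1, z1 * u1], a1⁻¹ * p * a1 = p := by decide +kernel
  exact this

theorem Sw.i (hs : Sw π F s) : s⁻¹ = s := inv_eq_of_mul_eq_one_right hs.ss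
theorem Sw.fa1 (hs : Sw π F s) : F2 F s a1 = F a2 := hs.sa
theorem Sw.fa2 (hs : Sw π F s) : F2 F s a2 = F a1 := hs.sw hs.sa
theorem Sw.ft1 (hs : Sw π F s) : F2 F s t1 = F t2 := hs.st
theorem Sw.ft2 (hs : Sw π F s) : F2 F s t2 = F t1 := hs.sw hs.st
theorem Sw.l1 (_ : Sw π F s) (x : N2) : s * F x = F2 F s x * s := by rw [F2_def]; group
theorem Sw.l2 (hs : Sw π F s) (x : N2) : s * F2 F s x = F x * s :=
  mul_inv_eq_iff_eq_mul.1 (hs.sw (F2_def x).symm)

theorem Sw.cr (hs : Sw π F s) (hc : CII F s) (a b : DihedralGroup 4) : Commute (F (rho a)) (F2 F s (rho b)) := by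
  obtain ⟨p, hp, q, hq, e⟩ := rho_gen a
  obtain ⟨p', hp', q', hq', e'⟩ := rho_gen b
  have k : ∀ q ∈ [1, z1, u1, z1 * u1], q * t2 = t2 * q := by decide +kernel
  have c1 : Commute (F t1) (F2 F s t1) := hs.ft1 ▸ cmF (by decide +kernel)
  have c2 : Commute (F q) (F2 F s t1) := hs.ft1 ▸ cmF (k q hq)
  have c3 : Commute (F t1) (F2 F s q') := hs.ft2 ▸ (cmF (k q' hq')).symm
  have c4 : Commute (F q) (F2 F s q') := hc q hq q' hq'
  simp only [List.mem_cons, List.not_mem_nil, or_false] at hp hp'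
  rcases hp with rfl | rfl <;> rcases hp' with rfl | rfl <;> simp only [e, e', map_mul, map_one, one_mul]
  · exact c4
  · exact c2.mul_right c4
  · exact c3.mul_left c4
  · exact (c1.mul_right c3).mul_left (c2.mul_right c4)

/-- the embedding of the wreath product -/
def phi (hs : Sw π F s) (hc : CII F s) : W →* X :=
  MonoidHom.mk' (fun w => F (rho w.a) * F2 F s (rho w.b) * (if w.e then s else 1)) (by
    rintro ⟨a, b, _ | _⟩ ⟨c, d, e⟩
    · simp only [W.mul_f, map_mul, Bool.false_eq_true, if_false, mul_one]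
      calc _ = F (rho a) * (F (rho c) * F2 F s (rho b)) * F2 F s (rho d) * (if e then s else 1) := by
            group
        _ = _ := by rw [(hs.cr hc c b).eq]; group
    · simp only [W.mul_t, map_mul, if_true]
      have e1 : s * (if e then s else 1) = if (!e) then s else 1 := by cases e <;> simp [hs.ss]
      calc _ = F (rho a) * (F (rho d) * F2 F s (rho b)) * F2 F s (rho c) * (s * if e then s else 1) := by
            rw [e1]; group
        _ = F (rho a) * F2 F s (rho b) * (F (rho d) * F2 F s (rho c)) * s * if e then s else 1 := by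
            rw [(hs.cr hc d b).eq]; group
        _ = F (rho a) * F2 F s (rho b) * F2 F s (rho c) * (F (rho d) * s) * if e then s else 1 := by
            rw [(hs.cr hc d c).eq]; group
        _ = F (rho a) * F2 F s (rho b) * (F2 F s (rho c) * s) * F2 F s (rho d) * if e then s else 1 := by
            rw [← hs.l2]; group
        _ = _ := by rw [← hs.l1]; group)

theorem phi_f (hs : Sw π F s) (hc : CII F s) (a b : DihedralGroup 4) :
    phi hs hc ⟨a, b, false⟩ = F (rho a) * F2 F s (rho b) := mul_one _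

theorem phi_s (hs : Sw π F s) (hc : CII F s) : phi hs hc ⟨1, 1, true⟩ = s := by
  show F (rho 1) * F2 F s (rho 1) * s = s
  simp

namespace YH

theorem II1 (h : YH π t F v) (hs : Sw π F s) (hc : CII F s) {q : N2} (hq : q ∈ U) : F2 F s q ∈ F0 π F :=
  h.F0_c (fun p hp => (hc p hp q hq).symm) (hs.sa ▸ hs.comm (aU q hq).symm)

theorem cF2 (h : YH π t F v) {q : N2} (hq : q ∈ U) (q1 : q ≠ 1) : IsConj (F z1) (F2 F s q) :=
  (h.nU q hq q1).trans (isConj_iff.2 ⟨s, rfl⟩)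

theorem F22 {q : N2} (hq : q ∈ U) : F2 F s q * F2 F s q = 1 := U2 q hq

theorem II2 [Finite X] (h : YH π t F v) (hs : Sw π F s) (hc : CII F s) {q : N2} (hq : q ∈ U) :
    F2 F s q ∈ R0 π F := by
  by_cases q1 : q = 1
  · rw [q1, map_one]; exact one_mem _
  exact subset_closure ⟨h.II1 hs hc hq, F22 hq, fun g _ e =>
    h.ntu ((h.c_t2.trans (isConj_iff.2 ⟨g, e⟩)).trans (h.cF2 hq q1).symm)⟩

theorem II3 [Finite X] (h : YH π t F v) (hB : BeS.{u}) (hs : Sw π F s) (hc : CII F s) :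
    R0 π F ≤ U.map (F2 F s) := by
  refine h.gen (h.R0_3 hB) (R0_F h.a1F) h.R0_a2 (fun g hg c => h.R0_a1 hB hg c ▸ one_mem _) fun g hg c => ?_
  obtain ⟨p, hp, e⟩ := h.s3 ((h.R0_3 hB).cs s) (h.cs_n hs (R0_F h.a1F)) (fun p hp => h.II2 hs hc hp)
    (h.cs_c hs c) (mem_cs.2 (by rwa [hs.sw rfl]))
  exact ⟨p, hp, hs.sw e.symm⟩

theorem II4 [Finite X] (h : YH π t F v) (hB : BeS.{u}) (hs : Sw π F s) (hc : CII F s) :
    N3 (centralizer (SA F s)) := fun x hx x3 => by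
  by_contra x1
  obtain ⟨g, hg, c⟩ := h.cF3 (h.F0_3 (fun p hp => (hx _ ⟨p, hp, Or.inl rfl⟩).symm) x3) x3 x1
  obtain ⟨q, hq, e⟩ := h.II3 hB hs hc (R0_F (inv_mem hg) _ (h.II2 hs hc zU))
  have := c _ (hx _ ⟨q, hq, Or.inr rfl⟩).symm
  rw [e, show g * (g⁻¹ * F2 F s z1 * g⁻¹⁻¹) * g⁻¹ = F2 F s z1 by group, ← hs.fa2] at this
  have h2 := hs.comm this
  rw [F2_def, F2_def, hs.sw rfl, hs.sw rfl] at h2
  exact h.ncm (by decide +kernel) h2

theorem II5 [Finite X] (h : YH π t F v) (hB : BeS.{u}) (hs : Sw π F s) (hc : CII F s) {Y : Subgroup X}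
    (h1 : ∀ p ∈ U, F p ∈ Y) (h2 : ∀ p ∈ U, F2 F s p ∈ Y) : centralizer (SA F s) ≤ Y := by
  have n1 : ∀ x ∈ centralizer (SA F s), F a1 * x * (F a1)⁻¹ ∈ centralizer (SA F s) := cent_conj (by
    rintro _ ⟨p, hp, rfl | rfl⟩
    · exact ⟨p, hp, Or.inl (by rw [← map_inv, ← map_mul, ← map_mul, Ua1 p hp])⟩
    · exact ⟨_, Ua2 p hp, Or.inr (by rw [← hs.fa2]; simp)⟩)
  have n2 : ∀ x ∈ centralizer (SA F s), F a2 * x * (F a2)⁻¹ ∈ centralizer (SA F s) := cent_conj (by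
    rintro _ ⟨p, hp, rfl | rfl⟩
    · exact ⟨_, Ua2 p hp, Or.inl (by simp)⟩
    · exact ⟨p, hp, Or.inr (by rw [← hs.fa1, ← map_inv, ← map_mul, ← map_mul, Ua1 p hp])⟩)
  have ns : ∀ x ∈ centralizer (SA F s), s * x * s⁻¹ ∈ centralizer (SA F s) := cent_conj (by
    rintro _ ⟨p, hp, rfl | rfl⟩
    · exact ⟨p, hp, Or.inr (by rw [F2_def, hs.i])⟩
    · exact ⟨p, hp, Or.inl (by rw [F2_def]; group)⟩)
  have k : ∀ g ∈ centralizer (SA F s), Commute g (F a1) → ∃ p ∈ U, F p = g := fun g hg c =>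
    h.s3 (h.II4 hB hs hc) n2 (fun p hp => by
      rintro _ ⟨q, hq, rfl | rfl⟩
      · exact (cmF (UU q hq p hp)).eq
      · exact (hc p hp q hq).symm.eq) c hg
  refine h.gen (h.II4 hB hs hc) n1 n2 (fun g hg c => ?_) fun g hg c => ?_
  · obtain ⟨p, hp, rfl⟩ := k g hg c
    exact h1 p hp
  · obtain ⟨p, hp, e⟩ := k _ (ns g hg) (h.cs_c hs c)
    exact hs.sw e.symm ▸ h2 p hp

theorem mix (h : YH π t F v) (hs : Sw π F s) (hc : CII F s) {p q : N2} (hp : p ∈ U) (hq : q ∈ U) (p1 : p ≠ 1)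
    (q1 : q ≠ 1) : Lf π (F p * F2 F s q) ∧ F p * F2 F s q ≠ 1 := by
  obtain ⟨c, ec⟩ := h.sur (F p)
  obtain ⟨d, ed⟩ := h.sur (F2 F s q)
  refine ⟨?_, fun e => ?_⟩
  · rw [← ec, ← ed]
    exact h.lf_mul (h.F0_lift (ed ▸ h.II1 hs hc hq) hp ec) (h.sq (ec ▸ h.nlU hp p1) (ec ▸ U2 p hp))
      (h.sq (ed ▸ fun l => h.nz (h.lf_conj (h.cF2 hq q1).symm l)) (ed ▸ F22 hq))
  · exact p1 (h.F0_inf hp (eq_inv_of_mul_eq_one_left e ▸ inv_mem (h.II1 hs hc hq)))

theorem tyW (h : YH π t F v) (hs : Sw π F s) (hc : CII F s) (w : W) (w2' : w * w = 1) (w1' : w ≠ 1) :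
    ty w ≤ 2 ∧ Ty π F (phi hs hc w) (ty w) ∧ phi hs hc w ≠ 1 ∧ (ty w = 0 → chi w = -1) ∧
      (ty w = 2 → chi w = 1 ∨ IsConj (F (w1 * w2 * ta)) (phi hs hc w)) := by
  have cw : ∀ g w' : W, g * w * g⁻¹ = w' → IsConj (phi hs hc w') (phi hs hc w) := fun g w' e =>
    (isConj_iff.2 ⟨phi hs hc g, by rw [← e]; simp⟩).symm
  have n1 : ∀ {x y : X}, IsConj x y → x ≠ 1 → y ≠ 1 := fun c n e => n (by simpa [e] using c)
  have z1' : z1 ≠ 1 := by decide +kernel
  have u1' : u1 ≠ 1 := by decide +kernel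
  have cu : IsConj (F (z1 * t2)) (F (u1 * t2)) := cj a2 (by decide +kernel)
  obtain ⟨g, ⟨e, e2, e'⟩ | ⟨e, e2, e' | e' | e'⟩ | ⟨e, e2, e' | e' | e' | e'⟩ | ⟨e, e' | e'⟩⟩ := W.cls w w2' w1' <;>
    have c := cw _ _ e' <;>
    simp only [phi_f, phi_s, rho_t, rho_z, rho_u, map_one, mul_one, hs.ft1, ← map_mul] at c <;> rw [e]
  · exact ⟨by omega, h.c_t1.trans c, n1 c (h.ne1 (by decide +kernel)), fun _ => e2, by omega⟩
  · exact ⟨by omega, c, n1 c (h.ne1 z1'), by omega, by omega⟩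
  · exact ⟨by omega, (h.nU _ uU u1').trans c, n1 c (h.ne1 u1'), by omega, by omega⟩
  · exact ⟨by omega, h.c_i.trans c, n1 c (h.ne1 (by decide +kernel)), by omega, by omega⟩
  · exact ⟨le_rfl, h.lf_conj c (h.mix hs hc zU zU z1' z1').1, n1 c (h.mix hs hc zU zU z1' z1').2, by omega,
      fun _ => Or.inl e2⟩
  · exact ⟨le_rfl, h.lf_conj c (h.mix hs hc zU uU z1' u1').1, n1 c (h.mix hs hc zU uU z1' u1').2, by omega,
      fun _ => Or.inl e2⟩
  · exact ⟨le_rfl, h.lf_conj c (h.mix hs hc uU uU u1' u1').1, n1 c (h.mix hs hc uU uU u1' u1').2, by omega,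
      fun _ => Or.inl e2⟩
  · refine ⟨le_rfl, h.lf_conj c hs.sl, n1 c fun s1 => ?_, by omega, fun _ => Or.inl e2⟩
    have := hs.sa
    rw [s1] at this
    exact absurd (h.inj (by simpa using this)) (by decide +kernel : a1 ≠ a2)
  · exact ⟨le_rfl, h.lf_conj c h.lf_zt, n1 c (h.ne1 (by decide +kernel)), by omega,
      fun _ => Or.inr (h.c_zt.trans c)⟩
  · exact ⟨le_rfl, h.lf_conj (cu.trans c) h.lf_zt, n1 c (h.ne1 (by decide +kernel)), by omega,
      fun _ => Or.inr (h.c_zt.trans (cu.trans c))⟩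

theorem phi_inj (h : YH π t F v) (hs : Sw π F s) (hc : CII F s) : Function.Injective (phi hs hc) := by
  refine (injective_iff_map_eq_one _).2 fun w hw => ?_
  have k : ∀ w : W, phi hs hc w = 1 → w * w = 1 → w = 1 := fun w hw e =>
    by_contra fun n => (h.tyW hs hc w e n).2.2.1 hw
  refine k w hw (k _ (by simp [hw]) (k _ (by simp [hw]) ?_))
  rw [← W.p8 w, show 2 ^ 3 = 8 from rfl]
  simp only [pow_succ, pow_zero, one_mul, mul_assoc]

theorem oddT [Finite X] (h : YH π t F v) (hB : BeS.{u}) (hs : Sw π F s) (hc : CII F s) :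
    Odd (phi hs hc).range.index := by
  have inj := h.phi_inj hs hc
  refine odd_index (range_p _ W.p8) fun g _ hg => ?_
  obtain ⟨α, hα⟩ := exists_endo inj hg
  have a1' : ∀ w, w ≠ 1 → α w ≠ 1 := fun w w1 e => w1 (inj (by simpa [e] using (hα w).symm))
  have a2' : ∀ w, w * w = 1 → α w * α w = 1 := fun w e => by rw [← map_mul, e, map_one]
  have a3' : ∀ w w', w * w' = w' * w → α w * α w' = α w' * α w := fun w w' e => by rw [← map_mul, e, map_mul]
  have k : ∀ w n, w * w = 1 ∧ w ≠ 1 ∧ ty w = n → ty (α w) = n := fun w n ⟨w2, w1, e⟩ => by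
    have p := h.tyW hs hc w w2 w1
    have q := h.tyW hs hc _ (a2' w w2) (a1' w w1)
    exact e ▸ h.ty_eq q.1 p.1 q.2.1 (h.ty_conj (isConj_iff.2 ⟨g, (hα w).symm⟩) p.2.1)
  have k' : ∀ w w' n, w * w' * (w * w') = 1 ∧ w * w' ≠ 1 ∧ ty (w * w') = n → ty (α w * α w') = n :=
    fun w w' n e => by rw [← map_mul]; exact k _ n e
  have k1 : ∀ w w', w * w' ≠ 1 → α w * α w' ≠ 1 := fun w w' e => by rw [← map_mul]; exact a1' _ e
  obtain ⟨m, m1, m2, m3, m4⟩ := W.nrm (α ⟨r 2, 1, false⟩) (a2' _ (by decide +kernel)) (k _ _ (by decide +kernel))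
    ⟨α ⟨r 1, 1, false⟩, by rw [← map_mul]; congr 1⟩
    (α ⟨sr 1, 1, false⟩) (a2' _ (by decide +kernel)) (k _ _ (by decide +kernel)) (a3' _ _ (by decide +kernel))
    (k1 _ _ (by decide +kernel)) (k' _ _ _ (by decide +kernel))
    (α ⟨1, r 2, false⟩) (a2' _ (by decide +kernel)) (k _ _ (by decide +kernel))
    ⟨α ⟨1, r 1, false⟩, by rw [← map_mul]; congr 1⟩ (a3' _ _ (by decide +kernel)) (a3' _ _ (by decide +kernel))
    (k1 _ _ (by decide +kernel)) (k' _ _ _ (by decide +kernel)) (k' _ _ _ (by decide +kernel))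
    (α ⟨1, sr 1, false⟩) (a2' _ (by decide +kernel)) (k _ _ (by decide +kernel)) (k1 _ _ (by decide +kernel))
    (k' _ _ _ (by decide +kernel)) (a3' _ _ (by decide +kernel)) (a3' _ _ (by decide +kernel))
    (k' _ _ _ (by decide +kernel))
  have cc : ∀ w, m * w * m⁻¹ = α w → Commute (phi hs hc w) ((phi hs hc m)⁻¹ * g) := fun w e => by
    have := hα w
    rw [← e] at this
    simp only [map_mul, map_inv] at this
    calc _ = (phi hs hc m)⁻¹ * (phi hs hc m * phi hs hc w * (phi hs hc m)⁻¹) * g := by group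
      _ = _ := by rw [this]; group
  have c1 := cc _ m1
  have c2 := cc _ m2
  have c3 := cc _ m3
  have c4 := cc _ m4
  simp only [phi_f, rho_z, rho_u, map_one, mul_one, one_mul] at c1 c2 c3 c4
  have rU : ∀ p ∈ [1, z1, u1, z1 * u1], ∃ d, rho d = p := by decide +kernel
  refine (mul_mem_cancel_left (inv_mem (show phi hs hc m ∈ (phi hs hc).range from ⟨m, rfl⟩))).1 (h.II5 hB hs hc (fun p hp => ?_) (fun p hp => ?_) ?_)
  · obtain ⟨d, rfl⟩ := rU p hp
    exact ⟨⟨d, 1, false⟩, by simp [phi_f]⟩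
  · obtain ⟨d, rfl⟩ := rU p hp
    exact ⟨⟨1, d, false⟩, by simp [phi_f]⟩
  · rintro _ ⟨p, hp, rfl | rfl⟩ <;> simp only [mem_U, List.mem_cons, List.not_mem_nil, or_false] at hp <;>
      rcases hp with rfl | rfl | rfl | rfl
    · simp
    · exact c1
    · exact c2
    · rw [map_mul]; exact c1.mul_left c2
    · simp
    · exact c3
    · exact c4
    · rw [map_mul]; exact c3.mul_left c4

theorem lam [Finite X] (h : YH π t F v) (hB : BeS.{u}) : ∃ lam : X →* ℤˣ, lam v = 1 ∧ lam (F ta) = -1 := by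
  obtain ⟨s, hs, hc⟩ : ∃ s, Sw π F s ∧ CII F s :=
    (h.caseII hB).elim (fun c => ⟨_, h.sw1, c⟩) fun c => ⟨_, h.sw2, c⟩
  have inj := h.phi_inj hs hc
  obtain ⟨lam, hl⟩ := transfer_sign (h.oddT hB hs hc) (chi.comp (MonoidHom.ofInjective inj).symm.toMonoidHom)
  have k : ∀ (y : X) (ε : ℤˣ), y * y = 1 → y ≠ 1 →
      (∀ w, w * w = 1 → w ≠ 1 → IsConj y (phi hs hc w) → chi w = ε) → lam y = ε := fun y ε y2 y1 H =>
    hl y ε y2 fun g ⟨w, hw⟩ => by
      have e : (MonoidHom.ofInjective inj).symm ⟨_, w, hw⟩ = w :=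
        (MulEquiv.symm_apply_eq _).2 (Subtype.ext hw.symm)
      show chi ((MonoidHom.ofInjective inj).symm _) = ε
      rw [e]
      refine H w (inj ?_) (fun e => y1 (by
        have : g⁻¹ * y * g⁻¹⁻¹ = 1 := by simpa [e] using hw.symm
        exact conj_eq_one_iff.1 this)) (isConj_iff.2 ⟨g⁻¹, by simpa using hw.symm⟩)
      rw [map_mul, hw, map_one, show g⁻¹ * y * g * (g⁻¹ * y * g) = g⁻¹ * (y * y) * g by group, y2]; simp
  refine ⟨lam, k v 1 h.vv (fun v1 => ?_) fun w w2 w1 c => ?_, k _ _ ?_ (h.ne1 (by decide +kernel))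
    fun w w2 w1 c => ?_⟩
  · have := h.va
    rw [v1] at this
    exact absurd (h.inj (by simpa using this)) (by decide +kernel : a1 ≠ a2)
  · obtain ⟨p1, p2, -, -, p3⟩ := h.tyW hs hc w w2 w1
    exact (p3 (h.ty_eq p1 le_rfl p2 (h.lf_conj c h.pv))).resolve_right fun c' => h.nc (c.trans c'.symm)
  · rw [← map_mul, show ta * ta = 1 by decide +kernel, map_one]
  · obtain ⟨p1, p2, -, p3, -⟩ := h.tyW hs hc w w2 w1
    exact p3 (h.ty_eq p1 (by omega) p2 (n := 0) c)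

end YH

end CA.McL.E

theorem CA.McL.realizeEqnsE6 : True := by
  have := @CA.McL.E.F2.eq_1.{0}
  have := @CA.McL.E.F2.eq_def.{0}
  have := @CA.McL.E.F2.congr_simp.{0}
  have := @CA.McL.E.SA.eq_1.{0}
  have := @CA.McL.E.SA.eq_def.{0}
  have := @CA.McL.E.SA.congr_simp.{0}
  have := @CA.McL.E.phi.eq_1.{0,0}
  have := @CA.McL.E.phi.eq_def.{0,0}
  have := @CA.McL.E.phi.congr_simp.{0,0}
  trivial
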