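/-
McL:2 case (package C2): the subgroup of index two in the centralizer of the involution.
-/
import Cfsg.Agent.McL.E6
import Cfsg.Agent.McL.C2
import Cfsg.Agent.McL.B1

set_option autoImplicit false

namespace CA.McL

open CA.FG Subgroup Equiv E

attribute [local instance 2000] List.decidableBAll List.decidableBEx

variable {C X : Type*} [Group C] [Group X] {π : C →* X} {t : C} {f : (⊤ : Subgroup N2) →* X} {v : X}

theorem XH2.yh (h : XH2 π t f v) : YH π t (f.comp topEquiv.symm.toMonoidHom) v where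
  sur := h.sur
  ker := h.ker
  ot := h.ot
  inj := h.inj.comp topEquiv.symm.injective
  rng := by
    refine Eq.trans ?_ (h.rng ⟨a1, trivial⟩ rfl)
    exact le_antisymm (fun _ ⟨x, e⟩ => ⟨_, e⟩) fun _ ⟨x, e⟩ => ⟨x.1, e⟩
  vv := h.vv
  va := h.va ⟨a1, trivial⟩ ⟨a2, trivial⟩ rfl rfl
  vw := h.vw ⟨w1, trivial⟩ ⟨w2, trivial⟩ rfl rfl
  cb := h.cb ⟨a1, trivial⟩ ⟨a2, trivial⟩ rfl rfl
  nw := h.nw ⟨w1, trivial⟩ rfl
  pv := h.pv
  vt := h.vt
  nt := h.nt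
  pvt := h.pvt
  nc := h.nc

theorem XH2.sign [Finite C] (h : XH2 π t f v) :
    ∃ lam : X →* ℤˣ, lam v = 1 ∧ ∀ g : (⊤ : Subgroup N2), lam (f g) = Perm.sign (g.1 : Perm (Fin 8)) := by
  haveI : Finite X := Finite.of_surjective π h.sur
  have y := h.yh
  set F := f.comp topEquiv.symm.toMonoidHom
  obtain ⟨lam, hv, ht⟩ := y.lam fun F _ _ a τ => Be F a τ
  have cl : ∀ {a b : X}, IsConj a b → lam a = lam b := fun c => isConj_iff_eq.1 (lam.map_isConj c)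
  have k : ∀ i : Fin 7, i ≠ 2 → ∃ g ∈ [1, a1, a1⁻¹, a2, a2⁻¹, r4, g0],
      (g * t1 * g⁻¹).1 = sw i ∨ (g * t2 * g⁻¹).1 = sw i := by decide +kernel
  have k2 : ∀ i : Fin 7, i ≠ 2 → ∃ x : N2, x.1 = sw i ∧ lam (F x) = -1 := fun i hi => by
    obtain ⟨g, -, e | e⟩ := k i hi
    · exact ⟨_, e, by rw [← cl (y.c_t1.trans (cj g rfl)), ht]⟩
    · exact ⟨_, e, by rw [← cl (y.c_t2.trans (cj g rfl)), ht]⟩
  refine ⟨lam, hv, fun g => N2_ind (P := fun g => ∀ hg : g ∈ N2, lam (F ⟨g, hg⟩) = Perm.sign g)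
    (fun _ => by rw [map_one]; exact (congrArg lam (map_one F)).trans (map_one lam)) (fun i hi g ih hg => ?_) g.1 g.1.2 g.1.2⟩
  obtain ⟨x, e, hx⟩ := k2 i hi
  have hg' : g ∈ N2 := (mul_mem_cancel_left x.2).1 (e ▸ hg)
  rw [show (⟨sw i * g, hg⟩ : N2) = x * ⟨g, hg'⟩ from Subtype.ext (congrArg (· * g) e.symm), map_mul, map_mul, hx, ih hg',
    map_mul, sw, Perm.sign_swap (Fin.castSucc_lt_succ).ne]

theorem mem_norm_sub {H : Subgroup X} (K : Subgroup H) (y : H) : y ∈ 𝒩(K) ↔ (y : X) ∈ 𝒩(K.map H.subtype) := by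
  conv_lhs => rw [← comap_map_eq_self_of_injective H.subtype_injective K]
  exact (subgroupOf_normalizer_eq (map_subtype_le K)).ge.antisymm (subgroupOf_normalizer_eq (map_subtype_le K)).le ▸
    mem_subgroupOf

theorem XH2.xh [Finite C] (h : XH2 π t f v) : ∃ X0 : Subgroup X, X0.index = 2 ∧ (∀ g, f g ∈ X0 ↔ g.1 ∈ N1) ∧
    ∃ (ht : t ∈ X0.comap π) (π0 : X0.comap π →* X0) (f0 : N1 →* X0) (hv : v ∈ X0),
      (∀ c, (π0 c : X) = π c) ∧ XH π0 ⟨t, ht⟩ N1 f0 ⟨v, hv⟩ := by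
  obtain ⟨lam, hv, hs⟩ := h.sign
  have m : ∀ g, f g ∈ lam.ker ↔ g.1 ∈ N1 := fun g => by
    rw [MonoidHom.mem_ker, hs]; exact Perm.mem_alternatingGroup.symm
  have pt : π t = 1 := h.yh.pt
  have ht : t ∈ lam.ker.comap π := by simp [pt]
  let f0 : N1 →* lam.ker := (f.comp (inclusion le_top)).codRestrict _ fun x => (m _).2 x.2
  have e0 : ∀ x : N1, (f0 x : X) = f ⟨x.1, trivial⟩ := fun _ => rfl
  have rg : ∀ y : lam.ker, y ∈ f0.range ↔ (y : X) ∈ f.range := fun y =>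
    ⟨fun ⟨x, e⟩ => ⟨_, congrArg Subtype.val e⟩, fun ⟨x, e⟩ => ⟨⟨x.1, (m x).1 (e ▸ y.2)⟩, Subtype.ext e⟩⟩
  have lf : ∀ y : lam.ker, Lf (π.subgroupComap lam.ker) y ↔ Lf π y := fun y =>
    ⟨fun l c e => congrArg Subtype.val (l ⟨c, show π c ∈ lam.ker from e ▸ y.2⟩ (Subtype.ext e)),
      fun l c e => Subtype.ext (l c (congrArg Subtype.val e))⟩
  have cl : ∀ x y : N1, (closure {f0 x, f0 y}).map lam.ker.subtype =
      closure {f ⟨x.1, trivial⟩, f ⟨y.1, trivial⟩} := fun x y => by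
    rw [MonoidHom.map_closure, Set.image_pair]; rfl
  refine ⟨lam.ker, ?_, m, ht, π.subgroupComap _, f0, hv, fun _ => rfl,
    π.subgroupComap_surjective_of_surjective _ h.sur, ?_, ?_, le_rfl, ?_, fun x hx => ?_, Subtype.ext h.vv,
    fun x y hx hy => Subtype.ext (h.va ⟨_, trivial⟩ ⟨_, trivial⟩ hx hy),
    fun x y hx hy => Subtype.ext (h.vw ⟨_, trivial⟩ ⟨_, trivial⟩ hx hy), fun x y hx hy g hg => ?_,
    fun x y hx hy g hg => ?_, fun x hx l => h.nw ⟨_, trivial⟩ hx ((lf _).1 l),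
    fun x hx l => h.ni ⟨_, trivial⟩ hx ((lf _).1 l), (lf _).2 h.pv⟩
  · rw [index_ker, MonoidHom.range_eq_top.2 fun u => ?_, card_top, Nat.card_eq_fintype_card, Fintype.card_units_int]
    rcases Int.units_eq_one_or u with rfl | rfl
    · exact ⟨1, map_one _⟩
    · exact ⟨f ⟨ta, trivial⟩, by rw [hs]; decide⟩
  · ext c
    have : c ∈ (π.subgroupComap lam.ker).ker ↔ (c : C) ∈ π.ker := Subtype.ext_iff
    rw [this, h.ker]
    exact ⟨fun ⟨i, e⟩ => ⟨i, Subtype.ext e⟩, fun ⟨i, e⟩ => ⟨i, congrArg Subtype.val e⟩⟩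
  · rw [Subgroup.orderOf_mk, h.ot]
  · exact fun x y e => inclusion_injective _ (h.inj (congrArg Subtype.val e))
  · ext y
    rw [rg, mem_norm_sub, MonoidHom.map_zpowers, h.rng ⟨_, trivial⟩ hx]; rfl
  · rw [mem_norm_sub, cl] at hg
    exact (h.nD ⟨_, trivial⟩ ⟨_, trivial⟩ hx hy g hg).imp (rg _).2 (rg (g * ⟨v, hv⟩)).2
  · rw [mem_norm_sub, cl]
    exact h.cb ⟨_, trivial⟩ ⟨_, trivial⟩ hx hy g (congrArg Subtype.val hg.eq)

end CA.McL
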