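/-
The end of the identification of McL: a group with the 2-local and 3-local data is McL (package D2).
-/
import Cfsg.Agent.McL.E3
import Cfsg.Agent.PM.SE
import Cfsg.Agent.BG.P04d

set_option autoImplicit false

namespace CA.McL

open CA.FG Subgroup Cfsg

universe u

variable {G : Type*} [Group G]

theorem fix_mod [Finite G] {p : ℕ} (hp : p.Prime) {Q : Subgroup G} {x : G} (hx : orderOf x = p) (hn : x ∈ 𝒩(Q)) :
    Nat.card Q ≡ Nat.card (Q ⊓ 𝒞[x] : Subgroup G) [MOD p] := by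
  have := CA.BG.P04.card_modEq_cent hp (Q := zpowers x) (H := Q)
    ((pGrp_of_card_eq hp (by rw [Nat.card_zpowers, hx])).isPGroup hp) (zpowers_le.2 hn)
  rwa [cent_zpowers] at this

theorem ex_ord [Finite G] {p : ℕ} (hp : p.Prime) {H : Subgroup G} (h : p ∣ Nat.card H) : ∃ x ∈ H, orderOf x = p := by
  haveI := Fact.mk hp
  obtain ⟨x, hx⟩ := exists_prime_orderOf_dvd_card' p h
  exact ⟨x, x.2, by rw [← hx, Subgroup.orderOf_coe]⟩

theorem T3.no_odd [Finite G] (h : T3 G) {O : Subgroup G} (ho : Odd (Nat.card O)) (h33 : 33 ∣ Nat.card O)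
    (hd : Nat.card O ∣ 898128000) : False := by
  have p11 : Nat.Prime 11 := by norm_num
  obtain ⟨x, xO, hx⟩ := ex_ord p11 (Dvd.dvd.trans (by norm_num) h33)
  obtain ⟨y, yO, hy⟩ := ex_ord Nat.prime_three (Dvd.dvd.trans (by norm_num) h33)
  have sy : ∀ q, IsSylowOf q (pCoreOf q (fittingOf O)) (fittingOf O) := fun q =>
    nilpotent_pcore_Hall _ (fitting_nil O)
  have nm : ∀ q, O ≤ 𝒩(pCoreOf q (fittingOf O)) := fun q => norm_pcore _ (fitting_norm O)
  have dv : ∀ q, Nat.card (pCoreOf q (fittingOf O)) ∣ 898128000 := fun q =>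
    (card_dvd_of_le ((sy q).le.trans (fitting_le O))).trans hd
  have pr : ∀ z : G, orderOf z = 3 → ¬ 11 ∣ Nat.card (𝒞[z] : Subgroup G) := fun z hz d =>
    absurd (h.pr z hz 11 p11 d) (by norm_num)
  have n11 : ¬ 11 ∣ Nat.card (fittingOf O) := fun d => by
    obtain ⟨k, hk⟩ := (pGrp_iff_card p11).1 (sy 11).pGrp
    have k1 : k = 1 := by
      have a := ((sy 11).dvd_card_iff p11 rfl).2 d
      have b := dv 11
      rw [hk] at a b
      rcases k with _ | _ | k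
      · norm_num at a
      · rfl
      · exact absurd ((pow_dvd_pow 11 (by omega : 2 ≤ k + 1 + 1)).trans b) (by norm_num)
    have m := fix_mod Nat.prime_three hy (nm 11 yO)
    have e := card_dvd_of_le (inf_le_left : pCoreOf 11 (fittingOf O) ⊓ 𝒞[y] ≤ _)
    rw [hk, k1, pow_one] at m e
    rcases (Nat.dvd_prime p11).1 e with e | e
    · rw [e] at m; exact absurd m (by decide)
    · exact pr y hy (e ▸ card_dvd_of_le inf_le_right)
  refine n11 (hx ▸ orderOf_dvd_card_of_mem (cent_sub_Fitting (CA.FT.odd_sol ho) ⟨xO, ?_⟩))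
  refine mem_cent_iff_le_cent_singleton.2 (le_of_exists_sylow fun q hq d => ⟨_, sy q, ?_⟩)
  have key : ∀ n, (∀ k, q ^ k ∣ 898128000 → k ≤ n) → (∀ k ≤ n, ∀ j ≤ k, q ^ k ≡ q ^ j [MOD 11] → j = k) →
      pCoreOf q (fittingOf O) ≤ 𝒞[x] := fun n h1 h2 => by
    obtain ⟨k, hk⟩ := (pGrp_iff_card hq).1 (sy q).pGrp
    obtain ⟨j, hj⟩ := (pGrp_iff_card hq).1 ((sy q).pGrp.inf_left 𝒞[x])
    have m := fix_mod p11 hx (nm q xO)
    have e := card_dvd_of_le (inf_le_left : pCoreOf q (fittingOf O) ⊓ 𝒞[x] ≤ _)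
    rw [hk, hj] at m e
    have := h2 k (h1 k (hk ▸ dv q)) j ((Nat.pow_dvd_pow_iff_le_right hq.one_lt).1 e) m
    exact inf_eq_left.1 (eq_of_le_of_card_ge inf_le_left (by rw [hk, hj, this]))
  have bd : ∀ (q n : ℕ), ¬ q ^ (n + 1) ∣ 898128000 → ∀ k, q ^ k ∣ 898128000 → k ≤ n := fun q n a k b =>
    by_contra fun c => a ((pow_dvd_pow q (by omega)).trans b)
  have d' : q ∣ 2 ^ 7 * 3 ^ 6 * 5 ^ 3 * 7 * 11 := (d.trans (card_dvd_of_le (fitting_le O))).trans hd
  simp only [hq.dvd_mul, hq.prime.dvd_pow_iff_dvd (by norm_num : 7 ≠ 0), hq.prime.dvd_pow_iff_dvd (by norm_num : 6 ≠ 0),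
    hq.prime.dvd_pow_iff_dvd (by norm_num : 3 ≠ 0), Nat.prime_dvd_prime_iff_eq hq Nat.prime_two,
    Nat.prime_dvd_prime_iff_eq hq Nat.prime_three, Nat.prime_dvd_prime_iff_eq hq Nat.prime_five,
    Nat.prime_dvd_prime_iff_eq hq (by norm_num : Nat.Prime 7), Nat.prime_dvd_prime_iff_eq hq p11] at d'
  rcases d' with (((rfl | rfl) | rfl) | rfl) | rfl
  · exact absurd (d.trans (card_dvd_of_le (fitting_le O))) ho.not_two_dvd_nat
  · exfalso
    set Q := pCoreOf 3 (fittingOf O)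
    have nZ : x ∈ 𝒩(𝒵(Q)) := norm_inf (nm 3) (norm_cent (nm 3)) xO
    have pZ : IsPGrp 3 (𝒵(Q) : Subgroup G) := (sy 3).pGrp.inf_left _
    obtain ⟨k, hk⟩ := (pGrp_iff_card hq).1 pZ
    have m := fix_mod p11 hx nZ
    have e : (𝒵(Q) ⊓ 𝒞[x] : Subgroup G) = ⊥ := by_contra fun e => by
      obtain ⟨z, hz, z3⟩ := IsPGrp.exists_orderOf_eq (pZ.inf_left 𝒞[x]) e
      exact pr z z3 (hx ▸ orderOf_dvd_card_of_mem
        (mem_centralizer_singleton_iff.2 (mem_centralizer_singleton_iff.1 hz.2).symm))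
    rw [e, hk, card_bot] at m
    have k6 := bd 3 6 (by norm_num) k (hk ▸ (card_dvd_of_le inf_le_left).trans (dv 3))
    have k0 : k ≠ 0 := fun k0 => center_nil_ne_bot (sy 3).pGrp.nil ((sy 3).ne_bot' hq d)
      (by rwa [k0, pow_zero, card_eq_one] at hk)
    have k5 : k = 5 := by interval_cases k <;> first | rfl | exact absurd m (by decide) | exact absurd rfl k0
    exact h.ab _ (abelian_inf_cent Q) (k5 ▸ hk)
  · exact key 3 (bd 5 3 (by norm_num)) (by decide)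
  · exact key 1 (bd 7 1 (by norm_num)) (by decide)
  · exact absurd d n11

end CA.McL
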