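/-
The double cover of `A₈`: basic facts.
-/
import Cfsg.Agent.McL.C3
import Cfsg.Agent.McL.E3

set_option autoImplicit false
set_option maxRecDepth 100000

namespace CA.McL

open CA.FG Subgroup Equiv E
open scoped commutatorElement

namespace G1

/-- `A₈` -/
abbrev A8 : Type := alternatingGroup (Fin 8)

theorem c8 {g h : A8} : g = h ↔ McL.cd g.1 = McL.cd h.1 := Subtype.ext_iff.trans McL.cd_inj
theorem cvv : McL.cd vv.1 = 14487907 := by decide +kernel

end G1

open G1

variable {C : Type*} [Group C] {t : C} {φ : C →* alternatingGroup (Fin 8)}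

theorem DC.ce (h : DC t φ) : CE φ t := ⟨h.sur, h.ker, h.ot⟩

theorem DC.nl (h : DC t φ) {g : A8} (g2 : g * g = 1) (g1 : g ≠ 1) (fp : FP g) : ¬ Lf φ g := fun l => by
  obtain ⟨x, h1, h2⟩ := h.ns
  have e : φ x = ⟨swap 0 1 * swap 2 3, by decide +kernel⟩ := Subtype.ext h1
  have c1 := ((conj2 g2 g1).resolve_right fun n => n.1 fp).2
  have c2 := ((conj2 (g := φ x) (by rw [e]; decide +kernel) (by rw [e]; decide +kernel)).resolve_right
    fun n => n.1 (by rw [e]; decide +kernel)).2
  exact h.ce.t1 (h2.symm.trans (h.ce.lf_conj (c1.symm.trans c2) l x rfl))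

end CA.McL

theorem CA.McL.realizeEqnsG1 : True := by
  have := @CA.McL.G1.A8.eq_1
  have := @CA.McL.G1.A8.eq_def
  have := @CA.McL.G1.A8.congr_simp
  trivial
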