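/-
Automorphisms of `A₈`.
-/
import Cfsg.Agent.McL.G1

set_option autoImplicit false
set_option maxRecDepth 100000

namespace CA.McL.G1

open CA.FG Subgroup Equiv CA.PM

/-- the facts to be checked -/
def FG (c : ℕ) : Prop := mulc c 16373777 = mulc 16373777 c →
  (mulc (mulc (mulc c c) (mulc c c)) c = 16434824 → c = 16434824) ∧
  (mulc c 6486193 = mulc 6486193 c → c = 16434824 ∨ c = 14487907)

noncomputable instance (c : ℕ) : Decidable (FG c) := inferInstanceAs (Decidable (_ → _))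

theorem factG0 (g : Perm (Fin 8)) : FG (McL.cd g) := all8 (P := FG) (by decide +kernel) g

/-- `(1 2 3)(4 5 6)` -/
def b1 : A8 := inc (A1 * A2)
/-- `(1 2 7)(4 5 8)` -/
def b2 : A8 := ⟨swap 0 1 * swap 1 6 * swap 3 4 * swap 4 7, by decide +kernel⟩

theorem factG (g : Perm (Fin 8)) (c : g * b1.1 = b1.1 * g) :
    (g * g * (g * g) * g = 1 → g = 1) ∧ (g * b2.1 = b2.1 * g → g = 1 ∨ g = vv.1) := by
  simp only [McL.cd_inj, McL.cd_mul, McL.cd_one, cvv, show McL.cd b1.1 = 16373777 by decide +kernel,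
    show McL.cd b2.1 = 6486193 by decide +kernel] at c ⊢
  exact factG0 g c

/-- the 3-cycles `(1 2 k)` -/
def cc (k : Fin 6) : Perm (Fin 8) := swap 0 1 * swap 1 (k.natAdd 2)

theorem cc_mem : ∀ k, cc k ∈ alternatingGroup (Fin 8) := by decide +kernel

/-- the 3-cycles `(1 2 k)` in `A₈` -/
def ca (k : Fin 6) : A8 := ⟨cc k, cc_mem k⟩

theorem ca_conj : ∀ k : Fin 6, swap 2 (k.natAdd 2) * cc 0 * (swap 2 (k.natAdd 2))⁻¹ = cc k := by decide +kernel

theorem stp : ∀ k : Fin 6, k ≠ 0 → ∀ a b d : Fin 8, a ≠ b → b ≠ d → a ≠ d →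
    (∀ j < k, (cc j * (swap a b * swap b d)) ^ 2 = 1 ∧ cc j * (swap a b * swap b d) ≠ 1) →
    ∃ i : Fin 3, ∃ m : Fin 8, (∀ j < k, cc 0 ^ i.val * swap (k.natAdd 2) m * cc j =
      cc j * (cc 0 ^ i.val * swap (k.natAdd 2) m)) ∧
      cc 0 ^ i.val * swap (k.natAdd 2) m * cc k = swap a b * swap b d * (cc 0 ^ i.val * swap (k.natAdd 2) m) := by
  decide +kernel

theorem three (β : MulAut A8) : IsConj (ca 0) (β (ca 0)) := by
  haveI : Fact (Nat.Prime 3) := ⟨Nat.prime_three⟩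
  have o : orderOf (β (ca 0)) = 3 := by
    rw [β.orderOf_eq]; exact orderOf_eq_prime (by decide +kernel) (by decide +kernel)
  refine (McL.conj3 o).resolve_right fun c => ?_
  obtain ⟨g, hg⟩ := isConj_iff.1 c.symm
  let y : A8 := ⟨swap 3 4 * swap 4 5 * swap 5 6 * swap 6 7, by decide +kernel⟩
  have c1 : Commute (g * β y * g⁻¹) b1 := by
    have : Commute y (ca 0) := by show _ = _; decide +kernel
    exact (show g * β (ca 0) * g⁻¹ = b1 from hg) ▸ (this.map β).map (MulAut.conj g)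
  have e : ∀ x : A8, x * x * (x * x) * x = x ^ 5 := fun x => by simp only [pow_succ, pow_zero, one_mul, mul_assoc]
  have e5 : (g * β y * g⁻¹) ^ 5 = 1 := by rw [conj_pow, ← map_pow, show y ^ 5 = 1 by decide +kernel]; simp
  have := (factG (g * β y * g⁻¹).1 (congrArg Subtype.val c1.eq)).1 (congrArg Subtype.val ((e _).trans e5))
  have h2 : g * β y * g⁻¹ = 1 := Subtype.ext this
  exact absurd (β.injective ((conj_eq_one_iff.1 h2).trans (map_one β).symm)) (by decide +kernel)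

theorem cn (σ : Perm (Fin 8)) (x : A8) : (MulAut.conjNormal σ x).1 = σ * x.1 * σ⁻¹ := rfl

theorem three' (β : MulAut A8) (k : Fin 6) : ∃ σ : Perm (Fin 8), (β (ca k)).1 = σ * cc 0 * σ⁻¹ := by
  obtain ⟨g, hg⟩ := isConj_iff.1 (three (β * MulAut.conjNormal (swap 2 (k.natAdd 2))))
  rw [MulAut.mul_apply, show MulAut.conjNormal (swap 2 (k.natAdd 2)) (ca 0) = ca k from Subtype.ext (ca_conj k)] at hg
  exact ⟨g.1, congrArg Subtype.val hg.symm⟩

theorem good (β : MulAut A8) : ∀ n ≤ 6, ∃ σ : Perm (Fin 8), ∀ j : Fin 6, j.val < n →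
    (β (ca j)).1 = σ * cc j * σ⁻¹ := by
  intro n
  induction n with
  | zero => exact fun _ => ⟨1, fun j hj => absurd hj (by omega)⟩
  | succ n ih =>
    intro hn
    obtain ⟨σ, hσ⟩ := ih (by omega)
    let k : Fin 6 := ⟨n, by omega⟩
    obtain ⟨ρ, hρ⟩ := three' β k
    by_cases k0 : k = 0
    · refine ⟨ρ, fun j hj => ?_⟩
      have : n = 0 := congrArg Fin.val k0
      rw [show j = k from Fin.ext (by show j.val = n; omega), hρ, k0]
    have e : σ⁻¹ * (β (ca k)).1 * σ = swap ((σ⁻¹ * ρ) 0) ((σ⁻¹ * ρ) 1) * swap ((σ⁻¹ * ρ) 1) ((σ⁻¹ * ρ) 2) := by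
      rw [swap_apply_apply, swap_apply_apply, hρ, show cc 0 = swap 0 1 * swap 1 2 from rfl]; group
    have r : ∀ j < k, (ca j * ca k) ^ 2 = 1 ∧ ca j * ca k ≠ 1 :=
      (by decide +kernel : ∀ k j : Fin 6, j < k → (ca j * ca k) ^ 2 = 1 ∧ ca j * ca k ≠ 1) k
    obtain ⟨i, m, h1, h2⟩ := stp k k0 _ _ _ ((σ⁻¹ * ρ).injective.ne (by decide : (0 : Fin 8) ≠ 1))
      ((σ⁻¹ * ρ).injective.ne (by decide : (1 : Fin 8) ≠ 2))
      ((σ⁻¹ * ρ).injective.ne (by decide : (0 : Fin 8) ≠ 2)) fun j hj => by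
        have e2 : cc j * (σ⁻¹ * (β (ca k)).1 * σ) = σ⁻¹ * (β (ca j * ca k)).1 * σ⁻¹⁻¹ := by
          rw [map_mul, coe_mul, hσ j hj]; group
        rw [← e, e2, conj_pow, ← coe_pow, ← map_pow, (r j hj).1]
        exact ⟨by simp, fun h => (r j hj).2 (β.injective ((Subtype.ext (conj_eq_one_iff.1 h)).trans (map_one β).symm))⟩
    set τ := cc 0 ^ i.val * swap (k.natAdd 2) m
    refine ⟨σ * τ, fun j hj => ?_⟩
    by_cases jk : j = k
    · rw [jk, show σ * τ * cc k * (σ * τ)⁻¹ = σ * (τ * cc k) * τ⁻¹ * σ⁻¹ by group, h2, ← e]; group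
    · have : j < k := lt_of_le_of_ne (show j.val ≤ n by omega) jk
      rw [show σ * τ * cc j * (σ * τ)⁻¹ = σ * (τ * cc j) * τ⁻¹ * σ⁻¹ by group, h1 j this, hσ j this]; group

theorem aut8 (β : MulAut A8) : ∃ σ : Perm (Fin 8), ∀ x : A8, (β x).1 = σ * x.1 * σ⁻¹ := by
  obtain ⟨σ, hσ⟩ := good β 6 le_rfl
  let K := β.toMonoidHom.eqLocus (MulAut.conjNormal σ : MulAut A8).toMonoidHom
  have hK : ∀ j, ca j ∈ K := fun j => Subtype.ext (hσ j j.2)
  have m : ∀ (w : List (Fin 6)) (x : A8), (w.map ca).prod = x → x ∈ K := fun w _ e => e ▸ list_prod_mem (by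
    simp only [List.mem_map]; rintro _ ⟨j, -, rfl⟩; exact hK j)
  have : gp (la inc vv) 126 ≤ K := gp_le fun g hg => by
    have h8 : g < 8 := by
      by_contra n
      rw [tb_eq, Nat.testBit_eq_false_of_lt (lt_of_lt_of_le (by norm_num) (Nat.pow_le_pow_right two_pos (not_lt.1 n)))] at hg
      exact absurd hg (by decide)
    interval_cases g
    · exact absurd hg (by decide)
    · exact m [1, 2, 2, 1] _ (by decide +kernel)
    · exact m [2, 3, 3, 2] _ (by decide +kernel)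
    · exact m [3, 4, 4, 3] _ (by decide +kernel)
    · exact m [4, 5, 5, 4] _ (by decide +kernel)
    · exact m [4, 0, 5, 4, 4] _ (by decide +kernel)
    · exact m [0, 2, 3, 4, 0, 5, 1, 4] _ (by decide +kernel)
    · exact absurd hg (by decide)
  exact ⟨σ, fun x => congrArg Subtype.val (this (A8_gen ▸ mem_top x))⟩

end CA.McL.G1

theorem CA.McL.realizeEqnsG2 : True := by
  have := @CA.McL.G1.b1.eq_1
  have := @CA.McL.G1.b1.eq_def
  have := @CA.McL.G1.b1.congr_simp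
  have := @CA.McL.G1.FG.eq_1
  have := @CA.McL.G1.FG.eq_def
  have := @CA.McL.G1.FG.congr_simp
  have := @CA.McL.G1.cc.eq_1
  have := @CA.McL.G1.cc.eq_def
  have := @CA.McL.G1.cc.congr_simp
  have := @CA.McL.G1.ca.eq_1
  have := @CA.McL.G1.ca.eq_def
  have := @CA.McL.G1.ca.congr_simp
  have := @CA.McL.G1.b2.eq_1
  have := @CA.McL.G1.b2.eq_def
  have := @CA.McL.G1.b2.congr_simp
  trivial
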