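/-
Automorphisms of the double cover of `A₈`.
-/
import Cfsg.Agent.McL.G2

set_option autoImplicit false

namespace CA.McL

open CA.FG Subgroup Equiv E G1

theorem DC.of_equiv {C C' : Type*} [Group C] [Group C'] {t : C} {φ : C →* alternatingGroup (Fin 8)} (h : DC t φ)
    (e : C' ≃* C) {t' : C'} (ht : e t' = t) : DC t' (φ.comp e.toMonoidHom) where
  sur := h.sur.comp e.surjective
  ker := by
    ext c
    have : c ∈ (φ.comp e.toMonoidHom).ker ↔ e c ∈ φ.ker := Iff.rfl
    rw [this, h.ker, ← ht]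
    exact ⟨fun ⟨i, hi⟩ => ⟨i, e.injective (by simpa using hi)⟩, fun ⟨i, hi⟩ => ⟨i, by simp [← hi]⟩⟩
  ot := by rw [← h.ot, ← ht, e.orderOf_eq]
  ns := by
    obtain ⟨x, h1, h2⟩ := h.ns
    exact ⟨e.symm x, by simpa using h1, e.injective (by simpa [ht] using h2)⟩

theorem DC.sign {C : Type*} [Group C] {t : C} {φ : C →* alternatingGroup (Fin 8)} (h : DC t φ) (lam : C →* ℤˣ)
    (ht : lam t = 1) (c : C) : lam c = 1 := by
  have e : (commutator C).map φ = ⊤ := by
    rw [map_commutator_eq, MonoidHom.range_eq_top.2 h.sur]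
    exact commutator_alternatingGroup_eq_top (by simp)
  obtain ⟨d, hd, e'⟩ : φ c ∈ (commutator C).map φ := e ▸ mem_top _
  have h1 : d⁻¹ * c ∈ lam.ker := (zpowers_le.2 (show t ∈ lam.ker from ht)) (h.ker ▸ (by simp [e'] : d⁻¹ * c ∈ φ.ker))
  exact (mul_mem_cancel_left (inv_mem (Abelianization.commutator_subset_ker lam hd))).1 h1

variable {C : Type*} [Group C] {t : C} {φ : C →* alternatingGroup (Fin 8)}

theorem DC.fix (h : DC t φ) (β : MulAut C) (hb : ∀ c, φ (β c) = φ c) : β = 1 := by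
  classical
  have n : ∀ a : C, a * t ≠ a := fun a => by simpa using h.ce.t1
  let lam : C →* ℤˣ := MonoidHom.mk' (fun c => if β c = c then 1 else -1) fun a b => by
    have e1 : a * t * b = a * b * t := by rw [mul_assoc, ← (h.ce.cen b).eq, mul_assoc]
    have e2 : a * t * (b * t) = a * b := by rw [← mul_assoc, e1, mul_assoc, h.ce.tt, mul_one]
    rcases h.ce.eq (hb a).symm with ha | ha <;> rcases h.ce.eq (hb b).symm with hb | hb <;>
      simp only [map_mul, ha, hb, n, e1, e2, ← mul_assoc, if_true, if_false, mul_one, one_mul, neg_mul_neg]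
  have ht : β t = t := (h.ce.mem ((hb t).trans h.ce.pt)).resolve_left (by simpa using h.ce.t1)
  ext c
  by_contra e
  have := h.sign lam (if_pos ht) c
  exact absurd ((if_neg e).symm.trans this) (by decide)

theorem DC.aut (h : DC t φ) (β : MulAut C) (ht : β t = t) :
    ∃ σ : Perm (Fin 8), ∀ c, (φ (β c)).1 = σ * (φ c).1 * σ⁻¹ := by
  let γ : A8 →* A8 := φ.liftOfSurjective h.sur ⟨φ.comp β.toMonoidHom, fun c hc => by
    rcases h.ce.mem hc with rfl | rfl
    · exact one_mem _
    · show φ (β c) = 1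
      rw [ht, hc]⟩
  have e : ∀ c, γ (φ c) = φ (β c) := fun c => φ.liftOfRightInverse_comp_apply _ _ _ c
  have sγ : Function.Surjective γ := fun x => by
    obtain ⟨c, rfl⟩ := h.sur x
    exact ⟨φ (β.symm c), by simp [e]⟩
  obtain ⟨σ, hσ⟩ := aut8 (MulEquiv.ofBijective γ sγ.bijective_of_finite)
  exact ⟨σ, fun c => by rw [← e]; exact hσ (φ c)⟩

theorem DC.k2 (h : DC t φ) {z : C} (hz : φ z = vv) (β : MulAut C) (hb : ∀ c, Commute c z → β c = c) :
    β = 1 ∨ β = MulAut.conj z := by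
  obtain ⟨σ, hσ⟩ := h.aut β (hb t (h.ce.cen z).symm)
  have k : ∀ x : A8, x * vv = vv * x → x ^ 3 = 1 → σ * x.1 = x.1 * σ := fun x c x3 => by
    obtain ⟨c', rfl⟩ := h.sur x
    have := hσ c'
    rw [hb c' (h.ce.comm3 (hz ▸ c) x3)] at this
    exact mul_inv_eq_iff_eq_mul.1 this.symm
  rcases (factG σ (k b1 (by decide +kernel) (by decide +kernel))).2 (k b2 (by decide +kernel) (by decide +kernel))
    with rfl | rfl
  · exact Or.inl (h.fix β fun c => Subtype.ext (by simpa using hσ c))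
  · refine Or.inr (inv_mul_eq_one.1 (h.fix _ fun c => ?_)).symm
    have : φ (β c) = vv * φ c * vv⁻¹ := Subtype.ext (hσ c)
    simp [this, hz, mul_assoc]

theorem DC.k3 (h : DC t φ) {z : C} (oz : orderOf z = 2) (zt : z ≠ t) (β : MulAut C)
    (hb : ∀ c, Commute c z → β c = c) : β = 1 ∨ β = MulAut.conj z := by
  have z2 : z * z = 1 := by rw [← pow_two, ← oz, pow_orderOf_eq_one]
  have n1 : φ z ≠ 1 := fun e => (h.ce.mem e).elim (fun e => by rw [e, orderOf_one] at oz; omega) zt
  have p2 : φ z * φ z = 1 := by rw [← map_mul, z2, map_one]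
  obtain ⟨g, hg⟩ := isConj_iff.1 ((conj2 p2 n1).resolve_left fun n => h.nl p2 n1 n.1 (h.ce.lf_of z2)).2.symm
  obtain ⟨g, rfl⟩ := h.sur g
  exact (h.of_equiv (MulAut.conj g) (h.ce.cen g).mul_inv_cancel).k2 (by simpa using hg) β hb

theorem DC.cen (h : DC t φ) {z : C} (hz : ∀ c, Commute z c) : z = 1 ∨ z = t := by
  refine h.ce.mem (Subtype.ext ?_)
  have k : ∀ x : A8, (φ z).1 * x.1 = x.1 * (φ z).1 := fun x => by
    obtain ⟨c, rfl⟩ := h.sur x
    exact congrArg Subtype.val ((hz c).map φ).eq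
  refine ((factG _ (k b1)).2 (k b2)).resolve_right fun e => ?_
  have := k (ca 0)
  rw [e] at this
  exact absurd this (by decide +kernel)

end CA.McL
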