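/-
The end of the identification of McL and McL:2 (packages D2, D3), from the 2-local statements.
-/
import Cfsg.Agent.McL.F1
import Cfsg.Agent.McL.E9
import Cfsg.Agent.McL.G3
import Cfsg.Agent.McL.C8
import Cfsg.Agent.McL.DA

set_option autoImplicit false

namespace CA.McL

open CA.FG Subgroup Cfsg E
open scoped commutatorElement

universe u

/-- the amalgam statement (package D1b) -/
def JW : Prop := ∀ {G : Type u} [Group G] [Finite G] {t : G}
    {φ : (𝒞[t] : Subgroup G) →* alternatingGroup (Fin 8)} (ht : t ∈ 𝒞[t]), DC ⟨t, ht⟩ φ →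
    (∃ g, g * t * g⁻¹ ≠ t ∧ Commute (g * t * g⁻¹) t) →
    ∃ ψ : Spor.McL →* G, Function.Injective ψ ∧ 𝒞[t] ≤ ψ.range ∧
      ∃ h ∈ ψ.range, h * t * h⁻¹ ≠ t ∧ Commute (h * t * h⁻¹) t

variable {G : Type u} [Group G]

theorem ord2 {x : G} (h : x * x = 1) (h1 : x ≠ 1) : orderOf x = 2 :=
  haveI : Fact (Nat.Prime 2) := ⟨Nat.prime_two⟩
  orderOf_eq_prime (by rw [pow_two, h]) h1

theorem sq2 {x : G} (h : orderOf x = 2) : x * x = 1 := by rw [← pow_two, ← h, pow_orderOf_eq_one]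

theorem ne2 {x : G} (h : orderOf x = 2) : x ≠ 1 := fun e => by rw [e, orderOf_one] at h; omega

theorem mem_C {t x : G} : x ∈ 𝒞[t] ↔ Commute x t := mem_centralizer_singleton_iff

theorem oc2 (g : G) {x : G} (ox : orderOf x = 2) : orderOf (g * x * g⁻¹) = 2 :=
  (CA.Fi.orderOf_eq_of_isConj (isConj_iff.2 ⟨g, rfl⟩)).symm.trans ox

section
variable {t : G} {φ : (𝒞[t] : Subgroup G) →* alternatingGroup (Fin 8)} {ht : t ∈ 𝒞[t]}

theorem DC.ot' (h : DC ⟨t, ht⟩ φ) : orderOf t = 2 := (Subgroup.orderOf_mk t ht).symm.trans h.ot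

theorem DC.cC (h : DC ⟨t, ht⟩ φ) : ∀ x ∈ 𝒞[t], ∀ y ∈ 𝒞[t], orderOf x = 2 → orderOf y = 2 → x ≠ t → y ≠ t →
    ∃ c ∈ 𝒞[t], c * x * c⁻¹ = y := fun x hx y hy ox oy nx ny => by
  obtain ⟨c, hc⟩ := isConj_iff.1 (h.conj (x := ⟨x, hx⟩) (y := ⟨y, hy⟩) ((Subgroup.orderOf_mk _ _).trans ox)
    ((Subgroup.orderOf_mk _ _).trans oy) (fun e => nx (congrArg Subtype.val e))
    fun e => ny (congrArg Subtype.val e))
  exact ⟨c, c.2, congrArg Subtype.val hc⟩

theorem DC.cls [Finite G] (h : DC ⟨t, ht⟩ φ) {H : Subgroup G} (le : 𝒞[t] ≤ H) {k : G} (kH : k ∈ H)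
    (k1 : k * t * k⁻¹ ≠ t) (k2 : Commute (k * t * k⁻¹) t) {x : G} (hx : x ∈ H) (ox : orderOf x = 2) :
    ∃ g ∈ H, g * t * g⁻¹ = x := by
  have ot := h.ot'
  obtain ⟨T, tT, zT⟩ := h.syl
  have tT' : t ∈ (T : Subgroup 𝒞[t]).map (Subgroup.subtype _) :=
    ⟨_, (commutator_le.2 fun a ha b hb => mul_mem (mul_mem (mul_mem ha hb) (inv_mem ha)) (inv_mem hb)) tT, rfl⟩
  have sy : IsSylowOf 2 ((T : Subgroup 𝒞[t]).map (Subgroup.subtype _)) H := by
    refine (sylow_map_subtype Nat.prime_two T).of_norm_le Nat.prime_two le fun g hg => ?_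
    obtain ⟨z, hz, e⟩ := (mem_normalizer_iff.1 hg.2 t).1 tT'
    have e : (z : G) = g * t * g⁻¹ := e
    rcases zT z hz (fun x hx => Subtype.ext (by
      obtain ⟨y, -, e'⟩ := (mem_normalizer_iff.1 (inv_mem hg.2) x).1 ⟨x, hx, rfl⟩
      have e' : (y : G) = g⁻¹ * x * g⁻¹⁻¹ := e'
      have c := mem_C.1 y.2
      rw [e'] at c
      show (z : G) * x = x * z
      rw [e]
      calc _ = g * (t * (g⁻¹ * x * g⁻¹⁻¹)) * g⁻¹ := by group
        _ = _ := by rw [← c.eq]; group)) with e1 | e1 <;> rw [e1] at e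
    · exact absurd (by simpa using e.symm) (ne2 ot)
    · exact mem_C.2 (mul_inv_eq_iff_eq_mul.1 e.symm)
  obtain ⟨m, hm, e⟩ := sylow_Jsub Nat.prime_two sy (pGrp_of_card_eq Nat.prime_two (by rw [Nat.card_zpowers, ox]))
    (zpowers_le.2 hx)
  have mC : m * x * m⁻¹ ∈ 𝒞[t] := map_subtype_le _ (e ⟨x, mem_zpowers x, rfl⟩)
  by_cases e1 : m * x * m⁻¹ = t
  · exact ⟨m⁻¹, inv_mem hm, by rw [← e1]; group⟩
  · obtain ⟨c, hc, e2⟩ := h.cC _ (mem_C.2 k2) _ mC (oc2 _ ot) (oc2 _ ox) k1 e1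
    refine ⟨m⁻¹ * c * k, mul_mem (mul_mem (inv_mem hm) (le hc)) kH, ?_⟩
    calc _ = m⁻¹ * (c * (k * t * k⁻¹) * c⁻¹) * m := by group
      _ = x := by rw [e2]; group

theorem iso1 [Finite G] (hD : JW.{u}) (h3 : T3 G) (h : DC ⟨t, ht⟩ φ)
    (hg : ∃ g, g * t * g⁻¹ ≠ t ∧ Commute (g * t * g⁻¹) t) : Nonempty (G ≃* Spor.McL) := by
  obtain ⟨ψ, inj, le, k, kH, k1, k2⟩ := hD ht h hg
  suffices e : ψ.range = ⊤ from ⟨(MulEquiv.ofBijective ψ ⟨inj, MonoidHom.range_eq_top.1 e⟩).symm⟩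
  by_contra hne
  have ot := h.ot'
  obtain ⟨O, le', oO, dv⟩ := PM.se (G0 := ψ.range) ot (fun c hc => le (mem_C.2 hc))
    (fun x hx c => h.cls le kH k1 k2 hx ((CA.Fi.orderOf_eq_of_isConj c).symm.trans ot)) (fun x c cm n => by
    have ox : orderOf x = 2 := (CA.Fi.orderOf_eq_of_isConj c).symm.trans ot
    obtain ⟨m, -, e⟩ := h.cC x (mem_C.2 cm) (x * t) (mul_mem (mem_C.2 cm) ht) ox (ord2 (by
      calc _ = x * (t * x) * t := by group
        _ = x * x * (t * t) := by rw [← cm.eq]; group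
        _ = 1 := by rw [sq2 ox, sq2 ot, one_mul]) fun e => n (by
          rw [eq_inv_of_mul_eq_one_left e, inv_eq_of_mul_eq_one_right (sq2 ot)])) n (by simpa using ne2 ox)
    exact c.trans (isConj_iff.2 ⟨m, e⟩)) hne
  have cH : Nat.card ψ.range = 898128000 := by
    rw [← card_McL]; exact (Nat.card_congr (MonoidHom.ofInjective inj).toEquiv).symm
  have e := card_mul_relIndex le
  rw [h.card, cH] at e
  refine h3.no_odd oO (Dvd.dvd.trans ?_ dv) (cH ▸ card_dvd_of_le le')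
  rw [show (𝒞[t] : Subgroup G).relIndex ψ.range = 22275 by omega]
  norm_num

/-- restriction of an automorphism to a centralizer -/
def resC (α : MulAut G) {x : G} (h : α x = x) : MulAut (𝒞[x] : Subgroup G) where
  toFun c := ⟨α c, mem_C.2 (by simpa only [h] using (mem_C.1 c.2).map α)⟩
  invFun c := ⟨α.symm c, mem_C.2 (by
    simpa only [(α.symm_apply_eq.2 h.symm : α.symm x = x)] using (mem_C.1 c.2).map α.symm)⟩
  left_inv c := Subtype.ext (α.symm_apply_apply c)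
  right_inv c := Subtype.ext (α.apply_symm_apply c)
  map_mul' a b := Subtype.ext (map_mul α a.1 b.1)

/-- the centralizer in a subgroup containing it -/
def eqC {H : Subgroup G} {t : G} (le : 𝒞[t] ≤ H) (tH : t ∈ H) :
    (𝒞[(⟨t, tH⟩ : H)] : Subgroup H) ≃* (𝒞[t] : Subgroup G) where
  toFun x := ⟨x.1.1, mem_C.2 (congrArg Subtype.val (mem_C.1 x.2).eq)⟩
  invFun x := ⟨⟨x.1, le x.2⟩, mem_C.2 (Subtype.ext (mem_C.1 x.2).eq)⟩
  left_inv _ := rfl
  right_inv _ := rfl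
  map_mul' _ _ := rfl

theorem fixC [Finite G] (hD : JW.{u}) (h : DC ⟨t, ht⟩ φ) (hg : ∃ g, g * t * g⁻¹ ≠ t ∧ Commute (g * t * g⁻¹) t)
    (cG : Nat.card G = 898128000) (α : MulAut G) (hα : ∀ c ∈ 𝒞[t], α c = c) : α = 1 ∨ α = MulAut.conj t := by
  obtain ⟨g, g1, g2⟩ := hg
  have ot := h.ot'
  set s := g * t * g⁻¹ with hs
  have hs' : s ∈ 𝒞[s] := mem_C.2 (Commute.refl s)
  let e : (𝒞[s] : Subgroup G) ≃* (𝒞[t] : Subgroup G) :=
    { toFun := fun x => ⟨g⁻¹ * x * g, mem_C.2 (by simpa [hs, mul_assoc] using (mem_C.1 x.2).map (MulAut.conj g⁻¹))⟩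
      invFun := fun x => ⟨g * x * g⁻¹, mem_C.2 ((mem_C.1 x.2).map (MulAut.conj g))⟩
      left_inv := fun x => Subtype.ext (by simp [mul_assoc])
      right_inv := fun x => Subtype.ext (by simp [mul_assoc])
      map_mul' := fun x y => Subtype.ext (by simp [mul_assoc]) }
  have h' : DC ⟨s, hs'⟩ (φ.comp e.toMonoidHom) := h.of_equiv e (Subtype.ext (by simp [e, hs, mul_assoc]))
  have tC : t ∈ 𝒞[s] := mem_C.2 g2.symm
  have key : ∀ β : MulAut G, (∀ c ∈ 𝒞[t], β c = c) → (∀ c ∈ 𝒞[s], β c = c) → β = 1 := fun β h1 h2 => by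
    let Φ := β.toMonoidHom.eqLocus (MonoidHom.id G)
    have le : 𝒞[t] ≤ Φ := h1
    have ts : t * s * (t * s) = 1 := by
      calc _ = t * (s * t) * s := by group
        _ = t * t * (s * s) := by rw [g2.eq]; group
        _ = 1 := by rw [sq2 ot, sq2 (oc2 g ot), one_mul]
    have n1 : t * s ≠ 1 := fun e => g1 (by
      rw [eq_inv_of_mul_eq_one_right e, inv_eq_of_mul_eq_one_right (sq2 ot)])
    obtain ⟨k, hk, ek⟩ := h'.cC t tC (t * s) (mul_mem tC hs') ot (ord2 ts n1) g1.symm (by simpa using ne2 ot)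
    obtain ⟨ψ, inj, -⟩ := hD (G := Φ) (t := ⟨t, le ht⟩) (mem_C.2 (Commute.refl _)) (h.of_equiv (eqC le (le ht)) rfl)
      ⟨⟨k, h2 k hk⟩, fun e => ne2 (oc2 g ot) (show s = 1 by simpa [ek] using congrArg Subtype.val e),
        Subtype.ext (by simpa [ek] using ((Commute.refl t).mul_left g2).eq)⟩
    have : Φ = ⊤ := eq_top_of_le_card _ (by rw [cG, ← card_McL]; exact Nat.card_le_card_of_injective ψ inj)
    ext x
    exact (this ▸ mem_top x : x ∈ Φ)
  rcases h'.k3 (z := ⟨t, tC⟩) ((Subgroup.orderOf_mk _ _).trans ot) (fun e => g1 (congrArg Subtype.val e).symm)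
    (resC α (hα s (mem_C.2 g2))) (fun c hc => Subtype.ext (hα c (mem_C.2 (congrArg Subtype.val hc.eq)))) with e | e
  · exact Or.inl (key α hα fun c hc => congrArg (fun β : MulAut 𝒞[s] => (β ⟨c, hc⟩ : G)) e)
  · refine Or.inr (inv_mul_eq_one.1 (key _ (fun c hc => ?_) fun c hc => ?_)).symm
    · simp [hα c hc, mul_assoc, (mem_C.1 hc).eq]
    · have : α c = t * c * t⁻¹ := congrArg (fun β : MulAut 𝒞[s] => (β ⟨c, hc⟩ : G)) e
      simp [this, mul_assoc]

theorem cen_bot (h : DC ⟨t, ht⟩ φ) (hg : ∃ g, g * t * g⁻¹ ≠ t ∧ Commute (g * t * g⁻¹) t) : center G = ⊥ := by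
  obtain ⟨g, g1, -⟩ := hg
  refine eq_bot_iff.2 fun z hz => ?_
  rcases h.cen (z := ⟨z, mem_C.2 (mem_center_iff.1 hz t).symm⟩)
    (fun c => Subtype.ext (mem_center_iff.1 hz c).symm) with e | e
  · exact congrArg Subtype.val e
  · have e : z = t := congrArg Subtype.val e
    exact absurd (mul_inv_eq_iff_eq_mul.2 (mem_center_iff.1 (e ▸ hz) g)) g1

theorem aut_le [Finite G] (hD : JW.{u}) (h : DC ⟨t, ht⟩ φ) (hg : ∃ g, g * t * g⁻¹ ≠ t ∧ Commute (g * t * g⁻¹) t)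
    (cG : Nat.card G = 898128000) : Nat.card (MulAut G) ≤ 2 * Nat.card G := by
  classical
  have ot := h.ot'
  obtain ⟨k, k1, k2⟩ := hg
  choose g hg1 hg2 using fun α : MulAut G =>
    h.cls le_top (mem_top k) k1 k2 (mem_top (α t)) ((α.orderOf_eq t).trans ot)
  let A := {α : MulAut G // α t = t}
  haveI : Nonempty A := ⟨⟨1, rfl⟩⟩
  choose σ hσ using fun α : A => h.aut (resC α.1 α.2) (Subtype.ext α.2)
  have fib : ∀ α β : A, σ α = σ β → α.1 = β.1 ∨ α.1 = β.1 * MulAut.conj t := fun α β e => by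
    have f : (β.1⁻¹ * α.1) t = t := by simp [α.2, β.1.symm_apply_eq, β.2]
    have := h.fix ((resC β.1 β.2)⁻¹ * resC α.1 α.2) fun c => Subtype.ext (by
      have e1 := hσ β ((resC β.1 β.2)⁻¹ (resC α.1 α.2 c))
      rw [MulAut.apply_inv_self, hσ α c, e] at e1
      simpa using e1.symm)
    exact (fixC hD h ⟨k, k1, k2⟩ cG (β.1⁻¹ * α.1) fun c hc =>
      congrArg (fun γ : MulAut 𝒞[t] => (γ ⟨c, hc⟩ : G)) this).imp (fun e => (inv_mul_eq_one.1 e).symm)
        inv_mul_eq_iff_eq_mul.1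
  have cA : Nat.card A ≤ 40320 * 2 := by
    have := Nat.card_le_card_of_injective
      (fun α : A => (σ α, decide (α = Function.invFun σ (σ α)))) fun α β e => by
        obtain ⟨e1, e2⟩ := Prod.ext_iff.1 e
        simp only [decide_eq_decide] at e1 e2
        have r : σ (Function.invFun σ (σ α)) = σ α := Function.invFun_eq ⟨α, rfl⟩
        by_cases a : α = Function.invFun σ (σ α)
        · rw [a, e1]; exact (e2.1 a).symm
        · have b := fun b => a (e2.2 b)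
          rw [← e1] at b
          exact Subtype.ext (((fib _ _ r.symm).resolve_left fun e => a (Subtype.ext e)).trans
            ((fib _ _ (r.trans e1).symm).resolve_left fun e => b (Subtype.ext e)).symm)
    rwa [Nat.card_prod, Nat.card_perm, Nat.card_eq_fintype_card (α := Fin 8), Fintype.card_fin,
      Nat.card_eq_fintype_card (α := Bool), Fintype.card_bool] at this
  have := Nat.card_le_card_of_injective (fun p : MulAut G × 𝒞[t] =>
    ((g p.1 * p.2, ⟨(MulAut.conj (g p.1 * p.2))⁻¹ * p.1, by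
      rw [MulAut.mul_apply, ← hg2 p.1, MulAut.conj_inv_apply]
      calc _ = (p.2 : G)⁻¹ * t * (p.2 : G)⁻¹⁻¹ := by group
        _ = t := (mem_C.1 (inv_mem p.2.2)).mul_inv_cancel⟩) : G × A)) fun p q e => by
      obtain ⟨e1, e2⟩ := Prod.ext_iff.1 e
      have e1 : g p.1 * p.2 = g q.1 * q.2 := e1
      have e2 : (MulAut.conj (g p.1 * p.2))⁻¹ * p.1 = (MulAut.conj (g q.1 * q.2))⁻¹ * q.1 :=
        congrArg Subtype.val e2
      rw [e1, mul_right_inj] at e2
      rw [e2, mul_right_inj] at e1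
      exact Prod.ext e2 (Subtype.ext e1)
  rw [Nat.card_prod, Nat.card_prod, h.card] at this
  nlinarith

end

theorem T3.sub (h : T3 G) (H : Subgroup G) : T3 H := by
  have k : ∀ x : H, Nat.card (𝒞[x] : Subgroup H) ∣ Nat.card (𝒞[(x : G)] : Subgroup G) := fun x => by
    rw [← card_map_of_injective H.subtype_injective]
    refine card_dvd_of_le ?_
    rintro _ ⟨y, hy, rfl⟩
    exact mem_C.2 (congrArg Subtype.val (mem_C.1 hy).eq)
  exact ⟨fun x hx r hr d => h.pr x ((Subgroup.orderOf_coe x).trans hx) r hr (d.trans (k x)),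
    fun d => h.sy (d.trans (card_subgroup_dvd_card H)),
    fun A cA e => h.ab (A.map H.subtype) inferInstance ((card_map_of_injective H.subtype_injective).trans e),
    fun y hy d => h.ci y ((Subgroup.orderOf_coe y).trans hy) (d.trans (k y))⟩

theorem iso_aut [Finite G] {M : Type*} [Group M] {G0 : Subgroup G} (iG : G0.index = 2) (ε : G0 ≃* M)
    (cen : center G0 = ⊥) (aut : Nat.card (MulAut G0) ≤ 2 * Nat.card G0)
    (ci : ∀ y : G, orderOf y = 2 → ¬ Nat.card G0 ∣ Nat.card (𝒞[y] : Subgroup G)) : Nonempty (G ≃* MulAut M) := by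
  haveI : G0.Normal := normal_of_index_eq_two iG
  have inj : Function.Injective (MulAut.conjNormal : G →* MulAut G0) := by
    refine (injective_iff_map_eq_one _).2 fun z hz => by_contra fun z1 => ?_
    have cz : ∀ x ∈ G0, Commute x z := fun x hx =>
      (mul_inv_eq_iff_eq_mul.1 (by simpa using congrArg (fun α : MulAut G0 => (α ⟨x, hx⟩ : G)) hz)).symm
    have zz : z * z ∈ G0 := (mul_mem_iff_of_index_two iG).2 Iff.rfl
    have : (⟨z * z, zz⟩ : G0) ∈ center G0 := mem_center_iff.2 fun y =>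
      Subtype.ext ((cz y y.2).mul_right (cz y y.2)).eq
    rw [cen, mem_bot] at this
    exact ci z (ord2 (congrArg Subtype.val this) z1) (card_dvd_of_le fun x hx => mem_C.2 (cz x hx))
  have cA : Nat.card (MulAut G0) ≤ Nat.card G := by
    rw [← G0.card_mul_index, iG, mul_comm]
    exact aut
  exact ⟨(MulEquiv.ofBijective _ (inj.bijective_of_nat_card_le cA)).trans (MulAut.congr ε)⟩

theorem it_N1 : w1 * w2 * ta ∉ N1 := by rw [mem_N1]; decide +kernel

theorem iso2 [Finite G] (hD : JW.{u}) (h3 : T3 G) {t : G} (ht : t ∈ 𝒞[t]) {X : Type u} [Group X]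
    {π : (𝒞[t] : Subgroup G) →* X} {f : (⊤ : Subgroup N2) →* X} {v : X} (h : XH2 π ⟨t, ht⟩ f v)
    (hv : ∀ c : 𝒞[t], π c = v → IsConj t c) {w : 𝒞[t]} (ww : w * w = 1) (pw : π w = f ⟨w1 * w2 * ta, trivial⟩)
    (nw : ¬ IsConj t w) : Nonempty (G ≃* MulAut Spor.McL) := by
  obtain ⟨X0, iX, mX, ht0, π0, f0, vX, -, h0⟩ := h.xh
  obtain ⟨φ, hφ⟩ := h0.dc
  let C0 := X0.comap π
  have iC : C0.index = 2 := by rw [← iX]; exact index_comap_of_surjective _ h.sur
  haveI nC : C0.Normal := normal_of_index_eq_two iC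
  have wC : w ∉ C0 := fun e => by
    have e : π w ∈ X0 := e
    rw [pw, mX] at e
    exact it_N1 e
  have ot : orderOf t = 2 := (Subgroup.orderOf_mk t ht).symm.trans h.ot
  -- involutions of `C0` are conjugate to `t`
  obtain ⟨c, hc⟩ := h.sur v
  have cC : c ∈ C0 := show π c ∈ X0 from hc ▸ vX
  have v1 : v ≠ 1 := fun v1 => by
    have := h.yh.va
    rw [v1] at this
    exact absurd (h.yh.inj (by simpa using this)) (by decide +kernel : a1 ≠ a2)
  have c1 : c ≠ 1 := fun e => v1 (by rw [← hc, e, map_one])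
  have ct : c ≠ ⟨t, ht⟩ := fun e => v1 (by rw [← hc, e, h.yh.pt])
  have inv0 : ∀ x ∈ C0, x * x = 1 → x ≠ 1 → IsConj t x := fun x hx x2 x1 => by
    by_cases xt : x = ⟨t, ht⟩
    · rw [xt]
    exact (hv c hc).trans ((C0.subtype.map_isConj (hφ.conj (x := ⟨c, cC⟩) (y := ⟨x, hx⟩)
      ((Subgroup.orderOf_mk _ _).trans (ord2 (h.pv c hc) c1)) ((Subgroup.orderOf_mk _ _).trans (ord2 x2 x1))
      (fun e => ct (congrArg Subtype.val e)) fun e => xt (congrArg Subtype.val e))) |>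
        (Subgroup.subtype _).map_isConj)
  -- the Sylow 2-subgroup
  obtain ⟨T0, tT, zT⟩ := hφ.syl
  let ι : C0 →* G := (Subgroup.subtype _).comp C0.subtype
  have ιi : Function.Injective ι := (Subgroup.subtype_injective _).comp C0.subtype_injective
  have s0 : IsSylowOf 2 ((T0 : Subgroup C0).map ι) ι.range := by
    rw [MonoidHom.range_eq_map]; exact (sylow_top Nat.prime_two T0).map ι
  have ιC : ι.range ≤ 𝒞[t] := by rintro _ ⟨x, rfl⟩; exact x.1.2
  have mι : ∀ x : 𝒞[t], (x : G) ∈ ι.range ↔ x ∈ C0 := fun x =>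
    ⟨fun ⟨y, e⟩ => (Subtype.ext e : y.1 = x) ▸ y.2, fun hx => ⟨⟨x, hx⟩, rfl⟩⟩
  obtain ⟨T, sT, le⟩ := sylow_superset Nat.prime_two s0.pGrp (s0.le.trans ιC)
  have eT : T ⊓ ι.range = (T0 : Subgroup C0).map ι :=
    s0.eq_of_le (sT.pGrp.inf_left _) (le_inf le s0.le) inf_le_right
  have tTT : t ∈ ⁅T, T⁆ := commutator_mono le le (by rw [← map_commutator]; exact ⟨_, tT, rfl⟩)
  have TT : ⁅T, T⁆ ≤ T ⊓ ι.range := commutator_le.2 fun a ha b hb =>
    ⟨T.mul_mem (T.mul_mem (T.mul_mem ha hb) (T.inv_mem ha)) (T.inv_mem hb),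
      (mι ⁅(⟨a, sT.le ha⟩ : 𝒞[t]), (⟨b, sT.le hb⟩ : 𝒞[t])⁆).2 (by
      rw [commutatorElement_def, mul_mem_iff_of_index_two iC, mul_mem_iff_of_index_two iC,
        mul_mem_iff_of_index_two iC, inv_mem_iff, inv_mem_iff]; tauto)⟩
  have sy : IsSylowOf 2 T ⊤ := by
    refine sT.of_norm_le Nat.prime_two le_top fun g hg => ?_
    have g1 : g * t * g⁻¹ ∈ ⁅T, T⁆ :=
      (mem_normalizer_iff.1 (norm_comm (zpowers_le.2 hg.2) (zpowers_le.2 hg.2) (mem_zpowers g)) t).1 tTT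
    obtain ⟨z, hz, e⟩ := eT.le (TT g1)
    rcases zT z hz (fun x hx => ιi (by
      have c := mem_C.1 (sT.le ((mem_normalizer_iff.1 (Subgroup.inv_mem _ hg.2) (ι x)).1
        (le (mem_map_of_mem ι hx))))
      rw [map_mul, map_mul, e]
      calc _ = g * (t * (g⁻¹ * ι x * g⁻¹⁻¹)) * g⁻¹ := by group
        _ = _ := by rw [← c.eq]; group)) with e1 | e1 <;> rw [e1] at e
    · exact absurd (by simpa using e.symm) (ne2 ot)
    · exact mem_C.2 (mul_inv_eq_iff_eq_mul.1 e.symm)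
  have oT : Odd T.index := by
    have := sy.not_dvd_index Nat.prime_two
    rw [relIndex_top_right] at this
    exact Nat.not_even_iff_odd.1 fun he => this he.two_dvd
  -- the transfer
  classical
  let sg0 : 𝒞[t] →* ℤˣ := MonoidHom.mk' (fun x => if x ∈ C0 then 1 else -1) fun a b => by
    by_cases ha : a ∈ C0 <;> by_cases hb : b ∈ C0 <;> simp [mul_mem_iff_of_index_two iC, ha, hb]
  obtain ⟨lam, hl⟩ := transfer_sign oT (sg0.comp (inclusion sT.le))
  have w2' : (w : G) * w = 1 := congrArg Subtype.val ww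
  have w1' : (w : G) ≠ 1 := fun e => wC ((Subtype.ext e : w = 1) ▸ one_mem _)
  have lw : lam w = -1 := hl _ _ w2' fun g hg => if_neg fun e => nw ((inv0 _ e (Subtype.ext (by
    show g⁻¹ * w * g * (g⁻¹ * w * g) = 1
    rw [show g⁻¹ * w * g * (g⁻¹ * w * g) = g⁻¹ * (w * w : G) * g by group, w2']; simp)) fun e => w1' (by
      have : g⁻¹ * w * g⁻¹⁻¹ = 1 := by simpa using congrArg Subtype.val e
      exact conj_eq_one_iff.1 this)).trans (isConj_iff.2 ⟨g, by
        show g * (g⁻¹ * w * g) * g⁻¹ = w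
        group⟩))
  have lt : lam t = 1 := Abelianization.commutator_subset_ker lam (commutator_mono le_top le_top tTT)
  have l0 : ∀ x : 𝒞[t], x ∈ C0 ↔ lam x = 1 := fun x =>
    ⟨fun hx => hφ.sign (lam.comp ι) lt ⟨x, hx⟩, fun hx => by_contra fun n => by
      have := hφ.sign (lam.comp ι) lt ⟨x * w, (mul_mem_iff_of_index_two iC).2 (iff_of_false n wC)⟩
      have : lam (x * w) = 1 := this
      rw [map_mul, hx, lw] at this
      exact absurd this (by decide)⟩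
  set G0 := lam.ker
  have iG : G0.index = 2 := by
    rw [index_ker, MonoidHom.range_eq_top.2 fun u => ?_, card_top, Nat.card_eq_fintype_card, Fintype.card_units_int]
    rcases Int.units_eq_one_or u with rfl | rfl
    · exact ⟨1, map_one _⟩
    · exact ⟨w, lw⟩
  let t0 : G0 := ⟨t, lt⟩
  have ht' : t0 ∈ 𝒞[t0] := mem_C.2 (Commute.refl _)
  let e : (𝒞[t0] : Subgroup G0) ≃* C0 :=
    { toFun := fun x => ⟨⟨x.1.1, mem_C.2 (congrArg Subtype.val (mem_C.1 x.2).eq)⟩, (l0 _).2 x.1.2⟩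
      invFun := fun x => ⟨⟨x.1.1, (l0 _).1 x.2⟩, mem_C.2 (Subtype.ext (mem_C.1 x.1.2).eq)⟩
      left_inv := fun _ => rfl
      right_inv := fun _ => rfl
      map_mul' := fun _ _ => rfl }
  have hφ' : DC ⟨t0, ht'⟩ (φ.comp e.toMonoidHom) := hφ.of_equiv e rfl
  have hg' : ∃ g, g * t0 * g⁻¹ ≠ t0 ∧ Commute (g * t0 * g⁻¹) t0 := (by
    obtain ⟨g, hg⟩ := isConj_iff.1 (hv c hc)
    obtain ⟨g, hG, hg⟩ : ∃ g ∈ G0, g * t * g⁻¹ = c := by
      by_cases hG : g ∈ G0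
      · exact ⟨g, hG, hg⟩
      · refine ⟨g * w, (mul_mem_iff_of_index_two iG).2 (iff_of_false hG fun e => ?_), ?_⟩
        · exact absurd (lw.symm.trans e) (by decide)
        · rw [← hg, show g * w * t * (g * w)⁻¹ = g * (w * t * (w : G)⁻¹) * g⁻¹ by group, (mem_C.1 w.2).mul_inv_cancel]
    exact ⟨⟨g, hG⟩, fun e => ct (Subtype.ext (hg.symm.trans (congrArg Subtype.val e))),
      Subtype.ext (by simpa [t0, hg] using (mem_C.1 c.2).eq)⟩)
  obtain ⟨ε⟩ := iso1 hD (h3.sub G0) hφ' hg'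
  have cG : Nat.card G0 = 898128000 := by rw [← card_McL]; exact Nat.card_congr ε.toEquiv
  exact iso_aut iG ε (cen_bot hφ' hg') (aut_le hD hφ' hg' cG) fun y hy d => h3.ci y hy (Dvd.dvd.trans (by
    rw [cG]; norm_num) d)

/-- the output of the 3-local analysis (package A) -/
def LocOut (G : Type u) [Group G] : Prop :=
  T3 G ∧ ∃ (t : G) (ht : t ∈ 𝒞[t]) (X : Type u) (_ : Group X) (π : (𝒞[t] : Subgroup G) →* X),
    (∃ g, g * t * g⁻¹ ≠ t ∧ Commute (g * t * g⁻¹) t) ∧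
    ((∃ f v, XH π ⟨t, ht⟩ N1 f v) ∨ ∃ f v, XH2 π ⟨t, ht⟩ f v ∧ (∀ c : 𝒞[t], π c = v → IsConj t c) ∧
      ∃ w : 𝒞[t], w * w = 1 ∧ π w = f ⟨w1 * w2 * ta, trivial⟩ ∧ ¬ IsConj t w)

theorem fin [Finite G] (hD : JW.{u}) (h : LocOut G) :
    Nonempty (G ≃* Spor.McL) ∨ Nonempty (G ≃* MulAut Spor.McL) := by
  obtain ⟨h3, t, ht, X, _, π, hg, ⟨f, v, h⟩ | ⟨f, v, h, hv, w, ww, pw, nw⟩⟩ := h
  · obtain ⟨φ, hφ⟩ := h.dc
    exact Or.inl (iso1 hD h3 hφ hg)
  · exact Or.inr (iso2 hD h3 ht h hv ww pw nw)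

end CA.McL

theorem CA.McL.realizeEqnsF2 : True := by
  have := @CA.McL.LocOut.eq_1.{0}
  have := @CA.McL.LocOut.eq_def.{0}
  have := @CA.McL.LocOut.congr_simp.{0}
  have := @CA.McL.eqC.eq_1.{0}
  have := @CA.McL.eqC.eq_def.{0}
  have := @CA.McL.eqC.congr_simp.{0}
  have := @CA.McL.JW.eq_1.{0}
  have := @CA.McL.JW.eq_def.{0}
  have := @CA.McL.JW.congr_simp.{0}
  have := @CA.McL.resC.eq_1.{0}
  have := @CA.McL.resC.eq_def.{0}
  have := @CA.McL.resC.congr_simp.{0}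
  trivial
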